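import Cfsg.Agent.H20.HarDef
import Cfsg.Agent.H20.HarQ

set_option autoImplicit false
set_option maxHeartbeats 800000

/-! Harada's theorem, case (C): `|V| = 8`, `|A ∩ V| = 2`. -/

namespace Cfsg.Agent.H39.HarC
open Subgroup Cfsg.Agent.H20.Har

variable {S : Type*} [Group S] [Finite S]

theorem mem_cent {V : Subgroup S} {x : S} : x ∈ Subgroup.centralizer (V : Set S) ↔ ∀ v ∈ V, x * v = v * x := by
  rw [Subgroup.mem_centralizer_iff]
  exact ⟨fun h v hv => (h v hv).symm, fun h v hv => (h v hv).symm⟩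

theorem card_pow (h2 : IsPGroup 2 S) (K : Subgroup S) : ∃ n, Nat.card K = 2 ^ n :=
  (h2.to_subgroup K).exists_card_eq

theorem card_le_two' {G : Type*} [Group G] [Finite G] (K : Subgroup G) (e : G) (h : ∀ x ∈ K, x = 1 ∨ x = e) : Nat.card K ≤ 2 := by
  have h1 : (K : Set G) ⊆ {1, e} := fun x hx => h x hx
  have h2 := Set.ncard_le_ncard h1 (Set.toFinite _)
  have h3 : ({1, e} : Set G).ncard ≤ 2 := (Set.ncard_insert_le _ _).trans (by simp)
  have h4 : Nat.card K = (K : Set G).ncard := rfl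
  omega

theorem two_mem {K : Subgroup S} (hK : Nat.card K ≤ 2) {e x : S} (he : e ∈ K) (he1 : e ≠ 1) (hx : x ∈ K) :
    x = 1 ∨ x = e := by
  by_contra hcon
  push Not at hcon
  haveI : Nontrivial K := ⟨⟨⟨e, he⟩, 1, fun h => he1 (congrArg Subtype.val h)⟩⟩
  have h1 : 1 < Nat.card K := Finite.one_lt_card
  have h2 : Nat.card K = 2 := by omega
  obtain ⟨y, -, hy⟩ := (Nat.card_eq_two_iff' (1 : K)).1 h2
  have h3 := hy ⟨e, he⟩ (fun h => he1 (congrArg Subtype.val h))
  have h4 := hy ⟨x, hx⟩ (fun h => hcon.1 (congrArg Subtype.val h))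
  exact hcon.2 (congrArg Subtype.val (h4.trans h3.symm))

theorem c16' (h2 : IsPGroup 2 S) (V : Subgroup S) (Vn : ∀ v ∈ V, ∀ g : S, g * v * g⁻¹ ∈ V)
    (Vcomm : ∀ v ∈ V, ∀ w ∈ V, v * w = w * v) (Vsq : ∀ v ∈ V, v * v = 1)
    (V8 : Nat.card V = 8) (e : S) (heV : e ∈ V) (he1 : e ≠ 1)
    (hb : ∀ x, (∀ v ∈ V, x * v = v * x) → x ∉ V → x * x = e)
    (hC : ∀ x y, (∀ v ∈ V, x * v = v * x) → (∀ v ∈ V, y * v = v * y) → x ∉ V → y ∉ V → x⁻¹ * y ∈ V)
    (hL : ∀ L : Subgroup S, (∀ l ∈ L, ∀ c, (∀ v ∈ V, c * v = v * c) →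
      l * c * l⁻¹ * c⁻¹ = 1 ∨ l * c * l⁻¹ * c⁻¹ = e) →
      Nat.card L ≤ 2 * Nat.card ↥(L ⊓ Subgroup.centralizer (V : Set S)))
    (hq8 : ∀ L N : Subgroup S, N ≤ L → (∀ x ∈ L, ∀ y ∈ L, x * y * x⁻¹ * y⁻¹ ∈ N) → (∀ x ∈ L, x * x ∈ N) →
      Nat.card L * Nat.card ↥(N ⊓ Subgroup.centralizer (V : Set S)) ≤
        4 * (Nat.card N * Nat.card ↥(L ⊓ Subgroup.centralizer (V : Set S)))) : R4 S := by
  intro L N hNL hc hs
  by_contra hlt
  push Not at hlt
  set C := Subgroup.centralizer (V : Set S) with hCdef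
  have hVC : V ≤ C := fun v hv => mem_cent.2 (fun w hw => Vcomm v hv w hw)
  have hCn : ∀ c ∈ C, ∀ g : S, g * c * g⁻¹ ∈ C := by
    intro c hc g
    rw [hCdef, mem_cent] at hc ⊢
    intro v hv
    have h1 := hc (g⁻¹ * v * g) (by have := Vn v hv g⁻¹; rwa [inv_inv] at this)
    calc g * c * g⁻¹ * v = g * (c * (g⁻¹ * v * g)) * g⁻¹ := by group
      _ = g * ((g⁻¹ * v * g) * c) * g⁻¹ := by rw [h1]
      _ = _ := by group
  have hC16 : Nat.card C ≤ 16 := by
    have h1 := card_le_two C V (fun s hs s' hs' h h' => hC s s' (mem_cent.1 hs) (mem_cent.1 hs') h h')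
    rw [inf_eq_right.2 hVC, V8] at h1
    omega
  have h8 := hq8 L N hNL hc hs
  have hNpos : 0 < Nat.card N := Nat.card_pos
  have hNCpos : 0 < Nat.card ↥(N ⊓ C) := Nat.card_pos
  have hLCle : Nat.card ↥(L ⊓ C) ≤ Nat.card C := Subgroup.card_le_of_le inf_le_right
  -- `|L ∩ C| > 4 |N ∩ C|`
  have h3 : 4 * Nat.card ↥(N ⊓ C) < Nat.card ↥(L ⊓ C) := by
    by_contra hcon
    push Not at hcon
    have h4 : Nat.card L * Nat.card ↥(N ⊓ C) ≤ 16 * Nat.card N * Nat.card ↥(N ⊓ C) := by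
      calc _ ≤ _ := h8
        _ ≤ 4 * (Nat.card N * (4 * Nat.card ↥(N ⊓ C))) := by gcongr
        _ = _ := by ring
    exact absurd (Nat.le_of_mul_le_mul_right h4 hNCpos) (by omega)
  obtain ⟨i, hi⟩ := card_pow h2 (L ⊓ C)
  obtain ⟨j, hj⟩ := card_pow h2 (N ⊓ C)
  have hij : j + 3 ≤ i := by
    rw [hi, hj] at h3
    have : 2 ^ (j + 2) < 2 ^ i := by rw [pow_add]; omega
    have := (Nat.pow_lt_pow_iff_right (by norm_num : 1 < 2)).1 this
    omega
  have hi4 : i ≤ 4 := by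
    have : 2 ^ i ≤ 2 ^ 4 := by rw [← hi]; omega
    exact (Nat.pow_le_pow_iff_right (by norm_num : 1 < 2)).1 this
  rcases Nat.lt_or_ge i 4 with hi3 | hi4'
  · -- i = 3, j = 0
    have hi3' : i = 3 := by omega
    have hj0 : j = 0 := by omega
    rw [hi3'] at hi
    rw [hj0, pow_zero] at hj
    have hNC : N ⊓ C = ⊥ := Subgroup.eq_bot_of_card_eq _ hj
    have hLCV : L ⊓ C ≤ V := by
      intro x hx
      rw [Subgroup.mem_inf] at hx
      by_contra hxV
      have h1 := hb x (mem_cent.1 hx.2) hxV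
      have h2 : x * x ∈ N ⊓ C := ⟨hs x hx.1, C.mul_mem hx.2 hx.2⟩
      rw [hNC, Subgroup.mem_bot, h1] at h2
      exact he1 h2
    have hLV : L ⊓ C = V := Subgroup.eq_of_le_of_card_ge hLCV (by rw [hi, V8]; norm_num)
    have hVL : V ≤ L := by rw [← hLV]; exact inf_le_left
    have hLC : L ≤ C := by
      intro l hl
      rw [hCdef, mem_cent]
      intro v hv
      have h1 := hc l hl v (hVL hv)
      have h2 : l * v * l⁻¹ * v⁻¹ ∈ C := hVC (V.mul_mem (Vn v hv l) (V.inv_mem hv))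
      have h3 : l * v * l⁻¹ * v⁻¹ ∈ N ⊓ C := ⟨h1, h2⟩
      rw [hNC, Subgroup.mem_bot] at h3
      exact mul_inv_eq_iff_eq_mul.1 (mul_inv_eq_one.1 h3)
    rw [inf_eq_left.2 hLC] at hi
    omega
  · have hi4'' : i = 4 := by omega
    rw [hi4''] at hi
    have hCe : L ⊓ C = C := Subgroup.eq_of_le_of_card_ge inf_le_right (by rw [hi]; omega)
    have hCL : C ≤ L := by rw [← hCe]; exact inf_le_left
    obtain ⟨b, hbC, hbV⟩ : ∃ b ∈ C, b ∉ V := by
      by_contra hcon
      push Not at hcon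
      have h1 : Nat.card C ≤ Nat.card V := Subgroup.card_le_of_le hcon
      rw [← hCe, hi, V8] at h1
      omega
    have hbb := hb b (mem_cent.1 hbC) hbV
    have heN : e ∈ N := by rw [← hbb]; exact hs b (hCL hbC)
    have heNC : e ∈ N ⊓ C := ⟨heN, hVC heV⟩
    have hj2 : Nat.card ↥(N ⊓ C) ≤ 2 := by
      rw [hj]
      have : j ≤ 1 := by omega
      calc 2 ^ j ≤ 2 ^ 1 := Nat.pow_le_pow_right (by norm_num) this
        _ = 2 := by norm_num
    have hmem : ∀ x ∈ N ⊓ C, x = 1 ∨ x = e := fun x hx => two_mem hj2 heNC he1 hx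
    have h5 := hL L (fun l hl c hc' => by
      have hcC : c ∈ C := mem_cent.2 hc'
      apply hmem
      exact ⟨hc l hl c (hCL hcC), C.mul_mem (hCn c hcC l) (C.inv_mem hcC)⟩)
    rw [hi] at h5
    have h6 : 2 ≤ Nat.card N := by
      haveI : Nontrivial N := ⟨⟨⟨e, heN⟩, 1, fun h => he1 (congrArg Subtype.val h)⟩⟩
      exact Finite.one_lt_card
    omega

/-! ### The set-up -/

/-- a pair of elementary abelian groups of order 8 meeting in `⟨z⟩` -/
structure Ctx (A V : Subgroup S) (z : S) : Prop where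
  hw : HW A V
  V8 : Nat.card V = 8
  zA : z ∈ A
  zV : z ∈ V
  z1 : z ≠ 1
  X : ∀ x, x ∈ A → x ∈ V → x = 1 ∨ x = z

theorem gen_two {D K : Subgroup S} (hDK : D ≤ K) {x : S} (hx : x ∈ K) (hxD : x ∉ D) :
    Nat.card D * 2 ≤ Nat.card ↥(D ⊔ Subgroup.zpowers x) ∧ D ⊔ Subgroup.zpowers x ≤ K := by
  have hle : D ≤ D ⊔ Subgroup.zpowers x := le_sup_left
  refine ⟨?_, sup_le hDK ((Subgroup.zpowers_le).2 hx)⟩
  obtain ⟨k, hk⟩ := Subgroup.card_dvd_of_le hle
  have hpos : 0 < Nat.card ↥(D ⊔ Subgroup.zpowers x) := Nat.card_pos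
  rcases Nat.lt_or_ge k 2 with hk2 | hk2
  · exfalso
    have hk1 : k = 1 := by
      rcases Nat.eq_zero_or_pos k with h0 | h0
      · rw [h0, mul_zero] at hk; omega
      · omega
    rw [hk1, mul_one] at hk
    have : D = D ⊔ Subgroup.zpowers x := Subgroup.eq_of_le_of_card_ge hle hk.le
    apply hxD
    rw [this]
    exact Subgroup.mem_sup_right (Subgroup.mem_zpowers x)
  · rw [hk]
    exact Nat.mul_le_mul_left _ hk2

theorem gen_eight {D K : Subgroup S} (hDK : D ≤ K) (hK : Nat.card K = 8) (hD : 4 ≤ Nat.card D) {x : S} (hx : x ∈ K)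
    (hxD : x ∉ D) : K ≤ D ⊔ Subgroup.zpowers x := by
  obtain ⟨h1, h2⟩ := gen_two hDK hx hxD
  exact (Subgroup.eq_of_le_of_card_ge h2 (by omega)).ge

namespace Ctx

variable {A V : Subgroup S} {z : S} (h : Ctx A V z)
include h

theorem ainv {a : S} (ha : a ∈ A) : a⁻¹ = a := inv_eq_of_mul_eq_one_left (h.hw.Asq a ha)

theorem vinv {a : S} (ha : a ∈ V) : a⁻¹ = a := inv_eq_of_mul_eq_one_left (h.hw.Vsq a ha)

theorem conjV {a v : S} (ha : a ∈ A) (hv : v ∈ V) : a * v * a ∈ V := by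
  have := h.hw.Vn v hv a
  rwa [h.ainv ha] at this

theorem zz : z * z = 1 := h.hw.Asq z h.zA

/-- the commutator with `a` -/
noncomputable def dl (a : S) (ha : a ∈ A) : V →* V where
  toFun v := ⟨v * (a * v * a), V.mul_mem v.2 (h.conjV ha v.2)⟩
  map_one' := by
    apply Subtype.ext
    change (1 : S) * (a * 1 * a) = 1
    rw [mul_one, one_mul]; exact h.hw.Asq a ha
  map_mul' v w := by
    apply Subtype.ext
    change ((v : S) * w) * (a * (v * w) * a) = (v * (a * v * a)) * (w * (a * w * a))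
    have haa := h.hw.Asq a ha
    have h1 : a * ((v : S) * w) * a = (a * v * a) * (a * w * a) := by
      calc a * ((v : S) * w) * a = a * v * 1 * w * a := by group
        _ = a * v * (a * a) * w * a := by rw [haa]
        _ = _ := by group
    rw [h1]
    have h2 := h.hw.Vcomm w w.2 (a * v * a) (h.conjV ha v.2)
    calc (v : S) * w * (a * v * a * (a * w * a)) = v * (w * (a * v * a)) * (a * w * a) := by group
      _ = _ := by rw [h2]; group

theorem dl_val (a : S) (ha : a ∈ A) (v : V) : (h.dl a ha v : S) = v * (a * v * a) := rfl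

theorem one_iff {a v : S} (ha : a ∈ A) (hv : v ∈ V) : v * (a * v * a) = 1 ↔ a * v = v * a := by
  have haa := h.hw.Asq a ha
  have hvv := h.hw.Vsq v hv
  constructor
  · intro h1
    have h2 : a * v * a = v := by
      have := eq_inv_of_mul_eq_one_right h1
      rw [this, h.vinv hv]
    calc a * v = a * v * (a * a) := by rw [haa, mul_one]
      _ = (a * v * a) * a := by group
      _ = v * a := by rw [h2]
  · intro h1
    rw [h1, mul_assoc, haa, mul_one, hvv]

theorem card_ker (a : S) (ha : a ∈ A) : 4 ≤ Nat.card (h.dl a ha).ker ∧ Nat.card (h.dl a ha).ker * Nat.card (h.dl a ha).range = 8 := by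
  have haa := h.hw.Asq a ha
  have h1 := Subgroup.card_mul_index (h.dl a ha).ker
  rw [Subgroup.index_ker, h.V8] at h1
  have h2 : (h.dl a ha).range ≤ (h.dl a ha).ker := by
    rintro _ ⟨v, rfl⟩
    rw [MonoidHom.mem_ker]
    apply Subtype.ext
    rw [dl_val]
    change _ = (1 : S)
    rw [h.one_iff ha (h.dl a ha v).2, dl_val]
    have h3 := h.hw.Vcomm v v.2 (a * v * a) (h.conjV ha v.2)
    calc a * ((v : S) * (a * v * a)) = (a * v * a) * v * a := by group
      _ = v * (a * v * a) * a := by rw [← h3]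
  have h3 := Subgroup.card_le_of_le h2
  refine ⟨?_, h1⟩
  by_contra hcon
  push Not at hcon
  have h4 : Nat.card (h.dl a ha).ker * Nat.card (h.dl a ha).range ≤ Nat.card (h.dl a ha).ker * Nat.card (h.dl a ha).ker :=
    Nat.mul_le_mul_left _ h3
  have h5 : Nat.card (h.dl a ha).ker ∣ 8 := Dvd.intro _ h1
  rw [h1] at h4
  interval_cases hk : Nat.card (h.dl a ha).ker <;> omega

theorem ker_iff {a : S} (ha : a ∈ A) (v : V) : v ∈ (h.dl a ha).ker ↔ a * (v : S) = v * a := by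
  rw [MonoidHom.mem_ker, ← h.one_iff ha v.2, Subtype.ext_iff]
  rfl

/-- `C_V(A) = X` -/
theorem cva {v : S} (hv : v ∈ V) (hc : ∀ a ∈ A, v * a = a * v) : v = 1 ∨ v = z :=
  h.X v (h.hw.cent' v hc (fun w hw => h.hw.Vcomm v hv w hw)) hv

theorem card_fix {a : S} (ha : a ∈ A) (hc : ∀ v ∈ V, a * v = v * a → v = 1 ∨ v = z) : False := by
  have h1 := (h.card_ker a ha).1
  have h2 : Nat.card (h.dl a ha).ker ≤ 2 := by
    apply card_le_two' _ ⟨z, h.zV⟩
    intro v hv
    rw [h.ker_iff] at hv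
    rcases hc v v.2 hv with h3 | h3
    · left; exact Subtype.ext h3
    · right; exact Subtype.ext h3
  omega

theorem comm_sup {D K : Subgroup S} {a v : S} (hK : K ≤ D ⊔ Subgroup.zpowers a) (hD : ∀ d ∈ D, d * v = v * d)
    (ha : a * v = v * a) : ∀ x ∈ K, x * v = v * x := by
  intro x hx
  have h1 : D ⊔ Subgroup.zpowers a ≤ Subgroup.centralizer {v} := by
    refine sup_le (fun d hd => ?_) ?_
    · rw [Subgroup.mem_centralizer_singleton_iff]; exact hD d hd
    · rw [Subgroup.zpowers_le, Subgroup.mem_centralizer_singleton_iff]; exact ha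
  exact Subgroup.mem_centralizer_singleton_iff.1 (h1 (hK hx))

/-- `C_A(V) = X` -/
theorem cav {a : S} (ha : a ∈ A) (hc : ∀ v ∈ V, a * v = v * a) : a = 1 ∨ a = z := by
  by_contra hcon
  have haV : a ∉ V := fun hV => hcon (h.X a ha hV)
  set D := A ⊓ Subgroup.centralizer (V : Set S) with hD
  have hDA : D ≤ A := inf_le_left
  have haD : a ∈ D := ⟨ha, mem_cent.2 hc⟩
  have hzD : z ∈ D := ⟨h.zA, mem_cent.2 (fun v hv => h.hw.Vcomm z h.zV v hv)⟩
  have hD4 : 4 ≤ Nat.card D := by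
    obtain ⟨n, hn⟩ := card_pow h.hw.two D
    by_contra hlt
    push Not at hlt
    have h1 : Nat.card D ≤ 2 := by
      rw [hn] at hlt ⊢
      have : n < 2 := by
        by_contra h2
        push Not at h2
        have := Nat.pow_le_pow_right (show 0 < 2 by norm_num) h2
        omega
      calc 2 ^ n ≤ 2 ^ 1 := Nat.pow_le_pow_right (by norm_num) (by omega)
        _ = 2 := by norm_num
    exact hcon (two_mem h1 hzD h.z1 haD)
  by_cases hAD : A ≤ D
  · -- all of `V` is centralized by `A`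
    have h1 : Nat.card V ≤ 2 := card_le_two' V z (fun v hv => h.cva hv (fun a' ha' => (mem_cent.1 (hAD ha').2 v hv).symm))
    rw [h.V8] at h1
    omega
  · obtain ⟨b, hbA, hbD⟩ := SetLike.not_le_iff_exists.1 hAD
    have hgen := gen_eight hDA h.hw.A8 hD4 hbA hbD
    refine h.card_fix hbA (fun v hv hbv => h.cva hv (fun a' ha' => ?_))
    exact (h.comm_sup hgen (fun d hd => mem_cent.1 hd.2 v hv) hbv a' ha').symm

/-- `[V, a] ≤ X` -/
theorem comm_mem {a v : S} (ha : a ∈ A) (hv : v ∈ V) : v * (a * v * a) = 1 ∨ v * (a * v * a) = z := by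
  have haa := h.hw.Asq a ha
  by_cases hu1 : v * (a * v * a) = 1
  · exact Or.inl hu1
  -- `|range| ≤ 2`
  have hr2 : Nat.card (h.dl a ha).range ≤ 2 := by
    obtain ⟨h1, h2⟩ := h.card_ker a ha
    by_contra hlt
    push Not at hlt
    have : 4 * 3 ≤ Nat.card (h.dl a ha).ker * Nat.card (h.dl a ha).range := Nat.mul_le_mul h1 hlt
    omega
  set u : V := h.dl a ha ⟨v, hv⟩ with hu
  have huv : (u : S) = v * (a * v * a) := rfl
  have hu1' : u ≠ 1 := fun h0 => hu1 (congrArg Subtype.val h0)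
  rw [← huv]
  apply h.cva u.2
  intro b hb
  have hbb := h.hw.Asq b hb
  have hab := h.hw.Acomm a ha b hb
  -- the conjugate of `u`
  have h1 : (⟨b * v * b, h.conjV hb hv⟩ : V) = ⟨b * v * b, h.conjV hb hv⟩ := rfl
  have h2 : (h.dl a ha ⟨b * v * b, h.conjV hb hv⟩ : S) = b * u * b := by
    rw [dl_val, huv]
    change b * v * b * (a * (b * v * b) * a) = b * (v * (a * v * a)) * b
    calc b * v * b * (a * (b * v * b) * a) = b * v * b * (a * b) * v * (b * a) := by group
      _ = b * v * b * (b * a) * v * (a * b) := by rw [hab]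
      _ = b * v * (b * b) * a * v * (a * b) := by group
      _ = _ := by rw [hbb]; group
  have h3 : h.dl a ha ⟨b * v * b, h.conjV hb hv⟩ ≠ 1 := by
    intro h0
    apply hu1'
    apply Subtype.ext
    have h4 : b * (u : S) * b = 1 := by rw [← h2, h0]; rfl
    change (u : S) = 1
    calc (u : S) = (b * b) * u * (b * b) := by rw [hbb]; group
      _ = b * (b * u * b) * b := by group
      _ = 1 := by rw [h4, mul_one, hbb]
  rcases two_mem hr2 (MonoidHom.mem_range.2 ⟨_, rfl⟩ : u ∈ (h.dl a ha).range) hu1'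
    (MonoidHom.mem_range.2 ⟨⟨b * v * b, h.conjV hb hv⟩, rfl⟩) with h4 | h4
  · exact absurd h4 h3
  · rw [h4] at h2
    calc (u : S) * b = b * u * b * b := by rw [← h2]
      _ = b * u * (b * b) := by group
      _ = b * u := by rw [hbb, mul_one]

theorem z_comm_A {a : S} (ha : a ∈ A) : a * z = z * a := h.hw.Acomm a ha z h.zA
theorem z_comm_V {v : S} (hv : v ∈ V) : v * z = z * v := h.hw.Vcomm v hv z h.zV

/-- generators of `A` modulo `X` -/
theorem exists_gen {K : Subgroup S} (hK : Nat.card K = 8) (hzK : z ∈ K) {a1 : S} (ha1 : a1 ∈ K) (h1 : ¬ (a1 = 1 ∨ a1 = z)) :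
    ∃ a2 ∈ K, K ≤ (Subgroup.zpowers z ⊔ Subgroup.zpowers a1) ⊔ Subgroup.zpowers a2 := by
  have hzz := h.zz
  have hzc : Nat.card (Subgroup.zpowers z) = 2 := by
    rw [Nat.card_zpowers]
    exact orderOf_eq_prime (by rw [sq, hzz]) h.z1
  have hle : Subgroup.zpowers z ≤ K := (Subgroup.zpowers_le).2 hzK
  have ha1z : a1 ∉ Subgroup.zpowers z := by
    intro hmem
    exact h1 (two_mem hzc.le (Subgroup.mem_zpowers z) h.z1 hmem)
  obtain ⟨h2, h3⟩ := gen_two hle ha1 ha1z
  rw [hzc] at h2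
  by_cases hK' : K ≤ Subgroup.zpowers z ⊔ Subgroup.zpowers a1
  · exact ⟨a1, ha1, hK'.trans le_sup_left⟩
  · obtain ⟨a2, ha2, ha2'⟩ := SetLike.not_le_iff_exists.1 hK'
    exact ⟨a2, ha2, gen_eight h3 hK (by omega) ha2 ha2'⟩

theorem card_z : Nat.card (Subgroup.zpowers z) = 2 := by
  rw [Nat.card_zpowers]
  exact orderOf_eq_prime (by rw [sq, h.zz]) h.z1

theorem mem_z {x : S} : x ∈ Subgroup.zpowers z ↔ x = 1 ∨ x = z := by
  constructor
  · exact two_mem h.card_z.le (Subgroup.mem_zpowers z) h.z1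
  · rintro (rfl | rfl)
    · exact one_mem _
    · exact Subgroup.mem_zpowers _

theorem comm_gen {K : Subgroup S} {a1 a2 v : S} (hK : K ≤ (Subgroup.zpowers z ⊔ Subgroup.zpowers a1) ⊔ Subgroup.zpowers a2)
    (hz : z * v = v * z) (h1 : a1 * v = v * a1) (h2 : a2 * v = v * a2) : ∀ x ∈ K, x * v = v * x :=
  h.comm_sup hK (h.comm_sup le_rfl (fun d hd => by
    rcases h.mem_z.1 hd with rfl | rfl
    · rw [one_mul, mul_one]
    · exact hz) h1) h2

omit [Finite S] h in
theorem surj_of {K T : Type*} [Group K] [Group T] [Finite K] [Finite T] (hK : Nat.card K = 8) (hT : Nat.card T = 2) (α β : K →* T)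
    (hk : Nat.card ↥(α.ker ⊓ β.ker) ≤ 2) (s t : T) : ∃ v, α v = s ∧ β v = t := by
  have h1 := Subgroup.card_mul_index (α.prod β).ker
  rw [Subgroup.index_ker, hK] at h1
  have h2 : (α.prod β).ker = α.ker ⊓ β.ker := MonoidHom.ker_prod α β
  rw [h2] at h1
  have h3 : (α.prod β).range = ⊤ := by
    apply Subgroup.eq_top_of_card_eq
    have h4 : Nat.card (α.prod β).range ≤ Nat.card (T × T) := Subgroup.card_le_card_group _
    rw [Nat.card_prod, hT] at h4 ⊢
    have h5 : 8 ≤ 2 * Nat.card (α.prod β).range := by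
      rw [← h1]
      exact Nat.mul_le_mul_right _ hk
    omega
  have h4 : (s, t) ∈ (α.prod β).range := by rw [h3]; exact Subgroup.mem_top _
  obtain ⟨v, hv⟩ := h4
  exact ⟨v, congrArg Prod.fst hv, congrArg Prod.snd hv⟩

/-- the pairing is perfect -/
theorem surjV {a1 a2 : S} (ha1 : a1 ∈ A) (ha2 : a2 ∈ A)
    (hgen : A ≤ (Subgroup.zpowers z ⊔ Subgroup.zpowers a1) ⊔ Subgroup.zpowers a2) {s t : S}
    (hs : s = 1 ∨ s = z) (ht : t = 1 ∨ t = z) :
    ∃ v ∈ V, v * (a1 * v * a1) = s ∧ v * (a2 * v * a2) = t := by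
  let α : V →* Subgroup.zpowers z := (V.subtype.comp (h.dl a1 ha1)).codRestrict _ (fun v => h.mem_z.2 (h.comm_mem ha1 v.2))
  let β : V →* Subgroup.zpowers z := (V.subtype.comp (h.dl a2 ha2)).codRestrict _ (fun v => h.mem_z.2 (h.comm_mem ha2 v.2))
  obtain ⟨v, h1, h2⟩ := surj_of h.V8 h.card_z α β (by
    apply card_le_two' _ ⟨z, h.zV⟩
    intro v hv
    rw [Subgroup.mem_inf, MonoidHom.mem_ker, MonoidHom.mem_ker] at hv
    have h3 : a1 * (v : S) = v * a1 := (h.one_iff ha1 v.2).1 (congrArg Subtype.val hv.1)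
    have h4 : a2 * (v : S) = v * a2 := (h.one_iff ha2 v.2).1 (congrArg Subtype.val hv.2)
    have h5 := h.comm_gen hgen (h.z_comm_V v.2).symm h3 h4
    rcases h.cva v.2 (fun a ha => (h5 a ha).symm) with h6 | h6
    · left; exact Subtype.ext h6
    · right; exact Subtype.ext h6) ⟨s, h.mem_z.2 hs⟩ ⟨t, h.mem_z.2 ht⟩
  exact ⟨v, v.2, congrArg Subtype.val h1, congrArg Subtype.val h2⟩

/-- multiplicativity in `A` -/
theorem comm_mul {a b v : S} (ha : a ∈ A) (hb : b ∈ A) (hv : v ∈ V) :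
    v * ((a * b) * v * (a * b)) = (v * (a * v * a)) * (v * (b * v * b)) := by
  have haa := h.hw.Asq a ha
  have hab := h.hw.Acomm a ha b hb
  have hvv := h.hw.Vsq v hv
  have hk : a * (v * (b * v * b)) = (v * (b * v * b)) * a := by
    rcases h.comm_mem hb hv with h1 | h1
    · rw [h1]; group
    · rw [h1]; exact h.z_comm_A ha
  have hbv : b * v * b = v * (v * (b * v * b)) := by rw [← mul_assoc v v, hvv, one_mul]
  calc v * ((a * b) * v * (a * b)) = v * (a * (b * v * b) * a) := by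
        rw [hab]; nth_rewrite 1 [← hab]; group
    _ = v * (a * (v * (v * (b * v * b))) * a) := by rw [← hbv]
    _ = v * (a * v * (v * (b * v * b) * a)) := by group
    _ = v * (a * v * (a * (v * (b * v * b)))) := by rw [hk]
    _ = _ := by group

/-- the commutator with `v`, on `A` -/
noncomputable def dr (v : S) (hv : v ∈ V) : A →* Subgroup.zpowers z where
  toFun a := ⟨v * (a * v * a), h.mem_z.2 (h.comm_mem a.2 hv)⟩
  map_one' := by
    apply Subtype.ext
    change v * (1 * v * 1) = 1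
    rw [mul_one, one_mul]; exact h.hw.Vsq v hv
  map_mul' a b := by
    apply Subtype.ext
    exact h.comm_mul a.2 b.2 hv

/-- the pairing is perfect -/
theorem surjA {v1 v2 : S} (hv1 : v1 ∈ V) (hv2 : v2 ∈ V)
    (hgen : V ≤ (Subgroup.zpowers z ⊔ Subgroup.zpowers v1) ⊔ Subgroup.zpowers v2) {s t : S}
    (hs : s = 1 ∨ s = z) (ht : t = 1 ∨ t = z) :
    ∃ a ∈ A, v1 * (a * v1 * a) = s ∧ v2 * (a * v2 * a) = t := by
  obtain ⟨a, h1, h2⟩ := surj_of h.hw.A8 h.card_z (h.dr v1 hv1) (h.dr v2 hv2) (by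
    apply card_le_two' _ ⟨z, h.zA⟩
    intro a ha
    rw [Subgroup.mem_inf, MonoidHom.mem_ker, MonoidHom.mem_ker] at ha
    have h3 : (a : S) * v1 = v1 * a := (h.one_iff a.2 hv1).1 (congrArg Subtype.val ha.1)
    have h4 : (a : S) * v2 = v2 * a := (h.one_iff a.2 hv2).1 (congrArg Subtype.val ha.2)
    have h5 := h.comm_gen hgen (h.z_comm_A a.2).symm h3.symm h4.symm
    rcases h.cav a.2 (fun v hv => (h5 v hv).symm) with h6 | h6
    · left; exact Subtype.ext h6
    · right; exact Subtype.ext h6) ⟨s, h.mem_z.2 hs⟩ ⟨t, h.mem_z.2 ht⟩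
  exact ⟨a, a.2, congrArg Subtype.val h1, congrArg Subtype.val h2⟩

theorem f_comm {a y : S} (ha : a ∈ A) (hf : y⁻¹ * (a * y * a) ∈ V) : a * (y⁻¹ * (a * y * a)) = (y⁻¹ * (a * y * a)) * a := by
  have haa := h.hw.Asq a ha
  have hai := h.ainv ha
  have h1 : a * (y⁻¹ * (a * y * a)) * a = (y⁻¹ * (a * y * a))⁻¹ := by
    rw [mul_inv_rev, mul_inv_rev, mul_inv_rev, inv_inv, hai]
    calc a * (y⁻¹ * (a * y * a)) * a = a * y⁻¹ * a * y * (a * a) := by group
      _ = _ := by rw [haa]; group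
  rw [h.vinv hf] at h1
  calc a * (y⁻¹ * (a * y * a)) = a * (y⁻¹ * (a * y * a)) * (a * a) := by rw [haa, mul_one]
    _ = (a * (y⁻¹ * (a * y * a)) * a) * a := by group
    _ = _ := by rw [h1]

/-- `f (a b) = f (a) f (b)` modulo `X` -/
theorem f_mul {a b y : S} (ha : a ∈ A) (hb : b ∈ A) (hfa : y⁻¹ * (a * y * a) ∈ V) (hfb : y⁻¹ * (b * y * b) ∈ V) :
    ∃ k, (k = 1 ∨ k = z) ∧ y⁻¹ * ((a * b) * y * (a * b)) = (y⁻¹ * (a * y * a)) * (y⁻¹ * (b * y * b)) * k := by
  have haa := h.hw.Asq a ha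
  have hab := h.hw.Acomm a ha b hb
  refine ⟨_, h.comm_mem ha hfb, ?_⟩
  set w := y⁻¹ * (b * y * b) with hw
  have hww : w * w = 1 := h.hw.Vsq w hfb
  have hb' : b * y * b = y * w := by rw [hw]; group
  calc y⁻¹ * ((a * b) * y * (a * b)) = y⁻¹ * (a * (b * y * b) * a) := by
        rw [hab]; nth_rewrite 1 [← hab]; group
    _ = y⁻¹ * (a * (y * w) * a) := by rw [hb']
    _ = y⁻¹ * a * y * (a * a) * w * a := by rw [haa]; group
    _ = (y⁻¹ * (a * y * a)) * (a * w * a) := by group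
    _ = (y⁻¹ * (a * y * a)) * (w * w) * (a * w * a) := by rw [hww, mul_one]
    _ = _ := by group

/-- (c1) -/
theorem c1 {y : S} (hyV : ∀ v ∈ V, y * v = v * y) (hf : ∀ a ∈ A, y⁻¹ * (a * y * a) ∈ V) {a1 : S} (ha1 : a1 ∈ A)
    (ha1X : ¬ (a1 = 1 ∨ a1 = z)) (hf1 : y⁻¹ * (a1 * y * a1) = 1 ∨ y⁻¹ * (a1 * y * a1) = z) : y ∈ V := by
  obtain ⟨a2, ha2, hgen⟩ := h.exists_gen h.hw.A8 h.zA ha1 ha1X
  have h11 := h.hw.Asq a1 ha1
  have h22 := h.hw.Asq a2 ha2
  have h12 := h.hw.Acomm a1 ha1 a2 ha2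
  set w := y⁻¹ * (a2 * y * a2) with hw
  have hwV : w ∈ V := hf a2 ha2
  have hw2 : a2 * w = w * a2 := h.f_comm ha2 hwV
  -- `w` commutes with `a1`
  have hw1 : a1 * w = w * a1 := by
    obtain ⟨k, hk, hk'⟩ := h.f_mul ha1 ha2 (hf a1 ha1) hwV
    have h3 := h.f_comm (A.mul_mem ha1 ha2) (hf (a1 * a2) (A.mul_mem ha1 ha2))
    rw [hk'] at h3
    -- elements of `X` commute with `a1 a2` and with `w`
    have hXc : ∀ x, (x = 1 ∨ x = z) → (a1 * a2) * x = x * (a1 * a2) := by
      rintro x (rfl | rfl)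
      · group
      · exact h.z_comm_A (A.mul_mem ha1 ha2)
    have hc1 := hXc _ hf1
    have hc2 := hXc k hk
    set f1 := y⁻¹ * (a1 * y * a1) with hf1'
    have h4 : (a1 * a2) * w = w * (a1 * a2) := by
      have h5 : f1 * ((a1 * a2) * w) * k = f1 * (w * (a1 * a2)) * k := by
        calc f1 * ((a1 * a2) * w) * k = (f1 * (a1 * a2)) * w * k := by group
          _ = ((a1 * a2) * f1) * w * k := by rw [hc1]
          _ = (a1 * a2) * (f1 * w * k) := by group
          _ = (f1 * w * k) * (a1 * a2) := h3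
          _ = f1 * w * (k * (a1 * a2)) := by group
          _ = f1 * w * ((a1 * a2) * k) := by rw [hc2]
          _ = _ := by group
      exact mul_left_cancel (mul_right_cancel h5)
    calc a1 * w = a1 * (a2 * a2) * w := by rw [h22, mul_one]
      _ = (a1 * a2) * (a2 * w) := by group
      _ = (a1 * a2) * (w * a2) := by rw [hw2]
      _ = ((a1 * a2) * w) * a2 := by group
      _ = (w * (a1 * a2)) * a2 := by rw [h4]
      _ = w * a1 * (a2 * a2) := by group
      _ = w * a1 := by rw [h22, mul_one]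
  have hwX : w = 1 ∨ w = z :=
    h.cva hwV (fun a ha => (h.comm_gen hgen (h.z_comm_V hwV).symm hw1 hw2 a ha).symm)
  obtain ⟨v, hv, hv1, hv2⟩ := h.surjV ha1 ha2 hgen hf1 hwX
  have hvv := h.hw.Vsq v hv
  -- `y v` commutes with `a1` and `a2`
  have key : ∀ a ∈ A, v * (a * v * a) = y⁻¹ * (a * y * a) → a * (y * v) = (y * v) * a := by
    intro a ha hav
    have haa := h.hw.Asq a ha
    have h1 : a * v * a = v * (y⁻¹ * (a * y * a)) := by
      rw [← hav, ← mul_assoc, hvv, one_mul]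
    have h2 : a * y * a = y * (y⁻¹ * (a * y * a)) := by group
    set f := y⁻¹ * (a * y * a) with hfdef
    have hfV : f ∈ V := hf a ha
    have h3 : a * (y * v) * a = y * v := by
      calc a * (y * v) * a = a * y * (a * a) * v * a := by rw [haa]; group
        _ = (a * y * a) * (a * v * a) := by group
        _ = (y * f) * (v * f) := by rw [h2, h1]
        _ = y * (f * v) * f := by group
        _ = y * (v * f) * f := by rw [h.hw.Vcomm f hfV v hv]
        _ = y * v * (f * f) := by group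
        _ = y * v := by rw [h.hw.Vsq f hfV, mul_one]
    calc a * (y * v) = (a * (y * v) * a) * a := by
          rw [mul_assoc (a * (y * v)), haa, mul_one]
      _ = _ := by rw [h3]
  have hzyv : z * (y * v) = (y * v) * z := by
    rw [mul_assoc, h.z_comm_V hv, ← mul_assoc, ← mul_assoc, hyV z h.zV]
  have h6 := h.comm_gen hgen hzyv (key a1 ha1 hv1) (key a2 ha2 hv2)
  have hyvV : ∀ w ∈ V, (y * v) * w = w * (y * v) := by
    intro w hw
    rw [mul_assoc, h.hw.Vcomm v hv w hw, ← mul_assoc, hyV w hw, mul_assoc]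
  have h7 : y * v ∈ A := h.hw.cent' _ (fun a ha => (h6 a ha).symm) hyvV
  have h8 : y * v ∈ V := by
    rcases h.cav h7 hyvV with h9 | h9
    · rw [h9]; exact one_mem _
    · rw [h9]; exact h.zV
  have h9 := V.mul_mem h8 hv
  rwa [mul_assoc, hvv, mul_one] at h9

/-- (c2), first part -/
theorem sq_mem {y : S} (hyV : ∀ v ∈ V, y * v = v * y) (hf : ∀ a ∈ A, y⁻¹ * (a * y * a) ∈ V) : y * y = 1 ∨ y * y = z := by
  have hyyV : ∀ v ∈ V, y * y * v = v * (y * y) := by
    intro v hv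
    rw [mul_assoc, hyV v hv, ← mul_assoc, hyV v hv, mul_assoc]
  have hyyA : ∀ a ∈ A, y * y * a = a * (y * y) := by
    intro a ha
    have haa := h.hw.Asq a ha
    have h2 : a * y * a = y * (y⁻¹ * (a * y * a)) := by group
    set f := y⁻¹ * (a * y * a) with hfdef
    have hfV : f ∈ V := hf a ha
    have h3 : a * (y * y) * a = y * y := by
      calc a * (y * y) * a = a * y * (a * a) * y * a := by rw [haa]; group
        _ = (a * y * a) * (a * y * a) := by group
        _ = (y * f) * (y * f) := by rw [h2]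
        _ = y * (f * y) * f := by group
        _ = y * (y * f) * f := by rw [hyV f hfV]
        _ = y * y * (f * f) := by group
        _ = y * y := by rw [h.hw.Vsq f hfV, mul_one]
    calc y * y * a = (a * (y * y) * a) * a := by rw [h3]
      _ = a * (y * y) * (a * a) := by group
      _ = _ := by rw [haa, mul_one]
  exact h.cav (h.hw.cent' _ hyyA hyyV) hyyV

/-- (c2), second part -/
theorem c2 {y : S} (hyV : ∀ v ∈ V, y * v = v * y) (hf : ∀ a ∈ A, y⁻¹ * (a * y * a) ∈ V) (hy : y ∉ V) {a : S} (ha : a ∈ A)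
    (haX : ¬ (a = 1 ∨ a = z)) : ¬ (y⁻¹ * (a * y * a) = 1 ∨ y⁻¹ * (a * y * a) = z) ∧ y * (a * y * a) ≠ 1 := by
  have h1 : ¬ (y⁻¹ * (a * y * a) = 1 ∨ y⁻¹ * (a * y * a) = z) := fun h1 => hy (h.c1 hyV hf ha haX h1)
  refine ⟨h1, fun h2 => h1 ?_⟩
  have h3 : y⁻¹ * (a * y * a) = (y * y)⁻¹ := by
    rw [mul_inv_rev, eq_inv_of_mul_eq_one_right h2]
  rw [h3]
  rcases h.sq_mem hyV hf with h4 | h4
  · left; rw [h4, inv_one]
  · right; rw [h4]; exact h.ainv h.zA

theorem step_comm {M : Subgroup S} {x : S} (hx : ∀ g : S, x * g * x⁻¹ * g⁻¹ ∈ M) (g : S) : x⁻¹ * (g * x * g⁻¹) ∈ M := by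
  have h1 := M.inv_mem (hx (x⁻¹ * g * x))
  have h2 : (x * (x⁻¹ * g * x) * x⁻¹ * (x⁻¹ * g * x)⁻¹)⁻¹ = x⁻¹ * (g * x * g⁻¹) := by group
  rwa [h2] at h1

theorem step_comm' {M : Subgroup S} {x : S} (hx : ∀ g : S, x * g * x⁻¹ * g⁻¹ ∈ M) {a : S} (ha : a ∈ A) : x⁻¹ * (a * x * a) ∈ M := by
  have h1 := h.step_comm hx a
  rwa [h.ainv ha] at h1

theorem zpow_two {g y : S} (hg : g * g = 1) (hy : y ∈ Subgroup.zpowers g) : y = 1 ∨ y = g := by
  obtain ⟨k, rfl⟩ := hy
  have h2 : g ^ (2 : ℤ) = 1 := by rw [zpow_ofNat, sq, hg]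
  rcases Int.even_or_odd' k with ⟨m, rfl | rfl⟩
  · left
    change g ^ (2 * m) = 1
    rw [zpow_mul, h2, one_zpow]
  · right
    change g ^ (2 * m + 1) = g
    rw [zpow_add, zpow_mul, h2, one_zpow, one_mul, zpow_one]

/-- the product of two elements of `C_V(a) \ X` is in `X` -/
theorem mul_mem_X {a w1 w2 : S} (ha : a ∈ A) (haX : ¬ (a = 1 ∨ a = z)) (hw1 : w1 ∈ V) (hw2 : w2 ∈ V)
    (h1 : a * w1 = w1 * a) (h2 : a * w2 = w2 * a) (h1' : ¬ (w1 = 1 ∨ w1 = z)) (h2' : ¬ (w2 = 1 ∨ w2 = z)) :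
    w1 * w2 = 1 ∨ w1 * w2 = z := by
  obtain ⟨a', ha', hgen⟩ := h.exists_gen h.hw.A8 h.zA ha haX
  have key : ∀ w ∈ V, a * w = w * a → w * (a' * w * a') = 1 → w = 1 ∨ w = z := by
    intro w hw haw h3
    rw [h.one_iff ha' hw] at h3
    exact h.cva hw (fun x hx => (h.comm_gen hgen (h.z_comm_V hw).symm haw h3 x hx).symm)
  have e1 : w1 * (a' * w1 * a') = z := by
    rcases h.comm_mem ha' hw1 with h3 | h3
    · exact absurd (key w1 hw1 h1 h3) h1'
    · exact h3
  have e2 : w2 * (a' * w2 * a') = z := by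
    rcases h.comm_mem ha' hw2 with h3 | h3
    · exact absurd (key w2 hw2 h2 h3) h2'
    · exact h3
  apply key _ (V.mul_mem hw1 hw2)
  · rw [← mul_assoc, h1, mul_assoc, h2, mul_assoc]
  · have h3 := congrArg Subtype.val ((h.dl a' ha').map_mul ⟨w1, hw1⟩ ⟨w2, hw2⟩)
    rw [dl_val] at h3
    change w1 * w2 * (a' * (w1 * w2) * a') = (w1 * (a' * w1 * a')) * (w2 * (a' * w2 * a')) at h3
    rw [h3, e1, e2, h.zz]

end Ctx

theorem mem_ext {V : Subgroup S} (hVn : V.Normal) {b : S} (hbb : b * b ∈ V) {x : S} (hx : x ∈ V ⊔ Subgroup.zpowers b) :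
    x ∈ V ∨ b⁻¹ * x ∈ V := by
  have h1 : (QuotientGroup.mk' V x) ∈ (V ⊔ Subgroup.zpowers b).map (QuotientGroup.mk' V) := Subgroup.mem_map_of_mem _ hx
  have h2 : V.map (QuotientGroup.mk' V) = ⊥ := by
    rw [Subgroup.map_eq_bot_iff, QuotientGroup.ker_mk']
  rw [Subgroup.map_sup, h2, bot_sup_eq, MonoidHom.map_zpowers] at h1
  have h3 : (QuotientGroup.mk' V b) * (QuotientGroup.mk' V b) = 1 := by
    rw [← map_mul]
    exact (QuotientGroup.eq_one_iff _).2 hbb
  obtain ⟨k, hk⟩ := h1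
  have h4 : (QuotientGroup.mk' V b) ^ (2 : ℤ) = 1 := by rw [zpow_ofNat, sq, h3]
  rcases Int.even_or_odd' k with ⟨m, rfl | rfl⟩
  · left
    change (QuotientGroup.mk' V b) ^ (2 * m) = _ at hk
    rw [zpow_mul, h4, one_zpow] at hk
    exact (QuotientGroup.eq_one_iff _).1 hk.symm
  · right
    change (QuotientGroup.mk' V b) ^ (2 * m + 1) = _ at hk
    rw [zpow_add, zpow_mul, h4, one_zpow, one_mul, zpow_one] at hk
    exact QuotientGroup.eq.1 hk

theorem caseC' {A V : Subgroup S} (h : HW A V) (V8 : Nat.card V = 8) (X2 : Nat.card ↥(A ⊓ V) = 2)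
    (hq8 : ∀ L N : Subgroup S, N ≤ L → (∀ x ∈ L, ∀ y ∈ L, x * y * x⁻¹ * y⁻¹ ∈ N) → (∀ x ∈ L, x * x ∈ N) →
      Nat.card L * Nat.card ↥(N ⊓ Subgroup.centralizer (V : Set S)) ≤
        4 * (Nat.card N * Nat.card ↥(L ⊓ Subgroup.centralizer (V : Set S))))
    (hp8 : (∀ x : S, (∀ v ∈ V, x * v = v * x) → x ∈ V) → R4 S) : R4 S := by
  obtain ⟨z, hzX, hz1⟩ : ∃ z ∈ A ⊓ V, z ≠ 1 := by
    haveI : Nontrivial ↥(A ⊓ V) := Finite.one_lt_card_iff_nontrivial.1 (by omega)
    obtain ⟨⟨z, hz⟩, hne⟩ := exists_ne (1 : ↥(A ⊓ V))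
    exact ⟨z, hz, fun h0 => hne (Subtype.ext h0)⟩
  have c : Ctx A V z := ⟨h, V8, hzX.1, hzX.2, hz1, fun x hx hx' => two_mem X2.le hzX hz1 ⟨hx, hx'⟩⟩
  set C := Subgroup.centralizer (V : Set S) with hCdef
  have hVC : V ≤ C := fun v hv => mem_cent.2 (fun w hw => h.Vcomm v hv w hw)
  have hVn : V.Normal := ⟨fun v hv g => h.Vn v hv g⟩
  have hCn : C.Normal := by
    constructor
    intro c hc g
    rw [hCdef, mem_cent] at hc ⊢
    intro v hv
    have h1 := hc (g⁻¹ * v * g) (by have := h.Vn v hv g⁻¹; rwa [inv_inv] at this)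
    calc g * c * g⁻¹ * v = g * (c * (g⁻¹ * v * g)) * g⁻¹ := by group
      _ = g * ((g⁻¹ * v * g) * c) * g⁻¹ := by rw [h1]
      _ = _ := by group
  by_cases hCV : ∀ x : S, (∀ v ∈ V, x * v = v * x) → x ∈ V
  · exact hp8 hCV
  haveI : Fact (Nat.Prime 2) := ⟨Nat.prime_two⟩
  have hlt : V < C := by
    refine lt_of_le_of_ne hVC (fun heq => hCV (fun x hx => ?_))
    rw [heq]; exact mem_cent.2 hx
  obtain ⟨b, hbC, hbV, hb2, hbg, hbn, hbc⟩ := Cfsg.Agent.H23.exists_step h.two hVn hCn hlt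
  rw [sq] at hb2
  have hbC' := mem_cent.1 hbC
  have hbf : ∀ a ∈ A, b⁻¹ * (a * b * a) ∈ V := fun a ha => c.step_comm' hbg ha
  set C1 := V ⊔ Subgroup.zpowers b with hC1
  have hbC1 : b ∈ C1 := Subgroup.mem_sup_right (Subgroup.mem_zpowers b)
  have hVC1 : V ≤ C1 := le_sup_left
  have hC1C : C1 ≤ C := sup_le hVC ((Subgroup.zpowers_le).2 hbC)
  have hext : ∀ x ∈ C1, x ∈ V ∨ b⁻¹ * x ∈ V := fun x hx => mem_ext hVn hb2 hx
  -- `b ^ 2 = z`
  have hbbz : b * b = z := by
    rcases c.sq_mem hbC' hbf with h1 | h1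
    · exfalso
      have hsq : ∀ x ∈ C1, x * x = 1 := by
        intro x hx
        rcases hext x hx with h2 | h2
        · exact h.Vsq x h2
        · have h3 : x = b * (b⁻¹ * x) := by group
          set v := b⁻¹ * x
          rw [h3]
          calc b * v * (b * v) = b * (v * b) * v := by group
            _ = b * (b * v) * v := by rw [hbC' v h2]
            _ = (b * b) * (v * v) := by group
            _ = 1 := by rw [h1, h.Vsq v h2, one_mul]
      have hcm : ∀ x ∈ C1, ∀ y ∈ C1, x * y = y * x := by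
        intro x hx y hy
        have h2 := hsq _ (C1.mul_mem hx hy)
        have hx2 := hsq x hx
        have hy2 := hsq y hy
        calc x * y = x * y * 1 := by rw [mul_one]
          _ = x * y * ((y * y) * (x * x)) := by rw [hy2, hx2, one_mul]
          _ = x * (y * y) * (y * x) * x := by group
          _ = x * (y * x) * x := by rw [hy2, mul_one]
          _ = (x * y) * (x * y) * (y * x) * (x * x) * (x * x) := by
                rw [h2, hx2, one_mul, mul_one, mul_one]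
                calc x * (y * x) * x = (x * y) * (x * x) := by group
                  _ = x * y := by rw [hx2, mul_one]
                  _ = (x * y) * ((x * y) * (x * y)) := by rw [h2, mul_one]
                  _ = ((x * y) * (x * y)) * (x * y) := by group
                  _ = x * y := by rw [h2, one_mul]
                  _ = y * x := by
                    have h4 : (x * y)⁻¹ = x * y := inv_eq_of_mul_eq_one_left h2
                    rw [← h4, mul_inv_rev, inv_eq_of_mul_eq_one_left hx2, inv_eq_of_mul_eq_one_left hy2]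
          _ = y * x := by rw [h2, hx2]; group
      have h3 := h.Vmax C1 hbn hcm hsq
      rw [hbc, V8] at h3
      omega
    · exact h1
  -- `[C1, S] ≤ V`
  have hC1S : ∀ x ∈ C1, ∀ a ∈ A, x⁻¹ * (a * x * a) ∈ V := by
    intro x hx a ha
    have haa := h.Asq a ha
    rcases hext x hx with h2 | h2
    · exact V.mul_mem (V.inv_mem h2) (c.conjV ha h2)
    · have h3 : x = b * (b⁻¹ * x) := by group
      set v := b⁻¹ * x
      rw [h3]
      have h4 : (b * v)⁻¹ * (a * (b * v) * a) = v⁻¹ * (b⁻¹ * (a * b * a)) * (a * v * a) := by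
        calc (b * v)⁻¹ * (a * (b * v) * a) = v⁻¹ * b⁻¹ * a * b * 1 * v * a := by group
          _ = v⁻¹ * b⁻¹ * a * b * (a * a) * v * a := by rw [haa]
          _ = _ := by group
      rw [h4]
      exact V.mul_mem (V.mul_mem (V.inv_mem h2) (hbf a ha)) (c.conjV ha h2)
  -- an element of `A \ X`
  obtain ⟨a0, ha0, ha0X⟩ : ∃ a ∈ A, ¬ (a = 1 ∨ a = z) := by
    by_contra hcon
    push Not at hcon
    have h1 : Nat.card A ≤ 2 := card_le_two' A z hcon
    rw [h.A8] at h1
    omega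
  -- `C = C1`
  have hCC1 : C ≤ C1 := by
    by_contra hcon
    have hlt' : C1 < C := lt_of_le_of_ne hC1C (fun heq => hcon heq.ge)
    obtain ⟨y, hyC, hyC1, hy2, hyg, -, -⟩ := Cfsg.Agent.H23.exists_step h.two hbn hCn hlt'
    have hyC' := mem_cent.1 hyC
    have hyV : y ∉ V := fun h0 => hyC1 (hVC1 h0)
    have hβC1 : ∀ a ∈ A, y⁻¹ * (a * y * a) ∈ C1 := fun a ha => c.step_comm' hyg ha
    have hβ : ∀ a ∈ A, y⁻¹ * (a * y * a) ∈ V := by
      intro a ha
      by_contra hno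
      have haa := h.Asq a ha
      have haX : ¬ (a = 1 ∨ a = z) := by
        rintro (rfl | rfl)
        · apply hno
          have : y⁻¹ * (1 * y * 1) = 1 := by group
          rw [this]; exact one_mem _
        · apply hno
          have : y⁻¹ * (a * y * a) = 1 := by
            rw [← hyC' a c.zV, mul_assoc, haa]; group
          rw [this]; exact one_mem _
      have h1 := (c.c2 (mem_cent.1 (hC1C (hβC1 a ha))) (hC1S _ (hβC1 a ha)) hno ha haX).2
      apply h1
      calc y⁻¹ * (a * y * a) * (a * (y⁻¹ * (a * y * a)) * a) = y⁻¹ * a * y * (a * a) * y⁻¹ * a * y * (a * a) := by group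
        _ = y⁻¹ * a * y * 1 * y⁻¹ * a * y * 1 := by rw [haa]
        _ = y⁻¹ * (a * a) * y := by group
        _ = 1 := by rw [haa]; group
    have hy1 := (c.c2 hyC' hβ hyV ha0 ha0X).1
    have hb1 := (c.c2 hbC' hbf hbV ha0 ha0X).1
    have hprod := c.mul_mem_X ha0 ha0X (hbf a0 ha0) (hβ a0 ha0) (c.f_comm ha0 (hbf a0 ha0)) (c.f_comm ha0 (hβ a0 ha0)) hb1 hy1
    have hcalc : ∀ a ∈ A, (b⁻¹ * y)⁻¹ * (a * (b⁻¹ * y) * a) = (b⁻¹ * (a * b * a)) * (y⁻¹ * (a * y * a)) := by
      intro a ha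
      have haa := h.Asq a ha
      have hai := c.ainv ha
      have hfb := hbf a ha
      have e1 : a * b⁻¹ * a = (b⁻¹ * (a * b * a)) * b⁻¹ := by
        have e2 : a * b⁻¹ * a = (b * (b⁻¹ * (a * b * a)))⁻¹ := by
          rw [mul_inv_cancel_left, mul_inv_rev, mul_inv_rev, hai, ← mul_assoc]
        rw [e2, mul_inv_rev, c.vinv hfb]
      calc (b⁻¹ * y)⁻¹ * (a * (b⁻¹ * y) * a) = y⁻¹ * b * (a * b⁻¹ * 1 * y * a) := by group
        _ = y⁻¹ * b * (a * b⁻¹ * (a * a) * y * a) := by rw [haa]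
        _ = y⁻¹ * b * (a * b⁻¹ * a) * (a * y * a) := by group
        _ = y⁻¹ * b * ((b⁻¹ * (a * b * a)) * b⁻¹) * (a * y * a) := by rw [e1]
        _ = y⁻¹ * (b * (b⁻¹ * (a * b * a))) * b⁻¹ * (a * y * a) := by group
        _ = y⁻¹ * ((b⁻¹ * (a * b * a)) * b) * b⁻¹ * (a * y * a) := by rw [hbC' _ hfb]
        _ = y⁻¹ * (b⁻¹ * (a * b * a)) * y * (y⁻¹ * (a * y * a)) := by group
        _ = y⁻¹ * ((b⁻¹ * (a * b * a)) * y) * (y⁻¹ * (a * y * a)) := by group
        _ = y⁻¹ * (y * (b⁻¹ * (a * b * a))) * (y⁻¹ * (a * y * a)) := by rw [hyC' _ hfb]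
        _ = _ := by group
    have hbyC : ∀ v ∈ V, (b⁻¹ * y) * v = v * (b⁻¹ * y) :=
      mem_cent.1 (C.mul_mem (C.inv_mem hbC) hyC)
    have hfin := c.c1 hbyC (fun a ha => by rw [hcalc a ha]; exact V.mul_mem (hbf a ha) (hβ a ha)) ha0 ha0X
      (by rw [hcalc a0 ha0]; exact hprod)
    apply hyC1
    have h5 : y = b * (b⁻¹ * y) := by group
    rw [h5]
    exact C1.mul_mem hbC1 (hVC1 hfin)
  have hdec : ∀ x, (∀ v ∈ V, x * v = v * x) → x ∈ V ∨ b⁻¹ * x ∈ V := fun x hx => hext x (hCC1 (mem_cent.2 hx))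
  refine c16' h.two V h.Vn h.Vcomm h.Vsq V8 z c.zV hz1 ?_ ?_ ?_ hq8
  · intro x hx hxV
    rcases hdec x hx with h1 | h1
    · exact absurd h1 hxV
    · have h3 : x = b * (b⁻¹ * x) := by group
      set v := b⁻¹ * x
      rw [h3]
      calc b * v * (b * v) = b * (v * b) * v := by group
        _ = b * (b * v) * v := by rw [hbC' v h1]
        _ = (b * b) * (v * v) := by group
        _ = z := by rw [hbbz, h.Vsq v h1, mul_one]
  · intro x y hx hy hxV hyV
    have h1 := (hdec x hx).resolve_left hxV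
    have h2 := (hdec y hy).resolve_left hyV
    have h3 : x⁻¹ * y = (b⁻¹ * x)⁻¹ * (b⁻¹ * y) := by group
    rw [h3]
    exact V.mul_mem (V.inv_mem h1) h2
  · intro L H
    have hLC : L ≤ C := by
      intro l hl
      have hlz : l * z * l⁻¹ = z := by
        rcases H l hl z (fun v hv => h.Vcomm z c.zV v hv) with h1 | h1
        · rw [mul_inv_eq_one] at h1; exact h1
        · exfalso
          have h2 : l * z * l⁻¹ = z * z := by rw [← mul_inv_eq_iff_eq_mul]; exact h1
          rw [c.zz] at h2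
          have h3 : z = 1 := by
            calc z = l⁻¹ * (l * z * l⁻¹) * l := by group
              _ = 1 := by rw [h2]; group
          exact hz1 h3
      obtain ⟨v1, hv1, hv1X⟩ : ∃ v ∈ V, ¬ (v = 1 ∨ v = z) := by
        by_contra hcon
        push Not at hcon
        have h1 : Nat.card V ≤ 2 := card_le_two' V z hcon
        omega
      obtain ⟨v2, hv2, hgen⟩ := c.exists_gen V8 c.zV hv1 hv1X
      have hg : ∀ v ∈ V, v * (l * v * l⁻¹) = 1 ∨ v * (l * v * l⁻¹) = z := by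
        intro v hv
        have h1 := H l hl v (fun w hw => h.Vcomm v hv w hw)
        rw [c.vinv hv] at h1
        rwa [h.Vcomm v hv _ (h.Vn v hv l)]
      obtain ⟨a, ha, e1, e2⟩ := c.surjA hv1 hv2 hgen (hg v1 hv1) (hg v2 hv2)
      have haa := h.Asq a ha
      have hai := c.ainv ha
      have e1' := mul_left_cancel e1
      have e2' := mul_left_cancel e2
      -- `a l` centralizes `V`
      have hal : ∀ v, a * v * a = l * v * l⁻¹ → v * (a * l) = (a * l) * v := by
        intro v hv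
        have h1 : l * v = a * v * a * l := by rw [hv]; group
        calc v * (a * l) = (a * a) * v * a * l := by rw [haa]; group
          _ = a * (a * v * a * l) := by group
          _ = a * (l * v) := by rw [← h1]
          _ = _ := by group
      have hcC : ∀ v ∈ V, (a * l) * v = v * (a * l) := by
        intro v hv
        have hz' : z * (a * l) = (a * l) * z := by
          apply hal
          rw [hlz, c.z_comm_A ha, mul_assoc, haa, mul_one]
        exact (c.comm_gen hgen hz' (hal v1 e1') (hal v2 e2') v hv).symm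
      -- `a l` commutes with `b`
      have hcb : (a * l) * b = b * (a * l) := by
        rcases hdec _ hcC with h1 | h1
        · exact (hbC' _ h1).symm
        · have h3 : a * l = b * (b⁻¹ * (a * l)) := by group
          set v := b⁻¹ * (a * l)
          rw [h3]
          calc b * v * b = b * (v * b) := by group
            _ = _ := by rw [← hbC' v h1]
      have h4 : l * b * l⁻¹ = a * b * a := by
        have h5 : l = a * (a * l) := by rw [← mul_assoc, haa, one_mul]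
        calc l * b * l⁻¹ = (a * (a * l)) * b * (a * (a * l))⁻¹ := by rw [← h5]
          _ = a * ((a * l) * b) * (a * l)⁻¹ * a⁻¹ := by group
          _ = a * (b * (a * l)) * (a * l)⁻¹ * a⁻¹ := by rw [hcb]
          _ = a * b * a⁻¹ := by group
          _ = a * b * a := by rw [hai]
      have h5 := H l hl b hbC'
      rw [h4] at h5
      have h6 : b⁻¹ * (a * b * a) = 1 ∨ b⁻¹ * (a * b * a) = z := by
        rcases h5 with h5 | h5
        · left
          rw [mul_inv_eq_one] at h5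
          rw [h5]; group
        · right
          rw [mul_inv_eq_iff_eq_mul] at h5
          rw [h5, ← hbC' z c.zV]; group
      have haX : a = 1 ∨ a = z := by
        by_contra hno
        exact (c.c2 hbC' hbf hbV ha hno).1 h6
      have haC : a ∈ C := by
        rcases haX with rfl | rfl
        · exact one_mem _
        · exact hVC c.zV
      have h7 : l = a⁻¹ * (a * l) := by group
      rw [h7]
      exact C.mul_mem (C.inv_mem haC) (mem_cent.2 hcC)
    rw [inf_eq_left.2 hLC]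
    omega

theorem c16 (h2 : IsPGroup 2 S) (V : Subgroup S) (Vn : ∀ v ∈ V, ∀ g : S, g * v * g⁻¹ ∈ V)
    (Vcomm : ∀ v ∈ V, ∀ w ∈ V, v * w = w * v) (Vsq : ∀ v ∈ V, v * v = 1)
    (V8 : Nat.card V = 8) (e : S) (heV : e ∈ V) (he1 : e ≠ 1)
    (hb : ∀ x, (∀ v ∈ V, x * v = v * x) → x ∉ V → x * x = e)
    (hC : ∀ x y, (∀ v ∈ V, x * v = v * x) → (∀ v ∈ V, y * v = v * y) → x ∉ V → y ∉ V → x⁻¹ * y ∈ V)
    (hL : ∀ L : Subgroup S, (∀ l ∈ L, ∀ c, (∀ v ∈ V, c * v = v * c) →
      l * c * l⁻¹ * c⁻¹ = 1 ∨ l * c * l⁻¹ * c⁻¹ = e) →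
      Nat.card L ≤ 2 * Nat.card ↥(L ⊓ Subgroup.centralizer (V : Set S))) : R4 S :=
  c16' h2 V Vn Vcomm Vsq V8 e heV he1 hb hC hL (q8 h2 V Vn Vcomm Vsq V8)

theorem caseC {A V : Subgroup S} (h : HW A V) (V8 : Nat.card V = 8) (X2 : Nat.card ↥(A ⊓ V) = 2) : R4 S :=
  caseC' h V8 X2 (q8 h.two V h.Vn h.Vcomm h.Vsq V8) (p8 h.two V h.Vn h.Vcomm h.Vsq V8)

end Cfsg.Agent.H39.HarC
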