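import Mathlib

/-!
Words in the free group that are not laws: the leading-coefficient (ping-pong) argument for products of
matrices whose entries are polynomials in a parameter.
-/

set_option autoImplicit false

namespace Cfsg.Agent.H39

open Polynomial

/-- Leading coefficients of products of polynomial matrices of bounded degree. -/
theorem prod_map_coeff {ι X F : Type*} [Fintype ι] [DecidableEq ι] [Field F] (s : ℕ)
    (M : X → Matrix ι ι F[X]) (L : List X)
    (hdeg : ∀ x ∈ L, ∀ p q, (M x p q).natDegree ≤ s) :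
    ∀ p q, ((L.map M).prod p q).natDegree ≤ s * L.length ∧
      ((L.map M).prod p q).coeff (s * L.length) =
        (L.map (fun x => (M x).map (fun f => f.coeff s))).prod p q := by
  induction L with
  | nil =>
    intro p q
    by_cases h : p = q
    · subst h; simp
    · simp [Matrix.one_apply_ne h]
  | cons x L ih =>
    intro p q
    have ih' := ih (fun y hy => hdeg y (List.mem_cons_of_mem _ hy))
    have hx := hdeg x (List.mem_cons_self ..)
    have hlen : s * (x :: L).length = s + s * L.length := by
      simp [Nat.mul_add, Nat.add_comm]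
    rw [hlen]
    simp only [List.map_cons, List.prod_cons, Matrix.mul_apply]
    constructor
    · refine natDegree_sum_le_of_forall_le _ _ fun r _ => ?_
      exact (natDegree_mul_le).trans (Nat.add_le_add (hx p r) (ih' r q).1)
    · rw [finsetSum_coeff]
      refine Finset.sum_congr rfl fun r _ => ?_
      rw [coeff_mul_add_eq_of_natDegree_le (hx p r) (ih' r q).1, (ih' r q).2]
      rfl

/-- Product of "rank one" matrices along a reduced word is nonzero. -/
theorem prod_mulVec_chain {ι F : Type*} [Fintype ι] [DecidableEq ι] [Field F]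
    (E : ℕ × Bool → Matrix ι ι F) (v : ℕ × Bool → ι → F) :
    ∀ (L : List (ℕ × Bool)) (x : ℕ × Bool), FreeGroup.IsReduced (x :: L) →
      (∀ y ∈ x :: L, ∀ z ∈ x :: L, (y.1 = z.1 → y.2 = z.2) → ∃ c : F, c ≠ 0 ∧ (E y).mulVec (v z) = c • v y) →
      ∃ (c : F) (z : ℕ × Bool), z ∈ x :: L ∧ c ≠ 0 ∧ (((x :: L).map E).prod).mulVec (v z) = c • v x := by
  intro L
  induction L with
  | nil =>
    intro x _ hE
    obtain ⟨c, hc, h⟩ := hE x (by simp) x (by simp) (fun _ => rfl)
    exact ⟨c, x, by simp, hc, by simpa using h⟩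
  | cons y L ih =>
    intro x hred hE
    rw [FreeGroup.isReduced_cons_cons] at hred
    obtain ⟨c, z, hz, hc, h⟩ := ih y hred.2 (fun a ha b hb => hE a (List.mem_cons_of_mem _ ha) b (List.mem_cons_of_mem _ hb))
    obtain ⟨c', hc', h'⟩ := hE x (by simp) y (by simp) hred.1
    refine ⟨c * c', z, List.mem_cons_of_mem _ hz, mul_ne_zero hc hc', ?_⟩
    rw [List.map_cons, List.prod_cons, ← Matrix.mulVec_mulVec, h, Matrix.mulVec_smul, h', smul_smul]

/-- The main leading-coefficient lemma: for a nonempty reduced word and polynomial matrices `M x` of degree at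
most `s` whose coefficients of `X ^ s` play ping-pong, some entry of the product has degree exactly
`s * length`. -/
theorem exists_entry_coeff_ne_zero {ι F : Type*} [Fintype ι] [DecidableEq ι] [Field F] (s : ℕ)
    (M : ℕ × Bool → Matrix ι ι F[X]) (v : ℕ × Bool → ι → F) (L : List (ℕ × Bool)) (hL : L ≠ [])
    (hred : FreeGroup.IsReduced L)
    (hdeg : ∀ x ∈ L, ∀ p q, (M x p q).natDegree ≤ s)
    (hv : ∀ x ∈ L, v x ≠ 0)
    (hE : ∀ y ∈ L, ∀ z ∈ L, (y.1 = z.1 → y.2 = z.2) → ∃ c : F, c ≠ 0 ∧
      ((M y).map (fun f => f.coeff s)).mulVec (v z) = c • v y) :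
    ∃ p q, ((L.map M).prod p q).natDegree ≤ s * L.length ∧ ((L.map M).prod p q).coeff (s * L.length) ≠ 0 := by
  obtain ⟨x, L', rfl⟩ := List.exists_cons_of_ne_nil hL
  obtain ⟨c, z, hz, hc, h⟩ := prod_mulVec_chain (fun x => (M x).map (fun f => f.coeff s)) v L' x hred hE
  have hcoef := prod_map_coeff s M (x :: L') hdeg
  have hne : ((x :: L').map (fun x => (M x).map (fun f => f.coeff s))).prod ≠ 0 := by
    intro h0
    rw [h0, Matrix.zero_mulVec] at h
    exact (smul_ne_zero hc (hv x (by simp))) h.symm
  by_contra hcon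
  push Not at hcon
  apply hne
  ext p q
  rw [← (hcoef p q).2]
  exact hcon p q (hcoef p q).1

/-- Evaluation of a polynomial matrix at a point. -/
theorem map_eval_prod {ι X F : Type*} [Fintype ι] [DecidableEq ι] [Field F] (t : F)
    (M : X → Matrix ι ι F[X]) (L : List X) :
    ((L.map M).prod).map (eval t) = (L.map (fun x => (M x).map (eval t))).prod := by
  induction L with
  | nil =>
    ext p q
    by_cases h : p = q
    · subst h; simp
    · simp [Matrix.one_apply_ne h]
  | cons x L ih =>
    rw [List.map_cons, List.prod_cons, List.map_cons, List.prod_cons, ← ih]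
    ext p q
    simp [Matrix.mul_apply, eval_finsetSum]

/-- The specialisation lemma. `M x` are polynomial matrices (`x` running over letters) playing ping-pong; `T` is a
finite set of parameters with more than `s * length` elements. Then for some `t ∈ T` the evaluated product is not the
scalar matrix `t ^ r`, for any given `r < s * length`. -/
theorem exists_param {ι F : Type*} [Fintype ι] [DecidableEq ι] [Field F] (s r : ℕ)
    (M : ℕ × Bool → Matrix ι ι F[X]) (v : ℕ × Bool → ι → F) (L : List (ℕ × Bool)) (hL : L ≠ [])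
    (hred : FreeGroup.IsReduced L)
    (hdeg : ∀ x ∈ L, ∀ p q, (M x p q).natDegree ≤ s)
    (hv : ∀ x ∈ L, v x ≠ 0)
    (hE : ∀ y ∈ L, ∀ z ∈ L, (y.1 = z.1 → y.2 = z.2) → ∃ c : F, c ≠ 0 ∧
      ((M y).map (fun f => f.coeff s)).mulVec (v z) = c • v y)
    (hr : r < s * L.length)
    (T : Finset F) (hT : s * L.length < T.card) :
    ∃ t ∈ T, (L.map (fun x => (M x).map (eval t))).prod ≠ (t ^ r) • (1 : Matrix ι ι F) := by
  obtain ⟨p, q, h1, h2⟩ := exists_entry_coeff_ne_zero s M v L hL hred hdeg hv hE
  by_contra hcon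
  push Not at hcon
  set P : F[X] := (L.map M).prod p q with hP
  set δ : F := (1 : Matrix ι ι F) p q with hδ
  have hPne : P - C δ * X ^ r ≠ 0 := by
    intro h0
    have : (P - C δ * X ^ r).coeff (s * L.length) = 0 := by rw [h0]; simp
    rw [coeff_sub, coeff_C_mul_X_pow, if_neg (by omega), sub_zero] at this
    exact h2 this
  have hdegP : (P - C δ * X ^ r).natDegree ≤ s * L.length := by
    refine (natDegree_sub_le _ _).trans (max_le h1 ?_)
    exact (natDegree_C_mul_X_pow_le _ _).trans hr.le
  have hroots : T.val ⊆ (P - C δ * X ^ r).roots := by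
    intro t ht
    rw [mem_roots hPne, IsRoot.def, eval_sub, eval_mul, eval_C, eval_pow, eval_X]
    have h3 := hcon t ht
    rw [← map_eval_prod] at h3
    have h4 := congrFun (congrFun h3 p) q
    rw [Matrix.map_apply, Matrix.smul_apply, smul_eq_mul] at h4
    rw [hP, h4, hδ]
    ring
  have hle : T.card ≤ s * L.length :=
    (Multiset.card_le_card ((Multiset.le_iff_subset T.nodup).2 hroots)).trans
      ((card_roots' _).trans hdegP)
  omega

/-- Ping-pong for conjugates of a one-parameter family of elements whose top coefficient is a matrix unit. -/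
theorem exists_lift_ne_one {ι F G : Type*} [Fintype ι] [DecidableEq ι] [Field F] [Group G]
    (φ : G →* Matrix ι ι F) (w : FreeGroup ℕ) (hw : w ≠ 1) (s r : ℕ) (hr : r < s)
    (D : Bool → Matrix ι ι F[X]) (idx : Bool → ι)
    (hD : ∀ ε p q, (D ε p q).natDegree ≤ s)
    (hDc : ∀ ε, (D ε).map (fun f => f.coeff s) = Matrix.single (idx ε) (idx ε) 1)
    (p : ℕ → G) (h : F → G) (T : Finset F) (hT : s * w.toWord.length < T.card)
    (hh : ∀ t ∈ T, t ^ r • φ (h t) = (D true).map (eval t))
    (hh' : ∀ t ∈ T, t ^ r • φ (h t)⁻¹ = (D false).map (eval t))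
    (k : ℕ) (hk : ∀ x ∈ w.toWord, x.1 < k)
    (hne : ∀ i j, i < k → j < k → i ≠ j → ∀ ε δ, φ ((p i)⁻¹ * p j) (idx ε) (idx δ) ≠ 0) :
    ∃ f : ℕ → G, FreeGroup.lift f w ≠ 1 := by
  classical
  set L := w.toWord with hLdef
  have hL : L ≠ [] := by
    intro h0
    exact hw (FreeGroup.toWord_eq_nil_iff.1 h0)
  have hred : FreeGroup.IsReduced L := FreeGroup.isReduced_toWord
  have hlen : 0 < L.length := List.length_pos_of_ne_nil hL
  set M : ℕ × Bool → Matrix ι ι F[X] := fun x =>
    (φ (p x.1)).map (C : F → F[X]) * D x.2 * (φ (p x.1)⁻¹).map (C : F → F[X]) with hM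
  have hMdeg : ∀ x, ∀ a b, (M x a b).natDegree ≤ s := by
    intro x a b
    rw [hM]
    simp only [Matrix.mul_apply, Matrix.map_apply]
    refine natDegree_sum_le_of_forall_le _ _ fun c _ => ?_
    refine (natDegree_mul_C_le _ _).trans ?_
    refine natDegree_sum_le_of_forall_le _ _ fun d _ => ?_
    exact (natDegree_C_mul_le _ _).trans (hD _ _ _)
  have hMcoef : ∀ x, (M x).map (fun f => f.coeff s) =
      φ (p x.1) * Matrix.single (idx x.2) (idx x.2) 1 * φ (p x.1)⁻¹ := by
    intro x
    rw [← hDc]
    ext a b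
    simp only [hM, Matrix.map_apply, Matrix.mul_apply, finsetSum_coeff, coeff_mul_C, coeff_C_mul]
  have hPP : ∀ g : G, φ g⁻¹ * φ g = 1 := fun g => by rw [← map_mul, inv_mul_cancel, map_one]
  set v : ℕ × Bool → ι → F := fun x => (φ (p x.1)).mulVec (Pi.single (idx x.2) 1) with hv
  obtain ⟨t, htT, ht⟩ := exists_param s (r * L.length) M v L hL hred (fun x _ => hMdeg x)
    (by
      intro x _ h0
      have : (φ (p x.1)⁻¹).mulVec (v x) = 0 := by rw [h0, Matrix.mulVec_zero]
      rw [hv] at this
      simp only [Matrix.mulVec_mulVec, hPP, Matrix.one_mulVec] at this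
      have h1 := congrFun this (idx x.2)
      simp at h1)
    (by
      intro y hy z hz hyz
      refine ⟨φ ((p y.1)⁻¹ * p z.1) (idx y.2) (idx z.2), ?_, ?_⟩
      · by_cases h1 : y.1 = z.1
        · rw [h1, inv_mul_cancel, map_one, hyz h1, Matrix.one_apply_eq]
          exact one_ne_zero
        · exact hne _ _ (hk y hy) (hk z hz) h1 _ _
      · rw [hMcoef]
        simp only [hv, Matrix.mulVec_mulVec]
        rw [Matrix.mul_assoc, Matrix.mul_assoc, ← map_mul, ← Matrix.mulVec_mulVec, ← Matrix.mulVec_smul]
        congr 1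
        ext a
        rw [← Matrix.mulVec_mulVec, Matrix.mulVec_single_one]
        by_cases ha : a = idx y.2
        · subst ha
          simp [Matrix.mulVec, dotProduct, Matrix.single_apply, Matrix.col]
        · simp only [Matrix.mulVec, dotProduct, Matrix.single_apply, Pi.smul_apply, smul_eq_mul]
          rw [Finset.sum_eq_zero]
          · simp [Pi.single_apply, ha]
          · intro b _
            rw [if_neg (by intro h; exact ha h.1.symm), zero_mul])
    (by exact Nat.mul_lt_mul_of_pos_right hr hlen) T hT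
  refine ⟨fun i => p i * h t * (p i)⁻¹, fun hcon => ht ?_⟩
  have key : ∀ K : List (ℕ × Bool), (K.map (fun x => (M x).map (eval t))).prod =
      t ^ (r * K.length) • φ ((K.map fun x => cond x.2 (p x.1 * h t * (p x.1)⁻¹) (p x.1 * h t * (p x.1)⁻¹)⁻¹).prod) := by
    intro K
    induction K with
    | nil => simp
    | cons x K ih =>
      rw [List.map_cons, List.prod_cons, ih, List.map_cons, List.prod_cons, map_mul]
      have hx : (M x).map (eval t) = t ^ r • φ (cond x.2 (p x.1 * h t * (p x.1)⁻¹) (p x.1 * h t * (p x.1)⁻¹)⁻¹) := by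
        have h1 : (M x).map (eval t) = φ (p x.1) * (D x.2).map (eval t) * φ (p x.1)⁻¹ := by
          ext a b
          simp only [hM, Matrix.map_apply, Matrix.mul_apply, eval_finsetSum, eval_mul, eval_C]
        rw [h1]
        cases hx2 : x.2 with
        | true =>
          rw [← hh t htT]
          simp only [cond_true, map_mul, Matrix.mul_smul, Matrix.smul_mul]
        | false =>
          rw [← hh' t htT]
          simp only [cond_false, mul_inv_rev, inv_inv, map_mul, Matrix.mul_smul, Matrix.smul_mul, mul_assoc]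
      rw [hx, List.length_cons, Matrix.smul_mul, Matrix.mul_smul, smul_smul, ← pow_add]
      congr 2
      ring
  rw [key L]
  have hmk : w = FreeGroup.mk L := FreeGroup.mk_toWord.symm
  have : ((L.map fun x => cond x.2 (p x.1 * h t * (p x.1)⁻¹) (p x.1 * h t * (p x.1)⁻¹)⁻¹).prod) = 1 := by
    rw [← hcon]
    conv_rhs => rw [hmk]
    rw [FreeGroup.lift_mk]
  rw [this, map_one]

end Cfsg.Agent.H39
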