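import Cfsg.Agent.H39.FreeLaw

/-!
Non-laws in `SL₂` of a large field, in large alternating groups; commutator tricks.
-/

set_option autoImplicit false
set_option linter.unusedSectionVars false
set_option linter.unusedSimpArgs false

namespace Cfsg.Agent.H39

open Polynomial Matrix
open scoped commutatorElement

/-! ### functoriality -/

theorem lift_hom_comp {G H : Type*} [Group G] [Group H] (Ψ : G →* H) (f : ℕ → G) (w : FreeGroup ℕ) :
    FreeGroup.lift (fun i => Ψ (f i)) w = Ψ (FreeGroup.lift f w) := by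
  have : (FreeGroup.lift (fun i => Ψ (f i)) : FreeGroup ℕ →* H) = Ψ.comp (FreeGroup.lift f) := by
    ext i
    simp
  rw [this]
  rfl

/-- If `w` is not a law in `G` and `G` embeds in `H` then `w` is not a law in `H`. -/
theorem not_law_of_injective {G H : Type*} [Group G] [Group H] (Ψ : G →* H) (hΨ : Function.Injective Ψ)
    (w : FreeGroup ℕ) (h : ∃ f : ℕ → G, FreeGroup.lift f w ≠ 1) : ∃ f : ℕ → H, FreeGroup.lift f w ≠ 1 := by
  obtain ⟨f, hf⟩ := h
  refine ⟨fun i => Ψ (f i), ?_⟩
  rw [lift_hom_comp]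
  intro h1
  exact hf (hΨ (by rw [h1, map_one]))

/-! ### the centre trick -/

/-- The word `[w shifted, x₀]`. -/
def ctrWord (w : FreeGroup ℕ) : FreeGroup ℕ :=
  ⁅FreeGroup.map Nat.succ w, FreeGroup.of 0⁆

theorem ctrWord_ne_one (w : FreeGroup ℕ) (hw : w ≠ 1) : ctrWord w ≠ 1 := by
  intro h
  rw [ctrWord, commutatorElement_eq_one_iff_mul_comm] at h
  set u := FreeGroup.map Nat.succ w with hu
  have hu1 : u ≠ 1 := by
    intro h1
    apply hw
    have hinj : Function.Injective (FreeGroup.map Nat.succ) := FreeGroup.map_injective Nat.succ_injective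
    exact hinj (by rw [← hu, h1, map_one])
  set L := u.toWord with hL
  have hmk : FreeGroup.mk L = u := FreeGroup.mk_toWord
  have hLne : L ≠ [] := fun h0 => hu1 (FreeGroup.toWord_eq_nil_iff.1 h0)
  have hred : FreeGroup.IsReduced L := FreeGroup.isReduced_toWord
  have hletters : ∀ x ∈ L, x.1 ≠ 0 := by
    intro x hx
    have h1 : u = FreeGroup.mk (w.toWord.map fun x => (Nat.succ x.1, x.2)) := by
      rw [hu]
      conv_lhs => rw [← FreeGroup.mk_toWord (x := w)]
      rw [FreeGroup.map.mk]
    have h2 : L = FreeGroup.reduce (w.toWord.map fun x => (Nat.succ x.1, x.2)) := by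
      rw [hL, h1, FreeGroup.toWord_mk]
    have h3 : x ∈ (w.toWord.map fun x => (Nat.succ x.1, x.2)) := by
      have h4 : List.Sublist (FreeGroup.reduce (w.toWord.map fun x => (Nat.succ x.1, x.2)))
        (w.toWord.map fun x => (Nat.succ x.1, x.2)) := FreeGroup.Red.sublist FreeGroup.reduce.red
      rw [h2] at hx
      exact h4.subset hx
    obtain ⟨y, -, rfl⟩ := List.mem_map.1 h3
    exact Nat.succ_ne_zero _
  have h1 : FreeGroup.mk (L ++ [((0 : ℕ), true)]) = FreeGroup.mk (((0 : ℕ), true) :: L) := by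
    have : FreeGroup.mk (((0 : ℕ), true) :: L) = FreeGroup.mk [((0 : ℕ), true)] * FreeGroup.mk L := by
      rw [FreeGroup.mul_mk]; rfl
    rw [this, ← FreeGroup.mul_mk, hmk]
    exact h
  have hr1 : FreeGroup.IsReduced (L ++ [((0 : ℕ), true)]) := by
    rw [FreeGroup.IsReduced, List.isChain_append]
    refine ⟨hred, List.isChain_singleton _, ?_⟩
    intro x hx y hy hxy
    have hx' : x ∈ L := List.mem_of_getLast? hx
    have hy' : y = (0, true) := by simpa using hy.symm
    rw [hy'] at hxy
    exact absurd hxy (hletters x hx')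
  have hr2 : FreeGroup.IsReduced (((0 : ℕ), true) :: L) := by
    obtain ⟨y, L', hLL⟩ := List.exists_cons_of_ne_nil hLne
    rw [hLL, FreeGroup.isReduced_cons_cons]
    refine ⟨fun hxy => absurd hxy.symm (hletters y (by rw [hLL]; simp)), hLL ▸ hred⟩
  have h2 : L ++ [((0 : ℕ), true)] = ((0 : ℕ), true) :: L := by
    have := FreeGroup.reduce.sound h1
    rwa [hr1.reduce_eq, hr2.reduce_eq] at this
  obtain ⟨y, L', hLL⟩ := List.exists_cons_of_ne_nil hLne
  have h3 : y = (0, true) := by
    rw [hLL] at h2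
    simpa using congrArg List.head? h2
  exact hletters y (by rw [hLL]; simp) (by rw [h3])

theorem law_of_center_law {H : Type*} [Group H] (w : FreeGroup ℕ)
    (h : ∀ f : ℕ → H ⧸ Subgroup.center H, FreeGroup.lift f w = 1) (f : ℕ → H) :
    FreeGroup.lift f (ctrWord w) = 1 := by
  rw [ctrWord, map_commutatorElement, commutatorElement_eq_one_iff_mul_comm, FreeGroup.lift_apply_of]
  have h1 : FreeGroup.lift f (FreeGroup.map Nat.succ w) = FreeGroup.lift (fun i => f (i + 1)) w := by
    have : (FreeGroup.lift f).comp (FreeGroup.map Nat.succ) = FreeGroup.lift (fun i => f (i + 1)) := by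
      ext i; simp
    rw [← this]; rfl
  have h2 : FreeGroup.lift f (FreeGroup.map Nat.succ w) ∈ Subgroup.center H := by
    rw [h1, ← QuotientGroup.eq_one_iff]
    have := h (fun i => (QuotientGroup.mk' (Subgroup.center H)) (f (i + 1)))
    rw [lift_hom_comp] at this
    exact this
  exact ((Subgroup.mem_center_iff.1 h2) _).symm

/-! ### the commutator trick -/

/-- The substitution `x_i ↦ [x_{2i}, x_{2i+1}]`. -/
def comWord (w : FreeGroup ℕ) : FreeGroup ℕ :=
  FreeGroup.lift (fun i => ⁅FreeGroup.of (2 * i), FreeGroup.of (2 * i + 1)⁆) w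

/-- Block of the substitution. -/
def comBlock (x : ℕ × Bool) : List (ℕ × Bool) :=
  if x.2 then [(2 * x.1, true), (2 * x.1 + 1, true), (2 * x.1, false), (2 * x.1 + 1, false)]
  else [(2 * x.1 + 1, true), (2 * x.1, true), (2 * x.1 + 1, false), (2 * x.1, false)]

theorem comBlock_isReduced (L : List (ℕ × Bool)) (h : FreeGroup.IsReduced L) :
    FreeGroup.IsReduced (L.flatMap comBlock) := by
  induction L with
  | nil => simp
  | cons x L ih =>
    have hL : FreeGroup.IsReduced L := List.IsChain.tail h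
    rw [List.flatMap_cons, FreeGroup.IsReduced, List.isChain_append]
    refine ⟨?_, ih hL, ?_⟩
    · unfold comBlock
      split_ifs <;> simp
    · intro a ha b hb hab
      cases L with
      | nil => simp at hb
      | cons y L =>
        rw [FreeGroup.isReduced_cons_cons] at h
        obtain ⟨x1, x2⟩ := x
        obtain ⟨y1, y2⟩ := y
        simp only at h
        rw [List.flatMap_cons] at hb
        cases x2 <;> cases y2 <;> simp [comBlock] at ha hb <;> subst ha <;> subst hb <;> simp at hab ⊢ <;>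
          first
          | omega
          | (exact absurd (h.1 (by omega)) (by simp))

theorem mk_flatMap_comBlock (L : List (ℕ × Bool)) :
    FreeGroup.mk (L.flatMap comBlock) = comWord (FreeGroup.mk L) := by
  induction L with
  | nil => simp [comWord, ← FreeGroup.one_eq_mk]
  | cons x L ih =>
    have h1 : FreeGroup.mk (x :: L) = FreeGroup.mk [x] * FreeGroup.mk L := by
      rw [FreeGroup.mul_mk]; rfl
    rw [List.flatMap_cons, ← FreeGroup.mul_mk, ih, h1]
    unfold comWord
    rw [map_mul]
    congr 1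
    rw [FreeGroup.lift_mk]
    obtain ⟨i, ε⟩ := x
    cases ε <;> simp [comBlock, commutatorElement_def, FreeGroup.of, FreeGroup.mul_mk, FreeGroup.inv_mk, FreeGroup.invRev]

theorem comWord_ne_one (w : FreeGroup ℕ) (hw : w ≠ 1) : comWord w ≠ 1 := by
  intro h
  have h1 : FreeGroup.mk (w.toWord.flatMap comBlock) = 1 := by
    rw [mk_flatMap_comBlock, FreeGroup.mk_toWord, h]
  have h2 := congrArg FreeGroup.toWord h1
  rw [FreeGroup.toWord_mk, (comBlock_isReduced _ FreeGroup.isReduced_toWord).reduce_eq,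
    FreeGroup.toWord_one] at h2
  have h3 : w.toWord ≠ [] := fun h0 => hw (FreeGroup.toWord_eq_nil_iff.1 h0)
  obtain ⟨y, L', hLL⟩ := List.exists_cons_of_ne_nil h3
  rw [hLL, List.flatMap_cons] at h2
  have h4 := congrArg List.length h2
  unfold comBlock at h4
  split_ifs at h4 <;> simp at h4

theorem law_of_commutator_law {H : Type*} [Group H] (w : FreeGroup ℕ)
    (h : ∀ f : ℕ → ↥(commutator H), FreeGroup.lift f w = 1) (f : ℕ → H) :
    FreeGroup.lift f (comWord w) = 1 := by
  have h1 : FreeGroup.lift f (comWord w) =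
      FreeGroup.lift (fun i => ⁅f (2 * i), f (2 * i + 1)⁆) w := by
    have : (FreeGroup.lift f).comp (FreeGroup.lift
      (fun i => ⁅FreeGroup.of (2 * i), FreeGroup.of (2 * i + 1)⁆)) =
        FreeGroup.lift (fun i => ⁅f (2 * i), f (2 * i + 1)⁆) := by
      ext i
      simp [map_commutatorElement]
    rw [← this]; rfl
  rw [h1]
  have h2 := h (fun i => ⟨⁅f (2 * i), f (2 * i + 1)⁆, Subgroup.commutator_mem_commutator
    (Subgroup.mem_top _) (Subgroup.mem_top _)⟩)
  have h3 := congrArg (Subgroup.subtype (commutator H)) h2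
  rw [← lift_hom_comp, map_one] at h3
  exact h3

/-! ### SL₂ -/

/-- The matrix of an element of `SL₂` as a monoid hom. -/
def sl2ToMat (F : Type*) [Field F] : SpecialLinearGroup (Fin 2) F →* Matrix (Fin 2) (Fin 2) F where
  toFun g := g
  map_one' := rfl
  map_mul' _ _ := rfl

theorem sl2ToMat_inv {F : Type*} [Field F] (g : SpecialLinearGroup (Fin 2) F) :
    sl2ToMat F g⁻¹ = adjugate (sl2ToMat F g) := Matrix.SpecialLinearGroup.coe_inv g

/-- The element of `SL₂` taking the standard basis to vectors on the lines `(1, a)`, `(1, b)`. -/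
def sl2P {F : Type*} [Field F] (a b : F) (hab : a ≠ b) : SpecialLinearGroup (Fin 2) F :=
  ⟨!![1, (b - a)⁻¹; a, b * (b - a)⁻¹], by
    have : b - a ≠ 0 := sub_ne_zero.2 hab.symm
    rw [det_fin_two_of]; field_simp⟩

theorem sl2ToMat_P {F : Type*} [Field F] (a b : F) (hab : a ≠ b) :
    sl2ToMat F (sl2P a b hab) = !![1, (b - a)⁻¹; a, b * (b - a)⁻¹] := rfl

/-- The polynomial matrices. -/
noncomputable def sl2D (F : Type*) [Field F] : Bool → Matrix (Fin 2) (Fin 2) F[X]
  | true => !![X ^ 2, 0; 0, 1]
  | false => !![1, 0; 0, X ^ 2]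

/-- The index of the attracting eigenvector. -/
def sl2idx : Bool → Fin 2
  | true => 0
  | false => 1

/-- The diagonal element. -/
def sl2H {F : Type*} [Field F] (t : F) (ht : t ≠ 0) : SpecialLinearGroup (Fin 2) F :=
  ⟨!![t, 0; 0, t⁻¹], by rw [det_fin_two_of]; simp [ht]⟩

theorem sl2ToMat_H {F : Type*} [Field F] (t : F) (ht : t ≠ 0) :
    sl2ToMat F (sl2H t ht) = !![t, 0; 0, t⁻¹] := rfl

theorem sl2_not_law (w : FreeGroup ℕ) (hw : w ≠ 1) (k : ℕ) (hk : ∀ x ∈ w.toWord, x.1 < k)
    (F : Type*) [Field F] [Fintype F] (hkF : 2 * k ≤ Fintype.card F)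
    (hT : 2 * w.toWord.length < Fintype.card F - 1) :
    ∃ f : ℕ → SpecialLinearGroup (Fin 2) F, FreeGroup.lift f w ≠ 1 := by
  classical
  have hemb : Nonempty (Fin k × Bool ↪ F) := by
    rw [Function.Embedding.nonempty_iff_card_le]
    simpa [mul_comm] using hkF
  obtain ⟨b⟩ := hemb
  refine exists_lift_ne_one (sl2ToMat F) w hw 2 1 (by omega) (sl2D F) sl2idx ?_ ?_
    (fun i => if h : i < k then sl2P (b (⟨i, h⟩, true)) (b (⟨i, h⟩, false))
        (fun h0 => by simpa using b.injective h0) else 1)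
    (fun t => if ht : t ≠ 0 then sl2H t ht else 1) (Finset.univ.erase 0) ?_ ?_ ?_ k hk ?_
  · intro ε p q
    cases ε <;> fin_cases p <;> fin_cases q <;> simp [sl2D]
  · intro ε
    cases ε <;> ext p q <;> fin_cases p <;> fin_cases q <;>
      simp [sl2D, sl2idx, Matrix.single_apply, coeff_X_pow, coeff_one]
  · rw [Finset.card_erase_of_mem (Finset.mem_univ _), Finset.card_univ]
    exact hT
  · intro t ht
    have ht0 : t ≠ 0 := Finset.ne_of_mem_erase ht
    rw [dif_pos ht0]
    ext p q
    fin_cases p <;> fin_cases q <;> simp [sl2D, sl2H, sl2ToMat, ht0, sq]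
  · intro t ht
    have ht0 : t ≠ 0 := Finset.ne_of_mem_erase ht
    rw [dif_pos ht0]
    ext p q
    fin_cases p <;> fin_cases q <;>
      simp [sl2D, sl2ToMat_H, sl2ToMat_inv, ht0, sq, adjugate_fin_two_of]
  · intro i j hi hj hij ε δ
    rw [dif_pos hi, dif_pos hj]
    set x := b (⟨i, hi⟩, true) with hx
    set x' := b (⟨i, hi⟩, false) with hx'
    set y := b (⟨j, hj⟩, true) with hy
    set y' := b (⟨j, hj⟩, false) with hy'
    have n1 : x' - x ≠ 0 := sub_ne_zero.2 (fun h => by simpa using b.injective h)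
    have n2 : y' - y ≠ 0 := sub_ne_zero.2 (fun h => by simpa using b.injective h)
    have n3 : x' - y ≠ 0 := sub_ne_zero.2 (fun h => by simpa using b.injective h)
    have n4 : y' - x ≠ 0 := sub_ne_zero.2 (fun h => by simpa using b.injective h)
    have n5 : x' - y' ≠ 0 := sub_ne_zero.2 (fun h => by
      have := b.injective h; simp at this; exact hij this)
    have n6 : y - x ≠ 0 := sub_ne_zero.2 (fun h => by
      have := b.injective h; simp at this; exact hij this.symm)
    rw [map_mul, sl2ToMat_inv, sl2ToMat_P, sl2ToMat_P]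
    have hmat : adjugate !![1, (x' - x)⁻¹; x, x' * (x' - x)⁻¹] * !![1, (y' - y)⁻¹; y, y' * (y' - y)⁻¹] =
        !![(x' - y) * (x' - x)⁻¹, (x' - y') * (x' - x)⁻¹ * (y' - y)⁻¹; y - x, (y' - x) * (y' - y)⁻¹] := by
      rw [adjugate_fin_two_of]
      ext p q
      fin_cases p <;> fin_cases q <;>
        simp [Matrix.mul_apply, Fin.sum_univ_two] <;> ring
    rw [hmat]
    cases ε <;> cases δ <;> simp [sl2idx, n1, n2, n3, n4, n5, n6]

/-- A bound for the letters of a word. -/
def letterBound (w : FreeGroup ℕ) : ℕ := (w.toWord.map Prod.fst).sum + 1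

theorem lt_letterBound (w : FreeGroup ℕ) : ∀ x ∈ w.toWord, x.1 < letterBound w := by
  intro x hx
  have : x.1 ≤ (w.toWord.map Prod.fst).sum := List.single_le_sum (fun _ _ => Nat.zero_le _) _
    (List.mem_map_of_mem hx)
  unfold letterBound
  omega

/-- The bound for `SL₂`. -/
def sl2Bound (w : FreeGroup ℕ) : ℕ := 2 * letterBound w + 2 * w.toWord.length + 2

theorem sl2_not_law' (w : FreeGroup ℕ) (hw : w ≠ 1) (F : Type*) [Field F] [Fintype F]
    (h : sl2Bound w ≤ Fintype.card F) :
    ∃ f : ℕ → SpecialLinearGroup (Fin 2) F, FreeGroup.lift f w ≠ 1 := by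
  unfold sl2Bound at h
  exact sl2_not_law w hw _ (lt_letterBound w) F (by omega) (by omega)

/-! ### alternating groups -/

/-- A finite group acting on two copies of itself gives a hom to the alternating group. -/
noncomputable def toAlt (K : Type*) [Group K] [Fintype K] [DecidableEq K] (n : ℕ) (e : K ⊕ K ↪ Fin n) :
    K →* alternatingGroup (Fin n) := by
  classical
  exact MonoidHom.codRestrict
    (((Equiv.Perm.extendDomainHom (Equiv.ofInjective e e.injective)).comp
      (Equiv.Perm.sumCongrHom K K)).comp ((MonoidHom.prod (MulAction.toPermHom K K) (MulAction.toPermHom K K))))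
    _ (by
      intro g
      rw [Equiv.Perm.mem_alternatingGroup]
      simp only [MonoidHom.comp_apply, Equiv.Perm.extendDomainHom_apply]
      rw [Equiv.Perm.sign_extendDomain]
      simp only [Equiv.Perm.sumCongrHom_apply, MonoidHom.prod_apply]
      rw [Equiv.Perm.sign_sumCongr, Int.units_mul_self])

theorem toAlt_injective (K : Type*) [Group K] [Fintype K] [DecidableEq K] (n : ℕ) (e : K ⊕ K ↪ Fin n) :
    Function.Injective (toAlt K n e) := by
  classical
  intro g h hgh
  have h1 := congrArg Subtype.val hgh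
  have h2 := Equiv.Perm.extendDomainHom_injective (Equiv.ofInjective e e.injective) h1
  have h3 := Equiv.Perm.sumCongrHom_injective h2
  have h4 : MulAction.toPermHom K K g = MulAction.toPermHom K K h := congrArg Prod.fst h3
  have h5 := congrArg (fun σ : Equiv.Perm K => σ 1) h4
  simpa using h5

theorem exists_alt_bound (w : FreeGroup ℕ) (hw : w ≠ 1) :
    ∃ N : ℕ, ∀ n : ℕ, N ≤ n → ∃ f : ℕ → alternatingGroup (Fin n), FreeGroup.lift f w ≠ 1 := by
  classical
  obtain ⟨p, hp, hprime⟩ := Nat.exists_infinite_primes (sl2Bound w)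
  haveI : Fact p.Prime := ⟨hprime⟩
  have h := sl2_not_law' w hw (ZMod p) (by rw [ZMod.card]; exact hp)
  refine ⟨Fintype.card (SpecialLinearGroup (Fin 2) (ZMod p) ⊕ SpecialLinearGroup (Fin 2) (ZMod p)), fun n hn => ?_⟩
  have hemb : Nonempty (SpecialLinearGroup (Fin 2) (ZMod p) ⊕ SpecialLinearGroup (Fin 2) (ZMod p) ↪ Fin n) := by
    rw [Function.Embedding.nonempty_iff_card_le]
    simpa using hn
  obtain ⟨e⟩ := hemb
  exact not_law_of_injective (toAlt _ n e) (toAlt_injective _ n e) w h

end Cfsg.Agent.H39
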