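import Cfsg.Agent.H39.FreeLaw2
import Cfsg.Agent.H39.HermField
import Cfsg.Prelude.Def_Classical

/-!
Embeddings of `SL₂` and of alternating groups in the classical groups, for the non-law statements.
-/

set_option autoImplicit false
set_option linter.unusedSectionVars false
set_option linter.unusedSimpArgs false

namespace Cfsg.Agent.H39

open Matrix

/-! ### block embedding -/

/-- `Fin 2 ⊕ Fin (n - 2) ≃ Fin n`. -/
def blkEquiv {n : ℕ} (hn : 2 ≤ n) : Fin 2 ⊕ Fin (n - 2) ≃ Fin n :=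
  finSumFinEquiv.trans (finCongr (by omega))

/-- Block embedding of `2 × 2` matrices. -/
def blkHom (F : Type*) [Field F] {n : ℕ} (hn : 2 ≤ n) :
    Matrix (Fin 2) (Fin 2) F →* Matrix (Fin n) (Fin n) F where
  toFun A := Matrix.reindex (blkEquiv hn) (blkEquiv hn) (Matrix.fromBlocks A 0 0 1)
  map_one' := by simp
  map_mul' A B := by
    rw [Matrix.reindex_apply, Matrix.reindex_apply, Matrix.reindex_apply, Matrix.submatrix_mul_equiv,
      Matrix.fromBlocks_multiply]
    simp

theorem blkHom_injective (F : Type*) [Field F] {n : ℕ} (hn : 2 ≤ n) :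
    Function.Injective (blkHom F hn) := by
  intro A B h
  have h1 := (Matrix.reindex (blkEquiv hn) (blkEquiv hn)).injective h
  exact (Matrix.fromBlocks_inj.1 h1).1

theorem blkHom_det (F : Type*) [Field F] {n : ℕ} (hn : 2 ≤ n) (A : Matrix (Fin 2) (Fin 2) F) :
    (blkHom F hn A).det = A.det := by
  change (Matrix.reindex (blkEquiv hn) (blkEquiv hn) (Matrix.fromBlocks A 0 0 1)).det = _
  rw [Matrix.det_reindex_self, Matrix.det_fromBlocks_zero₂₁, det_one, mul_one]

/-- `SL₂ → SL_n`. -/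
def slBlk (F : Type*) [Field F] {n : ℕ} (hn : 2 ≤ n) :
    Matrix.SpecialLinearGroup (Fin 2) F →* Matrix.SpecialLinearGroup (Fin n) F where
  toFun g := ⟨blkHom F hn g, by rw [blkHom_det, g.det_coe]⟩
  map_one' := Subtype.ext (map_one (blkHom F hn))
  map_mul' g h := Subtype.ext (map_mul (blkHom F hn) _ _)

theorem slBlk_injective (F : Type*) [Field F] {n : ℕ} (hn : 2 ≤ n) : Function.Injective (slBlk F hn) := by
  intro g h hgh
  have h1 := congrArg Subtype.val hgh
  exact Subtype.ext (blkHom_injective F hn h1)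

/-- `A_n → SL_n`. -/
def altSL (F : Type*) [Field F] (n : ℕ) : alternatingGroup (Fin n) →* Matrix.SpecialLinearGroup (Fin n) F where
  toFun σ := ⟨((σ : Equiv.Perm (Fin n))⁻¹).permMatrix F, by
    rw [Matrix.det_permutation, Equiv.Perm.sign_inv, Equiv.Perm.mem_alternatingGroup.1 σ.2]; simp⟩
  map_one' := Subtype.ext (by
    change (((1 : alternatingGroup (Fin n)) : Equiv.Perm (Fin n))⁻¹).permMatrix F = 1
    simp)
  map_mul' σ τ := Subtype.ext (by
    change (((σ * τ : alternatingGroup (Fin n)) : Equiv.Perm (Fin n))⁻¹).permMatrix F =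
      ((σ : Equiv.Perm (Fin n))⁻¹).permMatrix F * ((τ : Equiv.Perm (Fin n))⁻¹).permMatrix F
    rw [Subgroup.coe_mul, _root_.mul_inv_rev, Matrix.permMatrix_mul])

theorem permMatrix_injective (F : Type*) [Field F] (n : ℕ) :
    Function.Injective (fun σ : Equiv.Perm (Fin n) => σ.permMatrix F) := by
  intro σ τ h
  ext i
  have h1 := congrFun (congrFun h i) (σ i)
  simp only [Equiv.Perm.permMatrix, PEquiv.toMatrix_apply, Equiv.toPEquiv_apply, Option.mem_some_iff] at h1
  by_contra h2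
  rw [if_pos trivial, if_neg] at h1
  · exact one_ne_zero h1
  · intro h3
    exact h2 (by rw [h3])

theorem altSL_injective (F : Type*) [Field F] (n : ℕ) : Function.Injective (altSL F n) := by
  intro σ τ h
  have h1 := congrArg Subtype.val h
  have h2 := permMatrix_injective F n h1
  exact Subtype.ext (inv_injective h2)

/-- The dimension bound for `w`. -/
noncomputable def dimBound (w : FreeGroup ℕ) (hw : w ≠ 1) : ℕ := Classical.choose (exists_alt_bound w hw)

theorem dimBound_spec (w : FreeGroup ℕ) (hw : w ≠ 1) (n : ℕ) (h : dimBound w hw ≤ n) :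
    ∃ f : ℕ → alternatingGroup (Fin n), FreeGroup.lift f w ≠ 1 :=
  Classical.choose_spec (exists_alt_bound w hw) n h

theorem sl_not_law (w : FreeGroup ℕ) (hw : w ≠ 1) (F : Type*) [Field F] [Fintype F] (n : ℕ) (hn : 2 ≤ n)
    (h : sl2Bound w ≤ Fintype.card F ∨ dimBound w hw ≤ n) :
    ∃ f : ℕ → Matrix.SpecialLinearGroup (Fin n) F, FreeGroup.lift f w ≠ 1 := by
  rcases h with h | h
  · exact not_law_of_injective (slBlk F hn) (slBlk_injective F hn) w (sl2_not_law' w hw F h)
  · exact not_law_of_injective (altSL F n) (altSL_injective F n) w (dimBound_spec w hw n h)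

/-! ### the Levi embedding -/

/-- `A ↦ diag(A, A⁻ᵀ)`. -/
def leviMat (F : Type*) [Field F] (n : ℕ) :
    Matrix.SpecialLinearGroup (Fin n) F →* Matrix (Fin n ⊕ Fin n) (Fin n ⊕ Fin n) F where
  toFun g := Matrix.fromBlocks (g : Matrix (Fin n) (Fin n) F) 0 0
    ((g⁻¹ : Matrix.SpecialLinearGroup (Fin n) F) : Matrix (Fin n) (Fin n) F)ᵀ
  map_one' := by simp
  map_mul' g h := by
    rw [Matrix.fromBlocks_multiply, _root_.mul_inv_rev, Matrix.SpecialLinearGroup.coe_mul,
      Matrix.SpecialLinearGroup.coe_mul, Matrix.transpose_mul]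
    simp

theorem leviMat_injective (F : Type*) [Field F] (n : ℕ) : Function.Injective (leviMat F n) := by
  intro g h hgh
  exact Subtype.ext (Matrix.fromBlocks_inj.1 hgh).1

theorem sl_mul_inv_coe {F : Type*} [Field F] {n : ℕ} (g : Matrix.SpecialLinearGroup (Fin n) F) :
    (g : Matrix (Fin n) (Fin n) F) * ((g⁻¹ : Matrix.SpecialLinearGroup (Fin n) F) : Matrix (Fin n) (Fin n) F) = 1 := by
  rw [← Matrix.SpecialLinearGroup.coe_mul, mul_inv_cancel, Matrix.SpecialLinearGroup.coe_one]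

theorem sl_inv_mul_coe {F : Type*} [Field F] {n : ℕ} (g : Matrix.SpecialLinearGroup (Fin n) F) :
    ((g⁻¹ : Matrix.SpecialLinearGroup (Fin n) F) : Matrix (Fin n) (Fin n) F) * (g : Matrix (Fin n) (Fin n) F) = 1 := by
  rw [← Matrix.SpecialLinearGroup.coe_mul, inv_mul_cancel, Matrix.SpecialLinearGroup.coe_one]

/-- `SL_n → Sp_{2n}`. -/
def leviSp (F : Type*) [Field F] (n : ℕ) :
    Matrix.SpecialLinearGroup (Fin n) F →* Matrix.symplecticGroup (Fin n) F where
  toFun g := ⟨leviMat F n g, by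
    change leviMat F n g * Matrix.J (Fin n) F * (leviMat F n g)ᵀ = Matrix.J (Fin n) F
    change Matrix.fromBlocks (g : Matrix (Fin n) (Fin n) F) 0 0
      ((g⁻¹ : Matrix.SpecialLinearGroup (Fin n) F) : Matrix (Fin n) (Fin n) F)ᵀ * Matrix.J (Fin n) F *
      (Matrix.fromBlocks (g : Matrix (Fin n) (Fin n) F) 0 0
      ((g⁻¹ : Matrix.SpecialLinearGroup (Fin n) F) : Matrix (Fin n) (Fin n) F)ᵀ)ᵀ = _
    rw [Matrix.J, Matrix.fromBlocks_transpose, Matrix.fromBlocks_multiply, Matrix.fromBlocks_multiply]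
    simp only [Matrix.mul_zero, Matrix.zero_mul, add_zero, zero_add, Matrix.mul_neg, Matrix.neg_mul,
      Matrix.mul_one, Matrix.transpose_zero, Matrix.transpose_transpose]
    rw [sl_mul_inv_coe, ← Matrix.transpose_mul, sl_mul_inv_coe, Matrix.transpose_one, neg_zero]⟩
  map_one' := Subtype.ext (map_one (leviMat F n))
  map_mul' g h := Subtype.ext (map_mul (leviMat F n) g h)

theorem leviSp_injective (F : Type*) [Field F] (n : ℕ) : Function.Injective (leviSp F n) := by
  intro g h hgh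
  exact leviMat_injective F n (congrArg Subtype.val hgh)

theorem quadFormPlus_levi {F : Type*} [Field F] {n : ℕ} (g : Matrix.SpecialLinearGroup (Fin n) F)
    (v : Fin n ⊕ Fin n → F) : Cfsg.quadFormPlus n F (leviMat F n g *ᵥ v) = Cfsg.quadFormPlus n F v := by
  have h1 : ∀ v : Fin n ⊕ Fin n → F, Cfsg.quadFormPlus n F v = (v ∘ Sum.inl) ⬝ᵥ (v ∘ Sum.inr) := by
    intro v; rfl
  rw [h1, h1]
  change ((Matrix.fromBlocks (g : Matrix (Fin n) (Fin n) F) 0 0
    ((g⁻¹ : Matrix.SpecialLinearGroup (Fin n) F) : Matrix (Fin n) (Fin n) F)ᵀ *ᵥ v) ∘ Sum.inl) ⬝ᵥ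
    ((Matrix.fromBlocks (g : Matrix (Fin n) (Fin n) F) 0 0
    ((g⁻¹ : Matrix.SpecialLinearGroup (Fin n) F) : Matrix (Fin n) (Fin n) F)ᵀ *ᵥ v) ∘ Sum.inr) = _
  rw [Matrix.fromBlocks_mulVec]
  simp only [Matrix.zero_mulVec, add_zero, zero_add, Sum.elim_comp_inl, Sum.elim_comp_inr]
  rw [Matrix.mulVec_transpose, dotProduct_comm, ← Matrix.dotProduct_mulVec, Matrix.mulVec_mulVec,
    sl_inv_mul_coe, Matrix.one_mulVec, dotProduct_comm]

/-- The odd Levi. -/
def leviOddMat (F : Type*) [Field F] (n : ℕ) :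
    Matrix.SpecialLinearGroup (Fin n) F →*
      Matrix (Unit ⊕ (Fin n ⊕ Fin n)) (Unit ⊕ (Fin n ⊕ Fin n)) F where
  toFun g := Matrix.fromBlocks 1 0 0 (leviMat F n g)
  map_one' := by simp
  map_mul' g h := by rw [Matrix.fromBlocks_multiply]; simp

/-- The minus Levi. -/
def leviMinusMat (F : Type*) [Field F] (n : ℕ) :
    Matrix.SpecialLinearGroup (Fin n) F →*
      Matrix ((Fin n ⊕ Fin n) ⊕ Fin 2) ((Fin n ⊕ Fin n) ⊕ Fin 2) F where
  toFun g := Matrix.fromBlocks (leviMat F n g) 0 0 1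
  map_one' := by simp
  map_mul' g h := by rw [Matrix.fromBlocks_multiply]; simp

/-- A hom of a group to matrices preserving `Q` gives a hom to the isometry group. -/
def toIsometry {G : Type*} [Group G] {ι : Type} [Fintype ι] [DecidableEq ι] {F : Type*} [Field F]
    (Q : (ι → F) → F) (φ : G →* Matrix ι ι F) (h : ∀ g v, Q (φ g *ᵥ v) = Q v) :
    G →* Cfsg.isometryGroup F Q :=
  MonoidHom.codRestrict (MonoidHom.toHomUnits φ : G →* GL ι F) (Cfsg.isometryGroup F Q)
    (fun g => by intro u v; exact h g u)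

theorem toIsometry_injective {G : Type*} [Group G] {ι : Type} [Fintype ι] [DecidableEq ι] {F : Type*} [Field F]
    (Q : (ι → F) → F) (φ : G →* Matrix ι ι F) (h : ∀ g v, Q (φ g *ᵥ v) = Q v)
    (hφ : Function.Injective φ) : Function.Injective (toIsometry Q φ h) := by
  intro a b hab
  apply hφ
  have h1 := congrArg (fun x : Cfsg.isometryGroup F Q => ((x : GL ι F) : Matrix ι ι F)) hab
  exact h1

theorem quadFormOdd_levi {F : Type*} [Field F] {n : ℕ} (g : Matrix.SpecialLinearGroup (Fin n) F)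
    (v : Unit ⊕ (Fin n ⊕ Fin n) → F) :
    Cfsg.quadFormOdd n F (leviOddMat F n g *ᵥ v) = Cfsg.quadFormOdd n F v := by
  have h1 : ∀ v : Unit ⊕ (Fin n ⊕ Fin n) → F,
      Cfsg.quadFormOdd n F v = v (.inl ()) ^ 2 + Cfsg.quadFormPlus n F (v ∘ Sum.inr) := by
    intro v; rfl
  rw [h1, h1]
  change (Matrix.fromBlocks 1 0 0 (leviMat F n g) *ᵥ v) (Sum.inl ()) ^ 2 +
    Cfsg.quadFormPlus n F ((Matrix.fromBlocks 1 0 0 (leviMat F n g) *ᵥ v) ∘ Sum.inr) = _
  rw [Matrix.fromBlocks_mulVec]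
  simp only [Matrix.zero_mulVec, add_zero, zero_add, Sum.elim_comp_inr, Sum.elim_inl, Matrix.one_mulVec,
    Function.comp_apply]
  rw [quadFormPlus_levi]

theorem quadFormMinus_levi {F : Type*} [Field F] {n : ℕ} (a b : F) (g : Matrix.SpecialLinearGroup (Fin n) F)
    (v : (Fin n ⊕ Fin n) ⊕ Fin 2 → F) :
    Cfsg.quadFormMinus n F a b (leviMinusMat F n g *ᵥ v) = Cfsg.quadFormMinus n F a b v := by
  have h1 : ∀ v : (Fin n ⊕ Fin n) ⊕ Fin 2 → F,
      Cfsg.quadFormMinus n F a b v = Cfsg.quadFormPlus n F (v ∘ Sum.inl) +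
        (v (.inr 0) ^ 2 + a * v (.inr 0) * v (.inr 1) + b * v (.inr 1) ^ 2) := by
    intro v; rfl
  rw [h1, h1]
  have h2 : leviMinusMat F n g *ᵥ v = Matrix.fromBlocks (leviMat F n g) 0 0 1 *ᵥ v := rfl
  rw [h2, Matrix.fromBlocks_mulVec]
  simp only [Matrix.zero_mulVec, add_zero, zero_add, Sum.elim_comp_inl, Sum.elim_inr, Matrix.one_mulVec,
    Function.comp_apply]
  rw [quadFormPlus_levi]

theorem leviOddMat_injective (F : Type*) [Field F] (n : ℕ) : Function.Injective (leviOddMat F n) := by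
  intro g h hgh
  exact leviMat_injective F n (Matrix.fromBlocks_inj.1 hgh).2.2.2

theorem leviMinusMat_injective (F : Type*) [Field F] (n : ℕ) : Function.Injective (leviMinusMat F n) := by
  intro g h hgh
  exact leviMat_injective F n (Matrix.fromBlocks_inj.1 hgh).1

end Cfsg.Agent.H39
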