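import Cfsg.Agent.H39.FreeLaw3

/-!
Non-laws in unitary groups.
-/

set_option autoImplicit false
set_option linter.unusedSectionVars false
set_option linter.unusedSimpArgs false

namespace Cfsg.Agent.H39

open Matrix

/-! ### permutation matrices are unitary -/

theorem perm_hermForm {F : Type*} [Field F] (n q : ℕ) (σ : Equiv.Perm (Fin n)) (u v : Fin n → F) :
    Cfsg.hermForm n F q ((σ.permMatrix F) *ᵥ u) ((σ.permMatrix F) *ᵥ v) = Cfsg.hermForm n F q u v := by
  rw [Matrix.permMatrix_mulVec, Matrix.permMatrix_mulVec]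
  exact Equiv.sum_comp σ (fun i => u i * (v i) ^ q)

/-- `A_n → SU_n`. -/
def altSU (F : Type*) [Field F] (n q : ℕ) : alternatingGroup (Fin n) →* Cfsg.SU n F q :=
  MonoidHom.codRestrict (altSL F n) (Cfsg.SU n F q) (fun σ => by
    intro u v
    exact perm_hermForm n q ((σ : Equiv.Perm (Fin n))⁻¹) u v)

theorem altSU_injective (F : Type*) [Field F] (n q : ℕ) : Function.Injective (altSU F n q) := by
  intro σ τ h
  exact altSL_injective F n (congrArg Subtype.val h)

/-! ### the block embedding and hermitian forms -/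

theorem hermForm_blk {F : Type*} [Field F] {n : ℕ} (hn : 2 ≤ n) (q : ℕ) (u v : Fin n → F)
    (A : Matrix (Fin 2) (Fin 2) F)
    (hA : ∀ x y : Fin 2 → F, Cfsg.hermForm 2 F q (A *ᵥ x) (A *ᵥ y) = Cfsg.hermForm 2 F q x y) :
    Cfsg.hermForm n F q (blkHom F hn A *ᵥ u) (blkHom F hn A *ᵥ v) = Cfsg.hermForm n F q u v := by
  have h1 : ∀ u v : Fin n → F, Cfsg.hermForm n F q u v =
      Cfsg.hermForm 2 F q (fun i => u (blkEquiv hn (Sum.inl i))) (fun i => v (blkEquiv hn (Sum.inl i))) +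
      ∑ i : Fin (n - 2), u (blkEquiv hn (Sum.inr i)) * (v (blkEquiv hn (Sum.inr i))) ^ q := by
    intro u v
    unfold Cfsg.hermForm
    rw [← Equiv.sum_comp (blkEquiv hn), Fintype.sum_sum_type]
  have h2 : ∀ (u : Fin n → F) (j : Fin 2 ⊕ Fin (n - 2)), (blkHom F hn A *ᵥ u) (blkEquiv hn j) =
      (Matrix.fromBlocks A 0 0 1 *ᵥ (u ∘ blkEquiv hn)) j := by
    intro u j
    change (Matrix.reindex (blkEquiv hn) (blkEquiv hn) (Matrix.fromBlocks A 0 0 1) *ᵥ u) (blkEquiv hn j) = _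
    rw [Matrix.reindex_apply, Matrix.submatrix_mulVec_equiv]
    simp
  rw [h1, h1]
  simp only [h2, Matrix.fromBlocks_mulVec, Sum.elim_inl, Sum.elim_inr, Matrix.zero_mulVec, add_zero, zero_add,
    Matrix.one_mulVec]
  congr 1
  exact hA _ _

/-! ### `SL₂(q)` inside `SU₂(q)` -/

open HermField

theorem exists_P {F : Type*} [Field F] [Fintype F] {q : ℕ} (hF : Fintype.card F = q ^ 2) :
    ∃ (P P' : Matrix (Fin 2) (Fin 2) F) (δ : F), P * P' = 1 ∧
      ∀ x y : Fin 2 → F, Cfsg.hermForm 2 F q (P *ᵥ x) (P *ᵥ y) = δ * (x 0 * y 1 ^ q - x 1 * y 0 ^ q) := by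
  have h2 := two_le hF
  obtain ⟨x₀, hx₀⟩ := exists_not_fixed hF
  have hx00 : x₀ ≠ 0 := by
    rintro rfl
    exact hx₀ (zero_pow' hF)
  obtain ⟨a, ha⟩ := norm_surj hF (-1 : F) (by rw [neg_pow' hF, one_pow])
  set ζ := x₀ ^ (q - 1) with hζ
  have hζ1 : ζ ≠ 1 := by
    intro h
    apply hx₀
    calc x₀ ^ q = x₀ ^ (q - 1) * x₀ := by rw [← pow_succ, show q - 1 + 1 = q by omega]
      _ = x₀ := by rw [← hζ, h, one_mul]
  have hζn : ζ ^ q * ζ = 1 := by
    have h3 : ζ ^ (q + 1) * x₀ ^ 1 = 1 * x₀ ^ 1 := by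
      rw [hζ, ← pow_mul, ← pow_add]
      have : (q - 1) * (q + 1) + 1 = q ^ 2 := by
        obtain ⟨r, rfl⟩ : ∃ r, q = r + 1 := ⟨q - 1, by omega⟩
        simp only [Nat.add_sub_cancel]; ring
      rw [this, ← hF, FiniteField.pow_card, one_mul, pow_one]
    rw [← pow_succ]
    exact mul_right_cancel₀ (pow_ne_zero _ hx00) h3
  have hζq1 : ζ ^ q ≠ 1 := by
    intro h
    rw [h, one_mul] at hζn
    exact hζ1 hζn
  set δ := x₀ - x₀ ^ q with hδ
  have hδ0 : δ ≠ 0 := sub_ne_zero.2 (Ne.symm hx₀)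
  have hδq : δ ^ q = -δ := by
    rw [hδ, sub_pow' hF, pow_pow hF]; ring
  have hc : 1 - ζ ^ q ≠ 0 := sub_ne_zero.2 (Ne.symm hζq1)
  set l := (δ / (1 - ζ ^ q)) ^ q with hl
  have hlq : l ^ q * (1 - ζ ^ q) = δ := by
    rw [hl, pow_pow hF]; field_simp
  have hl0 : l ≠ 0 := by
    intro h
    rw [h, zero_pow' hF, zero_mul] at hlq
    exact hδ0 hlq.symm
  have ha' : a ^ q * a = -1 := by rw [← pow_succ, ha]
  have ha0 : a ≠ 0 := by
    rintro rfl
    rw [mul_zero] at ha'
    have : (1 : F) = 0 := by linear_combination ha'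
    exact one_ne_zero this
  have hlq' : l * (1 - ζ) = -δ := by
    have h4 := congrArg (· ^ q) hlq
    simp only [mul_pow, sub_pow' hF, one_pow, pow_pow hF, hδq] at h4
    exact h4
  set P : Matrix (Fin 2) (Fin 2) F := !![1, l; a, l * (ζ * a)] with hP
  have hdet : P.det ≠ 0 := by
    rw [hP, det_fin_two_of]
    have : 1 * (l * (ζ * a)) - l * a = - (l * a * (1 - ζ)) := by ring
    rw [this]
    exact neg_ne_zero.2 (mul_ne_zero (mul_ne_zero hl0 ha0) (sub_ne_zero.2 (Ne.symm hζ1)))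
  refine ⟨P, P⁻¹, δ, Matrix.mul_nonsing_inv P (isUnit_iff_ne_zero.2 hdet), fun x y => ?_⟩
  have e1 : ∀ x : Fin 2 → F, (P *ᵥ x) 0 = x 0 + l * x 1 := by
    intro x; simp [hP, Matrix.mulVec, dotProduct, Fin.sum_univ_two]
  have e2 : ∀ x : Fin 2 → F, (P *ᵥ x) 1 = a * x 0 + l * (ζ * a) * x 1 := by
    intro x; simp [hP, Matrix.mulVec, dotProduct, Fin.sum_univ_two]
  unfold Cfsg.hermForm
  rw [Fin.sum_univ_two, e1, e2, e1, e2, HermField.add_pow hF, HermField.add_pow hF]
  simp only [mul_pow]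
  -- x0 y0 (1 + a a^q) + x0 y1^q l^q (1 + a ζ^q a^q) + x1 y0^q l (1 + ζ a a^q) + x1 y1^q l l^q (1 + ζ ζ^q a a^q)
  linear_combination (x 0 * y 0 ^ q + x 0 * y 1 ^ q * l ^ q * ζ ^ q + x 1 * y 0 ^ q * l * ζ + x 1 * y 1 ^ q * l * l ^ q * ζ * ζ ^ q) * ha'
    + (x 0 * y 1 ^ q) * hlq + (x 1 * y 0 ^ q) * hlq' - (x 1 * y 1 ^ q * l * l ^ q) * hζn

/-- `SL₂(q) → SL₂(q²)` conjugated into `SU₂`. -/
noncomputable def slConj {F : Type*} [Field F] [Fintype F] {q : ℕ} (hF : Fintype.card F = q ^ 2)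
    (P P' : Matrix (Fin 2) (Fin 2) F) (h : P * P' = 1) :
    Matrix.SpecialLinearGroup (Fin 2) (fixedField hF) →* Matrix (Fin 2) (Fin 2) F where
  toFun g := P * ((Matrix.SpecialLinearGroup.map (fixedField hF).subtype g :
    Matrix.SpecialLinearGroup (Fin 2) F) : Matrix (Fin 2) (Fin 2) F) * P'
  map_one' := by simp [h]
  map_mul' a b := by
    have h' : P' * P = 1 := mul_eq_one_comm.1 h
    rw [map_mul, Matrix.SpecialLinearGroup.coe_mul]
    calc _ = P * ((Matrix.SpecialLinearGroup.map (fixedField hF).subtype a :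
        Matrix.SpecialLinearGroup (Fin 2) F) : Matrix (Fin 2) (Fin 2) F) * (P' * P) * (
        ((Matrix.SpecialLinearGroup.map (fixedField hF).subtype b :
        Matrix.SpecialLinearGroup (Fin 2) F) : Matrix (Fin 2) (Fin 2) F)) * P' := by
          rw [h']; simp only [Matrix.mul_assoc, Matrix.one_mul]
      _ = _ := by simp only [Matrix.mul_assoc]

theorem slConj_injective {F : Type*} [Field F] [Fintype F] {q : ℕ} (hF : Fintype.card F = q ^ 2)
    (P P' : Matrix (Fin 2) (Fin 2) F) (h : P * P' = 1) : Function.Injective (slConj hF P P' h) := by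
  have h' : P' * P = 1 := mul_eq_one_comm.1 h
  intro a b hab
  have h1 : P' * (slConj hF P P' h a) * P = P' * (slConj hF P P' h b) * P := by rw [hab]
  have h2 : ∀ g, P' * (slConj hF P P' h g) * P = ((Matrix.SpecialLinearGroup.map (fixedField hF).subtype g :
    Matrix.SpecialLinearGroup (Fin 2) F) : Matrix (Fin 2) (Fin 2) F) := by
    intro g
    calc P' * (slConj hF P P' h g) * P = (P' * P) * ((Matrix.SpecialLinearGroup.map (fixedField hF).subtype g :
        Matrix.SpecialLinearGroup (Fin 2) F) : Matrix (Fin 2) (Fin 2) F) * (P' * P) := by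
          change P' * (P * _ * P') * P = _
          simp only [Matrix.mul_assoc]
      _ = _ := by rw [h', Matrix.one_mul, Matrix.mul_one]
  rw [h2, h2] at h1
  ext i j
  have h3 := congrFun (congrFun h1 i) j
  simpa using h3

/-- `SL₂(q) → SU_n(q)`. -/
noncomputable def slSU {F : Type*} [Field F] [Fintype F] {q : ℕ} (hF : Fintype.card F = q ^ 2) {n : ℕ} (hn : 2 ≤ n)
    (P P' : Matrix (Fin 2) (Fin 2) F) (h : P * P' = 1) (δ : F)
    (hP : ∀ x y : Fin 2 → F, Cfsg.hermForm 2 F q (P *ᵥ x) (P *ᵥ y) = δ * (x 0 * y 1 ^ q - x 1 * y 0 ^ q)) :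
    Matrix.SpecialLinearGroup (Fin 2) (fixedField hF) →* Cfsg.SU n F q where
  toFun g := ⟨⟨blkHom F hn (slConj hF P P' h g), by
    rw [blkHom_det]
    change (P * _ * P').det = 1
    rw [det_mul, det_mul, Matrix.SpecialLinearGroup.det_coe, mul_one, ← det_mul, h, det_one]⟩, by
    intro u v
    refine hermForm_blk hn q u v _ ?_
    intro x y
    have hPP : ∀ z : Fin 2 → F, P *ᵥ (P' *ᵥ z) = z := by
      intro z; rw [Matrix.mulVec_mulVec, h, Matrix.one_mulVec]
    set A : Matrix (Fin 2) (Fin 2) F := ((Matrix.SpecialLinearGroup.map (fixedField hF).subtype g :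
        Matrix.SpecialLinearGroup (Fin 2) F) : Matrix (Fin 2) (Fin 2) F) with hA
    have hAdet : A 0 0 * A 1 1 - A 0 1 * A 1 0 = 1 := by
      rw [← det_fin_two, hA, Matrix.SpecialLinearGroup.det_coe]
    have hAq : ∀ i j, (A i j) ^ q = A i j := by
      intro i j
      exact (g i j).2
    have h3 : ∀ z : Fin 2 → F, slConj hF P P' h g *ᵥ z = P *ᵥ (A *ᵥ (P' *ᵥ z)) := by
      intro z
      change (P * A * P') *ᵥ z = _
      rw [Matrix.mulVec_mulVec, Matrix.mulVec_mulVec, Matrix.mul_assoc]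
    rw [h3, h3, hP]
    conv_rhs => rw [← hPP x, ← hPP y, hP]
    set x' := P' *ᵥ x
    set y' := P' *ᵥ y
    have e1 : ∀ (z : Fin 2 → F) (i : Fin 2), (A *ᵥ z) i = A i 0 * z 0 + A i 1 * z 1 := by
      intro z i; simp [Matrix.mulVec, dotProduct, Fin.sum_univ_two]
    rw [e1, e1, e1, e1, HermField.add_pow hF, HermField.add_pow hF]
    simp only [mul_pow, hAq]
    linear_combination δ * (x' 0 * y' 1 ^ q - x' 1 * y' 0 ^ q) * hAdet⟩
  map_one' := by
    apply Subtype.ext
    apply Subtype.ext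
    change blkHom F hn (slConj hF P P' h 1) = 1
    rw [map_one, map_one]
  map_mul' a b := by
    apply Subtype.ext
    apply Subtype.ext
    change blkHom F hn (slConj hF P P' h (a * b)) = blkHom F hn (slConj hF P P' h a) * blkHom F hn (slConj hF P P' h b)
    rw [map_mul, map_mul]

theorem slSU_injective {F : Type*} [Field F] [Fintype F] {q : ℕ} (hF : Fintype.card F = q ^ 2) {n : ℕ} (hn : 2 ≤ n)
    (P P' : Matrix (Fin 2) (Fin 2) F) (h : P * P' = 1) (δ : F)
    (hP : ∀ x y : Fin 2 → F, Cfsg.hermForm 2 F q (P *ᵥ x) (P *ᵥ y) = δ * (x 0 * y 1 ^ q - x 1 * y 0 ^ q)) :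
    Function.Injective (slSU hF hn P P' h δ hP) := by
  intro a b hab
  have h1 := congrArg (fun x : Cfsg.SU n F q => ((x : Matrix.SpecialLinearGroup (Fin n) F) : Matrix (Fin n) (Fin n) F)) hab
  exact slConj_injective hF P P' h (blkHom_injective F hn h1)

theorem su_not_law (w : FreeGroup ℕ) (hw : w ≠ 1) (F : Type*) [Field F] [Fintype F] (n q : ℕ) (hn : 2 ≤ n)
    (hF : Fintype.card F = q ^ 2) (h : sl2Bound w ≤ q ∨ dimBound w hw ≤ n) :
    ∃ f : ℕ → Cfsg.SU n F q, FreeGroup.lift f w ≠ 1 := by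
  rcases h with h | h
  · obtain ⟨P, P', δ, hPP, hP⟩ := exists_P hF
    haveI : Fintype (fixedField hF) := Fintype.ofFinite _
    refine not_law_of_injective (slSU hF hn P P' hPP δ hP) (slSU_injective hF hn P P' hPP δ hP) w
      (sl2_not_law' w hw (fixedField hF) ?_)
    rw [← Nat.card_eq_fintype_card, card_fixedField hF]
    exact h
  · exact not_law_of_injective (altSU F n q) (altSU_injective F n q) w (dimBound_spec w hw n h)

end Cfsg.Agent.H39
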