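import Mathlib
import Cfsg.Agent.H99.OrthUnip
import Cfsg.Agent.H99.CharTwoQ
import Cfsg.Agent.Orth.Types
import Cfsg.Agent.Orth.Witt
import Cfsg.Agent.Orth.Diag

/-!
Quadratic spaces over finite fields: embeddings, hyperbolic subspaces.
-/

set_option autoImplicit false

namespace Cfsg.Agent.H39.OE

open Module QuadraticMap Cfsg.Agent.Orth

section basic
variable {F : Type*} [Field F] {V : Type*} [AddCommGroup V] [Module F V]

/-- nondegenerate subspaces -/
abbrev Nd (Q : QuadraticForm F V) (W : Submodule F V) : Prop := H99.ND (fun u v : V => polar Q u v) W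

lemma of (Q : QuadraticForm F V) : H99.OForm (fun u v : V => polar Q u v) := (H99.polar_eform Q).oform

lemma nd_restrict {Q : QuadraticForm F V} {W : Submodule F V} (h : Nd Q W) : (polarBilin (Q.restrict W)).Nondegenerate := by
  apply nondegenerate_restrict
  rw [eq_bot_iff]
  rintro x ⟨hx, hx'⟩
  exact (Submodule.mem_bot F).mpr (h x hx (fun v hv => (pc Q x v).trans (hx' v hv)))

lemma nd_of_nondeg {Q : QuadraticForm F V} (h : (polarBilin Q).Nondegenerate) : Nd Q ⊤ := H99.ND_polar h

lemma inj_of {T : Type*} [AddCommGroup T] [Module F T] {QT : QuadraticForm F T} (hT : (polarBilin QT).Nondegenerate) {Q : QuadraticForm F V}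
    {f : T →ₗ[F] V} (hf : ∀ t, Q (f t) = QT t) : Function.Injective f := by
  rw [← LinearMap.ker_eq_bot, LinearMap.ker_eq_bot']
  intro x hx
  refine hT.1 x fun y => ?_
  have h1 := polar_of_isom hf x y
  rw [hx, polar_zero_left] at h1
  exact h1.symm

lemma nd_range {T : Type*} [AddCommGroup T] [Module F T] {QT : QuadraticForm F T} (hT : (polarBilin QT).Nondegenerate) {Q : QuadraticForm F V}
    {f : T →ₗ[F] V} (hf : ∀ t, Q (f t) = QT t) : Nd Q (LinearMap.range f) := by
  rintro _ ⟨t, rfl⟩ h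
  have : t = 0 := hT.1 t fun y => by
    rw [← h (f y) ⟨y, rfl⟩]
    exact (polar_of_isom hf t y).symm
  rw [this, map_zero]

/-- a linear map determined on a basis preserving the Gram data is an isometry -/
lemma isom_constr {T ι : Type*} [AddCommGroup T] [Module F T] {QT : QuadraticForm F T} {Q : QuadraticForm F V} (b : Basis ι F T) (w : ι → V)
    (hq : ∀ i, Q (w i) = QT (b i)) (hp : ∀ i j, polar Q (w i) (w j) = polar QT (b i) (b j)) (t : T) : Q (b.constr F w t) = QT t := by
  have hQf : Q.comp (b.constr F w) = QT := by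
    refine qf_ext_basis b (fun i => ?_) (fun i j => ?_)
    · rw [QuadraticMap.comp_apply, Basis.constr_basis, hq]
    · have h1 : polar (Q.comp (b.constr F w)) (b i) (b j) = polar Q (w i) (w j) := by
        simp only [QuadraticMap.polar, QuadraticMap.comp_apply, map_add, Basis.constr_basis]
      rw [h1, hp]
  have := QuadraticMap.congr_fun hQf t
  rwa [QuadraticMap.comp_apply] at this

end basic

section finite
variable {F : Type*} [Field F] [Finite F] {V : Type*} [AddCommGroup V] [Module F V] [FiniteDimensional F V]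
variable {T : Type*} [AddCommGroup T] [Module F T] [FiniteDimensional F T]

/-- embedding into nondegenerate spaces of larger dimension, odd characteristic -/
theorem embed_odd (h2 : (2 : F) ≠ 0) {QT : QuadraticForm F T} (hT : (polarBilin QT).Nondegenerate) {Q : QuadraticForm F V}
    (hQ : (polarBilin Q).Nondegenerate) (hlt : finrank F T < finrank F V) : ∃ f : T →ₗ[F] V, ∀ t, Q (f t) = QT t := by
  rcases Nat.eq_zero_or_pos (finrank F T) with h0 | hpos
  · have : Subsingleton T := finrank_zero_iff.mp h0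
    refine ⟨0, fun t => ?_⟩
    rw [Subsingleton.elim t 0, map_zero, QuadraticMap.map_zero, QuadraticMap.map_zero]
  obtain ⟨k, hk⟩ : ∃ k, finrank F T = k + 1 := ⟨finrank F T - 1, by omega⟩
  obtain ⟨b, d, hd, hb, hbq⟩ := exists_diag_basis hT h2 hk
  obtain ⟨w, hw, hwq⟩ := exists_isOrth_one hQ h2 k (by omega)
  have h3 := hw.inf_perp h2
  have h4 := finrank_perp hQ (Submodule.span F (Set.range w))
  rw [hw.finrank h2, Fintype.card_fin] at h4
  have h5 := nondegenerate_restrict (perp_inf_eq_bot hQ h3)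
  obtain ⟨⟨y, hy⟩, hyq⟩ := exists_q_eq h5 (by omega) d
  have hyq' : Q y = d := hyq
  rw [mem_perp_span] at hy
  have h6 := hw.snoc hy (by rw [hyq']; exact hd)
  have h7 : ∀ i, Q ((Fin.snoc w y : Fin (k + 1) → V) i) = QT (b i) := by
    intro i
    rw [hbq]
    refine Fin.lastCases ?_ (fun i => ?_) i
    · rw [Fin.snoc_last, if_pos rfl, hyq']
    · rw [Fin.snoc_castSucc, if_neg (Fin.castSucc_lt_last i).ne, hwq]
  refine ⟨b.constr F (Fin.snoc w y : Fin (k + 1) → V), isom_constr b _ h7 ?_⟩
  intro i j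
  by_cases hij : i = j
  · subst hij
    rw [pself, pself, h7]
  · rw [h6.p i j hij, hb.p i j hij]

/-- embedding into nondegenerate spaces of larger dimension, characteristic two -/
theorem embed_even (h2 : (2 : F) = 0) {QT : QuadraticForm F T} (hT : (polarBilin QT).Nondegenerate) {Q : QuadraticForm F V}
    (hQ : (polarBilin Q).Nondegenerate) (hlt : finrank F T < finrank F V) (hTe : Even (finrank F T)) (hVe : Even (finrank F V)) :
    ∃ f : T →ₗ[F] V, ∀ t, Q (f t) = QT t := by
  rcases Nat.eq_zero_or_pos (finrank F T) with h0 | hpos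
  · have : Subsingleton T := finrank_zero_iff.mp h0
    refine ⟨0, fun t => ?_⟩
    rw [Subsingleton.elim t 0, map_zero, QuadraticMap.map_zero, QuadraticMap.map_zero]
  obtain ⟨k, hk⟩ : ∃ k, finrank F T = 2 * k + 2 := by
    obtain ⟨a, ha⟩ := hTe
    exact ⟨a - 1, by omega⟩
  obtain ⟨e, f, hH⟩ := exists_isHyp hT k (by omega)
  have h3 := finrank_perp hT (hypSpan F e f)
  rw [hH.finrank, Fintype.card_fin] at h3
  have h4 := nondegenerate_restrict (perp_inf_eq_bot hT hH.inf_perp)
  have hnt : Nontrivial (perp QT (hypSpan F e f)) := Module.nontrivial_of_finrank_pos (R := F) (by omega)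
  obtain ⟨x, hx0⟩ := exists_ne (0 : perp QT (hypSpan F e f))
  obtain ⟨y', hy'⟩ : ∃ y, polar (QT.restrict (perp QT (hypSpan F e f))) x y ≠ 0 := by
    by_contra hcon
    push Not at hcon
    exact hx0 (h4.1 x hcon)
  obtain ⟨y, hxy⟩ : ∃ y : perp QT (hypSpan F e f), polar QT (x : T) (y : T) = 1 := by
    refine ⟨(polar (QT.restrict (perp QT (hypSpan F e f))) x y')⁻¹ • y', ?_⟩
    rw [Submodule.coe_smul, psr]
    exact inv_mul_cancel₀ hy'
  have hyx : polar QT (y : T) (x : T) = 1 := by rw [pc]; exact hxy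
  have hself : ∀ (R : QuadraticForm F T) (z : T), polar R z z = 0 := fun R z => by rw [pself, h2, zero_mul]
  have hselfV : ∀ (z : V), polar Q z z = 0 := fun z => by rw [pself, h2, zero_mul]
  have hli2 : LinearIndependent F (![(x : T), (y : T)] : Fin 2 → T) := by
    rw [LinearIndependent.pair_iff]
    intro s t hst
    have e1 := congrArg (fun z => polar QT z (y : T)) hst
    have e2 := congrArg (fun z => polar QT z (x : T)) hst
    simp only [pal, psl, polar_zero_left, hxy, hyx, hself, mul_zero, mul_one, add_zero, zero_add] at e1 e2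
    exact ⟨e1, e2⟩
  have hu : ∀ i, (![(x : T), (y : T)] : Fin 2 → T) i ∈ perp QT (hypSpan F e f) := by
    intro i
    fin_cases i
    · exact x.2
    · exact y.2
  have hli := hH.li_sum hu hli2
  let b := basisOfLinearIndependentOfCardEqFinrank hli (by simp [hk]; ring)
  have hb : ∀ i, b i = Sum.elim (Sum.elim e f) ![(x : T), (y : T)] i := by
    intro i
    simp only [b, coe_basisOfLinearIndependentOfCardEqFinrank]
  -- the target
  obtain ⟨c, hc⟩ := hVe
  obtain ⟨e', f', hH'⟩ := exists_isHyp hQ (k + 1) (by omega)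
  have g3 := finrank_perp hQ (hypSpan F e' f')
  rw [hH'.finrank, Fintype.card_fin] at g3
  have g4 := nondegenerate_restrict (perp_inf_eq_bot hQ hH'.inf_perp)
  obtain ⟨w, hw⟩ := exists_q_eq g4 (by omega) (QT (y : T))
  have hw' : Q (w : V) = QT (y : T) := hw
  have hwp := mem_perp_hypSpan.mp w.2
  have hwp' : ∀ i, polar Q (w : V) (e' i) = 0 ∧ polar Q (w : V) (f' i) = 0 := fun i => by
    rw [pc, (hwp i).1, pc, (hwp i).2]
    exact ⟨rfl, rfl⟩
  have hxp := mem_perp_hypSpan.mp x.2
  have hyp := mem_perp_hypSpan.mp y.2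
  have hxp' : ∀ i, polar QT (x : T) (e i) = 0 ∧ polar QT (x : T) (f i) = 0 := fun i => by
    rw [pc, (hxp i).1, pc, (hxp i).2]
    exact ⟨rfl, rfl⟩
  have hyp' : ∀ i, polar QT (y : T) (e i) = 0 ∧ polar QT (y : T) (f i) = 0 := fun i => by
    rw [pc, (hyp i).1, pc, (hyp i).2]
    exact ⟨rfl, rfl⟩
  let l := Fin.last k
  let u1 : V := e' l + QT (x : T) • f' l
  let u2 : V := f' l + (w : V)
  have q1 : Q u1 = QT (x : T) := by
    simp only [u1]
    rw [qadd, hH'.qe, qsmul, hH'.qf, psr, hH'.ef, if_pos rfl]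
    ring
  have q2 : Q u2 = QT (y : T) := by
    simp only [u2]
    rw [qadd, hH'.qf, hw', (hwp l).2]
    ring
  have q3 : polar Q u1 u2 = 1 := by
    simp only [u1, u2]
    rw [pal, par, par, psl, psl, hH'.ef, if_pos rfl, (hwp l).1, (hwp l).2, hselfV]
    ring
  have hne : ∀ i : Fin k, Fin.castSucc i ≠ l := fun i => (Fin.castSucc_lt_last i).ne
  have q4 : ∀ i : Fin k, polar Q (e' (Fin.castSucc i)) u1 = 0 ∧ polar Q (f' (Fin.castSucc i)) u1 = 0 := by
    intro i
    simp only [u1]
    rw [par, par, psr, psr, hH'.ee, hH'.ef, if_neg (hne i), hH'.fe, if_neg (hne i), hH'.ff]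
    constructor <;> ring
  have q5 : ∀ i : Fin k, polar Q (e' (Fin.castSucc i)) u2 = 0 ∧ polar Q (f' (Fin.castSucc i)) u2 = 0 := by
    intro i
    simp only [u2]
    rw [par, par, hH'.ef, if_neg (hne i), hH'.ff, (hwp _).1, (hwp _).2]
    constructor <;> ring
  let fam : (Fin k ⊕ Fin k) ⊕ Fin 2 → V := Sum.elim (Sum.elim (fun i => e' (Fin.castSucc i)) (fun i => f' (Fin.castSucc i))) ![u1, u2]
  refine ⟨b.constr F fam, isom_constr b fam ?_ ?_⟩
  · rintro ((i | i) | i)
    · rw [hb]
      exact (hH'.qe _).trans (hH.qe _).symm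
    · rw [hb]
      exact (hH'.qf _).trans (hH.qf _).symm
    · rw [hb]
      fin_cases i
      · exact q1
      · exact q2
  · rintro ((i | i) | i) ((j | j) | j)
    · rw [hb, hb]
      exact (hH'.ee _ _).trans (hH.ee _ _).symm
    · rw [hb, hb]
      refine (hH'.ef _ _).trans (Eq.trans ?_ (hH.ef _ _).symm)
      simp only [Fin.castSucc_inj]
    · rw [hb, hb]
      fin_cases j
      · exact (q4 i).1.trans (hxp i).1.symm
      · exact (q5 i).1.trans (hyp i).1.symm
    · rw [hb, hb]
      refine (hH'.fe _ _).trans (Eq.trans ?_ (hH.fe _ _).symm)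
      simp only [Fin.castSucc_inj]
    · rw [hb, hb]
      exact (hH'.ff _ _).trans (hH.ff _ _).symm
    · rw [hb, hb]
      fin_cases j
      · exact (q4 i).2.trans (hxp i).2.symm
      · exact (q5 i).2.trans (hyp i).2.symm
    · rw [hb, hb]
      fin_cases i
      · exact (pc _ _ _).trans ((q4 j).1.trans (hxp' j).1.symm)
      · exact (pc _ _ _).trans ((q5 j).1.trans (hyp' j).1.symm)
    · rw [hb, hb]
      fin_cases i
      · exact (pc _ _ _).trans ((q4 j).2.trans (hxp' j).2.symm)
      · exact (pc _ _ _).trans ((q5 j).2.trans (hyp' j).2.symm)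
    · rw [hb, hb]
      fin_cases i <;> fin_cases j
      · exact (hselfV u1).trans (hself _ _).symm
      · exact q3.trans hxy.symm
      · exact (pc _ _ _).trans (q3.trans hyx.symm)
      · exact (hselfV u2).trans (hself _ _).symm

/-- parity conditions under which everything works -/
def Good (F : Type*) [Field F] (a b : ℕ) : Prop := (2 : F) ≠ 0 ∨ (Even a ∧ Even b)

theorem embed {QT : QuadraticForm F T} (hT : (polarBilin QT).Nondegenerate) {Q : QuadraticForm F V}
    (hQ : (polarBilin Q).Nondegenerate) (hlt : finrank F T < finrank F V) (hg : (2 : F) ≠ 0 ∨ Even (finrank F T) ∧ Even (finrank F V)) :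
    ∃ f : T →ₗ[F] V, ∀ t, Q (f t) = QT t := by
  by_cases h2 : (2 : F) = 0
  · obtain ⟨h3, h4⟩ := hg.resolve_left (fun h => h h2)
    exact embed_even h2 hT hQ hlt h3 h4
  · exact embed_odd h2 hT hQ hlt

/-- version for subspaces -/
theorem embed_sub {QT : QuadraticForm F T} (hT : (polarBilin QT).Nondegenerate) {Q : QuadraticForm F V} {W : Submodule F V}
    (hW : Nd Q W) (hlt : finrank F T < finrank F W) (hg : (2 : F) ≠ 0 ∨ Even (finrank F T) ∧ Even (finrank F W)) :
    ∃ f : T →ₗ[F] V, (∀ t, f t ∈ W) ∧ ∀ t, Q (f t) = QT t := by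
  obtain ⟨f, hf⟩ := embed hT (nd_restrict hW) hlt hg
  exact ⟨W.subtype ∘ₗ f, fun t => (f t).2, fun t => hf t⟩

/-- combination of embeddings -/
theorem embed_comb {QT : QuadraticForm F T} (hT : (polarBilin QT).Nondegenerate) {Q : QuadraticForm F V} {A W₂ : Submodule F V}
    (hA : Nd Q A) (hW₂ : Nd Q W₂) (horth : ∀ a ∈ A, ∀ w ∈ W₂, polar Q a w = 0) {m₁ : ℕ} (hm₁ : 0 < m₁) (hlt : m₁ < finrank F A)
    (hdim : finrank F T = m₁ + finrank F W₂) (hg : (2 : F) ≠ 0 ∨ Even m₁ ∧ Even (finrank F W₂) ∧ Even (finrank F A)) :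
    ∃ f : T →ₗ[F] V, (∀ t, Q (f t) = QT t) ∧ ∃ W₁ ≤ A, finrank F W₁ = m₁ ∧ LinearMap.range f = W₁ ⊔ W₂ := by
  obtain ⟨g, hg1⟩ := embed (nd_restrict hW₂) hT (by omega) (by
    rcases hg with h | ⟨h1, h3, h4⟩
    · exact Or.inl h
    · exact Or.inr ⟨h3, by rw [hdim]; exact h1.add h3⟩)
  have hinj : Function.Injective g := inj_of (nd_restrict hW₂) hg1
  have hNd := nd_range (nd_restrict hW₂) hg1
  have hc := H99.isCompl_orth (of QT) hNd
  have hr : finrank F (LinearMap.range g) = finrank F W₂ := LinearMap.finrank_range_of_inj hinj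
  have hs := Submodule.finrank_add_eq_of_isCompl hc
  have hNd2 : Nd QT (H99.orth (of QT) (LinearMap.range g)) := by
    have h1 := H99.split_ND_compl (of QT) (nd_of_nondeg hT) hNd le_top
    rwa [top_inf_eq] at h1
  obtain ⟨f₁, hf₁, hf₁'⟩ := embed_sub (nd_restrict hNd2) hA (by omega) (by
    rcases hg with h | ⟨h1, h3, h4⟩
    · exact Or.inl h
    · refine Or.inr ⟨?_, h4⟩
      have : finrank F (H99.orth (of QT) (LinearMap.range g)) = m₁ := by omega
      rw [this]
      exact h1)
  let g' : W₂ ≃ₗ[F] LinearMap.range g := LinearEquiv.ofInjective g hinj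
  let f : T →ₗ[F] V := LinearMap.ofIsCompl hc (W₂.subtype ∘ₗ g'.symm.toLinearMap) f₁
  have hl : ∀ a : LinearMap.range g, f (a : T) = ((g'.symm a : W₂) : V) := fun a => by
    simp only [f]
    rw [LinearMap.ofIsCompl_apply_left]
    rfl
  have hr' : ∀ b : H99.orth (of QT) (LinearMap.range g), f (b : T) = f₁ b := fun b => by
    simp only [f]
    rw [LinearMap.ofIsCompl_apply_right]
  have hf : ∀ t, Q (f t) = QT t := by
    intro t
    obtain ⟨a, b, hab⟩ := H99.exists_add_of_isCompl hc t
    have e2 : polar QT (a : T) (b : T) = 0 := by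
      rw [pc]
      exact b.2 a a.2
    have e3 : polar Q ((g'.symm a : W₂) : V) (f₁ b) = 0 := by
      rw [pc]
      exact horth _ (hf₁ _) _ (g'.symm a).2
    have e4 : QT (a : T) = Q ((g'.symm a : W₂) : V) := by
      have : (a : T) = g (g'.symm a) := by
        have h1 : g' (g'.symm a) = a := g'.apply_symm_apply a
        exact (congrArg Subtype.val h1).symm
      rw [this, hg1]
      rfl
    rw [hab, map_add, hl, hr', qadd, qadd, e2, e3, hf₁', e4]
    rfl
  refine ⟨f, hf, LinearMap.range f₁, ?_, ?_, ?_⟩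
  · rintro _ ⟨t, rfl⟩
    exact hf₁ t
  · rw [LinearMap.finrank_range_of_inj (inj_of (nd_restrict hNd2) hf₁')]
    omega
  · apply le_antisymm
    · rintro _ ⟨t, rfl⟩
      obtain ⟨a, b, hab⟩ := H99.exists_add_of_isCompl hc t
      rw [hab, map_add, hl, hr', add_comm]
      exact Submodule.add_mem_sup ⟨_, rfl⟩ (Submodule.coe_mem _)
    · apply sup_le
      · rintro _ ⟨t, rfl⟩
        exact ⟨(t : T), hr' t⟩
      · intro w hw
        refine ⟨((g' ⟨w, hw⟩ : LinearMap.range g) : T), ?_⟩
        rw [hl, LinearEquiv.symm_apply_apply]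

end finite

end Cfsg.Agent.H39.OE
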