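import Mathlib
import Cfsg.Agent.H39.OE1

/-!
Quadratic spaces over finite fields: hyperbolic (plus type) subspaces.
-/

set_option autoImplicit false

namespace Cfsg.Agent.H39.OE

open Module QuadraticMap Cfsg.Agent.Orth

section basic
variable {F : Type*} [Field F] {V : Type*} [AddCommGroup V] [Module F V] [FiniteDimensional F V]

/-- plus type subspaces -/
def PT (Q : QuadraticForm F V) (W : Submodule F V) : Prop := ∃ U ≤ W, TS Q U ∧ 2 * finrank F U = finrank F W

lemma PT_bot (Q : QuadraticForm F V) : PT Q (⊥ : Submodule F V) := by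
  refine ⟨⊥, le_rfl, ?_, by rw [finrank_bot]⟩
  intro u hu
  rw [(Submodule.mem_bot F).mp hu, QuadraticMap.map_zero]

lemma TS_sup {Q : QuadraticForm F V} {U U' : Submodule F V} (h : TS Q U) (h' : TS Q U') (ho : ∀ u ∈ U, ∀ v ∈ U', polar Q u v = 0) : TS Q (U ⊔ U') := by
  intro x hx
  obtain ⟨a, ha, b, hb, rfl⟩ := Submodule.mem_sup.mp hx
  rw [qadd, h a ha, h' b hb, ho a ha b hb]
  ring

lemma disj_of_orth {Q : QuadraticForm F V} {W W' : Submodule F V} (hW : Nd Q W) (ho : ∀ u ∈ W, ∀ v ∈ W', polar Q u v = 0) : Disjoint W W' := by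
  rw [Submodule.disjoint_def]
  intro v hv hv'
  exact hW v hv (fun w hw => (pc Q v w).trans (ho w hw v hv'))

lemma finrank_sup_disj {W W' : Submodule F V} (h : Disjoint W W') : finrank F (W ⊔ W' : Submodule F V) = finrank F W + finrank F W' := by
  have h1 := Submodule.finrank_sup_add_finrank_inf_eq W W'
  rw [disjoint_iff.mp h, finrank_bot] at h1
  omega

lemma PT_sup {Q : QuadraticForm F V} {W W' : Submodule F V} (h : PT Q W) (h' : PT Q W') (hd : Disjoint W W')
    (ho : ∀ u ∈ W, ∀ v ∈ W', polar Q u v = 0) : PT Q (W ⊔ W') := by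
  obtain ⟨U, h1, h2, h3⟩ := h
  obtain ⟨U', h1', h2', h3'⟩ := h'
  refine ⟨U ⊔ U', sup_le_sup h1 h1', TS_sup h2 h2' (fun u hu v hv => ho u (h1 hu) v (h1' hv)), ?_⟩
  rw [finrank_sup_disj hd, finrank_sup_disj (hd.mono h1 h1')]
  omega

lemma pt_restrict {Q : QuadraticForm F V} {W : Submodule F V} : PT (Q.restrict W) (⊤ : Submodule F W) ↔ PT Q W := by
  constructor
  · rintro ⟨U, -, h1, h2⟩
    refine ⟨U.map W.subtype, Submodule.map_subtype_le W U, ?_, ?_⟩
    · rintro _ ⟨u, hu, rfl⟩
      exact h1 u hu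
    · rw [Submodule.finrank_map_subtype_eq, h2, finrank_top]
  · rintro ⟨U, h0, h1, h2⟩
    refine ⟨U.comap W.subtype, le_top, ?_, ?_⟩
    · intro u hu
      exact h1 _ hu
    · rw [(Submodule.comapSubtypeEquivOfLe h0).finrank_eq, h2, finrank_top]

lemma pt_of_isom {V' : Type*} [AddCommGroup V'] [Module F V'] [FiniteDimensional F V'] {Q : QuadraticForm F V} {Q' : QuadraticForm F V'}
    {f : V →ₗ[F] V'} (hi : Function.Injective f) (hf : ∀ v, Q' (f v) = Q v) {W : Submodule F V} (h : PT Q W) : PT Q' (W.map f) := by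
  obtain ⟨U, h0, h1, h2⟩ := h
  refine ⟨U.map f, Submodule.map_mono h0, ?_, ?_⟩
  · rintro _ ⟨u, hu, rfl⟩
    rw [hf]
    exact h1 u hu
  · rw [← (Submodule.equivMapOfInjective f hi U).finrank_eq, ← (Submodule.equivMapOfInjective f hi W).finrank_eq, h2]

lemma pt_range_iff {V' : Type*} [AddCommGroup V'] [Module F V'] [FiniteDimensional F V'] {Q : QuadraticForm F V} {Q' : QuadraticForm F V'}
    {f : V →ₗ[F] V'} (hi : Function.Injective f) (hf : ∀ v, Q' (f v) = Q v) : PT Q' (LinearMap.range f) ↔ PT Q (⊤ : Submodule F V) := by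
  constructor
  · rintro ⟨U, h0, h1, h2⟩
    refine ⟨U.comap f, le_top, ?_, ?_⟩
    · intro u hu
      rw [← hf]
      exact h1 _ hu
    · rw [finrank_top, ← LinearMap.finrank_range_of_inj hi, ← h2]
      have h3 : (U.comap f).map f = U := Submodule.map_comap_eq_of_le h0
      rw [← h3, ← (Submodule.equivMapOfInjective f hi (U.comap f)).finrank_eq, h3]
  · intro h
    have := pt_of_isom hi hf h
    rwa [Submodule.map_top] at this

/-- not plus type: small totally singular subspaces -/
lemma not_pt_iff [Finite F] {Q : QuadraticForm F V} {m : ℕ} (hV : finrank F V = 2 * m) :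
    ¬ PT Q (⊤ : Submodule F V) ↔ ∀ U : Submodule F V, TS Q U → finrank F U < m := by
  constructor
  · intro h U hU
    by_contra hcon
    push Not at hcon
    obtain ⟨U', h1, h2⟩ := H99.exists_sub_finrank U hcon
    exact h ⟨U', le_top, hU.mono h1, by rw [h2, finrank_top, hV]⟩
  · rintro h ⟨U, -, h1, h2⟩
    have := h U h1
    rw [finrank_top, hV] at h2
    omega

end basic

section finite
variable {F : Type*} [Field F] [Finite F] {V : Type*} [AddCommGroup V] [Module F V] [FiniteDimensional F V]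

/-- spaces of the same even dimension and type are isometric -/
theorem isom_of_type {V' : Type*} [AddCommGroup V'] [Module F V'] [FiniteDimensional F V'] {Q : QuadraticForm F V} {Q' : QuadraticForm F V'}
    (hQ : (polarBilin Q).Nondegenerate) (hQ' : (polarBilin Q').Nondegenerate) {m : ℕ} (hV : finrank F V = 2 * m) (hV' : finrank F V' = 2 * m)
    (h : PT Q ⊤ ↔ PT Q' ⊤) : ∃ g : V ≃ₗ[F] V', ∀ v, Q' (g v) = Q v := by
  rcases Nat.eq_zero_or_pos m with rfl | hm
  · have : Subsingleton V := finrank_zero_iff.mp (by omega)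
    have : Subsingleton V' := finrank_zero_iff.mp (by omega)
    refine ⟨LinearEquiv.ofFinrankEq V V' (by omega), fun v => ?_⟩
    rw [Subsingleton.elim v 0, map_zero, QuadraticMap.map_zero, QuadraticMap.map_zero]
  by_cases hp : PT Q ⊤
  · obtain ⟨U, -, h1, h2⟩ := hp
    obtain ⟨U', -, h1', h2'⟩ := h.mp ⟨U, le_top, h1, h2⟩
    rw [finrank_top] at h2 h2'
    obtain ⟨g, hg⟩ := exists_isom_plus hm hV hQ h1 (by omega)
    obtain ⟨g', hg'⟩ := exists_isom_plus hm hV' hQ' h1' (by omega)
    refine ⟨g.trans g'.symm, fun v => ?_⟩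
    rw [LinearEquiv.trans_apply, ← hg', LinearEquiv.apply_symm_apply, hg]
  · have hp' : ¬ PT Q' ⊤ := fun h' => hp (h.mpr h')
    exact exists_isom_elliptic hm hV hV' hQ hQ' ((not_pt_iff hV).mp hp) ((not_pt_iff hV').mp hp')

/-- splitting off a hyperbolic part of codimension two -/
theorem exists_split_plane {Q : QuadraticForm F V} {W : Submodule F V} (hW : Nd Q W) {a : ℕ} (hd : finrank F W = 2 * a + 2) :
    ∃ H P : Submodule F V, H ≤ W ∧ P ≤ W ∧ Nd Q H ∧ Nd Q P ∧ (∀ u ∈ H, ∀ v ∈ P, polar Q u v = 0) ∧ H ⊔ P = W ∧ PT Q H ∧ finrank F P = 2 := by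
  obtain ⟨e, f, hH⟩ := exists_isHyp (nd_restrict hW) a (by omega)
  have hH' : IsHyp Q (fun i => (e i : V)) (fun i => (f i : V)) := ⟨hH.qe, hH.qf, hH.ef, hH.ee, hH.ff⟩
  set H := hypSpan F (fun i => (e i : V)) (fun i => (f i : V)) with hHdef
  have hle : H ≤ W := by
    rw [hHdef, hypSpan, Submodule.span_le]
    rintro _ ⟨i | i, rfl⟩
    · exact (e i).2
    · exact (f i).2
  have hN : Nd Q H := by
    intro u hu hu2
    have : u ∈ H ⊓ perp Q H := ⟨hu, fun v hv => (pc Q v u).trans (hu2 v hv)⟩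
    rw [hH'.inf_perp] at this
    exact (Submodule.mem_bot F).mp this
  have hfr := hH'.finrank
  rw [Fintype.card_fin] at hfr
  change finrank F H = 2 * a at hfr
  have h1 := H99.split_ND_compl (of Q) hW hN hle
  have h2 := H99.split_ND (of Q) hN hle
  have h3 := H99.split_finrank (of Q) hN hle
  refine ⟨H, W ⊓ H99.orth (of Q) H, hle, inf_le_left, hN, h1, ?_, h2, ?_, ?_⟩
  · rintro u hu v ⟨-, hv⟩
    rw [pc]
    exact hv u hu
  · have hli : LinearIndependent F (fun i => (e i : V)) := by
      have := hH'.linearIndependent.comp Sum.inl Sum.inl_injective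
      exact this
    refine ⟨Submodule.span F (Set.range fun i => (e i : V)), ?_, ?_, ?_⟩
    · rw [Submodule.span_le]
      rintro _ ⟨i, rfl⟩
      exact e_mem_hypSpan _ _ i
    · intro x hx
      have key : ∀ y ∈ Submodule.span F (Set.range fun i => (e i : V)), ∀ i, polar Q (e i : V) y = 0 := by
        intro y hy i
        induction hy using Submodule.span_induction with
        | mem z hz => obtain ⟨j, rfl⟩ := hz; exact hH'.ee i j
        | zero => rw [polar_zero_right]
        | add y z _ _ hy hz => rw [par, hy, hz, add_zero]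
        | smul c y _ hy => rw [psr, hy, mul_zero]
      induction hx using Submodule.span_induction with
      | mem z hz => obtain ⟨j, rfl⟩ := hz; exact hH'.qe j
      | zero => exact QuadraticMap.map_zero Q
      | add y z hy1 hz1 hy hz =>
        have : polar Q y z = 0 := by
          clear hy hz
          induction hy1 using Submodule.span_induction with
          | mem w hw => obtain ⟨j, rfl⟩ := hw; exact key z hz1 j
          | zero => rw [polar_zero_left]
          | add y w _ _ hy hw => rw [pal, hy, hw, add_zero]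
          | smul c y _ hy => rw [psl, hy, mul_zero]
        rw [qadd, hy, hz, this]
        ring
      | smul c y _ hy => rw [qsmul, hy, mul_zero]
    · rw [finrank_span_eq_card hli, Fintype.card_fin, hfr]
  · omega

/-- the sum of two spaces of minus type has plus type -/
theorem PT_of_minus {Q : QuadraticForm F V} {W W' : Submodule F V} (hW : Nd Q W) (hW' : Nd Q W') (ho : ∀ u ∈ W, ∀ v ∈ W', polar Q u v = 0)
    (hWe : Even (finrank F W)) (hWe' : Even (finrank F W')) (h : ¬ PT Q W) (h' : ¬ PT Q W') : PT Q (W ⊔ W') := by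
  have hpos : finrank F W ≠ 0 := fun h0 => h (by rw [Submodule.finrank_eq_zero.mp h0]; exact PT_bot Q)
  have hpos' : finrank F W' ≠ 0 := fun h0 => h' (by rw [Submodule.finrank_eq_zero.mp h0]; exact PT_bot Q)
  obtain ⟨a, ha⟩ := hWe
  obtain ⟨a', ha'⟩ := hWe'
  obtain ⟨H, P, h1, h2, h3, h4, h5, h6, h7, h8⟩ := exists_split_plane hW (a := a - 1) (by omega)
  obtain ⟨H', P', h1', h2', h3', h4', h5', h6', h7', h8'⟩ := exists_split_plane hW' (a := a' - 1) (by omega)
  have hPn : ¬ PT Q P := fun hp => h (by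
    rw [← h6]
    exact PT_sup h7 hp (disj_of_orth h3 h5) h5)
  have hPn' : ¬ PT Q P' := fun hp => h' (by
    rw [← h6']
    exact PT_sup h7' hp (disj_of_orth h3' h5') h5')
  -- the negated form on `P'`
  have hneg : (polarBilin (-(Q.restrict P'))).Nondegenerate := by
    have h9 := nd_restrict h4'
    have h10 : ∀ u v, polar (-(Q.restrict P')) u v = - polar (Q.restrict P') u v := by
      intro u v
      simp only [QuadraticMap.polar, QuadraticMap.neg_apply]
      ring
    constructor
    · intro u hu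
      refine h9.1 u (fun v => ?_)
      have := hu v
      rw [pbil, h10, neg_eq_zero] at this
      exact this
    · intro u hu
      refine h9.2 u (fun v => ?_)
      have := hu v
      rw [pbil, h10, neg_eq_zero] at this
      exact this
  have hm1 : ∀ U : Submodule F P, TS (Q.restrict P) U → finrank F U < 1 := by
    rw [← not_pt_iff (by rw [h8]), pt_restrict]
    exact hPn
  have hm1' : ∀ U : Submodule F P', TS (-(Q.restrict P')) U → finrank F U < 1 := by
    intro U hU
    have h11 : ∀ U : Submodule F P', TS (Q.restrict P') U → finrank F U < 1 := by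
      rw [← not_pt_iff (by rw [h8']), pt_restrict]
      exact hPn'
    apply h11 U
    intro u hu
    have := hU u hu
    rw [QuadraticMap.neg_apply, neg_eq_zero] at this
    exact this
  obtain ⟨g, hg⟩ := exists_isom_elliptic (m := 1) le_rfl (by rw [h8]) (by rw [h8']) (nd_restrict h4) hneg hm1 hm1'
  have hoP : ∀ u ∈ P, ∀ v ∈ P', polar Q u v = 0 := fun u hu v hv => ho u (h2 hu) v (h2' hv)
  have hdP := disj_of_orth h4 hoP
  have hPP : PT Q (P ⊔ P') := by
    let φ : P →ₗ[F] V := P.subtype + P'.subtype ∘ₗ g.toLinearMap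
    have hφ : ∀ v : P, φ v = (v : V) + (g v : V) := fun v => rfl
    have hφi : Function.Injective φ := by
      rw [← LinearMap.ker_eq_bot, LinearMap.ker_eq_bot']
      intro v hv
      rw [hφ] at hv
      have h12 : (v : V) ∈ P' := by
        rw [eq_neg_of_add_eq_zero_left hv]
        exact P'.neg_mem (g v).2
      exact Subtype.ext (Submodule.disjoint_def.mp hdP _ v.2 h12)
    refine ⟨LinearMap.range φ, ?_, ?_, ?_⟩
    · rintro _ ⟨v, rfl⟩
      rw [hφ]
      exact Submodule.add_mem_sup v.2 (g v).2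
    · rintro _ ⟨v, rfl⟩
      rw [hφ, qadd, hoP _ v.2 _ (g v).2, add_zero]
      have := hg v
      rw [QuadraticMap.neg_apply] at this
      have h13 : - Q (g v : V) = Q (v : V) := this
      rw [← h13]
      ring
    · rw [LinearMap.finrank_range_of_inj hφi, finrank_sup_disj hdP, h8, h8']
  have hHH : PT Q (H ⊔ H') := by
    have ho' : ∀ u ∈ H, ∀ v ∈ H', polar Q u v = 0 := fun u hu v hv => ho u (h1 hu) v (h1' hv)
    exact PT_sup h7 h7' (disj_of_orth h3 ho') ho'
  have hoHP : ∀ u ∈ H ⊔ H', ∀ v ∈ P ⊔ P', polar Q u v = 0 := by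
    intro u hu v hv
    obtain ⟨a, ha, b, hb, rfl⟩ := Submodule.mem_sup.mp hu
    obtain ⟨c, hc, d, hd, rfl⟩ := Submodule.mem_sup.mp hv
    rw [pal, par, par, h5 a ha c hc, ho a (h1 ha) d (h2' hd), h5' b hb d hd, pc, ho c (h2 hc) b (h1' hb)]
    ring
  have hNHH : Nd Q (H ⊔ H') := H99.ND_sup (of Q) h3 h3' (fun u hu v hv => ho u (h1 hu) v (h1' hv))
  have := PT_sup hHH hPP (disj_of_orth hNHH hoHP) hoHP
  have e1 : W ⊔ W' = (H ⊔ H') ⊔ (P ⊔ P') := by
    rw [← h6, ← h6', sup_sup_sup_comm]
  rw [e1]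
  exact this

/-- cancellation -/
theorem PT_cancel {Q : QuadraticForm F V} (hQ : (polarBilin Q).Nondegenerate) {W W' : Submodule F V} (hW : Nd Q W)
    (ho : ∀ u ∈ W, ∀ v ∈ W', polar Q u v = 0) (hs : W ⊔ W' = ⊤) (h : PT Q W) (h' : PT Q ⊤) : PT Q W' := by
  obtain ⟨U, u1, u2, u3⟩ := h
  obtain ⟨S, -, s2, s3⟩ := h'
  have hd := finrank_sup_disj (disj_of_orth hW ho)
  rw [hs, finrank_top] at hd
  rw [finrank_top] at s3
  obtain ⟨S₁, t1, t2⟩ := H99.exists_sub_finrank S (m := finrank F U) (by omega)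
  obtain ⟨g, hg⟩ := exists_isom_map_TS hQ (s2.mono t1) u2 t2 rfl
  set S' := S.map ((g : V ≃ₗ[F] V) : V →ₗ[F] V) with hS'
  have hUS : U ≤ S' := by
    rw [← hg, hS']
    exact Submodule.map_mono t1
  have hTS' : TS Q S' := by
    rintro _ ⟨s, hs, rfl⟩
    exact (OGrp_q g s).trans (s2 s hs)
  have hfS : finrank F S' = finrank F S := by
    rw [hS']
    exact LinearEquiv.finrank_map_eq _ _
  -- `U` is maximal in `W`
  have hmax : ∀ w ∈ W, (∀ u ∈ U, polar Q u w = 0) → w ∈ U := by
    intro w hw hwu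
    have f1 := finrank_perp (nd_restrict hW) (U.comap W.subtype)
    rw [(Submodule.comapSubtypeEquivOfLe u1).finrank_eq] at f1
    have f2 : U.comap W.subtype = perp (Q.restrict W) (U.comap W.subtype) := by
      apply Submodule.eq_of_le_of_finrank_eq
      · intro y hy z hz
        exact u2.polar hz hy
      · rw [(Submodule.comapSubtypeEquivOfLe u1).finrank_eq]
        omega
    have f3 : (⟨w, hw⟩ : W) ∈ perp (Q.restrict W) (U.comap W.subtype) := by
      intro y hy
      exact hwu _ hy
    rw [← f2] at f3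
    exact f3
  have hle : S' ≤ U ⊔ (S' ⊓ W') := by
    intro s hs'
    have h1 : s ∈ W ⊔ W' := by rw [hs]; exact Submodule.mem_top
    obtain ⟨w, hw, w', hw', rfl⟩ := Submodule.mem_sup.mp h1
    have h2 : w ∈ U := by
      apply hmax w hw
      intro u hu
      have h3 := hTS'.polar (hUS hu) hs'
      rw [par, ho u (u1 hu) w' hw', add_zero] at h3
      exact h3
    have h4 : w' ∈ S' := by
      have := S'.sub_mem hs' (hUS h2)
      rwa [add_sub_cancel_left] at this
    exact Submodule.add_mem_sup h2 ⟨h4, hw'⟩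
  have h5 := Submodule.finrank_mono hle
  have h6 := Submodule.finrank_add_le_finrank_add_finrank U (S' ⊓ W')
  obtain ⟨U', v1, v2⟩ := H99.exists_sub_finrank (S' ⊓ W') (m := finrank F S - finrank F U) (by omega)
  exact ⟨U', v1.trans inf_le_right, hTS'.mono (v1.trans inf_le_left), by omega⟩

/-- types of orthogonal decompositions -/
theorem PT_iff {Q : QuadraticForm F V} (hQ : (polarBilin Q).Nondegenerate) {W W' : Submodule F V} (hW : Nd Q W) (hW' : Nd Q W')
    (ho : ∀ u ∈ W, ∀ v ∈ W', polar Q u v = 0) (hs : W ⊔ W' = ⊤) (hWe : Even (finrank F W)) (hWe' : Even (finrank F W')) :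
    PT Q ⊤ ↔ (PT Q W ↔ PT Q W') := by
  have ho' : ∀ u ∈ W', ∀ v ∈ W, polar Q u v = 0 := fun u hu v hv => (pc Q u v).trans (ho v hv u hu)
  constructor
  · intro h
    constructor
    · intro h1
      exact PT_cancel hQ hW ho hs h1 h
    · intro h1
      exact PT_cancel hQ hW' ho' (by rw [sup_comm]; exact hs) h1 h
  · intro h
    rw [← hs]
    by_cases h1 : PT Q W
    · exact PT_sup h1 (h.mp h1) (disj_of_orth hW ho) ho
    · exact PT_of_minus hW hW' ho hWe hWe' h1 (fun h2 => h1 (h.mpr h2))

/-- the complement -/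
theorem PT_iff_orth {Q : QuadraticForm F V} (hQ : (polarBilin Q).Nondegenerate) {W : Submodule F V} (hW : Nd Q W)
    (hWe : Even (finrank F W)) (hVe : Even (finrank F V)) :
    PT Q ⊤ ↔ (PT Q W ↔ PT Q (H99.orth (of Q) W)) := by
  have h1 := H99.split_ND_compl (of Q) (nd_of_nondeg hQ) hW le_top
  have h2 := H99.split_ND (of Q) hW (le_top : W ≤ ⊤)
  have h3 := H99.split_finrank (of Q) hW (le_top : W ≤ ⊤)
  rw [top_inf_eq] at h1 h2 h3
  rw [finrank_top] at h3
  refine PT_iff hQ hW h1 ?_ h2 hWe ?_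
  · intro u hu v hv
    rw [pc]
    exact hv u hu
  · rw [← h3, Nat.even_add] at hVe
    exact hVe.mp hWe

end finite

end Cfsg.Agent.H39.OE
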