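import Mathlib
import Cfsg.Agent.H39.OE2
import Cfsg.Agent.H99.TISymp

/-!
Semisimple elements of prime order in orthogonal groups: blocks and their types.
-/

set_option autoImplicit false

namespace Cfsg.Agent.H39.OE

open Module QuadraticMap Cfsg.Agent.Orth Polynomial

section arith
variable {r : ℕ} [Fact r.Prime]

lemma two_ne (hr2 : r ≠ 2) : (2 : ZMod r) ≠ 0 := by
  have hrp : r.Prime := Fact.out
  intro h
  have h6 : ((2 : ℕ) : ZMod r) = 0 := by exact_mod_cast h
  rw [ZMod.natCast_eq_zero_iff] at h6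
  have := Nat.le_of_dvd (by norm_num) h6
  have := hrp.two_le
  omega

lemma half_pow {a : ZMod r} (hi : Even (orderOf a)) (h0 : 0 < orderOf a) : a ^ (orderOf a / 2) = -1 := by
  obtain ⟨k, hk⟩ := hi
  have h1 : orderOf a / 2 = k := by omega
  rw [h1]
  have h2 : (a ^ k) * (a ^ k) = 1 := by
    rw [← pow_add, ← hk, pow_orderOf_eq_one]
  rcases mul_self_eq_one_iff.mp h2 with h | h
  · have := orderOf_dvd_of_pow_eq_one h
    have := Nat.le_of_dvd (by omega) this
    omega
  · exact h

end arith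

section types
variable {F : Type*} [Field F] [Finite F] {V : Type*} [AddCommGroup V] [Module F V] [FiniteDimensional F V]

theorem plus_of_fixfree {m : ℕ} (hm : 1 ≤ m) (hV : finrank F V = 2 * m)
    {Q : QuadraticForm F V} (hQ : (polarBilin Q).Nondegenerate) {x : V →ₗ[F] V} (hx : ∀ v, Q (x v) = Q v)
    {r : ℕ} [Fact r.Prime] (hr2 : r ≠ 2) (hr : x ^ r = 1) (hfix : ∀ v, x v = v → v = 0) (hrm : ((Nat.card F : ℕ) : ZMod r) ^ m = 1)
    (hr1 : ((Nat.card F : ℕ) : ZMod r) ≠ 1) : PT Q ⊤ := by
  by_contra hcon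
  rw [not_pt_iff hV] at hcon
  have h1 := H99.zeros_minus' hm hV hQ hcon
  have h2 := H99.zeros_mod (Q := Q) (QuadraticMap.map_zero Q) hx hr hfix
  rw [← ZMod.natCast_eq_natCast_iff] at h2
  have h5 := congrArg (fun n : ℕ => (n : ZMod r)) h1
  simp only [Nat.cast_add, Nat.cast_mul, Nat.cast_pow] at h5
  have e1 : ((Nat.card F : ℕ) : ZMod r) ^ (2 * m) = 1 := by rw [pow_mul', hrm, one_pow]
  have e2 : ((Nat.card F : ℕ) : ZMod r) ^ (m + 1) = ((Nat.card F : ℕ) : ZMod r) := by rw [pow_succ, hrm, one_mul]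
  rw [h2, hrm, e1, e2, Nat.cast_one] at h5
  have h6 : (2 : ZMod r) * (((Nat.card F : ℕ) : ZMod r) - 1) = 0 := by linear_combination h5
  exact hr1 (sub_eq_zero.mp ((mul_eq_zero.mp h6).resolve_left (two_ne hr2)))

end types

section fin
variable {F : Type*} [Field F] [Fintype F] {V : Type*} [AddCommGroup V] [Module F V] [FiniteDimensional F V]
variable {p : ℕ} [Fact p.Prime] [CharP F p] {r : ℕ} [Fact r.Prime]

/-- blocks exist, subspaces version -/
theorem blocks (hr2 : r ≠ 2) (hrp : r ≠ p) {Q : QuadraticForm F V} {x : V →ₗ[F] V} (hx : ∀ v, Q (x v) = Q v) (hr : x ^ r = 1)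
    {W : Submodule F V} (hW : ∀ v ∈ W, x v ∈ W) (hN : Nd Q W) (hfix : ∀ v ∈ W, x v = v → v = 0) :
    H99.blk r (Fintype.card F) ∣ finrank F W ∧
      ∀ j, j * H99.blk r (Fintype.card F) ≤ finrank F W → ∃ U ≤ W, (∀ v ∈ U, x v ∈ U) ∧ Nd Q U ∧ finrank F U = j * H99.blk r (Fintype.card F) :=
  H99.exists_isoBlocks (p := p) (N := 1) hr2 hrp (H99.polar_eform Q) ⟨0, (pow_zero p).symm⟩ (fun a => (pow_one a).symm)
    (H99.blk_spec hr2 (H99.prime_not_dvd_card hrp)) (fun u v => polar_of_isom hx u v) hr _ hW hN hfix rfl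

theorem plus_of_one (hr2 : r ≠ 2) (hrp : r ≠ p) {Q : QuadraticForm F V} {x : V →ₗ[F] V} (hx : ∀ v, Q (x v) = Q v) (hr : x ^ r = 1)
    (h1 : orderOf ((Fintype.card F : ℕ) : ZMod r) = 1) (n : ℕ) : ∀ {W : Submodule F V}, (∀ v ∈ W, x v ∈ W) → Nd Q W → (∀ v ∈ W, x v = v → v = 0) →
    finrank F W = n → PT Q W := by
  have hrpr : r.Prime := Fact.out
  induction n using Nat.strong_induction_on with
  | _ n ih =>
    intro W hW hN hfix hn
    rcases Nat.eq_zero_or_pos n with h0 | hpos
    · have : W = ⊥ := Submodule.finrank_eq_zero.mp (by omega)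
      rw [this]
      exact PT_bot Q
    obtain ⟨⟨k, hk⟩, hU⟩ := blocks (p := p) hr2 hrp hx hr hW hN hfix
    have hblk : H99.blk r (Fintype.card F) = 2 := by
      unfold H99.blk
      rw [h1]
      simp
    rw [hblk] at hk hU
    obtain ⟨U, u1, u2, u3, u4⟩ := hU 1 (by
      rcases Nat.eq_zero_or_pos k with rfl | hk0
      · omega
      · omega)
    have hU0 : U ≠ ⊥ := by
      rintro rfl
      rw [finrank_bot] at u4
      omega
    obtain ⟨w, hw, hw0⟩ := Submodule.exists_mem_ne_zero_of_ne_bot hU0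
    obtain ⟨P, u, P1, P2, P3, P4, hu, hu0, hPu⟩ := H99.exists_factor (p := p) hrp hr u2 (fun v hv => hfix v (u1 hv)) hw hw0
    rw [h1] at P4
    have hP := P1.eq_X_add_C P4
    set a := P.coeff 0 with ha
    have hxu : x u = (-a) • u := by
      rw [hP] at hPu
      simp only [map_add, aeval_X, aeval_C, LinearMap.add_apply, Module.algebraMap_end_apply] at hPu
      rw [neg_smul]
      exact eq_neg_of_add_eq_zero_left hPu
    set lam := -a with hlam
    have hpow : ∀ k : ℕ, (x ^ k) u = lam ^ k • u := by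
      intro k
      induction k with
      | zero => simp
      | succ k ih' =>
        rw [pow_succ', Module.End.mul_apply, ih', map_smul, hxu, smul_smul, pow_succ]
    have hlr : lam ^ r = 1 := by
      have h2 := hpow r
      rw [hr, Module.End.one_apply] at h2
      have h3 : (lam ^ r - 1) • u = 0 := by rw [sub_smul, one_smul, ← h2, sub_self]
      exact sub_eq_zero.mp ((smul_eq_zero.mp h3).resolve_right hu0)
    have hl1 : lam ≠ 1 := by
      intro h
      rw [h, one_smul] at hxu
      exact hu0 (hfix u (u1 hu) hxu)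
    have hl2 : lam * lam ≠ 1 := by
      intro h
      obtain ⟨m, hm⟩ := hrpr.odd_of_ne_two hr2
      rw [hm, pow_succ, pow_mul, pow_two, h, one_pow, one_mul] at hlr
      exact hl1 hlr
    have hQu : Q u = 0 := by
      have h2 := hx u
      rw [hxu, qsmul] at h2
      have h3 : (lam * lam - 1) * Q u = 0 := by linear_combination h2
      exact (mul_eq_zero.mp h3).resolve_left (sub_ne_zero.mpr hl2)
    have hPU : PT Q U := by
      refine ⟨Submodule.span F {u}, ?_, ?_, ?_⟩
      · rw [Submodule.span_singleton_le_iff_mem]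
        exact hu
      · intro v hv
        obtain ⟨c, rfl⟩ := Submodule.mem_span_singleton.mp hv
        rw [qsmul, hQu, mul_zero]
      · rw [finrank_span_singleton hu0, u4]
    have g1 := H99.split_ND_compl (of Q) hN u3 u1
    have g2 := H99.split_ND (of Q) u3 u1
    have g3 := H99.split_finrank (of Q) u3 u1
    have hinj : ∀ v ∈ H99.orth (of Q) U, x v ∈ H99.orth (of Q) U :=
      H99.orth_inter_invariant (H99.polar_eform Q) (fun u v => polar_of_isom hx u v) hr u2
    have h4 := ih (finrank F (W ⊓ H99.orth (of Q) U : Submodule F V)) (by omega) (W := W ⊓ H99.orth (of Q) U)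
      (fun v hv => ⟨hW v hv.1, hinj v hv.2⟩) g1 (fun v hv => hfix v hv.1) rfl
    rw [← g2]
    have ho : ∀ u ∈ U, ∀ v ∈ W ⊓ H99.orth (of Q) U, polar Q u v = 0 := by
      intro u hu v hv
      rw [pc]
      exact hv.2 u hu
    exact PT_sup hPU h4 (disj_of_orth u3 ho) ho

/-- restriction of an endomorphism to an invariant subspace -/
lemma restrict_pow {x : V →ₗ[F] V} {W : Submodule F V} (hW : ∀ v ∈ W, x v ∈ W) {r : ℕ} (hr : x ^ r = 1) : (x.restrict hW) ^ r = 1 := by
  apply LinearMap.ext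
  intro v
  apply Subtype.ext
  have : ∀ k : ℕ, (((x.restrict hW) ^ k) v : V) = (x ^ k) (v : V) := by
    intro k
    induction k with
    | zero => rfl
    | succ k ih =>
      rw [pow_succ', pow_succ', Module.End.mul_apply, Module.End.mul_apply, ← ih]
      rfl
  rw [this, hr]
  rfl

/-- the type of a sum of blocks -/
theorem type_blocks (hr2 : r ≠ 2) (hrp : r ≠ p) {Q : QuadraticForm F V} {x : V →ₗ[F] V} (hx : ∀ v, Q (x v) = Q v) (hr : x ^ r = 1)
    {W : Submodule F V} (hW : ∀ v ∈ W, x v ∈ W) (hN : Nd Q W) (hfix : ∀ v ∈ W, x v = v → v = 0) {j : ℕ}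
    (hd : finrank F W = j * H99.blk r (Fintype.card F)) : PT Q W ↔ (Odd (orderOf ((Fintype.card F : ℕ) : ZMod r)) ∨ Even j) := by
  have hrpr : r.Prime := Fact.out
  have hndvd : ¬ r ∣ Fintype.card F := H99.prime_not_dvd_card hrp
  have hipos := H99.orderOf_pos_of_not_dvd (r := r) hndvd
  rcases Nat.eq_zero_or_pos j with rfl | hj
  · rw [zero_mul] at hd
    rw [Submodule.finrank_eq_zero.mp hd]
    exact ⟨fun _ => Or.inr Even.zero, fun _ => PT_bot Q⟩
  by_cases h1 : orderOf ((Fintype.card F : ℕ) : ZMod r) = 1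
  · have h2 := plus_of_one (p := p) hr2 hrp hx hr h1 _ hW hN hfix rfl
    rw [h1]
    exact ⟨fun _ => Or.inl odd_one, fun _ => h2⟩
  set i := orderOf ((Fintype.card F : ℕ) : ZMod r) with hi
  have hr' := restrict_pow hW hr
  have hx' : ∀ v : W, Q.restrict W (x.restrict hW v) = Q.restrict W v := fun v => hx v
  have hfix' : ∀ v : W, x.restrict hW v = v → v = 0 := fun v hv => Subtype.ext (hfix v v.2 (congrArg Subtype.val hv))
  have hq1 : ((Nat.card F : ℕ) : ZMod r) ≠ 1 := by
    rw [Nat.card_eq_fintype_card]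
    intro h
    apply h1
    rw [hi, h, orderOf_one]
  rcases Nat.even_or_odd i with he | ho
  · have hb : H99.blk r (Fintype.card F) = i := by unfold H99.blk; rw [if_pos he]
    have hh := half_pow (r := r) (a := ((Fintype.card F : ℕ) : ZMod r)) he hipos
    rw [← hi] at hh
    obtain ⟨k, hk⟩ := he
    have hk2 : i / 2 = k := by omega
    rw [hk2] at hh
    have hd' : finrank F W = 2 * (k * j) := by rw [hd, hb, hk]; ring
    have hkj : 1 ≤ k * j := Nat.mul_pos (by omega) hj
    have hpw : ((Nat.card F : ℕ) : ZMod r) ^ (k * j) = (-1) ^ j := by rw [Nat.card_eq_fintype_card, pow_mul, hh]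
    rcases Nat.even_or_odd j with hje | hjo
    · rw [hje.neg_one_pow] at hpw
      have h3 := plus_of_fixfree hkj hd' (nd_restrict hN) hx' hr2 hr' hfix' hpw hq1
      rw [pt_restrict] at h3
      exact ⟨fun _ => Or.inr hje, fun _ => h3⟩
    · rw [hjo.neg_one_pow] at hpw
      have h3 := H99.minus_of_fixfree hkj hd' (nd_restrict hN) hx' hr2 hr' hfix' (by
        rw [← ZMod.natCast_eq_zero_iff]
        push_cast
        rw [hpw]
        ring)
      rw [← not_pt_iff hd', pt_restrict] at h3
      constructor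
      · intro h; exact absurd h h3
      · rintro (h | h)
        · exact absurd h (Nat.not_odd_iff_even.mpr ⟨k, hk⟩)
        · exact absurd h (Nat.not_even_iff_odd.mpr hjo)
  · have hb : H99.blk r (Fintype.card F) = 2 * i := by unfold H99.blk; rw [if_neg (Nat.not_even_iff_odd.mpr ho)]
    have hd' : finrank F W = 2 * (i * j) := by rw [hd, hb]; ring
    have hpw : ((Nat.card F : ℕ) : ZMod r) ^ (i * j) = 1 := by
      rw [Nat.card_eq_fintype_card, pow_mul, pow_orderOf_eq_one, one_pow]
    have h3 := plus_of_fixfree (Nat.mul_pos hipos hj) hd' (nd_restrict hN) hx' hr2 hr' hfix' hpw hq1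
    rw [pt_restrict] at h3
    exact ⟨fun _ => Or.inl ho, fun _ => h3⟩

end fin

end Cfsg.Agent.H39.OE
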