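import Mathlib
import Cfsg.Agent.H39.OE3

/-!
Semisimple elements of prime order in orthogonal groups: existence.
-/

set_option autoImplicit false

namespace Cfsg.Agent.H39.OE

open Module QuadraticMap Cfsg.Agent.Orth Polynomial

section a
variable {F : Type*} [Field F] [Fintype F] {V : Type*} [AddCommGroup V] [Module F V] [FiniteDimensional F V]
variable {p : ℕ} [Fact p.Prime] [CharP F p] {r : ℕ} [Fact r.Prime]

lemma mem_ker {x : V →ₗ[F] V} {v : V} : v ∈ LinearMap.ker (x - 1) ↔ x v = v := by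
  rw [LinearMap.mem_ker, LinearMap.sub_apply, Module.End.one_apply, sub_eq_zero]

/-- a nontrivial isometry of order `r` needs dimension at least `c` -/
theorem le_of_ne_one (hr2 : r ≠ 2) (hrp : r ≠ p) {Q : QuadraticForm F V} (hQ : (polarBilin Q).Nondegenerate) {x : V →ₗ[F] V}
    (hx : ∀ v, Q (x v) = Q v) (hr : x ^ r = 1) (h1 : x ≠ 1) : H99.blk r (Fintype.card F) ≤ finrank F V ∧
      (finrank F V = H99.blk r (Fintype.card F) → ∀ v, x v = v → v = 0) := by
  obtain ⟨s1, s2, s3, s4, s5⟩ := H99.split_fixed (p := p) hrp (H99.polar_eform Q) (fun u v => polar_of_isom hx u v) hr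
    (W := ⊤) (fun _ _ => Submodule.mem_top) (nd_of_nondeg hQ)
  obtain ⟨⟨k, hk⟩, -⟩ := blocks (p := p) hr2 hrp hx hr s2 s3 s4
  have e0 : (⊤ ⊓ LinearMap.ker (x - 1) : Submodule F V) = LinearMap.ker (x - 1) := top_inf_eq _
  rw [e0, finrank_top] at s5
  rw [e0] at hk
  have hk0 : k ≠ 0 := by
    rintro rfl
    rw [mul_zero] at hk
    apply h1
    have h2 : LinearMap.ker (x - 1) = ⊤ := Submodule.eq_top_of_finrank_eq (by omega)
    apply LinearMap.ext
    intro v
    have : v ∈ LinearMap.ker (x - 1) := by rw [h2]; exact Submodule.mem_top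
    exact mem_ker.mp this
  have h3 : H99.blk r (Fintype.card F) ≤ H99.blk r (Fintype.card F) * k := Nat.le_mul_of_pos_right _ (Nat.pos_of_ne_zero hk0)
  refine ⟨by omega, fun h4 v hv => ?_⟩
  have h5 : finrank F (LinearMap.ker (x - 1)) = 0 := by omega
  have h6 := Submodule.finrank_eq_zero.mp h5
  have h7 : v ∈ LinearMap.ker (x - 1) := mem_ker.mpr hv
  rw [h6] at h7
  exact (Submodule.mem_bot F).mp h7

lemma card_OGrp {ι : Type} [Fintype ι] [DecidableEq ι] (Q : QuadraticForm F (ι → F)) :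
    Nat.card (OGrp Q) = Nat.card (Cfsg.isometryGroup F ⇑Q) := (Nat.card_congr (bridge Q).toEquiv).symm

instance (Q : QuadraticForm F V) : Finite (OGrp Q) := by
  have : Finite V := Module.finite_of_finite F
  have : Finite (V ≃ₗ[F] V) := DFunLike.finite _
  infer_instance

lemma exists_elt_of_dvd {Q : QuadraticForm F V} (h : r ∣ Nat.card (OGrp Q)) : ∃ x : V →ₗ[F] V, (∀ v, Q (x v) = Q v) ∧ x ^ r = 1 ∧ x ≠ 1 := by
  have hrpr : r.Prime := Fact.out
  obtain ⟨g, hg⟩ := exists_prime_orderOf_dvd_card' r h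
  have hpw : ∀ (k : ℕ) v, ((((g : V ≃ₗ[F] V) : V →ₗ[F] V)) ^ k) v = ((g ^ k : OGrp Q) : V ≃ₗ[F] V) v := by
    intro k
    induction k with
    | zero => intro v; rfl
    | succ k ih =>
      intro v
      rw [pow_succ', pow_succ', Module.End.mul_apply, ih, coe_mul_apply]
      rfl
  refine ⟨((g : V ≃ₗ[F] V) : V →ₗ[F] V), fun v => OGrp_q g v, ?_, ?_⟩
  · apply LinearMap.ext
    intro v
    rw [hpw, ← hg, pow_orderOf_eq_one]
    rfl
  · intro h1
    have : g = 1 := OGrp_ext (fun v => by
      have := congrArg (fun f : V →ₗ[F] V => f v) h1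
      exact this)
    rw [this, orderOf_one] at hg
    exact hrpr.one_lt.ne hg

lemma dvd_card_of_elt {Q : QuadraticForm F V} (h : ∀ x : V →ₗ[F] V, (∀ v, Q (x v) = Q v) → x ^ r = 1 → x = 1) : ¬ r ∣ Nat.card (OGrp Q) := by
  intro h1
  obtain ⟨x, h2, h3, h4⟩ := exists_elt_of_dvd h1
  exact h4 (h x h2 h3)

/-- blocks exist on spaces of the right dimension and type -/
theorem exists_full_block (hr2 : r ≠ 2) (hrp : r ≠ p) {Q : QuadraticForm F V} (hQ : (polarBilin Q).Nondegenerate)
    (hd : finrank F V = H99.blk r (Fintype.card F)) (ht : PT Q ⊤ ↔ Odd (orderOf ((Fintype.card F : ℕ) : ZMod r))) :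
    ∃ x : V →ₗ[F] V, (∀ v, Q (x v) = Q v) ∧ x ^ r = 1 ∧ ∀ v, x v = v → v = 0 := by
  have hrpr : r.Prime := Fact.out
  have hndvd : ¬ r ∣ Fintype.card F := H99.prime_not_dvd_card hrp
  have hipos := H99.orderOf_pos_of_not_dvd (r := r) hndvd
  set i := orderOf ((Fintype.card F : ℕ) : ZMod r) with hi
  -- it suffices to find a nontrivial element
  suffices h : ∃ x : V →ₗ[F] V, (∀ v, Q (x v) = Q v) ∧ x ^ r = 1 ∧ x ≠ 1 by
    obtain ⟨x, h1, h2, h3⟩ := h
    exact ⟨x, h1, h2, (le_of_ne_one (p := p) hr2 hrp hQ h1 h2 h3).2 hd⟩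
  -- transport
  have key : ∀ {ι : Type} [Fintype ι] [DecidableEq ι] (Q₀ : QuadraticForm F (ι → F)) (g : V ≃ₗ[F] (ι → F)), (∀ v, Q₀ (g v) = Q v) →
      r ∣ Nat.card (Cfsg.isometryGroup F ⇑Q₀) → ∃ x : V →ₗ[F] V, (∀ v, Q (x v) = Q v) ∧ x ^ r = 1 ∧ x ≠ 1 := by
    intro ι _ _ Q₀ g hg hdvd
    rw [← card_OGrp] at hdvd
    obtain ⟨y, h1, h2, h3⟩ := exists_elt_of_dvd hdvd
    let x : V →ₗ[F] V := g.symm.toLinearMap ∘ₗ y ∘ₗ g.toLinearMap
    have hxv : ∀ v, x v = g.symm (y (g v)) := fun v => rfl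
    have hpw : ∀ (k : ℕ) v, (x ^ k) v = g.symm ((y ^ k) (g v)) := by
      intro k
      induction k with
      | zero => intro v; simp
      | succ k ih =>
        intro v
        rw [pow_succ', pow_succ', Module.End.mul_apply, Module.End.mul_apply, ih, hxv, LinearEquiv.apply_symm_apply]
    refine ⟨x, fun v => ?_, ?_, ?_⟩
    · rw [hxv, ← hg, LinearEquiv.apply_symm_apply, h1, hg]
    · apply LinearMap.ext
      intro v
      rw [hpw, h2]
      simp
    · intro hx1
      apply h3
      apply LinearMap.ext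
      intro w
      have h4 := hxv (g.symm w)
      rw [hx1, LinearEquiv.apply_symm_apply] at h4
      have h5 := congrArg g h4
      rw [LinearEquiv.apply_symm_apply] at h5
      rw [← h5]
      simp
  rcases Nat.even_or_odd i with he | ho
  · have hb : H99.blk r (Fintype.card F) = i := by unfold H99.blk; rw [if_pos he]
    have hh := half_pow (r := r) (a := ((Fintype.card F : ℕ) : ZMod r)) he hipos
    rw [← hi] at hh
    obtain ⟨k, hk⟩ := he
    have hk2 : i / 2 = k := by omega
    rw [hk2] at hh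
    have hnp : ¬ PT Q ⊤ := fun h => (Nat.not_odd_iff_even.mpr ⟨k, hk⟩) (ht.mp h)
    rcases classify_even (m := k) (by omega) (by rw [hd, hb, hk]; ring) hQ with ⟨g, hg⟩ | ⟨ζ, h0, g, hg⟩
    · exfalso
      apply hnp
      have hV : finrank F V = 2 * k := by rw [hd, hb, hk]; ring
      refine ⟨(U0 k F).map (g.symm : (Fin k ⊕ Fin k → F) →ₗ[F] V), le_top,
        (TS_U0 k F).map_isom g.symm (fun v => by rw [← hg, g.apply_symm_apply]), ?_⟩
      rw [LinearEquiv.finrank_map_eq, finrank_U0, finrank_top, hV]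
    · refine key _ g hg ?_
      have h1 := OrthCount.order_minus (F := F) (k - 1) (a := 1) (b := ζ) (OrthCount.aniso_of (aniso_of_root h0))
      rw [coe_qfMinus, h1]
      have e3 : k - 1 + 1 = k := by omega
      rw [e3]
      apply Dvd.dvd.mul_right
      apply Dvd.dvd.mul_left
      rw [← ZMod.natCast_eq_zero_iff]
      push_cast
      rw [Nat.card_eq_fintype_card, hh]
      ring
  · have hb : H99.blk r (Fintype.card F) = 2 * i := by unfold H99.blk; rw [if_neg (Nat.not_even_iff_odd.mpr ho)]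
    obtain ⟨U, -, u1, u2⟩ := ht.mpr ho
    rw [finrank_top, hd, hb] at u2
    obtain ⟨g, hg⟩ := exists_isom_plus (m := i) hipos (by rw [hd, hb]) hQ u1 (by omega)
    refine key _ g hg ?_
    rw [coe_qfPlus, OrthCount.order_plus (F := F) i hipos]
    apply Dvd.dvd.mul_right
    apply Dvd.dvd.mul_left
    rw [← ZMod.natCast_eq_zero_iff, Nat.cast_sub (Nat.one_le_pow _ _ Nat.card_pos)]
    push_cast
    have h9 := pow_orderOf_eq_one ((Fintype.card F : ℕ) : ZMod r)
    rw [← hi] at h9
    rw [Nat.card_eq_fintype_card, h9, sub_self]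

end a

section b
universe u
variable {F : Type u} [Field F] [Fintype F]

/-- there are anisotropic planes -/
lemma exists_zeta : ∃ ζ : F, ∀ t : F, t ^ 2 + t + ζ ≠ 0 := by
  by_contra hcon
  push Not at hcon
  have hs : Function.Surjective (fun t : F => -(t ^ 2 + t)) := by
    intro ζ
    obtain ⟨t, ht⟩ := hcon ζ
    exact ⟨t, by linear_combination -ht⟩
  have hi := Finite.injective_iff_surjective.mpr hs
  have : (0 : F) = -1 := hi (by simp)
  exact one_ne_zero (α := F) (by linear_combination this)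

/-- models of all types -/
theorem exists_model {m : ℕ} (hm : 1 ≤ m) (τ : Prop) : ∃ (ι : Type) (_ : Fintype ι) (_ : DecidableEq ι) (Q : QuadraticForm F (ι → F)),
    (polarBilin Q).Nondegenerate ∧ finrank F (ι → F) = 2 * m ∧ (PT Q ⊤ ↔ τ) := by
  by_cases hτ : τ
  · refine ⟨Fin m ⊕ Fin m, inferInstance, inferInstance, qfPlus m F, qfPlus_nondegenerate m F, finrank_V m F, ?_⟩
    refine ⟨fun _ => hτ, fun _ => ⟨U0 m F, le_top, TS_U0 m F, ?_⟩⟩
    rw [finrank_U0, finrank_top, finrank_V]
  · obtain ⟨ζ, hζ⟩ := exists_zeta (F := F)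
    refine ⟨(Fin (m - 1) ⊕ Fin (m - 1)) ⊕ Fin 2, inferInstance, inferInstance, qfMinus (m - 1) F 1 ζ,
      qfMinus_nondegenerate _ F (disc_ne_zero_of_aniso (aniso_of_root hζ)), finrank_Vm hm, ?_⟩
    refine ⟨fun h => ?_, fun h => absurd h hτ⟩
    exfalso
    have h1 := fun U hU => TS_lt_minus hm (aniso_of_root hζ) (F := F) U hU
    rw [← not_pt_iff (finrank_Vm hm)] at h1
    exact h1 h

/-- gluing isometries -/
lemma glue_isom_q {V : Type*} [AddCommGroup V] [Module F V] [FiniteDimensional F V] {Q : QuadraticForm F V} {U U' : Submodule F V}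
    (h : IsCompl U U') (ho : ∀ u ∈ U, ∀ v ∈ U', polar Q u v = 0) (g : U →ₗ[F] U) (g' : U' →ₗ[F] U')
    (hg : ∀ u : U, Q (g u : V) = Q (u : V)) (hg' : ∀ u : U', Q (g' u : V) = Q (u : V)) (v : V) : Q (H99.glue h g g' v) = Q v := by
  obtain ⟨a, b, rfl⟩ := H99.exists_add_of_isCompl h v
  rw [H99.glue_apply, qadd, qadd, hg, hg', ho _ a.2 _ b.2, ho _ (g a).2 _ (g' b).2]

variable {p : ℕ} [Fact p.Prime] [CharP F p] {r : ℕ} [Fact r.Prime]

/-- elements with a given number of blocks -/
theorem exists_blocks.{v} (hr2 : r ≠ 2) (hrp : r ≠ p) (j : ℕ) : ∀ (V : Type v) [AddCommGroup V] [Module F V] [FiniteDimensional F V]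
    (Q : QuadraticForm F V), (polarBilin Q).Nondegenerate → ((2 : F) ≠ 0 ∨ Even (finrank F V)) → j * H99.blk r (Fintype.card F) ≤ finrank F V →
    (j * H99.blk r (Fintype.card F) = finrank F V → (PT Q ⊤ ↔ (Odd (orderOf ((Fintype.card F : ℕ) : ZMod r)) ∨ Even j))) →
    ∃ x : V →ₗ[F] V, (∀ v, Q (x v) = Q v) ∧ x ^ r = 1 ∧
      finrank F (LinearMap.ker (x - 1)) + j * H99.blk r (Fintype.card F) = finrank F V := by
  have hrpr : r.Prime := Fact.out
  have hndvd : ¬ r ∣ Fintype.card F := H99.prime_not_dvd_card hrp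
  have hipos := H99.orderOf_pos_of_not_dvd (r := r) hndvd
  have hev := H99.even_blk r (Fintype.card F)
  have hbpos : 0 < H99.blk r (Fintype.card F) := by
    unfold H99.blk
    split_ifs <;> omega
  set c := H99.blk r (Fintype.card F) with hc
  set i := orderOf ((Fintype.card F : ℕ) : ZMod r) with hi
  induction j with
  | zero =>
    intro V _ _ _ Q _ _ _ _
    refine ⟨1, fun v => rfl, one_pow r, ?_⟩
    rw [sub_self, LinearMap.ker_zero, finrank_top, zero_mul, add_zero]
  | succ j ih =>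
    intro V _ _ _ Q hQ hg hle ht
    rw [add_mul, one_mul] at hle ht
    -- the block
    obtain ⟨U, hU1, hU2, hU3⟩ : ∃ U : Submodule F V, Nd Q U ∧ finrank F U = c ∧ (PT Q U ↔ Odd i) := by
      rcases Nat.lt_or_ge c (finrank F V) with hlt | hge
      · obtain ⟨m, hm⟩ := hev
        obtain ⟨ι, _, _, QT, t1, t2, t3⟩ := exists_model (F := F) (m := m) (by omega) (Odd i)
        obtain ⟨f, hf⟩ := embed t1 hQ (by omega) (by
          rcases hg with h | h
          · exact Or.inl h
          · exact Or.inr ⟨by rw [t2]; exact even_two_mul m, h⟩)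
        refine ⟨LinearMap.range f, nd_range t1 hf, ?_, ?_⟩
        · rw [LinearMap.finrank_range_of_inj (inj_of t1 hf), t2]
          omega
        · rw [pt_range_iff (inj_of t1 hf) hf, t3]
      · have hj0 : j = 0 := by
          by_contra hj0
          have : c ≤ j * c := Nat.le_mul_of_pos_left c (Nat.pos_of_ne_zero hj0)
          omega
        subst hj0
        refine ⟨⊤, nd_of_nondeg hQ, by rw [finrank_top]; omega, ?_⟩
        rw [ht (by omega)]
        constructor
        · rintro (h | h)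
          · exact h
          · exact absurd h (by decide)
        · exact Or.inl
    have s1 := H99.split_ND_compl (of Q) (nd_of_nondeg hQ) hU1 le_top
    have s2 := H99.split_finrank (of Q) hU1 (le_top : U ≤ ⊤)
    rw [top_inf_eq] at s1 s2
    rw [finrank_top] at s2
    have hcmp := H99.isCompl_orth (of Q) hU1
    obtain ⟨xU, a1, a2, a3⟩ := exists_full_block (p := p) hr2 hrp (nd_restrict hU1) hU2 (by rw [pt_restrict, hU3])
    obtain ⟨xV, b1, b2, b3⟩ := ih (H99.orth (of Q) U) (Q.restrict _) (nd_restrict s1) (by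
      rcases hg with h | h
      · exact Or.inl h
      · right
        rw [← s2, Nat.even_add, hU2] at h
        exact h.mp hev) (by omega) (by
      intro h5
      have hVe : Even (finrank F V) := by
        rw [← s2, hU2, ← h5]
        exact hev.add (hev.mul_left j)
      have h6 := PT_iff_orth hQ hU1 (by rw [hU2]; exact hev) hVe
      rw [ht (by omega), hU3] at h6
      rw [pt_restrict]
      by_cases ho : Odd i
      · have h7 := (h6.mp (Or.inl ho)).mp ho
        exact ⟨fun _ => Or.inl ho, fun _ => h7⟩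
      · constructor
        · intro h7
          right
          by_contra h8
          have h9 : Even (j + 1) := by
            rw [Nat.even_add_one]
            exact h8
          exact ho ((h6.mp (Or.inr h9)).mpr h7)
        · intro h7
          by_contra h8
          have h9 := h6.mpr ⟨fun h => absurd h ho, fun h => absurd h h8⟩
          rcases h9 with h9 | h9
          · exact ho h9
          · exact absurd h9 (by rw [Nat.even_add_one]; exact not_not.mpr (h7.resolve_left ho)))
    have ho : ∀ u ∈ U, ∀ v ∈ H99.orth (of Q) U, polar Q u v = 0 := fun u hu v hv => (pc Q u v).trans (hv u hu)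
    refine ⟨H99.glue hcmp xU xV, fun v => glue_isom_q hcmp ho xU xV a1 b1 v, ?_, ?_⟩
    · rw [H99.glue_pow, a2, b2, H99.glue_one]
    · rw [H99.finrank_ker_glue]
      have h5 : LinearMap.ker (xU - 1) = ⊥ := by
        rw [LinearMap.ker_eq_bot']
        intro v hv
        exact a3 v (mem_ker.mp hv)
      rw [h5, finrank_bot, add_mul, one_mul]
      omega

/-- isometries of odd order lie in `Ω` -/
theorem omega_mem {ι : Type} [Fintype ι] [DecidableEq ι] {Q : QuadraticForm F (ι → F)} (hQ : (polarBilin Q).Nondegenerate)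
    (hd : 5 ≤ finrank F (ι → F)) {x : (ι → F) →ₗ[F] (ι → F)} (hx : ∀ v, Q (x v) = Q v) {k : ℕ} (hk : Odd k) (hxk : x ^ k = 1) :
    ∃ g : GL ι F, g ∈ Cfsg.Geo.omegaGL (⇑Q) ∧ g ^ k = 1 ∧ Matrix.toLin' (g : Matrix ι ι F) = x := by
  by_cases h2 : (2 : F) = 0
  · have : CharP F 2 := CharTwo.of_one_ne_zero_of_two_eq_zero one_ne_zero h2
    exact H99.exists_mem_omegaGL_two hQ hd hx hk hxk
  · exact H99.exists_mem_omegaGL h2 hQ (by omega) hx hk hxk

end b

end Cfsg.Agent.H39.OE
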