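import Mathlib
import Cfsg.Agent.H39.OE4

/-!
Invariant nondegenerate subspaces of semisimple elements of prime order in orthogonal groups.
-/

set_option autoImplicit false

namespace Cfsg.Agent.H39.OE

open Module QuadraticMap Cfsg.Agent.Orth Polynomial

section a
variable {F : Type*} [Field F] [Fintype F] {V : Type*} [AddCommGroup V] [Module F V] [FiniteDimensional F V]
variable {T : Type*} [AddCommGroup T] [Module F T] [FiniteDimensional F T]
variable {p : ℕ} [Fact p.Prime] [CharP F p] {r : ℕ} [Fact r.Prime]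

/-- `x` leaves invariant a subspace isometric to `T` -/
def Fx (QT : QuadraticForm F T) (Q : QuadraticForm F V) (x : V →ₗ[F] V) : Prop :=
  ∃ f : T →ₗ[F] V, (∀ t, Q (f t) = QT t) ∧ ∀ v ∈ LinearMap.range f, x v ∈ LinearMap.range f

/-- the arithmetical condition -/
def Cd (c : ℕ) (oi τT τV : Prop) (n m f : ℕ) : Prop :=
  ∃ t u e e' : ℕ, m = e + t * c ∧ n = f + (t + u) * c ∧ e + e' = f ∧ (e = 0 → (τT ↔ (oi ∨ Even t))) ∧
    (e' = 0 → Even n → Even m → (τV ↔ (τT ↔ (oi ∨ Even u))))

lemma finrank_ker_split {Q : QuadraticForm F V} {x : V →ₗ[F] V} {W : Submodule F V} (hN : Nd Q W) (hW : ∀ v ∈ W, x v ∈ W)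
    (hW' : ∀ v ∈ H99.orth (of Q) W, x v ∈ H99.orth (of Q) W) :
    finrank F (W ⊓ LinearMap.ker (x - 1) : Submodule F V) + finrank F (H99.orth (of Q) W ⊓ LinearMap.ker (x - 1) : Submodule F V)
      = finrank F (LinearMap.ker (x - 1)) := by
  have hcmp := H99.isCompl_orth (of Q) hN
  have h1 : (W ⊓ LinearMap.ker (x - 1)) ⊔ (H99.orth (of Q) W ⊓ LinearMap.ker (x - 1)) = LinearMap.ker (x - 1) := by
    apply le_antisymm (sup_le inf_le_right inf_le_right)
    intro v hv
    obtain ⟨a, b, rfl⟩ := H99.exists_add_of_isCompl hcmp v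
    rw [mem_ker, map_add] at hv
    have h2 : x (a : V) - a = -(x (b : V) - b) := by
      have : x (a : V) - a + (x (b : V) - b) = 0 := by
        rw [← sub_eq_zero] at hv
        rw [← hv]
        abel
      exact eq_neg_of_add_eq_zero_left this
    have h3 : x (a : V) - a ∈ W := W.sub_mem (hW _ a.2) a.2
    have h4 : x (a : V) - a ∈ H99.orth (of Q) W := by
      rw [h2]
      exact Submodule.neg_mem _ (Submodule.sub_mem _ (hW' _ b.2) b.2)
    have h5 : x (a : V) - a = 0 := Submodule.disjoint_def.mp hcmp.disjoint _ h3 h4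
    have h6 : x (b : V) - b = 0 := by
      rw [h5] at h2
      exact neg_eq_zero.mp h2.symm
    exact Submodule.add_mem_sup ⟨a.2, mem_ker.mpr (sub_eq_zero.mp h5)⟩ ⟨b.2, mem_ker.mpr (sub_eq_zero.mp h6)⟩
  rw [← finrank_sup_disj (hcmp.disjoint.mono inf_le_left inf_le_left), h1]

lemma blk_pos (hrp : r ≠ p) : 0 < H99.blk r (Fintype.card F) := by
  have hipos := H99.orderOf_pos_of_not_dvd (r := r) (H99.prime_not_dvd_card (F := F) hrp)
  unfold H99.blk
  split_ifs <;> omega

lemma prop_aux {a w t o : Prop} (h : a ↔ (t ↔ o)) (h' : a ↔ (w ↔ o)) : t ↔ w := by tauto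

/-- necessary condition -/
theorem cd_of_fx (hr2 : r ≠ 2) (hrp : r ≠ p) {Q : QuadraticForm F V} (hQ : (polarBilin Q).Nondegenerate)
    {QT : QuadraticForm F T} (hT : (polarBilin QT).Nondegenerate) {x : V →ₗ[F] V}
    (hx : ∀ v, Q (x v) = Q v) (hr : x ^ r = 1) (h : Fx QT Q x) :
    Cd (H99.blk r (Fintype.card F)) (Odd (orderOf ((Fintype.card F : ℕ) : ZMod r))) (PT QT ⊤) (PT Q ⊤) (finrank F V) (finrank F T)
      (finrank F (LinearMap.ker (x - 1))) := by
  obtain ⟨f, hf, hinv⟩ := h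
  set W := LinearMap.range f with hWdef
  have hfinj := inj_of hT hf
  have hWN : Nd Q W := nd_range hT hf
  have hWd : finrank F W = finrank F T := LinearMap.finrank_range_of_inj hfinj
  have hp := fun u v => polar_of_isom hx u v
  have hinv' : ∀ v ∈ H99.orth (of Q) W, x v ∈ H99.orth (of Q) W :=
    H99.orth_inter_invariant (H99.polar_eform Q) hp hr hinv
  have hN' := H99.split_ND_compl (of Q) (nd_of_nondeg hQ) hWN le_top
  have hd' := H99.split_finrank (of Q) hWN (le_top : W ≤ ⊤)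
  rw [top_inf_eq] at hN' hd'
  rw [finrank_top] at hd'
  have hk := finrank_ker_split hWN hinv hinv'
  obtain ⟨s1, s2, s3, s4, s5⟩ := H99.split_fixed (p := p) hrp (H99.polar_eform Q) hp hr hinv hWN
  obtain ⟨s1', s2', s3', s4', s5'⟩ := H99.split_fixed (p := p) hrp (H99.polar_eform Q) hp hr hinv' hN'
  obtain ⟨⟨t, ht⟩, -⟩ := blocks (p := p) hr2 hrp hx hr s2 s3 s4
  obtain ⟨⟨u, hu⟩, -⟩ := blocks (p := p) hr2 hrp hx hr s2' s3' s4'
  have hev := H99.even_blk r (Fintype.card F)
  rw [ht] at s5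
  rw [hu] at s5'
  refine ⟨t, u, finrank F (W ⊓ LinearMap.ker (x - 1) : Submodule F V), finrank F (H99.orth (of Q) W ⊓ LinearMap.ker (x - 1) : Submodule F V),
    ?_, ?_, hk, ?_, ?_⟩
  · rw [mul_comm t]
    omega
  · have : (t + u) * H99.blk r (Fintype.card F) = H99.blk r (Fintype.card F) * t + H99.blk r (Fintype.card F) * u := by ring
    omega
  · intro h0
    have h1 : ∀ v ∈ W, x v = v → v = 0 := by
      intro v hv hxv
      have h2 := Submodule.finrank_eq_zero.mp h0
      have h3 : v ∈ W ⊓ LinearMap.ker (x - 1) := ⟨hv, mem_ker.mpr hxv⟩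
      rw [h2] at h3
      exact (Submodule.mem_bot F).mp h3
    rw [← type_blocks (p := p) hr2 hrp hx hr hinv hWN h1 (j := t) (by rw [mul_comm]; omega)]
    rw [hWdef, pt_range_iff hfinj hf]
  · intro h0 hVe hTe
    have h1 : ∀ v ∈ H99.orth (of Q) W, x v = v → v = 0 := by
      intro v hv hxv
      have h2 := Submodule.finrank_eq_zero.mp h0
      have h3 : v ∈ H99.orth (of Q) W ⊓ LinearMap.ker (x - 1) := ⟨hv, mem_ker.mpr hxv⟩
      rw [h2] at h3
      exact (Submodule.mem_bot F).mp h3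
    rw [← type_blocks (p := p) hr2 hrp hx hr hinv' hN' h1 (j := u) (by rw [mul_comm]; omega)]
    rw [← pt_range_iff hfinj hf]
    exact PT_iff_orth hQ hWN (by rw [hWd]; exact hTe) hVe

/-- sufficient condition -/
theorem fx_of_cd (hr2 : r ≠ 2) (hrp : r ≠ p) {Q : QuadraticForm F V} (hQ : (polarBilin Q).Nondegenerate)
    {QT : QuadraticForm F T} (hT : (polarBilin QT).Nondegenerate) {x : V →ₗ[F] V}
    (hx : ∀ v, Q (x v) = Q v) (hr : x ^ r = 1) (hg : (2 : F) ≠ 0 ∨ (Even (finrank F V) ∧ Even (finrank F T)))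
    (hpar : Even (finrank F V) ∨ Even (finrank F T))
    (h : Cd (H99.blk r (Fintype.card F)) (Odd (orderOf ((Fintype.card F : ℕ) : ZMod r))) (PT QT ⊤) (PT Q ⊤) (finrank F V) (finrank F T)
      (finrank F (LinearMap.ker (x - 1)))) : Fx QT Q x := by
  have hp := fun u v => polar_of_isom hx u v
  have hev := H99.even_blk r (Fintype.card F)
  obtain ⟨t, u, e, e', h1, h2, h3, h4, h5⟩ := h
  obtain ⟨s1, s2, s3, s4, s5⟩ := H99.split_fixed (p := p) hrp (H99.polar_eform Q) hp hr
    (W := ⊤) (fun _ _ => Submodule.mem_top) (nd_of_nondeg hQ)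
  have e0 : (⊤ ⊓ LinearMap.ker (x - 1) : Submodule F V) = LinearMap.ker (x - 1) := top_inf_eq _
  rw [e0] at s1 s2 s3 s4 s5
  rw [top_inf_eq] at s2 s3 s4 s5
  rw [finrank_top] at s5
  set K := LinearMap.ker (x - 1) with hK
  set N := H99.orth (of Q) K with hN
  have hNd : finrank F N = (t + u) * H99.blk r (Fintype.card F) := by omega
  obtain ⟨-, hU⟩ := blocks (p := p) hr2 hrp hx hr s2 s3 s4
  obtain ⟨U, u1, u2, u3, u4⟩ := hU t (by rw [hNd, add_mul]; omega)
  have hUe : Even (finrank F U) := by rw [u4]; exact hev.mul_left t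
  have hKU : ∀ a ∈ K, ∀ w ∈ U, polar Q a w = 0 := by
    intro a ha w hw
    rw [pc]
    exact u1 hw a ha
  rcases Nat.eq_zero_or_pos e with he0 | he0
  · -- only blocks
    have h6 := type_blocks (p := p) hr2 hrp hx hr u2 u3 (fun v hv => s4 v (u1 hv)) u4
    obtain ⟨k, hk⟩ := hUe
    obtain ⟨g, hg'⟩ := isom_of_type hT (nd_restrict u3) (m := k) (by rw [h1, he0, zero_add, ← u4, hk]; ring) (by rw [hk]; ring)
      (by rw [pt_restrict, h6]; exact h4 he0)
    refine ⟨U.subtype ∘ₗ g.toLinearMap, fun t => hg' t, ?_⟩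
    have h7 : LinearMap.range (U.subtype ∘ₗ g.toLinearMap) = U := by
      rw [LinearMap.range_comp, LinearEquiv.range, Submodule.map_top, Submodule.range_subtype]
    rw [h7]
    exact u2
  · rcases Nat.eq_zero_or_pos e' with he1 | he1
    · -- the whole fixed space
      have hev2 : Even (finrank F V) ∧ Even (finrank F T) := by
        have a1 : Even (finrank F V) ↔ Even (finrank F K) := by
          rw [h2, Nat.even_add]
          exact ⟨fun h => h.mpr (hev.mul_left _), fun h => ⟨fun _ => hev.mul_left _, fun _ => h⟩⟩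
        have a2 : Even (finrank F T) ↔ Even e := by
          rw [h1, Nat.even_add]
          exact ⟨fun h => h.mpr (hev.mul_left _), fun h => ⟨fun _ => hev.mul_left _, fun _ => h⟩⟩
        have a3 : e = finrank F K := by omega
        rw [a3] at a2
        rcases hpar with h | h
        · exact ⟨h, a2.mpr (a1.mp h)⟩
        · exact ⟨a1.mpr (a2.mp h), h⟩
      set W := K ⊔ U with hW
      have hWN : Nd Q W := H99.ND_sup (of Q) s1 u3 (fun a ha w hw => hKU a ha w hw)
      have hdisj := disj_of_orth s1 hKU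
      have hWd : finrank F W = finrank F T := by
        rw [hW, finrank_sup_disj hdisj]
        omega
      have hWinv : ∀ v ∈ W, x v ∈ W := by
        intro v hv
        obtain ⟨a, ha, b, hb, rfl⟩ := Submodule.mem_sup.mp hv
        rw [map_add, mem_ker.mp ha]
        exact Submodule.add_mem_sup ha (u2 b hb)
      have hW'inv : ∀ v ∈ H99.orth (of Q) W, x v ∈ H99.orth (of Q) W :=
        H99.orth_inter_invariant (H99.polar_eform Q) hp hr hWinv
      have hN' := H99.split_ND_compl (of Q) (nd_of_nondeg hQ) hWN le_top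
      have hd' := H99.split_finrank (of Q) hWN (le_top : W ≤ ⊤)
      rw [top_inf_eq] at hN' hd'
      rw [finrank_top] at hd'
      have hfix : ∀ v ∈ H99.orth (of Q) W, x v = v → v = 0 := by
        intro v hv hxv
        exact Submodule.disjoint_def.mp (H99.isCompl_orth (of Q) hWN).disjoint v (Submodule.mem_sup_left (mem_ker.mpr hxv)) hv
      have h6 := type_blocks (p := p) hr2 hrp hx hr hW'inv hN' hfix (j := u) (by rw [add_mul] at h2; omega)
      have h7 := PT_iff_orth hQ hWN (by rw [hWd]; exact hev2.2) hev2.1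
      rw [h6] at h7
      have h8 := h5 he1 hev2.1 hev2.2
      obtain ⟨k, hk⟩ := hev2.2
      obtain ⟨g, hg'⟩ := isom_of_type hT (nd_restrict hWN) (m := k) (by rw [hk]; ring) (by rw [hWd, hk]; ring)
        (by rw [pt_restrict]; exact prop_aux h8 h7)
      refine ⟨W.subtype ∘ₗ g.toLinearMap, fun t => hg' t, ?_⟩
      have h9 : LinearMap.range (W.subtype ∘ₗ g.toLinearMap) = W := by
        rw [LinearMap.range_comp, LinearEquiv.range, Submodule.map_top, Submodule.range_subtype]
      rw [h9]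
      exact hWinv
    · -- a proper part of the fixed space
      obtain ⟨f, hf, W₁, w1, w2, w3⟩ := embed_comb hT s1 u3 hKU (m₁ := e) he0 (by omega) (by omega) (by
        rcases hg with h | ⟨h, h'⟩
        · exact Or.inl h
        · right
          refine ⟨?_, hUe, ?_⟩
          · rw [h1, Nat.even_add] at h'
            exact h'.mpr (hev.mul_left t)
          · rw [h2, Nat.even_add] at h
            exact h.mpr (hev.mul_left _))
      refine ⟨f, hf, ?_⟩
      rw [w3]
      intro v hv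
      obtain ⟨a, ha, b, hb, rfl⟩ := Submodule.mem_sup.mp hv
      rw [map_add, mem_ker.mp (w1 ha)]
      exact Submodule.add_mem_sup ha (u2 b hb)

/-- the number of subspaces isometric to `T` divides the order of the orthogonal group -/
theorem card_dvd {Q : QuadraticForm F V} (hQ : (polarBilin Q).Nondegenerate)
    {QT : QuadraticForm F T} (hT : (polarBilin QT).Nondegenerate) {f₀ : T →ₗ[F] V} (hf₀ : ∀ t, Q (f₀ t) = QT t) :
    Nat.card {W : Submodule F V // ∃ f : T →ₗ[F] V, (∀ t, Q (f t) = QT t) ∧ LinearMap.range f = W} ∣ Nat.card (OGrp Q) := by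
  let W₀ := LinearMap.range f₀
  let φ : OGrp Q → {W : Submodule F V // ∃ f : T →ₗ[F] V, (∀ t, Q (f t) = QT t) ∧ LinearMap.range f = W} := fun g =>
    ⟨W₀.map ((g : V ≃ₗ[F] V) : V →ₗ[F] V), ((g : V ≃ₗ[F] V) : V →ₗ[F] V) ∘ₗ f₀, fun t => by
      rw [LinearMap.comp_apply]
      exact (OGrp_q g _).trans (hf₀ t), LinearMap.range_comp _ _⟩
  have hφ : Function.Surjective φ := by
    rintro ⟨W, f, hf, hW⟩
    have hi0 := inj_of hT hf₀
    have hi := inj_of hT hf
    let e := LinearEquiv.ofInjective f₀ hi0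
    have he : ∀ t, (e t : V) = f₀ t := fun t => rfl
    obtain ⟨g, hg⟩ := witt hQ W₀ (f ∘ₗ e.symm.toLinearMap) (hi.comp e.symm.injective) (fun u => by
      rw [LinearMap.comp_apply, hf]
      change QT (e.symm u) = Q (u : V)
      have : (u : V) = f₀ (e.symm u) := by rw [← he, e.apply_symm_apply]
      rw [this, hf₀])
    refine ⟨g, Subtype.ext ?_⟩
    change W₀.map ((g : V ≃ₗ[F] V) : V →ₗ[F] V) = W
    rw [← hW]
    apply le_antisymm
    · rintro _ ⟨v, hv, rfl⟩
      exact ⟨e.symm ⟨v, hv⟩, (hg ⟨v, hv⟩).symm⟩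
    · rintro _ ⟨t, rfl⟩
      refine ⟨f₀ t, ⟨t, rfl⟩, ?_⟩
      have := hg (e t)
      rw [LinearMap.comp_apply] at this
      change (g : V ≃ₗ[F] V) (f₀ t) = f t
      rw [← he]
      refine this.trans ?_
      rw [LinearEquiv.coe_coe, e.symm_apply_apply]
  let S : Subgroup (OGrp Q) :=
    { carrier := {g | W₀.map ((g : V ≃ₗ[F] V) : V →ₗ[F] V) = W₀}
      one_mem' := by
        change W₀.map (LinearMap.id : V →ₗ[F] V) = W₀
        exact Submodule.map_id W₀
      mul_mem' := by
        intro a b ha hb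
        have h1 : W₀.map (((a * b : OGrp Q) : V ≃ₗ[F] V) : V →ₗ[F] V) = (W₀.map ((b : V ≃ₗ[F] V) : V →ₗ[F] V)).map ((a : V ≃ₗ[F] V) : V →ₗ[F] V) := by
          rw [← Submodule.map_comp]
          rfl
        change W₀.map (((a * b : OGrp Q) : V ≃ₗ[F] V) : V →ₗ[F] V) = W₀
        rw [h1, hb, ha]
      inv_mem' := by
        intro a ha
        have h1 : (W₀.map ((a : V ≃ₗ[F] V) : V →ₗ[F] V)).map (((a⁻¹ : OGrp Q) : V ≃ₗ[F] V) : V →ₗ[F] V) = W₀ := by
          rw [← Submodule.map_comp]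
          have : (((a⁻¹ : OGrp Q) : V ≃ₗ[F] V) : V →ₗ[F] V) ∘ₗ ((a : V ≃ₗ[F] V) : V →ₗ[F] V) = LinearMap.id := by
            apply LinearMap.ext
            intro v
            exact coe_inv_apply_self a v
          rw [this, Submodule.map_id]
        change W₀.map (((a⁻¹ : OGrp Q) : V ≃ₗ[F] V) : V →ₗ[F] V) = W₀
        have ha' : W₀.map ((a : V ≃ₗ[F] V) : V →ₗ[F] V) = W₀ := ha
        rw [ha'] at h1
        exact h1 }
  rw [H99.card_eq_index φ hφ S ?_]
  · exact S.index_dvd_card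
  · intro g k
    have h1 : ∀ (a b : OGrp Q) (W : Submodule F V), (W.map ((b : V ≃ₗ[F] V) : V →ₗ[F] V)).map ((a : V ≃ₗ[F] V) : V →ₗ[F] V)
        = W.map (((a * b : OGrp Q) : V ≃ₗ[F] V) : V →ₗ[F] V) := fun a b W => by
      rw [← Submodule.map_comp]
      rfl
    have h0 : ∀ W : Submodule F V, W.map (((1 : OGrp Q) : V ≃ₗ[F] V) : V →ₗ[F] V) = W := fun W => Submodule.map_id W
    constructor
    · intro h
      have h2 : W₀.map ((g : V ≃ₗ[F] V) : V →ₗ[F] V) = W₀.map ((k : V ≃ₗ[F] V) : V →ₗ[F] V) := congrArg Subtype.val h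
      change W₀.map (((g⁻¹ * k : OGrp Q) : V ≃ₗ[F] V) : V →ₗ[F] V) = W₀
      rw [← h1, ← h2, h1, inv_mul_cancel, h0]
    · intro h
      have h2 : W₀.map (((g⁻¹ * k : OGrp Q) : V ≃ₗ[F] V) : V →ₗ[F] V) = W₀ := h
      apply Subtype.ext
      change W₀.map ((g : V ≃ₗ[F] V) : V →ₗ[F] V) = W₀.map ((k : V ≃ₗ[F] V) : V →ₗ[F] V)
      rw [← h2, h1, mul_inv_cancel_left]
      rw [h2]

end a

end Cfsg.Agent.H39.OE
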