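import Mathlib
import Cfsg.Agent.H39.OE5

/-!
The elusiveness criterion for nondegenerate subspaces, semisimple elements of odd prime order.
-/

set_option autoImplicit false

namespace Cfsg.Agent.H39.OE

open Module QuadraticMap Cfsg.Agent.Orth Polynomial

section a
variable {F : Type*} [Field F] [Fintype F] {V : Type*} [AddCommGroup V] [Module F V] [FiniteDimensional F V]
variable {T : Type*} [AddCommGroup T] [Module F T] [FiniteDimensional F T]
variable {p : ℕ} [Fact p.Prime] [CharP F p] {r : ℕ} [Fact r.Prime]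

/-- subspaces isometric to `T` -/
def IsoT (QT : QuadraticForm F T) (Q : QuadraticForm F V) (W : Submodule F V) : Prop :=
  ∃ f : T →ₗ[F] V, (∀ t, Q (f t) = QT t) ∧ LinearMap.range f = W

lemma fx_iff {QT : QuadraticForm F T} {Q : QuadraticForm F V} {x : V →ₗ[F] V} :
    Fx QT Q x ↔ ∃ W, IsoT QT Q W ∧ ∀ v ∈ W, x v ∈ W := by
  constructor
  · rintro ⟨f, h1, h2⟩
    exact ⟨_, ⟨f, h1, rfl⟩, h2⟩
  · rintro ⟨_, ⟨f, h1, rfl⟩, h2⟩
    exact ⟨f, h1, h2⟩

/-- divisibility excludes small fixed spaces -/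
theorem not_fx (hr2 : r ≠ 2) (hrp : r ≠ p) {Q : QuadraticForm F V} (hQ : (polarBilin Q).Nondegenerate)
    {QT : QuadraticForm F T} (hT : (polarBilin QT).Nondegenerate) {x : V →ₗ[F] V}
    (hx : ∀ v, Q (x v) = Q v) (hr : x ^ r = 1) (hm : finrank F T < H99.blk r (Fintype.card F))
    (hfree : finrank F (LinearMap.ker (x - 1)) < H99.blk r (Fintype.card F) ∨ (finrank F (LinearMap.ker (x - 1)) = H99.blk r (Fintype.card F) ∧
      ¬ (PT Q (LinearMap.ker (x - 1)) ↔ Odd (orderOf ((Fintype.card F : ℕ) : ZMod r)))))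
    (hdvd : r ∣ Nat.card {W : Submodule F V // IsoT QT Q W}) : ¬ Fx QT Q x := by
  classical
  intro hfx
  have hrpr : r.Prime := Fact.out
  have hp := fun u v => polar_of_isom hx u v
  have hinj := injective_of_isom hQ hx
  -- invariant subspaces lie in the fixed space
  have hle : ∀ W : Submodule F V, IsoT QT Q W → (∀ v ∈ W, x v ∈ W) → W ≤ LinearMap.ker (x - 1) := by
    rintro _ ⟨f, hf, rfl⟩ hW
    have hWN := nd_range hT hf
    have hWd : finrank F (LinearMap.range f) = finrank F T := LinearMap.finrank_range_of_inj (inj_of hT hf)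
    obtain ⟨s1, s2, s3, s4, s5⟩ := H99.split_fixed (p := p) hrp (H99.polar_eform Q) hp hr hW hWN
    obtain ⟨⟨t, ht⟩, -⟩ := blocks (p := p) hr2 hrp hx hr s2 s3 s4
    have ht0 : t = 0 := by
      by_contra h0
      have : H99.blk r (Fintype.card F) ≤ H99.blk r (Fintype.card F) * t := Nat.le_mul_of_pos_right _ (Nat.pos_of_ne_zero h0)
      omega
    rw [ht, ht0, mul_zero, add_zero] at s5
    have h1 : LinearMap.range f ⊓ LinearMap.ker (x - 1) = LinearMap.range f := Submodule.eq_of_le_of_finrank_eq inf_le_left s5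
    rw [← h1]
    exact inf_le_right
  obtain ⟨f₀, hf₀, hinv₀⟩ := hfx
  set K := LinearMap.ker (x - 1) with hK
  have hKN : Nd Q K := by
    obtain ⟨s1, -⟩ := H99.split_fixed (p := p) hrp (H99.polar_eform Q) hp hr
      (W := ⊤) (fun _ _ => Submodule.mem_top) (nd_of_nondeg hQ)
    rwa [top_inf_eq] at s1
  have hf₀K : ∀ t, f₀ t ∈ K := fun t => hle _ ⟨f₀, hf₀, rfl⟩ hinv₀ ⟨t, rfl⟩
  -- the orthogonal group of the fixed space
  have hcard : ¬ r ∣ Nat.card (OGrp (Q.restrict K)) := by
    apply dvd_card_of_elt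
    intro y hy hyr
    by_contra hy1
    obtain ⟨g1, g2⟩ := le_of_ne_one (p := p) hr2 hrp (nd_restrict hKN) hy hyr hy1
    rcases hfree with h | ⟨h, h'⟩
    · omega
    · apply h'
      have g3 := type_blocks (p := p) hr2 hrp hy hyr (W := ⊤) (fun _ _ => Submodule.mem_top) (nd_of_nondeg (nd_restrict hKN))
        (fun v _ => g2 h v) (j := 1) (by rw [finrank_top, one_mul]; exact h)
      rw [pt_restrict] at g3
      rw [g3]
      constructor
      · rintro (h | h)
        · exact h
        · exact absurd h (by decide)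
      · exact Or.inl
  have hdv := card_dvd (nd_restrict hKN) hT (f₀ := f₀.codRestrict K hf₀K) (fun t => hf₀ t)
  -- comparison
  have hfin : Finite V := Module.finite_of_finite F
  have hfinS : Finite (Submodule F V) := Finite.of_injective (fun W : Submodule F V => (W : Set V)) SetLike.coe_injective
  let X := {W : Submodule F V // IsoT QT Q W}
  have : Fintype X := Fintype.ofFinite _
  let f : Function.End X := fun W => ⟨W.1.map x, by
    obtain ⟨f, h1, h2⟩ := W.2
    exact ⟨x ∘ₗ f, fun t => by rw [LinearMap.comp_apply, hx, h1], by rw [LinearMap.range_comp, h2]⟩⟩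
  have hf : ∀ (k : ℕ) (W : X), ((f ^ k) W : Submodule F V) = W.1.map (x ^ k) := by
    intro k
    induction k with
    | zero => intro W; rw [pow_zero, pow_zero]; exact (Submodule.map_id W.1).symm
    | succ k ih =>
      intro W
      rw [pow_succ', pow_succ']
      change ((f ^ k) W : Submodule F V).map x = _
      rw [ih]
      exact (Submodule.map_comp _ _ _).symm
  have hf1 : f ^ r ^ 1 = 1 := by
    funext W
    apply Subtype.ext
    rw [hf, pow_one, hr]
    exact Submodule.map_id W.1
  have hmod := Equiv.Perm.card_fixedPoints_modEq (f := f) (p := r) (n := 1) hf1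
  have e : {W : Submodule F K // ∃ f : T →ₗ[F] K, (∀ t, Q.restrict K (f t) = QT t) ∧ LinearMap.range f = W} ≃ f.fixedPoints :=
    { toFun := fun W => ⟨⟨W.1.map K.subtype, by
        obtain ⟨f, h1, h2⟩ := W.2
        exact ⟨K.subtype ∘ₗ f, fun t => h1 t, by rw [LinearMap.range_comp, h2]⟩⟩, by
        apply Subtype.ext
        change (W.1.map K.subtype).map x = W.1.map K.subtype
        apply le_antisymm
        · rintro _ ⟨_, ⟨v, hv, rfl⟩, rfl⟩
          have : x (v : V) = v := mem_ker.mp v.2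
          exact ⟨v, hv, this.symm⟩
        · rintro _ ⟨v, hv, rfl⟩
          have : x (v : V) = v := mem_ker.mp v.2
          exact ⟨v, ⟨v, hv, rfl⟩, this⟩⟩
      invFun := fun W => ⟨W.1.1.comap K.subtype, by
        obtain ⟨⟨W, f', h1, h2⟩, h3⟩ := W
        have h4 : W.map x = W := congrArg Subtype.val h3
        have h5 : W ≤ K := hle W ⟨f', h1, h2⟩ (fun v hv => by rw [← h4]; exact ⟨v, hv, rfl⟩)
        have h6 : ∀ t, f' t ∈ K := fun t => h5 (by rw [← h2]; exact ⟨t, rfl⟩)
        refine ⟨f'.codRestrict K h6, fun t => h1 t, ?_⟩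
        ext v
        constructor
        · rintro ⟨t, rfl⟩
          change f' t ∈ W
          rw [← h2]
          exact ⟨t, rfl⟩
        · intro hv
          have hv' : (v : V) ∈ W := hv
          rw [← h2] at hv'
          obtain ⟨t, ht⟩ := hv'
          exact ⟨t, Subtype.ext ht⟩⟩
      left_inv := fun W => by
        apply Subtype.ext
        exact Submodule.comap_map_eq_of_injective K.subtype_injective W.1
      right_inv := fun W => by
        apply Subtype.ext
        apply Subtype.ext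
        obtain ⟨⟨W, hW⟩, h3⟩ := W
        have h4 : W.map x = W := congrArg Subtype.val h3
        have h5 : W ≤ K := hle W hW (fun v hv => by rw [← h4]; exact ⟨v, hv, rfl⟩)
        change (W.comap K.subtype).map K.subtype = W
        rw [Submodule.map_comap_subtype]
        exact inf_eq_right.mpr h5 }
  have h1 : r ∣ Fintype.card f.fixedPoints := by
    rw [Nat.card_eq_fintype_card] at hdvd
    exact (Nat.modEq_zero_iff_dvd.mp (hmod.symm.trans (Nat.modEq_zero_iff_dvd.mpr hdvd)))
  rw [← Nat.card_eq_fintype_card, ← Nat.card_congr e] at h1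
  exact hcard (h1.trans hdv)

end a

section arith

lemma uniq {c t e M l : ℕ} (h : t * c + e = M * c + l) (he : e < c) (hl : l < c) : t = M ∧ e = l := by
  have h1 : (t * c + e) % c = e := by rw [Nat.add_comm, Nat.add_mul_mod_self_right, Nat.mod_eq_of_lt he]
  have h2 : (M * c + l) % c = l := by rw [Nat.add_comm, Nat.add_mul_mod_self_right, Nat.mod_eq_of_lt hl]
  have h3 : e = l := by rw [← h1, h, h2]
  subst h3
  have h4 : t * c = M * c := by omega
  exact ⟨Nat.eq_of_mul_eq_mul_right (by omega) h4, rfl⟩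

variable {c n m N k M l : ℕ} {oi τT τV : Prop}

/-- fixed space smaller than a block -/
lemma cd_small (hn : n = N * c + k) (hk : k < c) (hm : m = M * c + l) (hl : l < c) (hmn : m < n) :
    Cd c oi τT τV n m k ↔ (l ≤ k ∧ (l = 0 → (τT ↔ (oi ∨ Even M))) ∧ (l = k → Even n → Even m → (τV ↔ (τT ↔ (oi ∨ Even (N - M)))))) := by
  constructor
  · rintro ⟨t, u, e, e', h1, h2, h3, h4, h5⟩
    have h6 := uniq (c := c) (t := t) (e := e) (M := M) (l := l) (by omega) (by omega) hl
    have h7 := uniq (c := c) (t := t + u) (e := k) (M := N) (l := k) (by omega) (by omega) hk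
    obtain ⟨rfl, rfl⟩ := h6
    have h8 : N - t = u := by omega
    rw [h8]
    exact ⟨by omega, h4, fun h => h5 (by omega)⟩
  · rintro ⟨h1, h2, h3⟩
    have hMN : M ≤ N := by
      by_contra hcon
      push Not at hcon
      have : (N + 1) * c ≤ M * c := Nat.mul_le_mul_right c hcon
      rw [add_mul, one_mul] at this
      omega
    refine ⟨M, N - M, l, k - l, by omega, ?_, by omega, h2, fun h => h3 (by omega)⟩
    have : M + (N - M) = N := by omega
    rw [this]
    omega

lemma prop_aux3 {o t v a b : Prop} (ht : ¬ (v ↔ (o ∨ a))) (hA : ¬ (t ↔ (o ∨ b))) : v ↔ (t ↔ (o ∨ (a ↔ b))) := by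
  by_cases h1 : o <;> by_cases h2 : t <;> by_cases h3 : v <;> by_cases h4 : a <;> by_cases h5 : b <;> simp_all

lemma prop_aux4 {o t v a b : Prop} (ht : v ↔ (o ∨ a)) (hA : t ↔ (o ∨ b)) : v ↔ (t ↔ (o ∨ (a ↔ b))) := by
  by_cases h1 : o <;> by_cases h2 : t <;> by_cases h3 : v <;> by_cases h4 : a <;> by_cases h5 : b <;> simp_all

lemma prop_aux2 {oi τT τV : Prop} {N M : ℕ} (hMN : M ≤ N) (ht : ¬ (τV ↔ (oi ∨ Even N))) (hA : ¬ (τT ↔ (oi ∨ Even M))) :
    τV ↔ (τT ↔ (oi ∨ Even (N - M))) := by
  have h1 : Even (N - M) ↔ (Even N ↔ Even M) := Nat.even_sub hMN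
  rw [h1]
  exact prop_aux3 ht hA

/-- one block less -/
lemma cd_fail (hn : n = N * c) (hc : 0 < c) (hm : m = M * c + l) (hl : l < c) (hm0 : 0 < m) (hmn : m < n)
    (ht : ¬ (τV ↔ (oi ∨ Even N))) : Cd c oi τT τV n m c := by
  have hMN : M < N := by
    by_contra hcon
    push Not at hcon
    have : N * c ≤ M * c := Nat.mul_le_mul_right c hcon
    omega
  have hn2 : n = c + (N - 1) * c := by
    have : (N - 1 + 1) * c = N * c := by congr 1; omega
    rw [add_mul, one_mul] at this
    omega
  by_cases hl0 : l = 0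
  · subst hl0
    have hM0 : M ≠ 0 := by
      rintro rfl
      omega
    by_cases hA : τT ↔ (oi ∨ Even M)
    · refine ⟨M, N - 1 - M, 0, c, by omega, ?_, by omega, fun _ => hA, fun h => by omega⟩
      have : M + (N - 1 - M) = N - 1 := by omega
      rw [this]
      exact hn2
    · refine ⟨M - 1, N - M, c, 0, ?_, ?_, by omega, fun h => by omega, fun _ _ _ => prop_aux2 hMN.le ht hA⟩
      · have : (M - 1 + 1) * c = M * c := by congr 1; omega
        rw [add_mul, one_mul] at this
        omega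
      · have : M - 1 + (N - M) = N - 1 := by omega
        rw [this]
        exact hn2
  · refine ⟨M, N - 1 - M, l, c - l, by omega, ?_, by omega, fun h => absurd h hl0, fun h => by omega⟩
    have : M + (N - 1 - M) = N - 1 := by omega
    rw [this]
    exact hn2

/-- monotonicity -/
lemma cd_mono {S s : ℕ} (hc : 0 < c) (hS : S * c ≤ n) (hs : s ≤ S) (hmn : m < n) (h : Cd c oi τT τV n m (n - S * c)) : Cd c oi τT τV n m (n - s * c) := by
  obtain ⟨t, u, e, e', h1, h2, h3, h4, h5⟩ := h
  have hsS : s * c ≤ S * c := Nat.mul_le_mul_right c hs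
  have htu : t + u = S := by
    have : (t + u) * c = S * c := by omega
    exact Nat.eq_of_mul_eq_mul_right hc this
  rcases Nat.eq_or_lt_of_le hs with rfl | hlt
  · exact ⟨t, u, e, e', h1, h2, h3, h4, h5⟩
  rcases Nat.le_total t s with hts | hts
  · have hd : (S - s) * c = S * c - s * c := Nat.sub_mul _ _ _
    have hdp : 0 < (S - s) * c := Nat.mul_pos (by omega) hc
    refine ⟨t, s - t, e, e' + (S - s) * c, h1, ?_, by omega, h4, fun h => by omega⟩
    have : t + (s - t) = s := by omega
    rw [this]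
    omega
  · have hd : (t - s) * c = t * c - s * c := Nat.sub_mul _ _ _
    have hst : s * c ≤ t * c := Nat.mul_le_mul_right c hts
    have huc : (t + u) * c = t * c + u * c := add_mul _ _ _
    rcases Nat.eq_or_lt_of_le hts with rfl | hlt2
    · have hup : 0 < u * c := Nat.mul_pos (by omega) hc
      exact ⟨s, 0, e, e' + u * c, h1, by rw [add_zero]; omega, by omega, h4, fun h => by omega⟩
    · have hdp : 0 < (t - s) * c := Nat.mul_pos (by omega) hc
      refine ⟨s, 0, e + (t - s) * c, e' + u * c, by omega, by rw [add_zero]; omega, by omega, fun h => by omega, fun h => ?_⟩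
      exfalso
      omega

/-- realizable numbers of blocks -/
def Rz (c : ℕ) (oi τV : Prop) (n s : ℕ) : Prop := s * c ≤ n ∧ (s * c = n → (τV ↔ (oi ∨ Even s)))

/-- the evaluated condition -/
def Ev (c : ℕ) (oi τT τV : Prop) (n m : ℕ) : Prop :=
  (n % c = 0 ∧ ¬ (τV ↔ (oi ∨ Even (n / c)))) ∨
  (n % c = 0 ∧ (τV ↔ (oi ∨ Even (n / c))) ∧ m % c = 0 ∧ (τT ↔ (oi ∨ Even (m / c)))) ∨
  (0 < n % c ∧ m % c ≤ n % c ∧ (m % c = 0 → (τT ↔ (oi ∨ Even (m / c)))) ∧
    (m % c = n % c → Even n → Even m → (τV ↔ (τT ↔ (oi ∨ Even (n / c - m / c))))))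

/-- evaluation of the arithmetical condition -/
theorem eval (hc : 0 < c) (hce : Even c) (hm0 : 0 < m) (hmn : m < n)
    (hD : m < c → ∀ s, Rz c oi τV n s → (n < (s + 1) * c ∨ ((s + 1) * c = n ∧ ¬ (τV ↔ (oi ∨ Even (s + 1))))) → ¬ Cd c oi τT τV n m (n - s * c)) :
    ((∀ s, 1 ≤ s → Rz c oi τV n s → Cd c oi τT τV n m (n - s * c)) ↔ Ev c oi τT τV n m) ∧ (Ev c oi τT τV n m → c ≤ m) := by
  obtain ⟨N, k, hn, hk, hN, hK⟩ : ∃ N k, n = N * c + k ∧ k < c ∧ n / c = N ∧ n % c = k :=
    ⟨n / c, n % c, by rw [mul_comm]; exact (Nat.div_add_mod n c).symm, Nat.mod_lt _ hc, rfl, rfl⟩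
  obtain ⟨M, l, hm, hl, hM, hL⟩ : ∃ M l, m = M * c + l ∧ l < c ∧ m / c = M ∧ m % c = l :=
    ⟨m / c, m % c, by rw [mul_comm]; exact (Nat.div_add_mod m c).symm, Nat.mod_lt _ hc, rfl, rfl⟩
  have hbase : Cd c oi τT τV n m (n - 0 * c) := ⟨0, 0, m, n - m, by omega, by omega, by omega, fun h => by omega, fun h => by omega⟩
  have hle : ∀ s, s * c ≤ n → s ≤ N := by
    intro s hs
    by_contra hcon
    push Not at hcon
    have : (N + 1) * c ≤ s * c := Nat.mul_le_mul_right c hcon
    rw [add_mul, one_mul] at this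
    omega
  -- the maximal number of blocks
  obtain ⟨S, hS1, hS2, hS3, hS4⟩ : ∃ S, Rz c oi τV n S ∧ (n < (S + 1) * c ∨ ((S + 1) * c = n ∧ ¬ (τV ↔ (oi ∨ Even (S + 1))))) ∧
      (∀ s, Rz c oi τV n s → s ≤ S) ∧ (Cd c oi τT τV n m (n - S * c) ↔ Ev c oi τT τV n m) := by
    unfold Ev
    rw [hN, hK, hM, hL]
    by_cases hcase : 0 < k ∨ (τV ↔ (oi ∨ Even N))
    · have hnk : n - N * c = k := by omega
      refine ⟨N, ⟨by omega, fun h => ?_⟩, Or.inl (by rw [add_mul, one_mul]; omega), fun s hs => hle s hs.1, ?_⟩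
      · rcases hcase with h' | h'
        · omega
        · exact h'
      · rw [hnk, cd_small hn hk hm hl hmn]
        rcases Nat.eq_zero_or_pos k with hk0 | hk0
        · have ht := hcase.resolve_left (by omega)
          constructor
          · rintro ⟨h1, h2, h3⟩
            exact Or.inr (Or.inl ⟨hk0, ht, by omega, h2 (by omega)⟩)
          · rintro (⟨-, h⟩ | ⟨-, -, h1, h2⟩ | ⟨h, -⟩)
            · exact absurd ht h
            · refine ⟨by omega, fun _ => h2, fun _ _ _ => ?_⟩
              have hMN : M ≤ N := hle M (by omega)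
              have h3 : Even (N - M) ↔ (Even N ↔ Even M) := Nat.even_sub hMN
              rw [h3]
              exact prop_aux4 ht h2
            · omega
        · constructor
          · rintro ⟨h1, h2, h3⟩
            exact Or.inr (Or.inr ⟨hk0, h1, h2, h3⟩)
          · rintro (⟨h, -⟩ | ⟨h, -⟩ | ⟨-, h1, h2, h3⟩)
            · omega
            · omega
            · exact ⟨h1, h2, h3⟩
    · rw [not_or] at hcase
      obtain ⟨hk0, ht'⟩ := hcase
      have hk0' : k = 0 := by omega
      have hN0 : N ≠ 0 := by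
        rintro rfl
        omega
      have e1 : N - 1 + 1 = N := by omega
      have e2 : (N - 1) * c + c = N * c := by
        have : (N - 1 + 1) * c = N * c := by rw [e1]
        rwa [add_mul, one_mul] at this
      refine ⟨N - 1, ⟨by omega, fun h => by omega⟩, Or.inr ⟨by rw [e1]; omega, by rw [e1]; exact ht'⟩, ?_, ?_⟩
      · intro s hs
        have h1 := hle s hs.1
        rcases Nat.eq_or_lt_of_le h1 with rfl | h2
        · exact absurd (hs.2 (by omega)) ht'
        · omega
      · have e3 : n - (N - 1) * c = c := by omega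
        rw [e3]
        exact ⟨fun _ => Or.inl ⟨hk0', ht'⟩, fun _ => cd_fail (by omega) hc hm hl hm0 hmn ht'⟩
  have hcm : Ev c oi τT τV n m → c ≤ m := by
    intro h
    by_contra hcon
    exact hD (by omega) S hS1 hS2 (hS4.mpr h)
  refine ⟨⟨fun h => ?_, fun h s _ hs => cd_mono hc hS1.1 (hS3 s hs) hmn (hS4.mpr h)⟩, hcm⟩
  rcases Nat.eq_zero_or_pos S with h0 | h0
  · rw [← hS4, h0]
    exact hbase
  · exact hS4.mp (h S h0 hS1)

end arith

section main
variable {F : Type*} [Field F] [Fintype F] {V : Type*} [AddCommGroup V] [Module F V] [FiniteDimensional F V]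
variable {T : Type*} [AddCommGroup T] [Module F T] [FiniteDimensional F T]
variable {p : ℕ} [Fact p.Prime] [CharP F p] {r : ℕ} [Fact r.Prime]

/-- **the criterion** for semisimple elements of odd prime order -/
theorem criterion (hr2 : r ≠ 2) (hrp : r ≠ p) {Q : QuadraticForm F V} (hQ : (polarBilin Q).Nondegenerate)
    {QT : QuadraticForm F T} (hT : (polarBilin QT).Nondegenerate) (hg : (2 : F) ≠ 0 ∨ (Even (finrank F V) ∧ Even (finrank F T)))
    (hpar : Even (finrank F V) ∨ Even (finrank F T)) (hm0 : 0 < finrank F T) (hmn : finrank F T < finrank F V)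
    (hdvd : r ∣ Nat.card {W : Submodule F V // IsoT QT Q W}) :
    ((∀ x : V →ₗ[F] V, (∀ v, Q (x v) = Q v) → x ^ r = 1 → x ≠ 1 → Fx QT Q x) ↔
      Ev (H99.blk r (Fintype.card F)) (Odd (orderOf ((Fintype.card F : ℕ) : ZMod r))) (PT QT ⊤) (PT Q ⊤) (finrank F V) (finrank F T)) ∧
    (Ev (H99.blk r (Fintype.card F)) (Odd (orderOf ((Fintype.card F : ℕ) : ZMod r))) (PT QT ⊤) (PT Q ⊤) (finrank F V) (finrank F T) →
      H99.blk r (Fintype.card F) ≤ finrank F T) := by
  have hcpos : 0 < H99.blk r (Fintype.card F) := blk_pos (p := p) hrp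
  have hev := H99.even_blk r (Fintype.card F)
  have hg' : (2 : F) ≠ 0 ∨ Even (finrank F V) := by
    rcases hg with h | h
    · exact Or.inl h
    · exact Or.inr h.1
  obtain ⟨h1, h2⟩ := eval (c := H99.blk r (Fintype.card F)) (oi := Odd (orderOf ((Fintype.card F : ℕ) : ZMod r))) (τT := PT QT ⊤) (τV := PT Q ⊤)
    hcpos hev hm0 hmn (by
      intro hmc s hs hfree hcd
      obtain ⟨x, x1, x2, x3⟩ := exists_blocks (p := p) hr2 hrp s V Q hQ hg' hs.1 hs.2
      have hk : finrank F (LinearMap.ker (x - 1)) = finrank F V - s * H99.blk r (Fintype.card F) := by omega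
      rw [← hk] at hcd
      refine not_fx (p := p) hr2 hrp hQ hT x1 x2 hmc ?_ hdvd (fx_of_cd (p := p) hr2 hrp hQ hT x1 x2 hg hpar hcd)
      rcases hfree with h | ⟨h, h'⟩
      · left
        rw [add_mul, one_mul] at h
        omega
      · right
        rw [add_mul, one_mul] at h
        refine ⟨by omega, fun h3 => h' ?_⟩
        have hVe : Even (finrank F V) := by
          rw [← h]
          exact (hev.mul_left s).add hev
        have hp := fun u v => polar_of_isom x1 u v
        obtain ⟨s1, s2, s3, s4, s5⟩ := H99.split_fixed (p := p) hrp (H99.polar_eform Q) hp x2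
          (W := ⊤) (fun _ _ => Submodule.mem_top) (nd_of_nondeg hQ)
        have e0 : (⊤ ⊓ LinearMap.ker (x - 1) : Submodule F V) = LinearMap.ker (x - 1) := top_inf_eq _
        rw [e0] at s1 s2 s3 s4 s5
        rw [top_inf_eq] at s2 s3 s4 s5
        rw [finrank_top] at s5
        have h4 := type_blocks (p := p) hr2 hrp x1 x2 s2 s3 s4 (j := s) (by omega)
        have h5 := PT_iff_orth hQ s1 (by rw [hk, ← h, Nat.add_sub_cancel_left]; exact hev) hVe
        rw [h5, h3]
        have h6 : PT Q (H99.orth (of Q) (LinearMap.ker (x - 1))) ↔ (Odd (orderOf ((Fintype.card F : ℕ) : ZMod r)) ∨ Even s) := h4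
        rw [h6, Nat.even_add_one]
        by_cases a : Odd (orderOf ((Fintype.card F : ℕ) : ZMod r)) <;> by_cases b : Even s <;> simp [a, b])
  refine ⟨Iff.trans ?_ h1, h2⟩
  constructor
  · intro h s hs1 hs
    obtain ⟨x, x1, x2, x3⟩ := exists_blocks (p := p) hr2 hrp s V Q hQ hg' hs.1 hs.2
    have hk : finrank F (LinearMap.ker (x - 1)) = finrank F V - s * H99.blk r (Fintype.card F) := by omega
    rw [← hk]
    refine cd_of_fx (p := p) hr2 hrp hQ hT x1 x2 (h x x1 x2 ?_)
    rintro rfl
    rw [sub_self, LinearMap.ker_zero, finrank_top] at x3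
    have : 0 < s * H99.blk r (Fintype.card F) := Nat.mul_pos hs1 hcpos
    omega
  · intro h x x1 x2 x3
    have hp := fun u v => polar_of_isom x1 u v
    obtain ⟨s1, s2, s3, s4, s5⟩ := H99.split_fixed (p := p) hrp (H99.polar_eform Q) hp x2
      (W := ⊤) (fun _ _ => Submodule.mem_top) (nd_of_nondeg hQ)
    obtain ⟨⟨s, hs⟩, -⟩ := blocks (p := p) hr2 hrp x1 x2 s2 s3 s4
    have e0 : (⊤ ⊓ LinearMap.ker (x - 1) : Submodule F V) = LinearMap.ker (x - 1) := top_inf_eq _
    rw [e0] at s1 s2 s3 s4 s5 hs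
    rw [finrank_top, hs] at s5
    have hs0 : s ≠ 0 := by
      rintro rfl
      apply x3
      rw [mul_zero, add_zero] at s5
      have h2 : LinearMap.ker (x - 1) = ⊤ := Submodule.eq_top_of_finrank_eq s5
      apply LinearMap.ext
      intro v
      have : v ∈ LinearMap.ker (x - 1) := by rw [h2]; exact Submodule.mem_top
      exact mem_ker.mp this
    have hk : finrank F (LinearMap.ker (x - 1)) = finrank F V - s * H99.blk r (Fintype.card F) := by
      rw [mul_comm s]
      omega
    refine fx_of_cd (p := p) hr2 hrp hQ hT x1 x2 hg hpar ?_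
    rw [hk]
    refine h s (Nat.pos_of_ne_zero hs0) ⟨by rw [mul_comm]; omega, fun h5 => ?_⟩
    have h6 : finrank F (LinearMap.ker (x - 1)) = 0 := by rw [mul_comm] at h5; omega
    have h7 := Submodule.finrank_eq_zero.mp h6
    refine type_blocks (p := p) hr2 hrp x1 x2 (W := ⊤) (fun _ _ => Submodule.mem_top) (nd_of_nondeg hQ) ?_ (by rw [finrank_top]; exact h5.symm)
    intro v _ hv
    have h8 : v ∈ LinearMap.ker (x - 1) := mem_ker.mpr hv
    rw [h7] at h8
    exact (Submodule.mem_bot F).mp h8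

end main

end Cfsg.Agent.H39.OE
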