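import Mathlib
import Cfsg.Agent.H39.OE6
import Cfsg.Agent.H99.SLConj

/-!
Involutions, translation to matrices.
-/

set_option autoImplicit false

namespace Cfsg.Agent.H39.OE

open Module QuadraticMap Cfsg.Agent.Orth Polynomial

section inv
variable {F : Type*} [Field F] [Fintype F] {V : Type*} [AddCommGroup V] [Module F V] [FiniteDimensional F V]
variable {T : Type*} [AddCommGroup T] [Module F T] [FiniteDimensional F T]

lemma mem_ker' {x : V →ₗ[F] V} {v : V} : v ∈ LinearMap.ker (x + 1) ↔ x v = -v := by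
  rw [LinearMap.mem_ker, LinearMap.add_apply, Module.End.one_apply, add_eq_zero_iff_eq_neg]

/-- nondegenerate subspaces of every dimension -/
lemma exists_nd_sub (h2 : (2 : F) ≠ 0) {Q : QuadraticForm F V} {W : Submodule F V} (hW : Nd Q W) {k : ℕ} (hk : k ≤ finrank F W) :
    ∃ U ≤ W, Nd Q U ∧ finrank F U = k := by
  rcases Nat.eq_or_lt_of_le hk with rfl | hlt
  · exact ⟨W, le_rfl, hW, rfl⟩
  obtain ⟨u, hu, -⟩ := exists_isOrth_one (nd_restrict hW) h2 k hlt
  have hu' : IsOrth Q (fun i => (u i : V)) := ⟨hu.q, hu.p⟩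
  refine ⟨Submodule.span F (Set.range fun i => (u i : V)), ?_, ?_, ?_⟩
  · rw [Submodule.span_le]
    rintro _ ⟨i, rfl⟩
    exact (u i).2
  · intro v hv hv2
    have h3 : v ∈ Submodule.span F (Set.range fun i => (u i : V)) ⊓ perp Q (Submodule.span F (Set.range fun i => (u i : V))) :=
      ⟨hv, fun w hw => (pc Q w v).trans (hv2 w hw)⟩
    rw [hu'.inf_perp h2] at h3
    exact (Submodule.mem_bot F).mp h3
  · rw [hu'.finrank h2, Fintype.card_fin]

/-- eigenspaces of involutions -/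
theorem invol_split (h2 : (2 : F) ≠ 0) {Q : QuadraticForm F V} (hQ : (polarBilin Q).Nondegenerate) {x : V →ₗ[F] V}
    (hx : ∀ v, Q (x v) = Q v) (hxx : ∀ v, x (x v) = v) :
    Nd Q (LinearMap.ker (x - 1)) ∧ Nd Q (LinearMap.ker (x + 1)) ∧ IsCompl (LinearMap.ker (x - 1)) (LinearMap.ker (x + 1)) ∧
      ∀ u ∈ LinearMap.ker (x - 1), ∀ v ∈ LinearMap.ker (x + 1), polar Q u v = 0 := by
  have hp := fun u v => polar_of_isom hx u v
  have ho : ∀ u ∈ LinearMap.ker (x - 1), ∀ v ∈ LinearMap.ker (x + 1), polar Q u v = 0 := by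
    intro u hu v hv
    have h3 := hp u v
    rw [mem_ker.mp hu, mem_ker'.mp hv] at h3
    have h4 : polar Q u (-v) = - polar Q u v := by
      rw [← neg_one_smul F v, psr]
      ring
    rw [h4] at h3
    have h5 : 2 * polar Q u v = 0 := by linear_combination -h3
    exact (mul_eq_zero.mp h5).resolve_left h2
  have hdec : ∀ v : V, ∃ a ∈ LinearMap.ker (x - 1), ∃ b ∈ LinearMap.ker (x + 1), v = a + b := by
    intro v
    refine ⟨(2 : F)⁻¹ • (v + x v), ?_, (2 : F)⁻¹ • (v - x v), ?_, ?_⟩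
    · rw [mem_ker, map_smul, map_add, hxx, add_comm]
    · rw [mem_ker', map_smul, map_sub, hxx, ← smul_neg, neg_sub]
    · rw [← smul_add]
      have : v + x v + (v - x v) = (2 : F) • v := by rw [two_smul]; abel
      rw [this, smul_smul, inv_mul_cancel₀ h2, one_smul]
  refine ⟨?_, ?_, ?_, ho⟩
  · intro u hu hu2
    refine hQ.1 u (fun v => ?_)
    obtain ⟨a, ha, b, hb, rfl⟩ := hdec v
    rw [pbil, par, (show polar Q u a = 0 from hu2 a ha), ho u hu b hb, add_zero]
  · intro u hu hu2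
    refine hQ.1 u (fun v => ?_)
    obtain ⟨a, ha, b, hb, rfl⟩ := hdec v
    rw [pbil, par, (show polar Q u b = 0 from hu2 b hb), pc, ho a ha u hu, add_zero]
  · constructor
    · rw [Submodule.disjoint_def]
      intro v hv hv'
      have h3 := mem_ker.mp hv
      rw [mem_ker'.mp hv'] at h3
      have h4 : (2 : F) • v = 0 := by
        rw [two_smul]
        nth_rewrite 1 [← h3]
        abel
      exact (smul_eq_zero.mp h4).resolve_left h2
    · rw [codisjoint_iff_le_sup]
      intro v _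
      obtain ⟨a, ha, b, hb, rfl⟩ := hdec v
      exact Submodule.add_mem_sup ha hb

/-- invariant subspaces of involutions -/
theorem invol_fx (h2 : (2 : F) ≠ 0) {Q : QuadraticForm F V} (hQ : (polarBilin Q).Nondegenerate)
    {QT : QuadraticForm F T} (hT : (polarBilin QT).Nondegenerate) {x : V →ₗ[F] V}
    (hx : ∀ v, Q (x v) = Q v) (hxx : ∀ v, x (x v) = v) {m₁ m₂ : ℕ} (hm : finrank F T = m₁ + m₂)
    (h1 : m₁ ≤ finrank F (LinearMap.ker (x - 1))) (h1' : m₂ ≤ finrank F (LinearMap.ker (x + 1)))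
    (h : (0 < m₁ ∧ m₁ < finrank F (LinearMap.ker (x - 1))) ∨ (0 < m₂ ∧ m₂ < finrank F (LinearMap.ker (x + 1)))) : Fx QT Q x := by
  obtain ⟨n1, n2, n3, n4⟩ := invol_split h2 hQ hx hxx
  rcases h with ⟨h3, h4⟩ | ⟨h3, h4⟩
  · obtain ⟨U, u1, u2, u3⟩ := exists_nd_sub h2 n2 h1'
    obtain ⟨f, hf, W₁, w1, w2, w3⟩ := embed_comb hT n1 u2 (fun a ha w hw => n4 a ha w (u1 hw)) h3 h4 (by omega) (Or.inl h2)
    refine ⟨f, hf, ?_⟩
    rw [w3]
    intro v hv
    obtain ⟨a, ha, b, hb, rfl⟩ := Submodule.mem_sup.mp hv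
    rw [map_add, mem_ker.mp (w1 ha), mem_ker'.mp (u1 hb)]
    exact Submodule.add_mem_sup ha (U.neg_mem hb)
  · obtain ⟨U, u1, u2, u3⟩ := exists_nd_sub h2 n1 h1
    obtain ⟨f, hf, W₁, w1, w2, w3⟩ := embed_comb hT n2 u2 (fun a ha w hw => (pc Q a w).trans (n4 w (u1 hw) a ha)) h3 h4 (by omega) (Or.inl h2)
    refine ⟨f, hf, ?_⟩
    rw [w3]
    intro v hv
    obtain ⟨a, ha, b, hb, rfl⟩ := Submodule.mem_sup.mp hv
    rw [map_add, mem_ker'.mp (w1 ha), mem_ker.mp (u1 hb)]
    exact Submodule.add_mem_sup (W₁.neg_mem ha) hb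

/-- the determinant of an involution -/
theorem invol_det (h2 : (2 : F) ≠ 0) {x : V →ₗ[F] V} (hc : IsCompl (LinearMap.ker (x - 1)) (LinearMap.ker (x + 1))) :
    LinearMap.det x = (-1) ^ finrank F (LinearMap.ker (x + 1)) := by
  let b := ((finBasis F (LinearMap.ker (x - 1))).prod (finBasis F (LinearMap.ker (x + 1)))).map (Submodule.prodEquivOfIsCompl _ _ hc)
  have h3 := H99.det_of_eigenbasis b x (Sum.elim (fun _ => 1) (fun _ => -1)) (by
    rintro (i | i)
    · have : b (Sum.inl i) = ((finBasis F (LinearMap.ker (x - 1)) i : LinearMap.ker (x - 1)) : V) := by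
        simp [b]
      rw [this, Sum.elim_inl, one_smul]
      exact mem_ker.mp (Submodule.coe_mem _)
    · have : b (Sum.inr i) = ((finBasis F (LinearMap.ker (x + 1)) i : LinearMap.ker (x + 1)) : V) := by
        simp [b]
      rw [this, Sum.elim_inr, neg_one_smul]
      exact mem_ker'.mp (Submodule.coe_mem _))
  rw [h3]
  simp

end inv

section types
variable {F : Type*} [Field F] [Finite F] {V : Type*} [AddCommGroup V] [Module F V] [FiniteDimensional F V]
variable {T : Type*} [AddCommGroup T] [Module F T] [FiniteDimensional F T]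

/-- isometry with a model of even dimension -/
theorem isoT_iff {QT : QuadraticForm F T} (hT : (polarBilin QT).Nondegenerate) {m' : ℕ} (hd : finrank F T = 2 * m') {Q : QuadraticForm F V}
    {W : Submodule F V} : IsoT QT Q W ↔ finrank F W = 2 * m' ∧ Nd Q W ∧ (PT Q W ↔ PT QT ⊤) := by
  constructor
  · rintro ⟨f, hf, rfl⟩
    exact ⟨by rw [LinearMap.finrank_range_of_inj (inj_of hT hf), hd], nd_range hT hf, pt_range_iff (inj_of hT hf) hf⟩
  · rintro ⟨h1, h2, h3⟩
    obtain ⟨g, hg⟩ := isom_of_type hT (nd_restrict h2) hd h1 (by rw [pt_restrict, h3])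
    refine ⟨W.subtype ∘ₗ g.toLinearMap, fun t => hg t, ?_⟩
    rw [LinearMap.range_comp, LinearEquiv.range, Submodule.map_top, Submodule.range_subtype]

end types

section matr
variable {F : Type*} [Field F] [Fintype F] {ι : Type} [Fintype ι] [DecidableEq ι]

lemma nondegOn_iff {Q : QuadraticForm F (ι → F)} {W : Submodule F (ι → F)} :
    Cfsg.Geo.IsNondegenerateOn (QuadraticMap.polar ⇑Q) W ↔ Nd Q W := by
  constructor
  · intro h u hu hu2
    by_contra hne
    obtain ⟨-, v, hv, hv2⟩ := h u hu hne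
    exact hv2 (hu2 v hv)
  · intro h w hw hw0
    have h1 : ∃ v ∈ W, polar Q w v ≠ 0 := by
      by_contra hcon
      push Not at hcon
      exact hw0 (h w hw hcon)
    obtain ⟨v, hv, hv2⟩ := h1
    exact ⟨⟨v, hv, by rw [pc]; exact hv2⟩, ⟨v, hv, hv2⟩⟩

lemma plusOn_iff {Q : QuadraticForm F (ι → F)} {W : Submodule F (ι → F)} :
    Cfsg.Geo.IsPlusTypeOn ⇑Q W ↔ PT Q W := Iff.rfl

lemma det_omega {Q : QuadraticForm F (ι → F)} {x : GL ι F} (hx : x ∈ Cfsg.Geo.omegaGL (⇑Q)) : (x : Matrix ι ι F).det = 1 := by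
  obtain ⟨g, hg, rfl⟩ := hx
  have h1 := Abelianization.commutator_subset_ker (Matrix.GeneralLinearGroup.det.comp (Cfsg.isometryGroup F ⇑Q).subtype) hg
  rw [MonoidHom.mem_ker] at h1
  exact congrArg Units.val h1

variable {T : Type*} [AddCommGroup T] [Module F T] [FiniteDimensional F T]

/-- translation, elements of prime order -/
theorem trans_order {Q : QuadraticForm F (ι → F)} (hQ : (polarBilin Q).Nondegenerate) (hd : 5 ≤ finrank F (ι → F))
    {QT : QuadraticForm F T} {r : ℕ} [Fact r.Prime] (hr2 : r ≠ 2) {P : Submodule F (ι → F) → Prop} (hP : ∀ W, P W ↔ IsoT QT Q W) :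
    (∀ x : GL ι F, x ∈ Cfsg.Geo.omegaGL (⇑Q) → orderOf x = r → ∃ W, P W ∧ W.map (Matrix.toLin' (x : Matrix ι ι F)) ≤ W) ↔
    (∀ x : (ι → F) →ₗ[F] (ι → F), (∀ v, Q (x v) = Q v) → x ^ r = 1 → x ≠ 1 → Fx QT Q x) := by
  have hrp : r.Prime := Fact.out
  constructor
  · intro h x x1 x2 x3
    obtain ⟨g, g1, g2, g3⟩ := omega_mem hQ hd x1 (hrp.odd_of_ne_two hr2) x2
    obtain ⟨W, hW, hW2⟩ := h g g1 (orderOf_eq_prime g2 (by
      rintro rfl
      apply x3
      rw [← g3, Units.val_one, Matrix.toLin'_one]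
      rfl))
    rw [g3] at hW2
    exact fx_iff.mpr ⟨W, (hP W).mp hW, fun v hv => hW2 ⟨v, hv, rfl⟩⟩
  · intro h x x1 x2
    have h1 : ∀ k : ℕ, (Matrix.toLin' (x : Matrix ι ι F)) ^ k = Matrix.toLin' ((x ^ k : GL ι F) : Matrix ι ι F) := by
      intro k
      rw [← Matrix.toLin'_pow, Units.val_pow_eq_pow_val]
    obtain ⟨W, hW, hW2⟩ := fx_iff.mp (h (Matrix.toLin' (x : Matrix ι ι F)) (H99.isom_of_mem_omegaGL x1) (by
      rw [h1, ← x2, pow_orderOf_eq_one, Units.val_one, Matrix.toLin'_one]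
      rfl) (by
      intro h3
      have h4 : x = 1 := by
        apply Units.ext
        apply Matrix.toLin'.injective
        rw [h3, Units.val_one, Matrix.toLin'_one]
        rfl
      rw [h4, orderOf_one] at x2
      exact hrp.one_lt.ne x2))
    refine ⟨W, (hP W).mpr hW, ?_⟩
    rintro _ ⟨v, hv, rfl⟩
    exact hW2 v hv

/-- scalars of isometries -/
lemma scalar_sq {Q : QuadraticForm F (ι → F)} (hQ : (polarBilin Q).Nondegenerate) (hd : 0 < finrank F (ι → F)) {z : F}
    (h : ∀ v, Q (z • v) = Q v) : z * z = 1 := by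
  have hnt : Nontrivial (ι → F) := Module.nontrivial_of_finrank_pos (R := F) hd
  obtain ⟨v, hv⟩ := exists_q_ne_zero hQ hnt
  have h1 := h v
  rw [qsmul] at h1
  have h2 : (z * z - 1) * Q v = 0 := by linear_combination h1
  exact sub_eq_zero.mp ((mul_eq_zero.mp h2).resolve_right hv)

/-- translation, projective elements of prime order -/
theorem trans_scalar {Q : QuadraticForm F (ι → F)} (hQ : (polarBilin Q).Nondegenerate) (hd : 5 ≤ finrank F (ι → F))
    {QT : QuadraticForm F T} {r : ℕ} [Fact r.Prime] (hr2 : r ≠ 2) {P : Submodule F (ι → F) → Prop} (hP : ∀ W, P W ↔ IsoT QT Q W) :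
    (∀ x : GL ι F, x ∈ Cfsg.Geo.omegaGL (⇑Q) → (∃ z : F, ((x ^ r : GL ι F) : Matrix ι ι F) = z • (1 : Matrix ι ι F)) →
      (∀ z : F, (x : Matrix ι ι F) ≠ z • (1 : Matrix ι ι F)) → ∃ W, P W ∧ W.map (Matrix.toLin' (x : Matrix ι ι F)) ≤ W) ↔
    (∀ x : (ι → F) →ₗ[F] (ι → F), (∀ v, Q (x v) = Q v) → x ^ r = 1 → x ≠ 1 → Fx QT Q x) := by
  have hrp : r.Prime := Fact.out
  have hro := hrp.odd_of_ne_two hr2
  constructor
  · intro h x x1 x2 x3
    obtain ⟨g, g1, g2, g3⟩ := omega_mem hQ hd x1 hro x2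
    obtain ⟨W, hW, hW2⟩ := h g g1 ⟨1, by rw [g2, Units.val_one, one_smul]⟩ (by
      intro z hz
      have h4 : x = z • 1 := by
        rw [← g3, hz, map_smul, Matrix.toLin'_one]
        rfl
      have h5 : z * z = 1 := scalar_sq hQ (by omega) (fun v => by
        have := x1 v
        rwa [h4] at this)
      have h6 : z ^ r = 1 := by
        have hnt : Nontrivial (ι → F) := Module.nontrivial_of_finrank_pos (R := F) (by omega)
        obtain ⟨v, hv⟩ := exists_ne (0 : ι → F)
        have h7 : (x ^ r) v = z ^ r • v := by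
          rw [h4, _root_.smul_pow, one_pow]
          rfl
        rw [x2, Module.End.one_apply] at h7
        have h8 : (z ^ r - 1) • v = 0 := by rw [sub_smul, one_smul, ← h7, sub_self]
        exact sub_eq_zero.mp ((smul_eq_zero.mp h8).resolve_right hv)
      obtain ⟨k, hk⟩ := hro
      rw [hk, pow_succ, pow_mul, pow_two, h5, one_pow, one_mul] at h6
      apply x3
      rw [h4, h6, one_smul])
    rw [g3] at hW2
    exact fx_iff.mpr ⟨W, (hP W).mp hW, fun v hv => hW2 ⟨v, hv, rfl⟩⟩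
  · rintro h x x1 ⟨z, x2⟩ x3
    have h1 : ∀ k : ℕ, (Matrix.toLin' (x : Matrix ι ι F)) ^ k = Matrix.toLin' ((x ^ k : GL ι F) : Matrix ι ι F) := by
      intro k
      rw [← Matrix.toLin'_pow, Units.val_pow_eq_pow_val]
    have hx := H99.isom_of_mem_omegaGL x1
    have hpw : (Matrix.toLin' (x : Matrix ι ι F)) ^ r = z • 1 := by
      rw [h1, x2, map_smul, Matrix.toLin'_one]
      rfl
    have hxp : ∀ (k : ℕ) v, Q (((Matrix.toLin' (x : Matrix ι ι F)) ^ k) v) = Q v := by
      intro k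
      induction k with
      | zero => intro v; rfl
      | succ k ih =>
        intro v
        rw [pow_succ', Module.End.mul_apply, hx, ih]
    have hz : z * z = 1 := scalar_sq hQ (by omega) (fun v => by
      have := hxp r v
      rwa [hpw] at this)
    have hz0 : z ≠ 0 := by
      rintro rfl
      rw [zero_mul] at hz
      exact zero_ne_one hz
    obtain ⟨W, hW, hW2⟩ := fx_iff.mp (h (z • Matrix.toLin' (x : Matrix ι ι F)) (fun v => by
      rw [LinearMap.smul_apply, qsmul, hz, one_mul, hx]) (by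
      rw [_root_.smul_pow, hpw, smul_smul]
      obtain ⟨k, hk⟩ := hro
      have : z ^ r * z = 1 := by
        rw [hk, pow_succ, pow_mul, pow_two, hz, one_pow, one_mul, hz]
      rw [this, one_smul]) (by
      intro h3
      apply x3 z
      apply Matrix.toLin'.injective
      rw [map_smul, Matrix.toLin'_one]
      have h4 := congrArg (fun f : (ι → F) →ₗ[F] (ι → F) => z • f) h3
      simp only [smul_smul, hz, one_smul] at h4
      rw [h4]
      rfl))
    refine ⟨W, (hP W).mpr hW, ?_⟩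
    rintro _ ⟨v, hv, rfl⟩
    have h5 := W.smul_mem z (hW2 v hv)
    rw [LinearMap.smul_apply, smul_smul, hz, one_smul] at h5
    exact h5

end matr

end Cfsg.Agent.H39.OE
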