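import Mathlib
import Cfsg.Agent.H39.OE7

/-!
Involutions in odd dimension.
-/

set_option autoImplicit false

namespace Cfsg.Agent.H39.OE

open Module QuadraticMap Cfsg.Agent.Orth Polynomial

variable {F : Type*} [Field F] [Fintype F] {ι : Type} [Fintype ι] [DecidableEq ι]
variable {T : Type*} [AddCommGroup T] [Module F T] [FiniteDimensional F T]

lemma toLin_sq {x : GL ι F} {z : F} (h : ((x ^ 2 : GL ι F) : Matrix ι ι F) = z • (1 : Matrix ι ι F)) (v : ι → F) :
    Matrix.toLin' (x : Matrix ι ι F) (Matrix.toLin' (x : Matrix ι ι F) v) = z • v := by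
  have h2 : (x : Matrix ι ι F) * (x : Matrix ι ι F) = z • (1 : Matrix ι ι F) := by
    rw [← h, pow_two]
    rfl
  rw [← LinearMap.comp_apply, ← Matrix.toLin'_mul, h2]
  simp

/-- dimensions of the eigenspaces of an involution of `Ω` -/
theorem invol_dims (h2 : (2 : F) ≠ 0) {Q : QuadraticForm F (ι → F)} (hQ : (polarBilin Q).Nondegenerate) {x : GL ι F}
    (hx : x ∈ Cfsg.Geo.omegaGL (⇑Q)) (hxx : ∀ v, Matrix.toLin' (x : Matrix ι ι F) (Matrix.toLin' (x : Matrix ι ι F) v) = v) :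
    Even (finrank F (LinearMap.ker (Matrix.toLin' (x : Matrix ι ι F) + 1))) ∧
    finrank F (LinearMap.ker (Matrix.toLin' (x : Matrix ι ι F) - 1)) + finrank F (LinearMap.ker (Matrix.toLin' (x : Matrix ι ι F) + 1)) = finrank F (ι → F) := by
  obtain ⟨n1, n2, n3, n4⟩ := invol_split h2 hQ (H99.isom_of_mem_omegaGL hx) hxx
  refine ⟨?_, Submodule.finrank_add_eq_of_isCompl n3⟩
  have h3 := invol_det h2 n3
  rw [LinearMap.det_toLin', det_omega hx] at h3
  by_contra hodd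
  rw [Nat.not_even_iff_odd] at hodd
  rw [hodd.neg_one_pow] at h3
  apply h2
  linear_combination h3

theorem invol_odd (h2 : (2 : F) ≠ 0) {Q : QuadraticForm F (ι → F)} (hQ : (polarBilin Q).Nondegenerate) {d m : ℕ} (hn : finrank F (ι → F) = 2 * d + 1)
    {QT : QuadraticForm F T} (hT : (polarBilin QT).Nondegenerate) (hTd : finrank F T = m) (hm0 : 0 < m) (hmd : m ≤ 2 * d)
    {x : GL ι F} (hx : x ∈ Cfsg.Geo.omegaGL (⇑Q)) (hx2 : orderOf x = 2) : Fx QT Q (Matrix.toLin' (x : Matrix ι ι F)) := by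
  have hxx : ∀ v, Matrix.toLin' (x : Matrix ι ι F) (Matrix.toLin' (x : Matrix ι ι F) v) = v := by
    intro v
    rw [toLin_sq (z := 1) (by rw [← hx2, pow_orderOf_eq_one, Units.val_one, one_smul]), one_smul]
  obtain ⟨d1, d2⟩ := invol_dims h2 hQ hx hxx
  have hb : finrank F (LinearMap.ker (Matrix.toLin' (x : Matrix ι ι F) + 1)) ≠ 0 := by
    intro h0
    rw [h0, add_zero] at d2
    have h3 : LinearMap.ker (Matrix.toLin' (x : Matrix ι ι F) - 1) = ⊤ := Submodule.eq_top_of_finrank_eq d2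
    have h4 : x = 1 := by
      apply Units.ext
      apply Matrix.toLin'.injective
      rw [Units.val_one, Matrix.toLin'_one]
      apply LinearMap.ext
      intro v
      have : v ∈ LinearMap.ker (Matrix.toLin' (x : Matrix ι ι F) - 1) := by rw [h3]; exact Submodule.mem_top
      exact mem_ker.mp this
    rw [h4, orderOf_one] at hx2
    omega
  obtain ⟨b', hb'⟩ := d1
  rw [hn] at d2
  rcases lt_trichotomy m (finrank F (LinearMap.ker (Matrix.toLin' (x : Matrix ι ι F) + 1))) with h | h | h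
  · exact invol_fx h2 hQ hT (H99.isom_of_mem_omegaGL hx) hxx (m₁ := 0) (m₂ := m) (by omega) (by omega) (by omega) (Or.inr ⟨by omega, by omega⟩)
  · exact invol_fx h2 hQ hT (H99.isom_of_mem_omegaGL hx) hxx (m₁ := 1) (m₂ := m - 1) (by omega) (by omega) (by omega) (Or.inr ⟨by omega, by omega⟩)
  · exact invol_fx h2 hQ hT (H99.isom_of_mem_omegaGL hx) hxx (m₁ := m - finrank F (LinearMap.ker (Matrix.toLin' (x : Matrix ι ι F) + 1)))
      (m₂ := finrank F (LinearMap.ker (Matrix.toLin' (x : Matrix ι ι F) + 1))) (by omega) (by omega) (by omega) (Or.inl ⟨by omega, by omega⟩)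

lemma exists_of_fx {Q : QuadraticForm F (ι → F)} {QT : QuadraticForm F T} {P : Submodule F (ι → F) → Prop} (hP : ∀ W, P W ↔ IsoT QT Q W)
    {x : (ι → F) →ₗ[F] (ι → F)} (h : Fx QT Q x) : ∃ W, P W ∧ W.map x ≤ W := by
  obtain ⟨W, h1, h2⟩ := fx_iff.mp h
  refine ⟨W, (hP W).mpr h1, ?_⟩
  rintro _ ⟨v, hv, rfl⟩
  exact h2 v hv

lemma fx_of_exists {Q : QuadraticForm F (ι → F)} {QT : QuadraticForm F T} {P : Submodule F (ι → F) → Prop} (hP : ∀ W, P W ↔ IsoT QT Q W)
    {x : (ι → F) →ₗ[F] (ι → F)} (h : ∃ W, P W ∧ W.map x ≤ W) : Fx QT Q x := by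
  obtain ⟨W, h1, h2⟩ := h
  exact fx_iff.mpr ⟨W, (hP W).mp h1, fun v hv => h2 ⟨v, hv, rfl⟩⟩

lemma even_mod {a c : ℕ} (ha : Even a) (hc : Even c) : (a % c) % 2 = 0 := by
  obtain ⟨k, hk⟩ := hc
  rw [Nat.mod_mod_of_dvd a ⟨k, by omega⟩]
  exact Nat.even_iff.mp ha

lemma odd_mod {a c : ℕ} (ha : Odd a) (hc : Even c) : (a % c) % 2 = 1 := by
  obtain ⟨k, hk⟩ := hc
  rw [Nat.mod_mod_of_dvd a ⟨k, by omega⟩]
  exact Nat.odd_iff.mp ha

lemma finrank_odd (d : ℕ) : finrank F (Unit ⊕ (Fin d ⊕ Fin d) → F) = 2 * d + 1 := by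
  rw [finrank_fintype_fun_eq_card, Fintype.card_sum, Fintype.card_sum, Fintype.card_fin, Fintype.card_unit]
  ring

end Cfsg.Agent.H39.OE
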