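import Mathlib
import Cfsg.Agent.H39.OE8

/-!
Isometries of square `-1` (odd characteristic): type of the space and spinor norm.
-/

set_option autoImplicit false

namespace Cfsg.Agent.H39.OE

open Module QuadraticMap Cfsg.Agent.Orth Polynomial

section sub
variable {F : Type*} [Field F] {V : Type*} [AddCommGroup V] [Module F V] [FiniteDimensional F V]

lemma pt_comap {Q : QuadraticForm F V} {X W : Submodule F V} (h : W ≤ X) : PT (Q.restrict X) (W.comap X.subtype) ↔ PT Q W := by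
  constructor
  · intro h1
    have h2 := pt_of_isom (Q' := Q) (f := X.subtype) X.subtype_injective (fun v => rfl) h1
    rwa [Submodule.map_comap_subtype, inf_eq_right.mpr h] at h2
  · rintro ⟨U, h1, h2, h3⟩
    refine ⟨U.comap X.subtype, Submodule.comap_mono h1, fun u hu => h2 _ hu, ?_⟩
    rw [(Submodule.comapSubtypeEquivOfLe (h1.trans h)).finrank_eq, (Submodule.comapSubtypeEquivOfLe h).finrank_eq, h3]

/-- additivity of the type, subspaces version -/
theorem PT_iff_sub [Finite F] {Q : QuadraticForm F V} {W W' : Submodule F V} (hW : Nd Q W) (hW' : Nd Q W')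
    (ho : ∀ u ∈ W, ∀ v ∈ W', polar Q u v = 0) (hWe : Even (finrank F W)) (hWe' : Even (finrank F W')) :
    PT Q (W ⊔ W') ↔ (PT Q W ↔ PT Q W') := by
  have hX : Nd Q (W ⊔ W') := H99.ND_sup (of Q) hW hW' (fun u hu v hv => ho u hu v hv)
  have hN1 : Nd (Q.restrict (W ⊔ W')) (W.comap (W ⊔ W').subtype) := by
    intro u hu hu2
    apply Subtype.ext
    exact hW u hu (fun v hv => hu2 ⟨v, Submodule.mem_sup_left hv⟩ hv)
  have hN2 : Nd (Q.restrict (W ⊔ W')) (W'.comap (W ⊔ W').subtype) := by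
    intro u hu hu2
    apply Subtype.ext
    exact hW' u hu (fun v hv => hu2 ⟨v, Submodule.mem_sup_right hv⟩ hv)
  have hs : W.comap (W ⊔ W').subtype ⊔ W'.comap (W ⊔ W').subtype = ⊤ := by
    rw [eq_top_iff]
    rintro ⟨v, hv⟩ -
    obtain ⟨a, ha, b, hb, rfl⟩ := Submodule.mem_sup.mp hv
    have : (⟨a + b, hv⟩ : (W ⊔ W' : Submodule F V)) = ⟨a, Submodule.mem_sup_left ha⟩ + ⟨b, Submodule.mem_sup_right hb⟩ := rfl
    rw [this]
    exact Submodule.add_mem_sup ha hb
  have h1 := PT_iff (nd_restrict hX) hN1 hN2 (fun u hu v hv => ho u hu v hv) hs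
    (by rw [(Submodule.comapSubtypeEquivOfLe le_sup_left).finrank_eq]; exact hWe)
    (by rw [(Submodule.comapSubtypeEquivOfLe le_sup_right).finrank_eq]; exact hWe')
  rw [pt_restrict, pt_comap le_sup_left, pt_comap le_sup_right] at h1
  exact h1

lemma nd_of_isOrth (h2 : (2 : F) ≠ 0) {Q : QuadraticForm F V} {ι : Type*} [Fintype ι] {u : ι → V} (h : IsOrth Q u) : Nd Q (Submodule.span F (Set.range u)) := by
  intro v hv hv2
  have h3 : v ∈ Submodule.span F (Set.range u) ⊓ perp Q (Submodule.span F (Set.range u)) :=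
    ⟨hv, fun w hw => (pc Q w v).trans (hv2 w hw)⟩
  rw [h.inf_perp h2] at h3
  exact (Submodule.mem_bot F).mp h3

end sub

section J
variable {F : Type*} [Field F] [Fintype F] {V : Type*} [AddCommGroup V] [Module F V] [FiniteDimensional F V]

lemma polar_J (h2 : (2 : F) ≠ 0) {Q : QuadraticForm F V} {x : V →ₗ[F] V} (hx : ∀ v, Q (x v) = Q v) (hxx : ∀ v, x (x v) = -v) (v : V) :
    polar Q v (x v) = 0 := by
  have h := polar_of_isom hx v (x v)
  rw [hxx] at h
  have h4 : polar Q (x v) (-v) = - polar Q (x v) v := by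
    rw [← neg_one_smul F v, psr]
    ring
  rw [h4, pc] at h
  have h5 : 2 * polar Q v (x v) = 0 := by linear_combination -h
  exact (mul_eq_zero.mp h5).resolve_left h2

/-- splitting off an invariant plane -/
theorem exists_J_plane (h2 : (2 : F) ≠ 0) {Q : QuadraticForm F V} {x : V →ₗ[F] V} (hx : ∀ v, Q (x v) = Q v) (hxx : ∀ v, x (x v) = -v)
    {W : Submodule F V} (hW : ∀ v ∈ W, x v ∈ W) (hN : Nd Q W) (hW0 : W ≠ ⊥) :
    ∃ v ∈ W, Q v ≠ 0 ∧ Q (v - x v) = 2 * Q v ∧ Nd Q (Submodule.span F (Set.range ![v, x v])) ∧ finrank F (Submodule.span F (Set.range ![v, x v])) = 2 ∧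
      Submodule.span F (Set.range ![v, x v]) ≤ W ∧ (∀ u ∈ Submodule.span F (Set.range ![v, x v]), x u ∈ Submodule.span F (Set.range ![v, x v])) ∧
      (PT Q (Submodule.span F (Set.range ![v, x v])) ↔ IsSquare (-1 : F)) := by
  obtain ⟨v, hv, hQv⟩ : ∃ v ∈ W, Q v ≠ 0 := by
    by_contra hcon
    push Not at hcon
    obtain ⟨w, hw, hw0⟩ := Submodule.exists_mem_ne_zero_of_ne_bot hW0
    apply hw0
    refine hN w hw (fun u hu => ?_)
    have h3 := qadd Q w u
    rw [hcon _ hw, hcon _ hu, hcon _ (W.add_mem hw hu)] at h3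
    change polar Q w u = 0
    linear_combination -h3
  have hp := polar_J h2 hx hxx v
  have ho : IsOrth Q ![v, x v] := by
    constructor
    · intro i
      fin_cases i
      · exact hQv
      · change Q (x v) ≠ 0
        rw [hx]
        exact hQv
    · intro i j hij
      fin_cases i <;> fin_cases j
      · exact absurd rfl hij
      · exact hp
      · exact (pc Q _ _).trans hp
      · exact absurd rfl hij
  have hfr := ho.finrank h2
  rw [Fintype.card_fin] at hfr
  have hmem : ∀ u, u ∈ Submodule.span F (Set.range ![v, x v]) ↔ ∃ a b : F, a • v + b • x v = u := by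
    intro u
    rw [Matrix.range_cons, Matrix.range_cons, Matrix.range_empty, Set.union_empty]
    change u ∈ Submodule.span F {v, x v} ↔ _
    rw [Submodule.mem_span_pair]
  have hQf : ∀ a b : F, Q (a • v + b • x v) = (a * a + b * b) * Q v := by
    intro a b
    rw [qadd, qsmul, qsmul, psl, psr, hp, hx]
    ring
  refine ⟨v, hv, hQv, ?_, nd_of_isOrth h2 ho, hfr, ?_, ?_, ?_⟩
  · rw [qsub, hx, hp]
    ring
  · intro u hu
    obtain ⟨a, b, rfl⟩ := (hmem u).mp hu
    exact W.add_mem (W.smul_mem _ hv) (W.smul_mem _ (hW v hv))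
  · intro u hu
    obtain ⟨a, b, rfl⟩ := (hmem u).mp hu
    rw [hmem]
    refine ⟨-b, a, ?_⟩
    rw [map_add, map_smul, map_smul, hxx, smul_neg, neg_smul, add_comm]
  · constructor
    · rintro ⟨U, u1, u2, u3⟩
      rw [hfr] at u3
      have hU0 : U ≠ ⊥ := by
        rintro rfl
        rw [finrank_bot] at u3
        omega
      obtain ⟨w, hw, hw0⟩ := Submodule.exists_mem_ne_zero_of_ne_bot hU0
      obtain ⟨a, b, rfl⟩ := (hmem w).mp (u1 hw)
      have h3 := u2 _ hw
      rw [hQf] at h3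
      have h4 := (mul_eq_zero.mp h3).resolve_right hQv
      by_cases hb : b = 0
      · exfalso
        rw [hb, mul_zero, add_zero] at h4
        apply hw0
        rw [hb, mul_self_eq_zero.mp h4, zero_smul, zero_smul, add_zero]
      · refine ⟨a / b, ?_⟩
        field_simp
        linear_combination -h4
    · rintro ⟨c, hc⟩
      refine ⟨Submodule.span F {c • v + (1 : F) • x v}, ?_, ?_, ?_⟩
      · rw [Submodule.span_singleton_le_iff_mem, hmem]
        exact ⟨c, 1, rfl⟩
      · intro u hu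
        obtain ⟨t, rfl⟩ := Submodule.mem_span_singleton.mp hu
        rw [qsmul, hQf, ← hc]
        ring
      · rw [hfr, finrank_span_singleton]
        intro h0
        have h3 := congrArg (fun z => polar Q z (x v)) h0
        simp only [pal, psl, hp, mul_zero, zero_add, polar_zero_left, pself, hx, one_mul] at h3
        exact mul_ne_zero h2 hQv h3

lemma prop_J {s a p w : Prop} (h : w ↔ (p ↔ a)) (hp : p ↔ s) (e : Prop) (ha : a ↔ (s ∨ e)) : w ↔ (s ∨ ¬ e) := by tauto

/-- invariant subspaces of square roots of `-1` -/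
theorem J_type (h2 : (2 : F) ≠ 0) {Q : QuadraticForm F V} {x : V →ₗ[F] V} (hx : ∀ v, Q (x v) = Q v) (hxx : ∀ v, x (x v) = -v) (n : ℕ) :
    ∀ W : Submodule F V, (∀ v ∈ W, x v ∈ W) → Nd Q W → finrank F W = n → ∃ k, n = 2 * k ∧ (PT Q W ↔ (IsSquare (-1 : F) ∨ Even k)) ∧
      ∀ k' ≤ k, ∃ U ≤ W, (∀ v ∈ U, x v ∈ U) ∧ Nd Q U ∧ finrank F U = 2 * k' := by
  have hinj : Function.Injective x := by
    intro a b hab
    have := congrArg x hab
    rw [hxx, hxx] at this
    exact neg_injective this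
  have hp := fun u v => polar_of_isom hx u v
  induction n using Nat.strong_induction_on with
  | _ n ih =>
    intro W hW hN hn
    by_cases hW0 : W = ⊥
    · subst hW0
      rw [finrank_bot] at hn
      refine ⟨0, by omega, ⟨fun _ => Or.inr Even.zero, fun _ => PT_bot Q⟩, ?_⟩
      intro k' hk'
      exact ⟨⊥, le_rfl, hW, hN, by rw [finrank_bot]; omega⟩
    · obtain ⟨v, hv, hQv, -, p1, p2, p3, p4, p5⟩ := exists_J_plane h2 hx hxx hW hN hW0
      set P := Submodule.span F (Set.range ![v, x v]) with hP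
      have g1 := H99.split_ND_compl (of Q) hN p1 p3
      have g2 := H99.split_ND (of Q) p1 p3
      have g3 := H99.split_finrank (of Q) p1 p3
      have g4 : ∀ v ∈ H99.orth (of Q) P, x v ∈ H99.orth (of Q) P := H99.orth_inv_of_isom' (of Q) hinj hp p4
      have g5 : ∀ v ∈ W ⊓ H99.orth (of Q) P, x v ∈ W ⊓ H99.orth (of Q) P := fun v hv => ⟨hW v hv.1, g4 v hv.2⟩
      obtain ⟨k, k1, k2, k3⟩ := ih _ (by omega) (W ⊓ H99.orth (of Q) P) g5 g1 rfl
      have ho : ∀ u ∈ P, ∀ v ∈ W ⊓ H99.orth (of Q) P, polar Q u v = 0 := fun u hu v hv => (pc Q u v).trans (hv.2 u hu)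
      refine ⟨k + 1, by omega, ?_, ?_⟩
      · have h3 := PT_iff_sub p1 g1 ho (by rw [p2]; exact even_two) ⟨k, by omega⟩
        rw [g2] at h3
        rw [Nat.even_add_one]
        exact prop_J h3 p5 _ k2
      · intro k' hk'
        rcases Nat.eq_zero_or_pos k' with rfl | hk0
        · exact ⟨⊥, bot_le, fun v hv => by rw [(Submodule.mem_bot F).mp hv, map_zero]; exact Submodule.zero_mem _, H99.ND_bot (of Q), by rw [finrank_bot]⟩
        · obtain ⟨U, u1, u2, u3, u4⟩ := k3 (k' - 1) (by omega)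
          have hoU : ∀ u ∈ P, ∀ v ∈ U, polar Q u v = 0 := fun u hu v hv => ho u hu v (u1 hv)
          refine ⟨P ⊔ U, sup_le p3 (u1.trans inf_le_left), ?_, H99.ND_sup (of Q) p1 u3 (fun u hu v hv => hoU u hu v hv), ?_⟩
          · intro v hv
            obtain ⟨a, ha, b, hb, rfl⟩ := Submodule.mem_sup.mp hv
            rw [map_add]
            exact Submodule.add_mem_sup (p4 a ha) (u2 b hb)
          · rw [finrank_sup_disj (disj_of_orth p1 hoU), p2, u4]
            omega

/-- square roots of `-1` as products of reflections -/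
theorem J_list (h2 : (2 : F) ≠ 0) {Q : QuadraticForm F V} {x : V →ₗ[F] V} (hx : ∀ v, Q (x v) = Q v) (hxx : ∀ v, x (x v) = -v) (k : ℕ) :
    ∀ (W Z : Submodule F V) (y : OGrp Q), (∀ v ∈ W, x v ∈ W) → Nd Q W → finrank F W = 2 * k → W ⊔ Z = ⊤ → (∀ u ∈ W, ∀ v ∈ Z, polar Q u v = 0) →
      (∀ v ∈ W, (y : V ≃ₗ[F] V) v = x v) → (∀ v ∈ Z, (y : V ≃ₗ[F] V) v = v) →
      ∃ l : List {v : V // Q v ≠ 0}, y = reflProd Q l ∧ Even l.length ∧ ∃ s : F, s ≠ 0 ∧ nrm Q l = 2 ^ k * (s * s) := by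
  have hinj : Function.Injective x := by
    intro a b hab
    have := congrArg x hab
    rw [hxx, hxx] at this
    exact neg_injective this
  have hp := fun u v => polar_of_isom hx u v
  induction k with
  | zero =>
    intro W Z y _ _ hd hs _ _ hy
    have hW : W = ⊥ := Submodule.finrank_eq_zero.mp (by omega)
    rw [hW, bot_sup_eq] at hs
    refine ⟨[], ?_, by simp, 1, one_ne_zero, by rw [nrm_nil]; ring⟩
    rw [reflProd_nil]
    exact OGrp_ext (fun v => hy v (by rw [hs]; exact Submodule.mem_top))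
  | succ k ih =>
    intro W Z y hW hN hd hs hWZ hyW hyZ
    have hW0 : W ≠ ⊥ := by
      rintro rfl
      rw [finrank_bot] at hd
      omega
    obtain ⟨v, hv, hQv, hQw, p1, p2, p3, p4, p5⟩ := exists_J_plane h2 hx hxx hW hN hW0
    set P := Submodule.span F (Set.range ![v, x v]) with hP
    have g1 := H99.split_ND_compl (of Q) hN p1 p3
    have g2 := H99.split_ND (of Q) p1 p3
    have g3 := H99.split_finrank (of Q) p1 p3
    have g4 : ∀ v ∈ H99.orth (of Q) P, x v ∈ H99.orth (of Q) P := H99.orth_inv_of_isom' (of Q) hinj hp p4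
    have g5 : ∀ v ∈ W ⊓ H99.orth (of Q) P, x v ∈ W ⊓ H99.orth (of Q) P := fun v hv => ⟨hW v hv.1, g4 v hv.2⟩
    have hvx := polar_J h2 hx hxx v
    have hvP : v ∈ P := Submodule.subset_span ⟨0, rfl⟩
    have hxvP : x v ∈ P := Submodule.subset_span ⟨1, rfl⟩
    have hw0 : Q (v - x v) ≠ 0 := by
      rw [hQw]
      exact mul_ne_zero h2 hQv
    -- the rotation
    set ρ : OGrp Q := refl Q v hQv * refl Q (v - x v) hw0 with hρ
    have hρ1 : ∀ u, polar Q u v = 0 → polar Q u (x v) = 0 → (ρ : V ≃ₗ[F] V) u = u := by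
      intro u h1 h3
      rw [hρ, coe_mul_apply, refl_apply_of_ortho hw0 (by rw [pdr, h1, h3, sub_zero]), refl_apply_of_ortho hQv h1]
    have hρv : (ρ : V ≃ₗ[F] V) v = x v := by
      rw [hρ, coe_mul_apply, refl_apply Q (v - x v) hw0 v, hQw]
      have h3 : polar Q v (v - x v) = 2 * Q v := by rw [pdr, hvx, pself, sub_zero]
      rw [h3, inv_mul_cancel₀ (mul_ne_zero h2 hQv), one_smul, sub_sub_cancel]
      exact refl_apply_of_ortho hQv (by rw [pc]; exact hvx)
    have hρxv : (ρ : V ≃ₗ[F] V) (x v) = -v := by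
      rw [hρ, coe_mul_apply, refl_apply Q (v - x v) hw0 (x v), hQw]
      have h3 : polar Q (x v) (v - x v) = -(2 * Q v) := by rw [pdr, pc, hvx, pself, hx]; ring
      have h4 : (2 * Q v)⁻¹ * -(2 * Q v) = -1 := by
        rw [mul_neg, inv_mul_cancel₀ (mul_ne_zero h2 hQv)]
      rw [h3, h4, neg_one_smul, sub_neg_eq_add, add_sub_cancel]
      exact refl_apply_self hQv
    have hρP : ∀ u ∈ P, (ρ : V ≃ₗ[F] V) u = x u := by
      intro u hu
      induction hu using Submodule.span_induction with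
      | mem z hz =>
        obtain ⟨i, rfl⟩ := hz
        fin_cases i
        · exact hρv
        · exact hρxv.trans (hxx v).symm
      | zero => rw [map_zero, map_zero]
      | add a b _ _ ha hb => rw [map_add, map_add, ha, hb]
      | smul c a _ ha => rw [map_smul, map_smul, ha]
    have hρinv : ∀ u u', (ρ : V ≃ₗ[F] V) u = u' → ((ρ⁻¹ : OGrp Q) : V ≃ₗ[F] V) u' = u := by
      intro u u' h
      rw [← h]
      exact coe_inv_apply_self ρ u
    obtain ⟨l, l1, l2, s, l3, l4⟩ := ih (W ⊓ H99.orth (of Q) P) (P ⊔ Z) (ρ⁻¹ * y) g5 g1 (by omega) (by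
      rw [← sup_assoc, sup_comm (W ⊓ _) P, g2, hs]) (by
      intro u hu w hw
      obtain ⟨a, ha, b, hb, rfl⟩ := Submodule.mem_sup.mp hw
      rw [par, (show polar Q u a = 0 from hu.2 a ha), hWZ u hu.1 b hb, add_zero]) (by
      intro u hu
      rw [coe_mul_apply, hyW u hu.1]
      apply hρinv
      have h3 := g4 u hu.2
      exact hρ1 _ (h3 v hvP) (h3 _ hxvP)) (by
      intro u hu
      obtain ⟨a, ha, b, hb, rfl⟩ := Submodule.mem_sup.mp hu
      rw [coe_mul_apply, map_add, hyW a (p3 ha), hyZ b hb, map_add]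
      rw [hρinv a (x a) (hρP a ha), hρinv b b (hρ1 b ((pc Q b v).trans (hWZ v hv b hb)) ((pc Q b (x v)).trans (hWZ (x v) (hW v hv) b hb)))])
    refine ⟨⟨v, hQv⟩ :: ⟨v - x v, hw0⟩ :: l, ?_, ?_, Q v * s, mul_ne_zero hQv l3, ?_⟩
    · rw [reflProd_cons, reflProd_cons, ← mul_assoc, ← l1]
      rw [hρ, mul_inv_cancel_left]
    · rw [List.length_cons, List.length_cons]
      exact (Nat.even_add_one.mpr (by rw [Nat.even_add_one]; exact not_not.mpr l2))
    · rw [nrm_cons, nrm_cons, l4]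
      change Q v * (Q (v - x v) * _) = _
      rw [hQw]
      ring

lemma isSquare_two_pow {k : ℕ} {s : F} (h2 : (2 : F) ≠ 0) (hs : s ≠ 0) : IsSquare ((2 : F) ^ k * (s * s)) ↔ (IsSquare (2 : F) ∨ Even k) := by
  constructor
  · rintro ⟨a, ha⟩
    rcases Nat.even_or_odd k with hk | hk
    · exact Or.inr hk
    · left
      obtain ⟨j, hj⟩ := hk
      refine ⟨a / (2 ^ j * s), ?_⟩
      field_simp
      rw [hj] at ha
      rw [pow_two a, ← ha]
      ring
  · rintro (⟨a, ha⟩ | ⟨j, hj⟩)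
    · refine ⟨a ^ k * s, ?_⟩
      rw [ha]
      ring
    · refine ⟨2 ^ j * s, ?_⟩
      rw [hj]
      ring

/-- existence of square roots of `-1` -/
theorem exists_J (h2 : (2 : F) ≠ 0) {Q : QuadraticForm F V} (hQ : (polarBilin Q).Nondegenerate) {d : ℕ} (hd : finrank F V = 2 * d)
    (ht : PT Q ⊤ ↔ (IsSquare (-1 : F) ∨ Even d)) : ∃ x : V →ₗ[F] V, (∀ v, Q (x v) = Q v) ∧ ∀ v, x (x v) = -v := by
  classical
  let M := Fin d ⊕ Fin d → F
  let Q₀ : QuadraticForm F M := QuadraticMap.weightedSumSquares F (fun _ : Fin d ⊕ Fin d => (1 : F))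
  have hQs : ∀ v : Fin d ⊕ Fin d → F, QuadraticMap.weightedSumSquares F (fun _ : Fin d ⊕ Fin d => (1 : F)) v = ∑ i, v i * v i := by
    intro v
    rw [QuadraticMap.weightedSumSquares_apply]
    simp
  have hQ₀ : ∀ v : M, Q₀ v = ∑ i : Fin d, (v (Sum.inl i) * v (Sum.inl i) + v (Sum.inr i) * v (Sum.inr i)) := by
    intro v
    rw [Finset.sum_add_distrib, ← Fintype.sum_sum_type (fun i => v i * v i)]
    exact hQs v
  have hpol : ∀ u v : M, polar Q₀ u v = 2 * ∑ i, u i * v i := by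
    intro u v
    change Q₀ (u + v) - Q₀ u - Q₀ v = _
    rw [(hQs (u + v) : Q₀ (u + v) = _), (hQs u : Q₀ u = _), (hQs v : Q₀ v = _)]
    rw [Finset.mul_sum, ← Finset.sum_sub_distrib, ← Finset.sum_sub_distrib]
    apply Finset.sum_congr rfl
    intro i _
    have h3 : (u + v) i = u i + v i := rfl
    rw [h3]
    ring
  have hN : (polarBilin Q₀).Nondegenerate := by
    apply H99.nondegenerate_of_ND
    intro u _ hu
    funext i
    have h3 := hu (Pi.single i 1) Submodule.mem_top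
    change polar Q₀ u (Pi.single i 1) = 0 at h3
    rw [hpol, Finset.sum_eq_single i, Pi.single_eq_same, mul_one] at h3
    · exact (mul_eq_zero.mp h3).resolve_left h2
    · intro j _ hj
      rw [Pi.single_eq_of_ne hj, mul_zero]
    · intro h; exact absurd (Finset.mem_univ i) h
  let J : M →ₗ[F] M := LinearMap.pi (fun i => Sum.elim (fun j => -(LinearMap.proj (R := F) (φ := fun _ : Fin d ⊕ Fin d => F) (Sum.inr j))) (fun j => LinearMap.proj (Sum.inl j)) i)
  have hJl : ∀ v i, J v (Sum.inl i) = - v (Sum.inr i) := fun v i => rfl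
  have hJr : ∀ v i, J v (Sum.inr i) = v (Sum.inl i) := fun v i => rfl
  have hJ1 : ∀ v, Q₀ (J v) = Q₀ v := by
    intro v
    rw [hQ₀, hQ₀]
    apply Finset.sum_congr rfl
    intro i _
    rw [hJl, hJr]
    ring
  have hJ2 : ∀ v, J (J v) = -v := by
    intro v
    funext i
    rcases i with i | i
    · rw [hJl, hJr]; rfl
    · rw [hJr, hJl]; rfl
  have hMd : finrank F M = 2 * d := by
    simp only [M]
    rw [finrank_fintype_fun_eq_card, Fintype.card_sum, Fintype.card_fin]
    ring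
  obtain ⟨k, k1, k2, -⟩ := J_type h2 hJ1 hJ2 (2 * d) ⊤ (fun _ _ => Submodule.mem_top) (nd_of_nondeg hN) (by rw [finrank_top, hMd])
  have hkd : k = d := by omega
  rw [hkd] at k2
  obtain ⟨g, hg⟩ := isom_of_type hQ hN hd hMd (by rw [ht, k2])
  refine ⟨g.symm.toLinearMap ∘ₗ J ∘ₗ g.toLinearMap, fun v => ?_, fun v => ?_⟩
  · simp only [LinearMap.comp_apply, LinearEquiv.coe_coe]
    rw [← hg, LinearEquiv.apply_symm_apply, hJ1, hg]
  · simp only [LinearMap.comp_apply, LinearEquiv.coe_coe]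
    rw [LinearEquiv.apply_symm_apply, hJ2, map_neg, LinearEquiv.symm_apply_apply]

end J

section mat
variable {F : Type*} [Field F] [Fintype F] {ι : Type} [Fintype ι] [DecidableEq ι]

/-- square roots of `-1` in `Ω` -/
theorem J_omega (h2 : (2 : F) ≠ 0) {Q : QuadraticForm F (ι → F)} (hQ : (polarBilin Q).Nondegenerate) {d : ℕ} (hd : finrank F (ι → F) = 2 * d)
    (hd5 : 5 ≤ finrank F (ι → F)) {y : OGrp Q} {x : (ι → F) →ₗ[F] (ι → F)} (hyx : ∀ v, (y : (ι → F) ≃ₗ[F] (ι → F)) v = x v) (hxx : ∀ v, x (x v) = -v) :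
    y ∈ commutator (OGrp Q) ↔ (IsSquare (2 : F) ∨ Even d) := by
  have hx : ∀ v, Q (x v) = Q v := fun v => by rw [← hyx]; exact OGrp_q y v
  obtain ⟨l, l1, l2, s, l3, l4⟩ := J_list h2 hx hxx d ⊤ ⊥ y (fun _ _ => Submodule.mem_top) (nd_of_nondeg hQ) (by rw [finrank_top, hd]) (by simp)
    (fun u _ v hv => by rw [(Submodule.mem_bot F).mp hv, polar_zero_right]) (fun v _ => hyx v) (fun v hv => by rw [(Submodule.mem_bot F).mp hv, map_zero])
  have hR := RGrp_eq_top hQ (Or.inr (by omega))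
  rw [l1, reflProd_mem_commutator_iff hQ hR, l4, isSquare_two_pow h2 l3]
  exact ⟨fun h => h.2, fun h => ⟨l2, h⟩⟩

theorem J_omega_necessary (h2 : (2 : F) ≠ 0) {Q : QuadraticForm F (ι → F)} (hQ : (polarBilin Q).Nondegenerate) {d : ℕ} (hd : finrank F (ι → F) = 2 * d)
    (hd5 : 5 ≤ finrank F (ι → F)) {x : GL ι F} (hx : x ∈ Cfsg.Geo.omegaGL (⇑Q))
    (hxx : ∀ v, Matrix.toLin' (x : Matrix ι ι F) (Matrix.toLin' (x : Matrix ι ι F) v) = -v) :
    (IsSquare (2 : F) ∨ Even d) ∧ (PT Q ⊤ ↔ (IsSquare (-1 : F) ∨ Even d)) := by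
  have hxi := H99.isom_of_mem_omegaGL hx
  constructor
  · obtain ⟨g, hg, rfl⟩ := hx
    rw [← J_omega h2 hQ hd hd5 (y := bridge Q g) (x := Matrix.toLin' ((g : GL ι F) : Matrix ι ι F)) (fun v => by
      rw [bridge_apply, Matrix.toLin'_apply]) hxx]
    exact (mem_Omega_iff Q g).mp hg
  · obtain ⟨k, k1, k2, -⟩ := J_type h2 hxi hxx (2 * d) ⊤ (fun _ _ => Submodule.mem_top) (nd_of_nondeg hQ) (by rw [finrank_top, hd])
    have hkd : k = d := by omega
    rw [hkd] at k2
    exact k2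

theorem J_omega_exists (h2 : (2 : F) ≠ 0) {Q : QuadraticForm F (ι → F)} (hQ : (polarBilin Q).Nondegenerate) {d : ℕ} (hd : finrank F (ι → F) = 2 * d)
    (hd5 : 5 ≤ finrank F (ι → F)) (h3 : IsSquare (2 : F) ∨ Even d) (h4 : PT Q ⊤ ↔ (IsSquare (-1 : F) ∨ Even d)) :
    ∃ x : GL ι F, x ∈ Cfsg.Geo.omegaGL (⇑Q) ∧ (∀ v, Matrix.toLin' (x : Matrix ι ι F) (Matrix.toLin' (x : Matrix ι ι F) v) = -v) ∧
      (∃ z : F, ((x ^ 2 : GL ι F) : Matrix ι ι F) = z • (1 : Matrix ι ι F)) ∧ (∀ z : F, (x : Matrix ι ι F) ≠ z • (1 : Matrix ι ι F)) := by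
  obtain ⟨x, x1, x2⟩ := exists_J h2 hQ hd h4
  have hinj := injective_of_isom hQ x1
  let e : (ι → F) ≃ₗ[F] (ι → F) := LinearEquiv.ofInjectiveEndo x hinj
  let y : OGrp Q := ⟨e, fun v => x1 v⟩
  have hyx : ∀ v, (y : (ι → F) ≃ₗ[F] (ι → F)) v = x v := fun v => rfl
  have hy := (J_omega h2 hQ hd hd5 hyx x2).mpr h3
  let g := (bridge Q).symm y
  have hg : bridge Q g = y := (bridge Q).apply_symm_apply y
  have hgx : Matrix.toLin' ((g : GL ι F) : Matrix ι ι F) = x := by
    apply LinearMap.ext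
    intro v
    rw [Matrix.toLin'_apply]
    exact (bridge_eq_iff Q g y).mp hg v
  refine ⟨(g : GL ι F), ⟨g, (mem_Omega_iff Q g).mpr (by rw [hg]; exact hy), rfl⟩, fun v => by rw [hgx, x2], ⟨-1, ?_⟩, ?_⟩
  · apply Matrix.toLin'.injective
    have h5 : (((g : GL ι F) ^ 2 : GL ι F) : Matrix ι ι F) = ((g : GL ι F) : Matrix ι ι F) * ((g : GL ι F) : Matrix ι ι F) := by
      rw [pow_two]; rfl
    rw [h5, Matrix.toLin'_mul, hgx, map_smul, Matrix.toLin'_one]
    apply LinearMap.ext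
    intro v
    rw [LinearMap.comp_apply, x2]
    simp
  · intro z hz
    have h5 : ∀ v, x v = z • v := by
      intro v
      rw [← hgx, hz, map_smul, Matrix.toLin'_one]
      rfl
    have h6 : z * z = 1 := scalar_sq hQ (by omega) (fun v => by rw [← h5, x1])
    have hnt : Nontrivial (ι → F) := Module.nontrivial_of_finrank_pos (R := F) (by omega)
    obtain ⟨v, hv⟩ := exists_ne (0 : ι → F)
    have h7 := x2 v
    rw [h5, h5, smul_smul, h6, one_smul] at h7
    have h8 : (2 : F) • v = 0 := by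
      rw [two_smul]
      nth_rewrite 1 [h7]
      exact neg_add_cancel v
    exact hv ((smul_eq_zero.mp h8).resolve_left h2)

end mat

end Cfsg.Agent.H39.OE
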