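import Mathlib
import Cfsg.Agent.H39.OE9

/-!
Projective involutions in even dimension (odd characteristic); unipotent elements.
-/

set_option autoImplicit false

namespace Cfsg.Agent.H39.OE

open Module QuadraticMap Cfsg.Agent.Orth Polynomial

section two
variable {F : Type*} [Field F] [Fintype F] {ι : Type} [Fintype ι] [DecidableEq ι]
variable {T : Type*} [AddCommGroup T] [Module F T] [FiniteDimensional F T]

lemma ker_ne_zero {x : GL ι F} (hns : ∀ z : F, (x : Matrix ι ι F) ≠ z • (1 : Matrix ι ι F)) :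
    finrank F (LinearMap.ker (Matrix.toLin' (x : Matrix ι ι F) - 1)) ≠ finrank F (ι → F) ∧
    finrank F (LinearMap.ker (Matrix.toLin' (x : Matrix ι ι F) + 1)) ≠ finrank F (ι → F) := by
  constructor
  · intro h
    have h3 := Submodule.eq_top_of_finrank_eq h
    apply hns 1
    apply Matrix.toLin'.injective
    rw [one_smul, Matrix.toLin'_one]
    apply LinearMap.ext
    intro v
    have : v ∈ LinearMap.ker (Matrix.toLin' (x : Matrix ι ι F) - 1) := by rw [h3]; exact Submodule.mem_top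
    exact mem_ker.mp this
  · intro h
    have h3 := Submodule.eq_top_of_finrank_eq h
    apply hns (-1)
    apply Matrix.toLin'.injective
    rw [map_smul, Matrix.toLin'_one]
    apply LinearMap.ext
    intro v
    have : v ∈ LinearMap.ker (Matrix.toLin' (x : Matrix ι ι F) + 1) := by rw [h3]; exact Submodule.mem_top
    rw [mem_ker'.mp this]
    simp

/-- the criterion for projective involutions -/
theorem two_crit (h2 : (2 : F) ≠ 0) {Q : QuadraticForm F (ι → F)} (hQ : (polarBilin Q).Nondegenerate) {d m : ℕ} (hd : finrank F (ι → F) = 2 * d)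
    (hd5 : 5 ≤ finrank F (ι → F)) {QT : QuadraticForm F T} (hT : (polarBilin QT).Nondegenerate) (hTm : finrank F T = m) (hm0 : 0 < m) (hm1 : m + 2 ≤ 2 * d)
    {P : Submodule F (ι → F) → Prop} (hP : ∀ W, P W ↔ IsoT QT Q W) :
    (∀ x : GL ι F, x ∈ Cfsg.Geo.omegaGL (⇑Q) → (∃ z : F, ((x ^ 2 : GL ι F) : Matrix ι ι F) = z • (1 : Matrix ι ι F)) →
      (∀ z : F, (x : Matrix ι ι F) ≠ z • (1 : Matrix ι ι F)) → ∃ W, P W ∧ W.map (Matrix.toLin' (x : Matrix ι ι F)) ≤ W) ↔
    (((IsSquare (2 : F) ∨ Even d) ∧ (PT Q ⊤ ↔ (IsSquare (-1 : F) ∨ Even d))) → ∃ k', m = 2 * k' ∧ (PT QT ⊤ ↔ (IsSquare (-1 : F) ∨ Even k'))) := by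
  constructor
  · rintro h ⟨h3, h4⟩
    obtain ⟨x, x1, x2, x3, x4⟩ := J_omega_exists h2 hQ hd hd5 h3 h4
    obtain ⟨W, hW, hinv⟩ := h x x1 x3 x4
    obtain ⟨f, hf, hfW⟩ := (hP W).mp hW
    have hfinj := inj_of hT hf
    have hN := nd_range hT hf
    rw [hfW] at hN
    have hWm : finrank F W = m := by rw [← hfW, LinearMap.finrank_range_of_inj hfinj, hTm]
    obtain ⟨k, k1, k2, -⟩ := J_type h2 (H99.isom_of_mem_omegaGL x1) x2 m W (fun v hv => hinv ⟨v, hv, rfl⟩) hN hWm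
    refine ⟨k, k1, ?_⟩
    rw [← k2, ← hfW, pt_range_iff hfinj hf]
  · rintro h x x1 ⟨z, hz⟩ x3
    have hxi := H99.isom_of_mem_omegaGL x1
    have hxz := toLin_sq hz
    have hzz : z * z = 1 := scalar_sq hQ (by omega) (fun v => by rw [← hxz, hxi, hxi])
    rcases mul_self_eq_one_iff.mp hzz with rfl | rfl
    · -- an involution
      have hxx : ∀ v, Matrix.toLin' (x : Matrix ι ι F) (Matrix.toLin' (x : Matrix ι ι F) v) = v := fun v => by rw [hxz, one_smul]
      obtain ⟨d1, d2⟩ := invol_dims h2 hQ x1 hxx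
      obtain ⟨e1, e2⟩ := ker_ne_zero x3
      set a := finrank F (LinearMap.ker (Matrix.toLin' (x : Matrix ι ι F) - 1)) with ha
      set b := finrank F (LinearMap.ker (Matrix.toLin' (x : Matrix ι ι F) + 1)) with hb
      obtain ⟨b', hb'⟩ := d1
      rw [hd] at d2 e1 e2
      apply exists_of_fx hP
      by_cases c1 : m < a
      · exact invol_fx h2 hQ hT hxi hxx (m₁ := m) (m₂ := 0) (by omega) (by omega) (by omega) (Or.inl ⟨by omega, by omega⟩)
      · by_cases c2 : m < b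
        · exact invol_fx h2 hQ hT hxi hxx (m₁ := 0) (m₂ := m) (by omega) (by omega) (by omega) (Or.inr ⟨by omega, by omega⟩)
        · exact invol_fx h2 hQ hT hxi hxx (m₁ := max 1 (m - b)) (m₂ := m - max 1 (m - b)) (by omega) (by omega) (by omega) (Or.inl ⟨by omega, by omega⟩)
    · have hxx : ∀ v, Matrix.toLin' (x : Matrix ι ι F) (Matrix.toLin' (x : Matrix ι ι F) v) = -v := fun v => by rw [hxz, neg_one_smul]
      obtain ⟨k', k1, k2⟩ := h (J_omega_necessary h2 hQ hd hd5 x1 hxx)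
      obtain ⟨k, k3, -, k4⟩ := J_type h2 hxi hxx (2 * d) ⊤ (fun _ _ => Submodule.mem_top) (nd_of_nondeg hQ) (by rw [finrank_top, hd])
      obtain ⟨U, -, u1, u2, u3⟩ := k4 k' (by omega)
      obtain ⟨k'', k5, k6, -⟩ := J_type h2 hxi hxx (2 * k') U u1 u2 u3
      have hkk : k'' = k' := by omega
      rw [hkk] at k6
      refine ⟨U, (hP U).mpr ((isoT_iff hT (by rw [hTm, k1])).mpr ⟨u3, u2, by rw [k6, k2]⟩), ?_⟩
      rintro _ ⟨v, hv, rfl⟩
      exact u1 v hv

end two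

section unip
universe u
variable {F : Type u} [Field F] [Fintype F] {ι : Type} [Fintype ι] [DecidableEq ι] {p : ℕ} [Fact p.Prime] [CharP F p]

/-- the Jordan types of invariant nondegenerate subspaces of suitable elements of order `p` -/
theorem exists_unip (h2 : (2 : F) ≠ 0) (hpo : Odd p) {Q : QuadraticForm F (ι → F)} (hQ : (polarBilin Q).Nondegenerate) (hd : 2 ≤ finrank F (ι → F))
    {x : (ι → F) →ₗ[F] (ι → F)} (hx1 : ∀ v, Q (x v) = Q v) (hx2 : (x - 1) ^ p = 0) {μ : Multiset ℕ} (hx3 : H99.JT (x - 1) ⊤ μ) (hμ : ∃ a ∈ μ, a ≠ 1) :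
    ∃ g : GL ι F, g ∈ Cfsg.Geo.omegaGL (⇑Q) ∧ ((g ^ p : GL ι F) : Matrix ι ι F) = (1 : F) • (1 : Matrix ι ι F) ∧ g ^ p = 1 ∧ g ≠ 1 ∧
      (∀ z : F, (g : Matrix ι ι F) ≠ z • (1 : Matrix ι ι F)) ∧ Matrix.toLin' (g : Matrix ι ι F) = x ∧
      ∀ W : Submodule F (ι → F), Nd Q W → W.map (Matrix.toLin' (g : Matrix ι ι F)) ≤ W →
        ∃ ν ≤ μ, (∀ a, Even a → Even (ν.count a)) ∧ finrank F W = ν.sum ∧ ((∀ a ∈ ν, Even a) → PT Q W) := by
  obtain ⟨g, hg1, hg2, hg3, hg4, hg5⟩ := H99.exists_omega_elt h2 hQ hd hpo hx1 hx2 hx3 hμ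
  refine ⟨g, hg1, by rw [hg2, Units.val_one, one_smul], hg2, hg3, hg4, hg5, ?_⟩
  intro W hW hinv
  rw [hg5] at hinv
  have hinj := injective_of_isom hQ hx1
  have hxp := fun u v => polar_of_isom hx1 u v
  obtain ⟨ν, n1, n2, n3⟩ := H99.exists_sub_type h2 (H99.polar_eform _) (H99.ND_polar hQ) hinj hxp hx2 hx3 (fun v hv => hinv ⟨v, hv, rfl⟩) hW
  refine ⟨ν, n1, n2, n3.finrank_eq, fun hev => ?_⟩
  obtain ⟨L, l1, l2, l3⟩ := H99.exists_ts_half h2 (H99.polar_eform _) hinj hxp hx2 _ W ν (fun v hv => hinv ⟨v, hv, rfl⟩) hW n3 hev rfl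
  refine ⟨L, l1, ?_, l3⟩
  intro u hu
  have h3 : polar Q u u = 0 := l2 u hu u hu
  rw [pself] at h3
  exact (mul_eq_zero.mp h3).resolve_left h2

/-- no invariant nondegenerate subspace of dimension `m`, both `d` and `m` odd -/
theorem unip_odd_odd (h2 : (2 : F) ≠ 0) (hpo : Odd p) {Q : QuadraticForm F (ι → F)} (hQ : (polarBilin Q).Nondegenerate) {d m : ℕ}
    (hd : finrank F (ι → F) = 2 * d) (hdo : Odd d) (hd4 : 4 ≤ d) (hm : Odd m) :
    ∃ g : GL ι F, g ∈ Cfsg.Geo.omegaGL (⇑Q) ∧ ((g ^ p : GL ι F) : Matrix ι ι F) = (1 : F) • (1 : Matrix ι ι F) ∧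
      (∀ z : F, (g : Matrix ι ι F) ≠ z • (1 : Matrix ι ι F)) ∧
      ∀ W : Submodule F (ι → F), Nd Q W → W.map (Matrix.toLin' (g : Matrix ι ι F)) ≤ W → finrank F W ≠ m := by
  have hp : p.Prime := Fact.out
  have hp3 : 3 ≤ p := by
    have := hp.two_le
    obtain ⟨k, hk⟩ := hpo
    omega
  obtain ⟨k, hk⟩ := hdo
  -- the odd part
  obtain ⟨a, b, hab, ha, hmod, hb⟩ : ∃ a b : ℕ, 2 * a + 2 * b = 2 * d ∧ (a = 1 ∨ a = 3) ∧ (a + 2) % 4 = m % 4 ∧ Even b := by
    obtain ⟨l, hl⟩ := hm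
    by_cases h : m % 4 = 3
    · exact ⟨1, d - 1, by omega, Or.inl rfl, by omega, ⟨k, by omega⟩⟩
    · exact ⟨3, d - 3, by omega, Or.inr rfl, by omega, ⟨k - 1, by omega⟩⟩
  have hb0 : b ≠ 0 := by omega
  set μ : Multiset ℕ := Multiset.replicate 2 a + Multiset.replicate b 2 with hμ
  have hmem : ∀ e ∈ μ, e = a ∨ e = 2 := by
    intro e he
    rcases Multiset.mem_add.mp he with h | h
    · exact Or.inl (Multiset.eq_of_mem_replicate h)
    · exact Or.inr (Multiset.eq_of_mem_replicate h)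
  obtain ⟨x, hx1, hx2, hx3⟩ := H99.exists_orth_jordan h2 hQ μ (by
      intro e he
      rcases hmem e he with h | h <;> omega) (by
      intro e he
      rw [hμ, Multiset.count_add, Multiset.count_replicate, Multiset.count_replicate]
      have h3 : a ≠ e := by
        rintro rfl
        rw [Nat.even_iff] at he
        omega
      rw [if_neg h3, zero_add]
      split_ifs
      · exact hb
      · exact Even.zero) (by
      rw [hμ, hd, Multiset.sum_add, Multiset.sum_replicate, Multiset.sum_replicate, smul_eq_mul, smul_eq_mul]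
      omega) (P := p) (by
      intro e he
      rcases hmem e he with h | h <;> omega) (by
      refine ⟨a, Multiset.mem_add.mpr (Or.inl (Multiset.mem_replicate.mpr ⟨by norm_num, rfl⟩)), ?_⟩
      rw [Nat.odd_iff]
      omega)
  obtain ⟨g, g1, g2, -, -, g3, -, g4⟩ := exists_unip h2 hpo hQ (by omega) hx1 hx2 hx3
    ⟨2, Multiset.mem_add.mpr (Or.inr (Multiset.mem_replicate.mpr ⟨hb0, rfl⟩)), by omega⟩
  refine ⟨g, g1, g2, g3, fun W hW hinv hWm => ?_⟩
  obtain ⟨ν, n1, n2, n3, -⟩ := g4 W hW hinv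
  have h4 := H99.sum_count_of_le n1 {a, 2} (by
    intro e he
    rcases hmem e he with h | h <;> simp [h])
  rw [Finset.sum_pair (by omega)] at h4
  have h5 := (Multiset.le_iff_count.mp n1) a
  rw [hμ, Multiset.count_add, Multiset.count_replicate, Multiset.count_replicate, if_pos rfl, if_neg (by omega)] at h5
  obtain ⟨c, hc⟩ := n2 2 even_two
  obtain ⟨l, hl⟩ := hm
  rw [n3, h4, hc] at hWm
  have h6 : ν.count a = 0 ∨ ν.count a = 1 ∨ ν.count a = 2 := by omega
  rcases h6 with h6 | h6 | h6 <;> rw [h6] at hWm <;> omega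

/-- no invariant nondegenerate subspace of odd dimension, `d` even, plus type -/
theorem unip_plus_even (h2 : (2 : F) ≠ 0) (hpo : Odd p) {d : ℕ} (hde : Even d) (hd4 : 4 ≤ d) :
    ∃ g : GL (Fin d ⊕ Fin d) F, g ∈ Cfsg.Geo.omegaGL (⇑(qfPlus d F)) ∧
      ((g ^ p : GL (Fin d ⊕ Fin d) F) : Matrix (Fin d ⊕ Fin d) (Fin d ⊕ Fin d) F) = (1 : F) • (1 : Matrix (Fin d ⊕ Fin d) (Fin d ⊕ Fin d) F) ∧
      (∀ z : F, (g : Matrix (Fin d ⊕ Fin d) (Fin d ⊕ Fin d) F) ≠ z • (1 : Matrix (Fin d ⊕ Fin d) (Fin d ⊕ Fin d) F)) ∧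
      ∀ W : Submodule F (Fin d ⊕ Fin d → F), Nd (qfPlus d F) W → W.map (Matrix.toLin' (g : Matrix (Fin d ⊕ Fin d) (Fin d ⊕ Fin d) F)) ≤ W →
        Even (finrank F W) ∧ PT (qfPlus d F) W := by
  have hp : p.Prime := Fact.out
  have hp3 : 3 ≤ p := by
    have := hp.two_le
    obtain ⟨k, hk⟩ := hpo
    omega
  obtain ⟨x, hx1, hx2, hx3⟩ := H99.exists_orth_jordan_plus (F := F) h2 (m := d) (by omega) (Multiset.replicate d 2) (by
      intro a ha
      rw [Multiset.eq_of_mem_replicate ha]; omega) (by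
      intro e he
      rw [Multiset.count_replicate]
      split_ifs
      · exact hde
      · exact Even.zero) (by rw [Multiset.sum_replicate, smul_eq_mul, mul_comm]) (P := p) (by
      intro a ha
      rw [Multiset.eq_of_mem_replicate ha]; omega) (by
      intro a ha
      rw [Multiset.eq_of_mem_replicate ha]; exact even_two)
  obtain ⟨g, g1, g2, -, -, g3, -, g4⟩ := exists_unip h2 hpo (qfPlus_nondegenerate d F) (by rw [finrank_V]; omega) hx1 hx2 hx3
    ⟨2, Multiset.mem_replicate.mpr ⟨by omega, rfl⟩, by omega⟩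
  refine ⟨g, g1, g2, g3, fun W hW hinv => ?_⟩
  obtain ⟨ν, n1, n2, n3, n4⟩ := g4 W hW hinv
  have hall : ∀ a ∈ ν, Even a := by
    intro a ha
    rw [Multiset.eq_of_mem_replicate (Multiset.subset_of_le n1 ha)]
    exact even_two
  refine ⟨?_, n4 hall⟩
  rw [n3, even_iff_two_dvd]
  exact Multiset.dvd_sum (fun a ha => even_iff_two_dvd.mp (hall a ha))

end unip

end Cfsg.Agent.H39.OE
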