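import Mathlib
import Cfsg.Agent.H39.OE10

/-!
Odd-dimensional nondegenerate subspaces, the final translation.
-/

set_option autoImplicit false

namespace Cfsg.Agent.H39.OE

open Module QuadraticMap Cfsg.Agent.Orth Polynomial

variable {F : Type*} [Field F] [Fintype F] {ι : Type} [Fintype ι] [DecidableEq ι]

theorem isoT_sub {Q : QuadraticForm F (ι → F)} {W₀ : Submodule F (ι → F)} {m : ℕ}
    (h0 : finrank F W₀ = m ∧ Cfsg.Geo.IsNondegenerateOn (QuadraticMap.polar ⇑Q) W₀) (W : Submodule F (ι → F)) :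
    (finrank F W = m ∧ Cfsg.Geo.IsNondegenerateOn (QuadraticMap.polar ⇑Q) W ∧ Cfsg.Geo.AreIsometricFor ⇑Q W W₀) ↔ IsoT (Q.restrict W₀) Q W := by
  have hN := nondegOn_iff.mp h0.2
  constructor
  · rintro ⟨-, -, e, he⟩
    refine ⟨W.subtype ∘ₗ e.symm.toLinearMap, fun t => ?_, ?_⟩
    · have h1 := he (e.symm t)
      rw [e.apply_symm_apply] at h1
      exact h1.symm
    · rw [LinearMap.range_comp, LinearEquiv.range, Submodule.map_top, Submodule.range_subtype]
  · rintro ⟨f, hf, rfl⟩
    have hi := inj_of (nd_restrict hN) hf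
    refine ⟨by rw [LinearMap.finrank_range_of_inj hi, h0.1], nondegOn_iff.mpr (nd_range (nd_restrict hN) hf), (LinearEquiv.ofInjective f hi).symm, ?_⟩
    intro w
    have h1 := hf ((LinearEquiv.ofInjective f hi).symm w)
    have h2 : f ((LinearEquiv.ofInjective f hi).symm w) = (w : ι → F) := by
      have := (LinearEquiv.ofInjective f hi).apply_symm_apply w
      exact congrArg Subtype.val this
    rw [h2] at h1
    exact h1.symm

lemma sq_facts (h : Odd (Fintype.card F)) : (IsSquare (-1 : F) ↔ Fintype.card F % 4 = 1) ∧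
    (IsSquare (2 : F) ↔ Fintype.card F % 8 = 1 ∨ Fintype.card F % 8 = 7) := by
  refine ⟨isSquare_neg_one_iff rfl h, ?_⟩
  rw [FiniteField.isSquare_two_iff]
  obtain ⟨k, hk⟩ := h
  omega

lemma blk_eq {r i c : ℕ} (hi : i = orderOf ((Fintype.card F : ℕ) : ZMod r)) (hc : c = if Even i then i else 2 * i) : H99.blk r (Fintype.card F) = c := by
  rw [hc, hi]
  rfl

end Cfsg.Agent.H39.OE
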