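import Mathlib
import Cfsg.Agent.H39.OE11
import Cfsg.Agent.H99.SympInvol
import Cfsg.Agent.Orth.Sum

/-!
Involutions of orthogonal groups in characteristic two: types of invariant subspaces.
-/

set_option autoImplicit false

namespace Cfsg.Agent.H39.OE

open Module QuadraticMap Cfsg.Agent.Orth Polynomial

section general
variable {F : Type*} [Field F] {V : Type*} [AddCommGroup V] [Module F V] [FiniteDimensional F V]

lemma polar_alt (h2 : (2 : F) = 0) (Q : QuadraticForm F V) : H99.AltForm (fun u v : V => polar Q u v) where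
  add_left := fun u v w => pal Q u v w
  smul_left := fun c u v => psl Q c u v
  alt := fun v => by rw [pself, h2, zero_mul]
  skew := fun u v => by
    rw [pc]
    have h3 : (2 : F) * polar Q v u = 0 := by rw [h2, zero_mul]
    linear_combination h3

/-- the image of `t - 1` on an invariant subspace -/
lemma finrank_ker_inf (N : V →ₗ[F] V) (W : Submodule F V) :
    finrank F (W ⊓ LinearMap.ker N : Submodule F V) + finrank F (W.map N) = finrank F W := by
  have h5 := LinearMap.finrank_range_add_finrank_ker (N.domRestrict W)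
  have h8 : finrank F (LinearMap.ker (N.domRestrict W)) = finrank F (W ⊓ LinearMap.ker N : Submodule F V) := by
    rw [← Submodule.finrank_map_subtype_eq]
    have h9 : (LinearMap.ker (N.domRestrict W)).map W.subtype = W ⊓ LinearMap.ker N := by
      apply le_antisymm
      · rintro _ ⟨w, hw, rfl⟩
        exact ⟨w.2, hw⟩
      · rintro w ⟨hw1, hw2⟩
        exact ⟨⟨w, hw1⟩, hw2, rfl⟩
    rw [h9]
  have h6 : LinearMap.range (N.domRestrict W) = W.map N := by
    apply le_antisymm
    · rintro _ ⟨w, rfl⟩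
      exact ⟨w, w.2, rfl⟩
    · rintro _ ⟨w, hw, rfl⟩
      exact ⟨⟨w, hw⟩, rfl⟩
  rw [h6] at h5
  omega

/-- totally singular subspaces of a nondegenerate subspace -/
lemma ts_bound {Q : QuadraticForm F V} {U W : Submodule F V} (hW : Nd Q W) (hU : TS Q U) (hUW : U ≤ W) : 2 * finrank F U ≤ finrank F W := by
  have h1 := finrank_perp (nd_restrict hW) (U.comap W.subtype)
  have h2 : U.comap W.subtype ≤ perp (Q.restrict W) (U.comap W.subtype) := by
    intro y hy z hz
    exact hU.polar hz hy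
  have h3 := Submodule.finrank_mono h2
  have h4 : finrank F (U.comap W.subtype) = finrank F U := (Submodule.comapSubtypeEquivOfLe hUW).finrank_eq
  omega

/-- for an isometry `t` of square one: `Q ((t - 1) v) = B (v, t v)` -/
lemma q_sub {Q : QuadraticForm F V} (h2 : (2 : F) = 0) {x : V →ₗ[F] V} (hx : ∀ v, Q (x v) = Q v) (v : V) :
    Q ((x - 1) v) = polar Q v ((x - 1) v) := by
  have h3 : (x - 1) v = x v - v := rfl
  rw [h3, pdr, pself, h2, zero_mul, sub_zero]
  have h4 : x v - v = x v + (-1 : F) • v := by rw [neg_one_smul, sub_eq_add_neg]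
  rw [h4, qadd, qsmul, psr, hx, pc Q (x v) v]
  have h5 : (2 : F) * Q v = 0 := by rw [h2, zero_mul]
  have h6 : (2 : F) * polar Q v (x v) = 0 := by rw [h2, zero_mul]
  linear_combination h5 - h6

end general

section alt
variable {F : Type*} [Field F] [Fintype F] {V : Type*} [AddCommGroup V] [Module F V] [FiniteDimensional F V]

/-- the rank of `t - 1` on invariant nondegenerate subspaces is even -/
lemma rank_even {B : V → V → F} (hA : H99.AltForm B) {N : V →ₗ[F] V} {W : Submodule F V} (hN : ∀ v ∈ W, N v ∈ W) (hW : H99.ND B W)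
    (hβ : ∀ v ∈ W, B v (N v) = 0) : Even (finrank F (W.map N)) := by
  obtain ⟨C, hC⟩ := Submodule.exists_isCompl ((W ⊓ LinearMap.ker N).comap W.subtype)
  have hCdim : finrank F C = finrank F (W.map N) := by
    have h9 := Submodule.finrank_add_eq_of_isCompl hC
    have h10 : finrank F ((W ⊓ LinearMap.ker N).comap W.subtype) = finrank F (W ⊓ LinearMap.ker N : Submodule F V) :=
      LinearEquiv.finrank_eq (Submodule.comapSubtypeEquivOfLe inf_le_left)
    have h11 := finrank_ker_inf N W
    omega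
  let β : W → W → F := fun u v => B (u : V) (N (v : V))
  have hβskew : ∀ u ∈ W, ∀ v ∈ W, B u (N v) = - B v (N u) := by
    intro u hu v hv
    have h9 := hβ (u + v) (W.add_mem hu hv)
    rw [map_add, hA.add_left, hA.add_right, hA.add_right, hβ u hu, hβ v hv, zero_add, add_zero] at h9
    exact eq_neg_of_add_eq_zero_left h9
  have hβA : H99.AltForm β := {
    add_left := fun a b v => hA.add_left _ _ _
    smul_left := fun c a v => hA.smul_left _ _ _
    alt := fun v => hβ v v.2
    skew := fun a b => hβskew _ a.2 _ b.2 }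
  have hβC : H99.ND β C := by
    intro c hc hc2
    have h9 : ∀ u : W, β c u = 0 := by
      intro u
      have h10 : u ∈ ((W ⊓ LinearMap.ker N).comap W.subtype) ⊔ C := by rw [hC.sup_eq_top]; exact Submodule.mem_top
      obtain ⟨a, ha, b, hb, rfl⟩ := Submodule.mem_sup.mp h10
      change B (c : V) (N ((a : V) + (b : V))) = 0
      have h11 : N (a : V) = 0 := ha.2
      rw [map_add, h11, zero_add]
      exact hc2 b hb
    have h10 : N (c : V) = 0 := by
      apply hW _ (hN c c.2)
      intro v hv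
      apply hA.oform.refl
      have h11 := h9 ⟨v, hv⟩
      have h12 := hβskew (c : V) c.2 v hv
      change B (c : V) (N v) = 0 at h11
      rw [h11] at h12
      exact neg_eq_zero.mp h12.symm
    have h11 : c ∈ ((W ⊓ LinearMap.ker N).comap W.subtype) := ⟨c.2, h10⟩
    exact (Submodule.disjoint_def.mp hC.disjoint) c h11 hc
  rw [← hCdim]
  exact hβA.even_finrank_sub hβC

end alt

section two
variable {F : Type*} [Field F] [Fintype F] {V : Type*} [AddCommGroup V] [Module F V] [FiniteDimensional F V] {Q : QuadraticForm F V}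

/-- basic facts about invariant subspaces -/
structure Inv (Q : QuadraticForm F V) (x : V →ₗ[F] V) (W : Submodule F V) : Prop where
  nd : Nd Q W
  inv : ∀ v ∈ W, x v ∈ W

lemma Inv.sub {x : V →ₗ[F] V} {W : Submodule F V} (h : Inv Q x W) : ∀ v ∈ W, (x - 1) v ∈ W := fun v hv => W.sub_mem (h.inv v hv) hv

lemma map_le_ker {x : V →ₗ[F] V} (hx2 : ∀ v, (x - 1) ((x - 1) v) = 0) {W : Submodule F V} (h : Inv Q x W) :
    W.map (x - 1) ≤ W ⊓ LinearMap.ker (x - 1) := by
  rintro _ ⟨w, hw, rfl⟩
  exact ⟨h.sub w hw, hx2 w⟩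

/-- if the fixed space is totally singular, the type is plus and the dimension is divisible by four -/
theorem pt_of_ts (h2 : (2 : F) = 0) {x : V →ₗ[F] V} (hx : ∀ v, Q (x v) = Q v) (hx2 : ∀ v, (x - 1) ((x - 1) v) = 0) {W : Submodule F V}
    (h : Inv Q x W) (hC : TS Q (W ⊓ LinearMap.ker (x - 1))) : PT Q W ∧ finrank F W % 4 = 0 := by
  have h3 := finrank_ker_inf (x - 1) W
  have h4 := Submodule.finrank_mono (map_le_ker hx2 h)
  have h5 := ts_bound h.nd hC inf_le_left
  have h6 := rank_even (polar_alt h2 Q) (N := x - 1) h.sub h.nd (fun v hv => by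
    rw [← q_sub h2 hx]
    exact hC _ (map_le_ker hx2 h ⟨v, hv, rfl⟩))
  obtain ⟨k, hk⟩ := h6
  exact ⟨⟨_, inf_le_left, hC, by omega⟩, by omega⟩

/-- invariant subspaces for involutions of `a`-type with small kernel -/
theorem pt_of_alt (h2 : (2 : F) = 0) (hQ : (polarBilin Q).Nondegenerate) {d : ℕ} (hd : finrank F V = 2 * d) {x : V →ₗ[F] V} (hx : ∀ v, Q (x v) = Q v)
    (hx2 : ∀ v, (x - 1) ((x - 1) v) = 0) (hβ : ∀ v, polar Q v ((x - 1) v) = 0) (hk : finrank F (LinearMap.ker (x - 1)) ≤ d + 1)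
    {W : Submodule F V} (h : Inv Q x W) (hW4 : finrank F W % 4 = 0) : PT Q W := by
  have hp := fun u v => polar_of_isom hx u v
  have hinj := injective_of_isom hQ hx
  have h1 := H99.split_finrank (of Q) h.nd le_top
  have h3 := H99.split_ND_compl (of Q) (nd_of_nondeg hQ) h.nd le_top
  have h4 := H99.split_disjoint (of Q) h.nd (W := ⊤)
  rw [top_inf_eq] at h1 h3 h4
  rw [finrank_top, hd] at h1
  have h5 : Inv Q x (H99.orth (of Q) W) := ⟨h3, H99.orth_inv_of_isom (of Q) hinj hp h.inv⟩
  have g1 := finrank_ker_inf (x - 1) W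
  have g2 := finrank_ker_inf (x - 1) (H99.orth (of Q) W)
  have g3 := Submodule.finrank_mono (map_le_ker hx2 h)
  have g4 := Submodule.finrank_mono (map_le_ker hx2 h5)
  have g5 : finrank F (W ⊓ LinearMap.ker (x - 1) : Submodule F V) + finrank F (H99.orth (of Q) W ⊓ LinearMap.ker (x - 1) : Submodule F V) ≤ finrank F (LinearMap.ker (x - 1)) := by
    have h8 := Submodule.finrank_sup_add_finrank_inf_eq (W ⊓ LinearMap.ker (x - 1)) (H99.orth (of Q) W ⊓ LinearMap.ker (x - 1))
    have h9 : Disjoint (W ⊓ LinearMap.ker (x - 1)) (H99.orth (of Q) W ⊓ LinearMap.ker (x - 1)) := h4.mono inf_le_left inf_le_left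
    rw [disjoint_iff.mp h9, finrank_bot, add_zero] at h8
    rw [← h8]
    exact Submodule.finrank_mono (sup_le inf_le_right inf_le_right)
  obtain ⟨k, hk'⟩ := rank_even (polar_alt h2 Q) (N := x - 1) h.sub h.nd (fun v _ => hβ v)
  refine ⟨W.map (x - 1), (map_le_ker hx2 h).trans inf_le_left, ?_, by omega⟩
  rintro _ ⟨v, -, rfl⟩
  rw [q_sub h2 hx, hβ]

/-- type of a plane -/
lemma pt_plane (h2 : (2 : F) = 0) {z y : V} (hz : Q z ≠ 0) (hzy : polar Q z y = 1) :
    (Nd Q (Submodule.span F {z, y}) ∧ finrank F (Submodule.span F {z, y}) = 2) ∧ (PT Q (Submodule.span F {z, y}) ↔ ∃ s : F, Q z * s ^ 2 + s = Q y) := by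
  have hA := polar_alt h2 Q
  have h3 : polar Q z y ≠ 0 := by rw [hzy]; exact one_ne_zero
  have hN : Nd Q (Submodule.span F {z, y}) := H99.plane_ND hA h3
  have hf : finrank F (Submodule.span F {z, y}) = 2 := H99.plane_finrank hA h3
  refine ⟨⟨hN, hf⟩, ?_⟩
  have hq : ∀ a b : F, Q (a • z + b • y) = a ^ 2 * Q z + b ^ 2 * Q y + a * b := by
    intro a b
    rw [qadd, qsmul, qsmul, psl, psr, hzy]
    ring
  have hneg : ∀ a : F, -a = a := fun a => by
    have : (2 : F) * a = 0 := by rw [h2, zero_mul]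
    linear_combination -this
  constructor
  · rintro ⟨U, u1, u2, u3⟩
    rw [hf] at u3
    have hU0 : U ≠ ⊥ := by
      rintro rfl
      rw [finrank_bot] at u3
      omega
    obtain ⟨w, hw, hw0⟩ := Submodule.exists_mem_ne_zero_of_ne_bot hU0
    obtain ⟨a, b, rfl⟩ := Submodule.mem_span_pair.mp (u1 hw)
    have h4 := u2 _ hw
    rw [hq] at h4
    by_cases hb : b = 0
    · exfalso
      rw [hb] at h4
      have h5 : a = 0 := by
        have h6 : a ^ 2 * Q z = 0 := by linear_combination h4
        exact pow_eq_zero_iff two_ne_zero |>.mp ((mul_eq_zero.mp h6).resolve_right hz)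
      apply hw0
      rw [hb, h5, zero_smul, zero_smul, add_zero]
    · refine ⟨a / b, ?_⟩
      have h5 : Q z * (a / b) ^ 2 + a / b = - Q y := by
        field_simp
        linear_combination h4
      rw [h5, hneg]
  · rintro ⟨s, hs⟩
    have h4 : Q (s • z + (1 : F) • y) = 0 := by
      rw [hq, ← hs]
      have : (2 : F) * (Q z * s ^ 2 + s) = 0 := by rw [h2, zero_mul]
      linear_combination this
    refine ⟨Submodule.span F {s • z + (1 : F) • y}, ?_, ?_, ?_⟩
    · rw [Submodule.span_singleton_le_iff_mem, Submodule.mem_span_pair]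
      exact ⟨s, 1, rfl⟩
    · intro u hu
      obtain ⟨t, rfl⟩ := Submodule.mem_span_singleton.mp hu
      rw [qsmul, h4, mul_zero]
    · rw [hf, finrank_span_singleton]
      intro h0
      have h5 := congrArg (fun w => polar Q z w) h0
      simp only [par, psr, hzy, polar_zero_right, pself, h2, zero_mul, mul_zero, mul_one, zero_add] at h5
      exact one_ne_zero h5

/-- the additive polynomial `ζ s² + s` is not surjective -/
lemma exists_not_range (h2 : (2 : F) = 0) {ζ : F} (hζ : ζ ≠ 0) : ∃ μ : F, ∀ s, ζ * s ^ 2 + s ≠ μ := by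
  by_contra hcon
  push Not at hcon
  have hs : Function.Surjective (fun s : F => ζ * s ^ 2 + s) := fun μ => by
    obtain ⟨s, hs⟩ := hcon μ
    exact ⟨s, hs⟩
  have hi := (Finite.injective_iff_surjective.mpr hs)
  have h3 : (0 : F) = ζ⁻¹ := hi (by
    change ζ * 0 ^ 2 + 0 = ζ * ζ⁻¹ ^ 2 + ζ⁻¹
    field_simp
    linear_combination -h2)
  exact inv_ne_zero hζ h3.symm

/-- changing the type of an invariant subspace -/
theorem flip (h2 : (2 : F) = 0) {x : V →ₗ[F] V} (hx : ∀ v, Q (x v) = Q v) {W : Submodule F V}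
    (h : Inv Q x W) {z w : V} (hz : z ∈ W) (hxz : x z = z) (hQz : Q z ≠ 0) (hw : ∀ u ∈ W, polar Q u w = 0) (hxw : x w = w) (hQw : Q w ≠ 0) (τ : Prop) :
    ∃ W', Inv Q x W' ∧ finrank F W' = finrank F W ∧ (PT Q W' ↔ τ) := by
  classical
  have hA := polar_alt h2 Q
  have hp := fun u v => polar_of_isom hx u v
  have hz0 : z ≠ 0 := by
    rintro rfl
    exact hQz (QuadraticMap.map_zero Q)
  obtain ⟨y', hy', hzy'⟩ : ∃ y ∈ W, polar Q z y ≠ 0 := by
    by_contra hcon
    push Not at hcon
    exact hz0 (h.nd z hz hcon)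
  obtain ⟨y, hy, hzy⟩ : ∃ y ∈ W, polar Q z y = 1 := ⟨(polar Q z y')⁻¹ • y', W.smul_mem _ hy', by rw [psr, inv_mul_cancel₀ hzy']⟩
  -- the twist
  let φ : F → V →ₗ[F] V := fun l => 1 + l • (LinearMap.toSpanSingleton F V w ∘ₗ (polarBilin Q z))
  have hφ : ∀ l v, φ l v = v + (l * polar Q z v) • w := by
    intro l v
    change v + l • (polar Q z v • w) = _
    rw [smul_smul]
  obtain ⟨⟨hP1, hP2⟩, -⟩ := pt_plane h2 hQz hzy
  set P := Submodule.span F {z, y} with hP
  have hPW : P ≤ W := by
    rw [hP, Submodule.span_le]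
    rintro u (rfl | rfl)
    · exact hz
    · exact hy
  have g1 := H99.split_ND_compl (of Q) h.nd hP1 hPW
  have g2 := H99.split_ND (of Q) hP1 hPW
  have g3 := H99.split_finrank (of Q) hP1 hPW
  set W₁ := W ⊓ H99.orth (of Q) P with hW₁
  have hzP : z ∈ P := Submodule.subset_span (Or.inl rfl)
  have hyP : y ∈ P := Submodule.subset_span (Or.inr rfl)
  have hzz : polar Q z z = 0 := by rw [pself, h2, zero_mul]
  have hwz : polar Q z w = 0 := hw z hz
  have hW₁z : ∀ u ∈ W₁, polar Q z u = 0 := fun u hu => (pc Q z u).trans (hu.2 z hzP)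
  have hQy : ∀ l, Q (y + l • w) = Q y + l ^ 2 * Q w := by
    intro l
    rw [qadd, qsmul, psr, hw y hy]
    ring
  have key : ∀ l : F, ∃ W', Inv Q x W' ∧ finrank F W' = finrank F W ∧ (PT Q W' ↔ ((∃ s : F, Q z * s ^ 2 + s = Q (y + l • w)) ↔ PT Q W₁)) := by
    intro l
    have hzy1 : polar Q z (y + l • w) = 1 := by rw [par, psr, hwz, hzy]; ring
    obtain ⟨⟨hP1', hP2'⟩, hP3'⟩ := pt_plane h2 hQz hzy1
    have hinj : Function.Injective (φ l) := by
      rw [← LinearMap.ker_eq_bot, LinearMap.ker_eq_bot']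
      intro v hv
      rw [hφ] at hv
      have h3 := congrArg (fun u => polar Q z u) hv
      simp only [par, psr, hwz, mul_zero, add_zero, polar_zero_right] at h3
      rw [h3, mul_zero, zero_smul, add_zero] at hv
      exact hv
    have hpol : ∀ u ∈ W, ∀ v ∈ W, polar Q (φ l u) (φ l v) = polar Q u v := by
      intro u hu v hv
      rw [hφ, hφ, pal, par, par, psl, psl, psr, psr, hw u hu, pc Q w v, hw v hv, pself, h2]
      ring
    have hmP : P.map (φ l) = Submodule.span F {z, y + l • w} := by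
      rw [hP, Submodule.map_span]
      congr 1
      have e1 : φ l z = z := by rw [hφ, hzz, mul_zero, zero_smul, add_zero]
      have e2 : φ l y = y + l • w := by rw [hφ, hzy, mul_one]
      rw [Set.image_pair, e1, e2]
    have hmW : W₁.map (φ l) = W₁ := by
      apply le_antisymm
      · rintro _ ⟨u, hu, rfl⟩
        rw [hφ, hW₁z u hu, mul_zero, zero_smul, add_zero]
        exact hu
      · intro u hu
        refine ⟨u, hu, ?_⟩
        rw [hφ, hW₁z u hu, mul_zero, zero_smul, add_zero]
    have hN : Nd Q (W.map (φ l)) := by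
      rintro _ ⟨u, hu, rfl⟩ h3
      have : u = 0 := h.nd u hu (fun v hv => by
        have h4 := h3 (φ l v) ⟨v, hv, rfl⟩
        change polar Q _ _ = 0 at h4
        rw [hpol u hu v hv] at h4
        exact h4)
      rw [this, map_zero]
    have hfr : finrank F (W.map (φ l)) = finrank F W := (Submodule.equivMapOfInjective (φ l) hinj W).finrank_eq.symm
    refine ⟨W.map (φ l), ⟨hN, ?_⟩, hfr, ?_⟩
    · rintro _ ⟨u, hu, rfl⟩
      refine ⟨x u, h.inv u hu, ?_⟩
      rw [hφ, hφ, map_add, map_smul, hxw]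
      have h3 := hp z u
      rw [hxz] at h3
      rw [h3]
    · have h3 := PT_iff_sub hP1' g1 (by
        intro u hu v hv
        rw [← hmP] at hu
        obtain ⟨u', hu', rfl⟩ := hu
        have e1 : φ l v = v := by rw [hφ, hW₁z v hv, mul_zero, zero_smul, add_zero]
        have e2 := hpol u' (hPW hu') v hv.1
        rw [e1] at e2
        rw [e2, pc]
        exact hv.2 u' hu') (by rw [hP2']; exact even_two) (by
        exact (hA.even_finrank_sub g1))
      rw [← hmP, ← hmW, ← Submodule.map_sup, g2, hmW, hmP, hP3'] at h3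
      exact h3
  -- choice of the parameter
  have hall : ∀ μ : F, ∃ l : F, Q (y + l • w) = μ := by
    intro μ
    obtain ⟨s, hs⟩ := isSquare_of_two_eq_zero h2 ((μ - Q y) / Q w)
    refine ⟨s, ?_⟩
    rw [hQy, pow_two, ← hs]
    field_simp
    ring
  obtain ⟨μ, hμ⟩ := exists_not_range h2 hQz
  obtain ⟨l, hl⟩ := hall μ
  obtain ⟨l', hl'⟩ := hall 0
  obtain ⟨A, a1, a2, a3⟩ := key l
  obtain ⟨B, b1, b2, b3⟩ := key l'
  have hf1 : ¬ ∃ s : F, Q z * s ^ 2 + s = Q (y + l • w) := by
    rw [hl]
    push Not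
    exact hμ
  have hf2 : ∃ s : F, Q z * s ^ 2 + s = Q (y + l' • w) := ⟨0, by rw [hl']; ring⟩
  by_cases hτ : τ ↔ PT Q W₁
  · exact ⟨B, b1, b2, by rw [b3, iff_true_left hf2]; exact hτ.symm⟩
  · refine ⟨A, a1, a2, ?_⟩
    rw [a3, iff_false_left hf1]
    tauto

/-- both types occur if the fixed spaces on `W` and its complement are not totally singular -/
theorem flip' (h2 : (2 : F) = 0) {x : V →ₗ[F] V} (hx : ∀ v, Q (x v) = Q v) {W : Submodule F V}
    (h : Inv Q x W) (h3 : ¬ TS Q (W ⊓ LinearMap.ker (x - 1))) (h4 : ¬ TS Q (H99.orth (of Q) W ⊓ LinearMap.ker (x - 1))) (τ : Prop) :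
    ∃ W', Inv Q x W' ∧ finrank F W' = finrank F W ∧ (PT Q W' ↔ τ) := by
  rw [TS] at h3 h4
  push Not at h3 h4
  obtain ⟨z, ⟨z1, z2⟩, z3⟩ := h3
  obtain ⟨w, ⟨w1, w2⟩, w3⟩ := h4
  exact flip h2 hx h z1 (mem_ker.mp z2) z3 (fun u hu => (pc Q u w).trans (w1 u hu)) (mem_ker.mp w2) w3 τ

end two

end Cfsg.Agent.H39.OE
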