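import Mathlib
import Cfsg.Agent.H39.OE12

/-!
Involutions of orthogonal groups in characteristic two: existence of invariant subspaces, bad involutions.
-/

set_option autoImplicit false

namespace Cfsg.Agent.H39.OE

open Module QuadraticMap Cfsg.Agent.Orth Polynomial

section two
variable {F : Type*} [Field F] [Fintype F] [CharP F 2] {V : Type*} [AddCommGroup V] [Module F V] [FiniteDimensional F V] {Q : QuadraticForm F V}

lemma exists_inv_sub (hQ : (polarBilin Q).Nondegenerate) {x : V →ₗ[F] V} (hx : ∀ v, Q (x v) = Q v) (hx2 : ∀ v, x (x v) = v) {W : Submodule F V}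
    (h : Inv Q x W) {m : ℕ} (hm : Even m) (hm1 : m ≤ finrank F W) (hm2 : m % 4 = 0 ∨ finrank F W % 4 = 2) :
    ∃ U ≤ W, Inv Q x U ∧ finrank F U = m := by
  obtain ⟨U, u1, u2, u3, u4⟩ := H99.exists_inv_char_two (polar_alt CharTwo.two_eq_zero Q) (nd_of_nondeg hQ) (fun u v => polar_of_isom hx u v) hx2 _ W h.inv h.nd rfl m hm hm1 hm2
  exact ⟨U, u1, ⟨u3, u2⟩, u4⟩

lemma inv_orth (hQ : (polarBilin Q).Nondegenerate) {x : V →ₗ[F] V} (hx : ∀ v, Q (x v) = Q v) {W : Submodule F V}
    (h : Inv Q x W) : Inv Q x (H99.orth (of Q) W) := by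
  have h3 := H99.split_ND_compl (of Q) (nd_of_nondeg hQ) h.nd le_top
  rw [top_inf_eq] at h3
  exact ⟨h3, H99.orth_inv_of_isom (of Q) (injective_of_isom hQ hx) (fun u v => polar_of_isom hx u v) h.inv⟩

lemma sq_zero {x : V →ₗ[F] V} (hx2 : ∀ v, x (x v) = v) : ∀ v, (x - 1) ((x - 1) v) = 0 := (H99.invol_ker hx2).1

theorem exists_two_plus (hQ : (polarBilin Q).Nondegenerate) {d m : ℕ} (hd : finrank F V = 2 * d) {x : V →ₗ[F] V} (hx : ∀ v, Q (x v) = Q v) (hx2 : ∀ v, x (x v) = v)
    (hV : PT Q ⊤) (hm : Even m) (hm1 : m ≤ 2 * d) (hm2 : m % 4 = 0 ∨ Odd d) : ∃ W, Inv Q x W ∧ finrank F W = m ∧ PT Q W := by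
  have h2 : (2 : F) = 0 := CharTwo.two_eq_zero
  obtain ⟨W, -, w1, w2⟩ := exists_inv_sub hQ hx hx2 (W := ⊤) ⟨nd_of_nondeg hQ, fun _ _ => Submodule.mem_top⟩ hm (by rw [finrank_top, hd]; exact hm1) (by
    rw [finrank_top, hd]
    rcases hm2 with h | ⟨k, hk⟩
    · exact Or.inl h
    · exact Or.inr (by omega))
  by_cases hp : PT Q W
  · exact ⟨W, w1, w2, hp⟩
  · have h3 := (PT_iff_orth hQ w1.nd (by rw [w2]; exact hm) ⟨d, by omega⟩).mp hV
    obtain ⟨W', g1, g2, g3⟩ := flip' h2 hx w1 (fun h => hp (pt_of_ts h2 hx (sq_zero hx2) w1 h).1)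
      (fun h => hp (h3.mpr (pt_of_ts h2 hx (sq_zero hx2) (inv_orth hQ hx w1) h).1)) True
    exact ⟨W', g1, by rw [g2, w2], g3.mpr trivial⟩

/-- an invariant nondegenerate plane whose fixed space is not totally singular -/
lemma exists_plane (hQ : (polarBilin Q).Nondegenerate) {x : V →ₗ[F] V} (hx : ∀ v, Q (x v) = Q v) (hx2 : ∀ v, x (x v) = v)
    (hV : ¬ TS Q (LinearMap.ker (x - 1))) : ∃ P, Inv Q x P ∧ finrank F P = 2 ∧ ¬ TS Q (P ⊓ LinearMap.ker (x - 1)) := by
  have h2 : (2 : F) = 0 := CharTwo.two_eq_zero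
  have hA := polar_alt h2 Q
  have hp := fun u v => polar_of_isom hx u v
  have hsq := sq_zero (F := F) hx2
  by_cases hβ : ∀ v, polar Q v ((x - 1) v) = 0
  · rw [TS] at hV
    push Not at hV
    obtain ⟨z, hz, hQz⟩ := hV
    have hxz := mem_ker.mp hz
    -- `z` is not in the image
    have hex : ∃ c ∈ LinearMap.ker (x - 1), polar Q z c ≠ 0 := by
      by_contra hcon
      push Not at hcon
      have h3 : z ∈ perp Q (LinearMap.ker (x - 1)) := fun c hc => (pc Q c z).trans (hcon c hc)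
      have h4 : LinearMap.range (x - 1) = perp Q (LinearMap.ker (x - 1)) := by
        apply Submodule.eq_of_le_of_finrank_eq
        · rintro _ ⟨v, rfl⟩ c hc
          have h5 : x c = c := mem_ker.mp hc
          change polar Q c (x v - v) = 0
          rw [pdr]
          have h6 : polar Q (x c) (x v) = polar Q c v := hp c v
          rw [h5] at h6
          rw [h6, sub_self]
        · have h5 := LinearMap.finrank_range_add_finrank_ker (x - 1)
          have h6 := finrank_perp hQ (LinearMap.ker (x - 1))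
          omega
      rw [← h4] at h3
      obtain ⟨v, rfl⟩ := h3
      apply hQz
      rw [q_sub h2 hx, hβ]
    obtain ⟨c, hc, hzc⟩ := hex
    have hxc : x c = c := mem_ker.mp hc
    have hzc' : polar Q z ((polar Q z c)⁻¹ • c) = 1 := by rw [psr, inv_mul_cancel₀ hzc]
    obtain ⟨⟨h3, h4⟩, -⟩ := pt_plane h2 hQz hzc'
    have h5 : ∀ v ∈ Submodule.span F {z, (polar Q z c)⁻¹ • c}, x v = v := by
      intro v hv
      obtain ⟨a, b, rfl⟩ := Submodule.mem_span_pair.mp hv
      rw [map_add, map_smul, map_smul, map_smul, hxz, hxc]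
    refine ⟨_, ⟨h3, fun v hv => by rw [h5 v hv]; exact hv⟩, h4, fun h => hQz (h z ⟨Submodule.subset_span (Or.inl rfl), hz⟩)⟩
  · push Not at hβ
    obtain ⟨v, hv⟩ := hβ
    have hv' : polar Q v (x v) ≠ 0 := by
      have h3 : (x - 1) v = x v - v := rfl
      rw [h3, pdr, pself, h2, zero_mul, sub_zero] at hv
      exact hv
    have h3 : Nd Q (Submodule.span F {v, x v}) := H99.plane_ND hA hv'
    have h4 : finrank F (Submodule.span F {v, x v}) = 2 := H99.plane_finrank hA hv'
    have h5 : ∀ u ∈ Submodule.span F {v, x v}, x u ∈ Submodule.span F {v, x v} := by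
      intro u hu
      obtain ⟨a, b, rfl⟩ := Submodule.mem_span_pair.mp hu
      rw [map_add, map_smul, map_smul, hx2, Submodule.mem_span_pair]
      exact ⟨b, a, add_comm _ _⟩
    refine ⟨_, ⟨h3, h5⟩, h4, fun h => ?_⟩
    apply hv
    rw [← q_sub h2 hx]
    apply h
    refine ⟨?_, LinearMap.mem_ker.mpr (hsq v)⟩
    have h6 : (x - 1) v = x v - v := rfl
    rw [h6]
    exact Submodule.sub_mem _ (Submodule.subset_span (Or.inr rfl)) (Submodule.subset_span (Or.inl rfl))

theorem exists_two_minus (hQ : (polarBilin Q).Nondegenerate) {d m : ℕ} (hd : finrank F V = 2 * d) {x : V →ₗ[F] V} (hx : ∀ v, Q (x v) = Q v) (hx2 : ∀ v, x (x v) = v)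
    (hV : ¬ PT Q ⊤) (hm : Even m) (hm0 : 2 ≤ m) (hm1 : m + 2 ≤ 2 * d) (hm2 : Even d ∨ m % 4 = 2) : ∃ W, Inv Q x W ∧ finrank F W = m ∧ ¬ PT Q W := by
  have h2 : (2 : F) = 0 := CharTwo.two_eq_zero
  have hsq := sq_zero (F := F) hx2
  have hT : Inv Q x ⊤ := ⟨nd_of_nondeg hQ, fun _ _ => Submodule.mem_top⟩
  have hVe : Even (finrank F V) := ⟨d, by omega⟩
  -- reduction
  have hred : ∀ W, Inv Q x W → finrank F W = m → (m % 4 = 2 ∨ ¬ TS Q (W ⊓ LinearMap.ker (x - 1))) → ∃ W, Inv Q x W ∧ finrank F W = m ∧ ¬ PT Q W := by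
    intro W w1 w2 w3
    by_cases hp : PT Q W
    · have h3 : ¬ PT Q (H99.orth (of Q) W) := fun h => hV ((PT_iff_orth hQ w1.nd (by rw [w2]; exact hm) hVe).mpr ⟨fun _ => h, fun _ => hp⟩)
      obtain ⟨W', g1, g2, g3⟩ := flip' h2 hx w1 (fun h => by
          rcases w3 with w3 | w3
          · have h5 := (pt_of_ts h2 hx hsq w1 h).2
            omega
          · exact w3 h) (fun h => h3 (pt_of_ts h2 hx hsq (inv_orth hQ hx w1) h).1) False
      exact ⟨W', g1, by rw [g2, w2], fun h => g3.mp h⟩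
    · exact ⟨W, w1, w2, hp⟩
  by_cases hde : Even d
  · obtain ⟨P, p1, p2, p3⟩ := exists_plane hQ hx hx2 (fun h => hV (pt_of_ts h2 hx hsq hT (by rw [top_inf_eq]; exact h)).1)
    have h1 := H99.split_finrank (of Q) p1.nd (le_top : P ≤ ⊤)
    rw [top_inf_eq, finrank_top, hd, p2] at h1
    have h3 := inv_orth hQ hx p1
    obtain ⟨k, hk⟩ := hde
    by_cases hm4 : m % 4 = 2
    · obtain ⟨W, -, w1, w2⟩ := exists_inv_sub hQ hx hx2 h3 hm (by omega) (Or.inr (by omega))
      exact hred W w1 w2 (Or.inl hm4)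
    · obtain ⟨l, hl⟩ := hm
      obtain ⟨W, w0, w1, w2⟩ := exists_inv_sub hQ hx hx2 h3 (m := m - 2) ⟨l - 1, by omega⟩ (by omega) (Or.inr (by omega))
      have h4 : ∀ u ∈ P, ∀ v ∈ W, polar Q u v = 0 := fun u hu v hv => (pc Q u v).trans (w0 hv u hu)
      refine hred (P ⊔ W) ⟨H99.ND_sup (of Q) p1.nd w1.nd (fun u hu v hv => h4 u hu v hv), ?_⟩ ?_ (Or.inr ?_)
      · intro v hv
        obtain ⟨a, ha, b, hb, rfl⟩ := Submodule.mem_sup.mp hv
        rw [map_add]
        exact Submodule.add_mem_sup (p1.inv a ha) (w1.inv b hb)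
      · rw [finrank_sup_disj (disj_of_orth p1.nd h4), p2, w2]
        omega
      · intro h
        exact p3 (h.mono (inf_le_inf_right _ le_sup_left))
  · have hm4 : m % 4 = 2 := hm2.resolve_left hde
    obtain ⟨k, hk⟩ := Nat.not_even_iff_odd.mp hde
    obtain ⟨W, -, w1, w2⟩ := exists_inv_sub hQ hx hx2 hT hm (by rw [finrank_top, hd]; omega) (Or.inr (by rw [finrank_top, hd]; omega))
    exact hred W w1 w2 (Or.inl hm4)

end two

section bad
variable {F : Type*} [Field F]

/-- the alternating twist -/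
def S (e : ℕ) (w : Fin e → F) (i : Fin e) : F := if i.rev = i then 0 else w i.rev

/-- the bad involution on the hyperbolic space -/
def bad (e : ℕ) (F : Type*) [Field F] : (Fin e ⊕ Fin e → F) →ₗ[F] (Fin e ⊕ Fin e → F) where
  toFun := fun v s => Sum.elim (fun i => v (Sum.inl i) + S e (fun j => v (Sum.inr j)) i) (fun i => v (Sum.inr i)) s
  map_add' := by
    intro u v
    funext s
    rcases s with i | i
    · simp only [Sum.elim_inl, Pi.add_apply, S]
      split_ifs <;> ring
    · simp only [Sum.elim_inr, Pi.add_apply]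
  map_smul' := by
    intro c v
    funext s
    rcases s with i | i
    · simp only [Sum.elim_inl, Pi.smul_apply, smul_eq_mul, RingHom.id_apply, S]
      split_ifs <;> ring
    · simp only [Sum.elim_inr, Pi.smul_apply, smul_eq_mul, RingHom.id_apply]

lemma bad_inl (e : ℕ) (v : Fin e ⊕ Fin e → F) (i : Fin e) : bad e F v (Sum.inl i) = v (Sum.inl i) + S e (fun j => v (Sum.inr j)) i := rfl

lemma bad_inr (e : ℕ) (v : Fin e ⊕ Fin e → F) (i : Fin e) : bad e F v (Sum.inr i) = v (Sum.inr i) := rfl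

lemma sum_S (h2 : (2 : F) = 0) (e : ℕ) (w : Fin e → F) : ∑ i, w i * S e w i = 0 := by
  refine Finset.sum_involution (fun i _ => i.rev) ?_ ?_ (fun i _ => Finset.mem_univ _) (fun i _ => Fin.rev_rev i)
  · intro i _
    simp only [S, Fin.rev_rev]
    by_cases h : i.rev = i
    · rw [if_pos h, if_pos h.symm]
      ring
    · rw [if_neg h, if_neg (fun h' => h h'.symm)]
      have h3 : (2 : F) * (w i * w i.rev) = 0 := by rw [h2, zero_mul]
      linear_combination h3
  · intro i _ h h'
    apply h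
    rw [S, if_pos h', mul_zero]

lemma bad_isom (h2 : (2 : F) = 0) (e : ℕ) (v : Fin e ⊕ Fin e → F) : qfPlus e F (bad e F v) = qfPlus e F v := by
  rw [qfPlus_apply, qfPlus_apply]
  simp only [bad_inl, bad_inr]
  have h3 := sum_S h2 e (fun j => v (Sum.inr j))
  rw [← sub_eq_zero, ← Finset.sum_sub_distrib, ← h3]
  apply Finset.sum_congr rfl
  intro i _
  ring

lemma bad_sub_inl (e : ℕ) (v : Fin e ⊕ Fin e → F) (i : Fin e) : (bad e F - 1) v (Sum.inl i) = S e (fun j => v (Sum.inr j)) i := by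
  change bad e F v (Sum.inl i) - v (Sum.inl i) = _
  rw [bad_inl]
  ring

lemma bad_sub_inr (e : ℕ) (v : Fin e ⊕ Fin e → F) (i : Fin e) : (bad e F - 1) v (Sum.inr i) = 0 := by
  change bad e F v (Sum.inr i) - v (Sum.inr i) = _
  rw [bad_inr]
  ring

lemma bad_sq (h2 : (2 : F) = 0) (e : ℕ) (v : Fin e ⊕ Fin e → F) : bad e F (bad e F v) = v := by
  funext s
  rcases s with i | i
  · rw [bad_inl, bad_inl]
    have h3 : (fun j => bad e F v (Sum.inr j)) = fun j => v (Sum.inr j) := rfl
    rw [h3]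
    have h4 : (2 : F) * S e (fun j => v (Sum.inr j)) i = 0 := by rw [h2, zero_mul]
    linear_combination h4
  · rfl

lemma bad_alt (h2 : (2 : F) = 0) (e : ℕ) (v : Fin e ⊕ Fin e → F) : polar (qfPlus e F) v ((bad e F - 1) v) = 0 := by
  rw [polar_qfPlus]
  simp only [bad_sub_inl, bad_sub_inr, mul_zero, zero_add]
  rw [← sum_S h2 e (fun j => v (Sum.inr j))]
  apply Finset.sum_congr rfl
  intro i _
  ring

lemma bad_ker_even {e : ℕ} (he : Even e) : finrank F (LinearMap.ker (bad e F - 1)) ≤ e := by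
  refine le_trans (Submodule.finrank_mono ?_) (finrank_U0 e F).le
  intro v hv
  rw [mem_U0]
  intro i
  have h3 := congrFun (LinearMap.mem_ker.mp hv) (Sum.inl i.rev)
  rw [bad_sub_inl, S, Fin.rev_rev] at h3
  by_cases h : i = i.rev
  · exfalso
    have h1 := congrArg Fin.val h
    rw [Fin.val_rev] at h1
    obtain ⟨k, hk⟩ := he
    have := i.2
    omega
  · rw [if_neg h] at h3
    exact h3

lemma bad_ker (e : ℕ) : finrank F (LinearMap.ker (bad e F - 1)) ≤ e + 1 := by
  by_cases he : Even e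
  · exact (bad_ker_even he).trans (Nat.le_succ e)
  · obtain ⟨k, hk⟩ := Nat.not_even_iff_odd.mp he
    let mid : Fin e := ⟨k, by omega⟩
    have h4 : LinearMap.ker (bad e F - 1) ≤ U0 e F ⊔ Submodule.span F {Pi.single (Sum.inr mid) 1} := by
      intro v hv
      have h5 : v - v (Sum.inr mid) • (Pi.single (Sum.inr mid) 1 : Fin e ⊕ Fin e → F) ∈ U0 e F := by
        rw [mem_U0]
        intro i
        rw [Pi.sub_apply, Pi.smul_apply, smul_eq_mul]
        by_cases him : i = mid
        · rw [him, Pi.single_eq_same]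
          ring
        · rw [Pi.single_eq_of_ne (fun h => him (Sum.inr_injective h)), mul_zero, sub_zero]
          have h3 := congrFun (LinearMap.mem_ker.mp hv) (Sum.inl i.rev)
          rw [bad_sub_inl, S, Fin.rev_rev] at h3
          rw [if_neg] at h3
          · exact h3
          · intro h
            apply him
            apply Fin.ext
            have h1 := congrArg Fin.val h
            rw [Fin.val_rev] at h1
            have := i.2
            change (i : ℕ) = k
            omega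
      have h6 : v = (v - v (Sum.inr mid) • (Pi.single (Sum.inr mid) 1 : Fin e ⊕ Fin e → F)) + v (Sum.inr mid) • (Pi.single (Sum.inr mid) 1 : Fin e ⊕ Fin e → F) := by abel
      rw [h6]
      exact Submodule.add_mem_sup h5 (Submodule.smul_mem _ _ (Submodule.mem_span_singleton_self _))
    refine (Submodule.finrank_mono h4).trans ((Submodule.finrank_add_le_finrank_add_finrank _ _).trans ?_)
    rw [finrank_U0]
    have h5 := finrank_span_le_card (R := F) ({Pi.single (Sum.inr mid) 1} : Set (Fin e ⊕ Fin e → F))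
    rw [Set.toFinset_singleton, Finset.card_singleton] at h5
    omega

end bad

end Cfsg.Agent.H39.OE
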