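import Mathlib
import Cfsg.Agent.H39.OE13

/-!
Bad involutions in characteristic two.
-/

set_option autoImplicit false

namespace Cfsg.Agent.H39.OE

open Module QuadraticMap Cfsg.Agent.Orth Polynomial

section om
variable {F : Type*} [Field F] [Fintype F] {ι : Type} [Fintype ι] [DecidableEq ι]

lemma omega_of_comm {Q : QuadraticForm F (ι → F)} {x : (ι → F) →ₗ[F] (ι → F)}
    (h : ∃ y ∈ commutator (OGrp Q), ∀ v, (y : (ι → F) ≃ₗ[F] (ι → F)) v = x v) :
    ∃ g : GL ι F, g ∈ Cfsg.Geo.omegaGL (⇑Q) ∧ Matrix.toLin' (g : Matrix ι ι F) = x := by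
  obtain ⟨y, hy, hyx⟩ := h
  let g := (bridge Q).symm y
  have hg : bridge Q g = y := (bridge Q).apply_symm_apply y
  refine ⟨(g : GL ι F), ⟨g, (mem_Omega_iff Q g).mpr (by rw [hg]; exact hy), rfl⟩, ?_⟩
  apply LinearMap.ext
  intro v
  rw [Matrix.toLin'_apply, ← hyx]
  exact (bridge_eq_iff Q g y).mp hg v

/-- isometries fixing pointwise a maximal totally singular subspace, characteristic two -/
lemma comm_of_fix {V : Type*} [AddCommGroup V] [Module F V] [FiniteDimensional F V] (h2 : (2 : F) = 0) {Q : QuadraticForm F V}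
    (hQ : (polarBilin Q).Nondegenerate) {m : ℕ} (hV : finrank F V = 2 * m) (hm : 3 ≤ m) {y : OGrp Q} {U : Submodule F V} (hU : TS Q U) (hUm : finrank F U = m)
    (hy : ∀ u ∈ U, (y : V ≃ₗ[F] V) u = u) : y ∈ commutator (OGrp Q) := by
  have hR := RGrp_eq_top hQ (Or.inr (by omega))
  obtain ⟨l, hl⟩ := exists_reflProd hR y
  have h3 := parity_TS hQ hV hU hUm l
  have h4 : U.map ((reflProd Q l : V ≃ₗ[F] V) : V →ₗ[F] V) = U := by
    rw [hl]
    apply le_antisymm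
    · rintro _ ⟨u, hu, rfl⟩
      change (y : V ≃ₗ[F] V) u ∈ U
      rw [hy u hu]
      exact hu
    · intro u hu
      exact ⟨u, hu, hy u hu⟩
  rw [h4, inf_idem, hUm, Nat.sub_self] at h3
  rw [← hl, reflProd_mem_commutator_iff hQ hR]
  exact ⟨h3.mp Even.zero, isSquare_of_two_eq_zero h2 _⟩

lemma bad_comm (h2 : (2 : F) = 0) {e : ℕ} (he : 3 ≤ e) : ∃ y ∈ commutator (OGrp (qfPlus e F)), ∀ v, (y : (Fin e ⊕ Fin e → F) ≃ₗ[F] (Fin e ⊕ Fin e → F)) v = bad e F v := by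
  have hinj := injective_of_isom (qfPlus_nondegenerate e F) (bad_isom (F := F) h2 e)
  let f : (Fin e ⊕ Fin e → F) ≃ₗ[F] (Fin e ⊕ Fin e → F) := LinearEquiv.ofInjectiveEndo (bad e F) hinj
  let y : OGrp (qfPlus e F) := ⟨f, fun v => bad_isom h2 e v⟩
  have hyx : ∀ v, (y : (Fin e ⊕ Fin e → F) ≃ₗ[F] (Fin e ⊕ Fin e → F)) v = bad e F v := fun v => rfl
  refine ⟨y, comm_of_fix h2 (qfPlus_nondegenerate e F) (finrank_V e F) he (TS_U0 e F) (finrank_U0 e F) ?_, hyx⟩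
  intro u hu
  rw [mem_U0] at hu
  rw [hyx]
  funext s
  rcases s with i | i
  · rw [bad_inl]
    have h3 : S e (fun j => u (Sum.inr j)) i = 0 := by
      rw [S, hu, ite_self]
    rw [h3, add_zero]
  · rfl

/-- the bad involution, plus type -/
theorem exists_bad_plus [CharP F 2] {d : ℕ} (hd : 4 ≤ d) :
    ∃ g : GL (Fin d ⊕ Fin d) F, g ∈ Cfsg.Geo.omegaGL (⇑(qfPlus d F)) ∧
      ((g ^ 2 : GL (Fin d ⊕ Fin d) F) : Matrix (Fin d ⊕ Fin d) (Fin d ⊕ Fin d) F) = (1 : F) • (1 : Matrix (Fin d ⊕ Fin d) (Fin d ⊕ Fin d) F) ∧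
      (∀ z : F, (g : Matrix (Fin d ⊕ Fin d) (Fin d ⊕ Fin d) F) ≠ z • (1 : Matrix (Fin d ⊕ Fin d) (Fin d ⊕ Fin d) F)) ∧
      ∀ W : Submodule F (Fin d ⊕ Fin d → F), Nd (qfPlus d F) W → W.map (Matrix.toLin' (g : Matrix (Fin d ⊕ Fin d) (Fin d ⊕ Fin d) F)) ≤ W →
        PT (qfPlus d F) W ∧ (Even d → finrank F W % 4 = 0) := by
  have h2 : (2 : F) = 0 := CharTwo.two_eq_zero
  obtain ⟨g, g1, g2⟩ := omega_of_comm (bad_comm (F := F) h2 (e := d) (by omega))
  have hQ := qfPlus_nondegenerate d F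
  have hx := bad_isom (F := F) h2 d
  have hx2 := bad_sq (F := F) h2 d
  have hsq := sq_zero (F := F) hx2
  have hV := finrank_V d F
  have hPT : PT (qfPlus d F) ⊤ := ⟨U0 d F, le_top, TS_U0 d F, by rw [finrank_U0, finrank_top, finrank_V]⟩
  refine ⟨g, g1, ?_, ?_, ?_⟩
  · apply Matrix.toLin'.injective
    have h5 : ((g ^ 2 : GL (Fin d ⊕ Fin d) F) : Matrix (Fin d ⊕ Fin d) (Fin d ⊕ Fin d) F) = (g : Matrix (Fin d ⊕ Fin d) (Fin d ⊕ Fin d) F) * (g : Matrix (Fin d ⊕ Fin d) (Fin d ⊕ Fin d) F) := by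
      rw [pow_two]; rfl
    rw [h5, Matrix.toLin'_mul, g2, map_smul, Matrix.toLin'_one]
    apply LinearMap.ext
    intro v
    rw [LinearMap.comp_apply, hx2, one_smul]
    rfl
  · intro z hz
    have h5 : ∀ v, bad d F v = z • v := by
      intro v
      rw [← g2, hz, map_smul, Matrix.toLin'_one]
      rfl
    let i0 : Fin d := ⟨0, by omega⟩
    have h6 := congrFun (h5 (Pi.single (Sum.inr i0) 1)) (Sum.inl i0.rev)
    rw [bad_inl, S, Fin.rev_rev, Pi.smul_apply] at h6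
    have h7 : (Pi.single (Sum.inr i0) (1 : F) : Fin d ⊕ Fin d → F) (Sum.inl i0.rev) = 0 := by
      rw [Pi.single_apply, if_neg (fun h => Sum.inl_ne_inr h)]
    rw [h7, Pi.single_eq_same, if_neg (by
      intro h
      have h1 := congrArg Fin.val h
      rw [Fin.val_rev] at h1
      have : (i0 : ℕ) = 0 := rfl
      omega), smul_zero, zero_add] at h6
    exact one_ne_zero h6
  · intro W hW hinv
    rw [g2] at hinv
    have hI : Inv (qfPlus d F) (bad d F) W := ⟨hW, fun v hv => hinv ⟨v, hv, rfl⟩⟩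
    have hWe : Even (finrank F W) := (polar_alt h2 (qfPlus d F)).even_finrank_sub hW
    constructor
    · by_cases h4 : finrank F W % 4 = 0
      · exact pt_of_alt h2 hQ hV hx hsq (bad_alt h2 d) (bad_ker d) hI h4
      · have h5 := H99.split_finrank (of (qfPlus d F)) hW le_top
        rw [top_inf_eq, finrank_top, hV] at h5
        have hI' := inv_orth hQ hx hI
        have h6 := PT_iff_orth hQ hW hWe ⟨d, by omega⟩
        by_cases h7 : finrank F (H99.orth (of (qfPlus d F)) W) % 4 = 0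
        · have h8 := pt_of_alt h2 hQ hV hx hsq (bad_alt h2 d) (bad_ker d) hI' h7
          exact (h6.mp hPT).mpr h8
        · -- `d` is even
          exfalso
          obtain ⟨k, hk⟩ := hWe
          have hde : Even d := by
            rw [Nat.even_iff]
            omega
          have h8 := H99.dvd_four_of_inv (polar_alt h2 (qfPlus d F)) (nd_of_nondeg hQ) (fun u v => polar_of_isom hx u v) hsq (bad_alt h2 d) (by
            have h9 := bad_ker_even (F := F) hde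
            have h10 := (H99.invol_ker hx2).2
            omega) hI.inv hI.nd
          exact h4 h8
    · intro hde
      exact H99.dvd_four_of_inv (polar_alt h2 (qfPlus d F)) (nd_of_nondeg hQ) (fun u v => polar_of_isom hx u v) hsq (bad_alt h2 d) (by
        have h9 := bad_ker_even (F := F) hde
        have h10 := (H99.invol_ker hx2).2
        omega) hI.inv hI.nd

end om

section minus
variable {F : Type*} [Field F] [Fintype F]

/-- the anisotropic plane -/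
noncomputable def qpl (e : ℕ) (F : Type*) [Field F] (a b : F) : QuadraticForm F (Fin 2 → F) :=
  (qfMinus e F a b).comp ((LinearEquiv.sumArrowLequivProdArrow (Fin e ⊕ Fin e) (Fin 2) F F).symm.toLinearMap ∘ₗ LinearMap.inr F _ _)

lemma qsum_qpl (e : ℕ) (a b : F) : qsum (qfPlus e F) (qpl e F a b) = qfMinus e F a b := by
  apply QuadraticMap.ext
  intro v
  rw [qsum_apply, qpl, QuadraticMap.comp_apply, qfMinus_apply, qfMinus_apply, qfPlus_apply]
  have h1 : ∀ i, ((LinearEquiv.sumArrowLequivProdArrow (Fin e ⊕ Fin e) (Fin 2) F F).symm.toLinearMap ∘ₗ LinearMap.inr F _ _) (v ∘ Sum.inr) (Sum.inr i) = v (Sum.inr i) := fun i => rfl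
  have h3 : ∀ i, ((LinearEquiv.sumArrowLequivProdArrow (Fin e ⊕ Fin e) (Fin 2) F F).symm.toLinearMap ∘ₗ LinearMap.inr F _ _) (v ∘ Sum.inr) (Sum.inl i) = 0 := fun i => rfl
  simp only [h1, h3, mul_zero, Finset.sum_const_zero, zero_add]
  rfl

/-- the bad involution on the elliptic space -/
noncomputable def badm (e : ℕ) (F : Type*) [Field F] : ((Fin e ⊕ Fin e) ⊕ Fin 2 → F) →ₗ[F] ((Fin e ⊕ Fin e) ⊕ Fin 2 → F) :=
  (LinearEquiv.sumArrowLequivProdArrow (Fin e ⊕ Fin e) (Fin 2) F F).symm.toLinearMap ∘ₗ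
    (LinearMap.prodMap (bad e F) LinearMap.id) ∘ₗ (LinearEquiv.sumArrowLequivProdArrow (Fin e ⊕ Fin e) (Fin 2) F F).toLinearMap

lemma badm_apply (e : ℕ) (v : (Fin e ⊕ Fin e) ⊕ Fin 2 → F) : badm e F v = Sum.elim (bad e F (v ∘ Sum.inl)) (v ∘ Sum.inr) := by
  funext s
  rcases s with s | s <;> rfl

lemma badm_comm (h2 : (2 : F) = 0) {e : ℕ} (he : 3 ≤ e) (a b : F) : ∃ y ∈ commutator (OGrp (qfMinus e F a b)), ∀ v, (y : ((Fin e ⊕ Fin e) ⊕ Fin 2 → F) ≃ₗ[F] ((Fin e ⊕ Fin e) ⊕ Fin 2 → F)) v = badm e F v := by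
  rw [← qsum_qpl]
  obtain ⟨y, y1, y2⟩ := bad_comm (F := F) h2 he
  refine ⟨blk _ _ (y, 1), blk_mem_commutator _ _ y1 (Subgroup.one_mem _), fun v => ?_⟩
  rw [blk_apply, badm_apply, y2]
  rfl

lemma badm_sq (h2 : (2 : F) = 0) (e : ℕ) (v : (Fin e ⊕ Fin e) ⊕ Fin 2 → F) : badm e F (badm e F v) = v := by
  rw [badm_apply, badm_apply, Sum.elim_comp_inl, Sum.elim_comp_inr, bad_sq h2]
  exact Sum.elim_comp_inl_inr v

lemma badm_isom (h2 : (2 : F) = 0) (e : ℕ) (a b : F) (v : (Fin e ⊕ Fin e) ⊕ Fin 2 → F) : qfMinus e F a b (badm e F v) = qfMinus e F a b v := by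
  rw [← qsum_qpl, qsum_apply, qsum_apply, badm_apply, Sum.elim_comp_inl, Sum.elim_comp_inr, bad_isom h2]

lemma badm_sub (e : ℕ) (v : (Fin e ⊕ Fin e) ⊕ Fin 2 → F) : (badm e F - 1) v = Sum.elim ((bad e F - 1) (v ∘ Sum.inl)) 0 := by
  change badm e F v - v = _
  rw [badm_apply]
  funext s
  rcases s with s | s
  · rfl
  · simp

lemma badm_alt (h2 : (2 : F) = 0) (e : ℕ) (a b : F) (v : (Fin e ⊕ Fin e) ⊕ Fin 2 → F) : polar (qfMinus e F a b) v ((badm e F - 1) v) = 0 := by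
  rw [← qsum_qpl, polar_qsum, badm_sub, Sum.elim_comp_inl, Sum.elim_comp_inr, polar_zero_right, add_zero, bad_alt h2]

lemma badm_ker {e : ℕ} (he : Even e) : finrank F (LinearMap.ker (badm e F - 1)) ≤ e + 2 := by
  let π : ((Fin e ⊕ Fin e) ⊕ Fin 2 → F) →ₗ[F] (Fin e → F) := LinearMap.funLeft F F (fun i => Sum.inl (Sum.inr i))
  have hπ : Function.Surjective π := LinearMap.funLeft_surjective_of_injective F F _ (fun i j h => Sum.inr_injective (Sum.inl_injective h))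
  have h1 := LinearMap.finrank_range_add_finrank_ker π
  rw [LinearMap.range_eq_top.mpr hπ, finrank_top, finrank_fintype_fun_eq_card, finrank_fintype_fun_eq_card, Fintype.card_fin, Fintype.card_sum, Fintype.card_sum,
    Fintype.card_fin, Fintype.card_fin] at h1
  refine le_trans (Submodule.finrank_mono (t := LinearMap.ker π) ?_) (by omega)
  intro v hv
  rw [LinearMap.mem_ker] at hv ⊢
  funext i
  rw [badm_sub] at hv
  have h3 := congrFun hv (Sum.inl (Sum.inl i.rev))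
  rw [Sum.elim_inl, bad_sub_inl, S, Fin.rev_rev] at h3
  by_cases h : i = i.rev
  · exfalso
    have h1 := congrArg Fin.val h
    rw [Fin.val_rev] at h1
    obtain ⟨k, hk⟩ := he
    have := i.2
    omega
  · rw [if_neg h] at h3
    exact h3

/-- the bad involution, minus type, `d = e + 1` odd -/
theorem exists_bad_minus [CharP F 2] {e : ℕ} (he : 3 ≤ e) (hee : Even e) {a b : F} (hab : ∀ x y : F, x ^ 2 + a * x * y + b * y ^ 2 = 0 → x = 0 ∧ y = 0) :
    ∃ g : GL ((Fin e ⊕ Fin e) ⊕ Fin 2) F, g ∈ Cfsg.Geo.omegaGL (⇑(qfMinus e F a b)) ∧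
      ((g ^ 2 : GL ((Fin e ⊕ Fin e) ⊕ Fin 2) F) : Matrix ((Fin e ⊕ Fin e) ⊕ Fin 2) ((Fin e ⊕ Fin e) ⊕ Fin 2) F) = (1 : F) • (1 : Matrix ((Fin e ⊕ Fin e) ⊕ Fin 2) ((Fin e ⊕ Fin e) ⊕ Fin 2) F) ∧
      (∀ z : F, (g : Matrix ((Fin e ⊕ Fin e) ⊕ Fin 2) ((Fin e ⊕ Fin e) ⊕ Fin 2) F) ≠ z • (1 : Matrix ((Fin e ⊕ Fin e) ⊕ Fin 2) ((Fin e ⊕ Fin e) ⊕ Fin 2) F)) ∧
      ∀ W : Submodule F ((Fin e ⊕ Fin e) ⊕ Fin 2 → F), Nd (qfMinus e F a b) W → W.map (Matrix.toLin' (g : Matrix ((Fin e ⊕ Fin e) ⊕ Fin 2) ((Fin e ⊕ Fin e) ⊕ Fin 2) F)) ≤ W →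
        finrank F W % 4 = 0 → PT (qfMinus e F a b) W := by
  have h2 : (2 : F) = 0 := CharTwo.two_eq_zero
  obtain ⟨g, g1, g2⟩ := omega_of_comm (badm_comm (F := F) h2 (e := e) (by omega) a b)
  have hQ := qfMinus_nondegenerate e F (disc_ne_zero_of_aniso hab)
  have hx := badm_isom (F := F) h2 e a b
  have hx2 := badm_sq (F := F) h2 e
  have hsq := sq_zero (F := F) hx2
  have hV : finrank F ((Fin e ⊕ Fin e) ⊕ Fin 2 → F) = 2 * (e + 1) := by
    rw [finrank_fintype_fun_eq_card, Fintype.card_sum, Fintype.card_sum, Fintype.card_fin, Fintype.card_fin]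
    ring
  refine ⟨g, g1, ?_, ?_, ?_⟩
  · apply Matrix.toLin'.injective
    have h5 : ((g ^ 2 : GL ((Fin e ⊕ Fin e) ⊕ Fin 2) F) : Matrix ((Fin e ⊕ Fin e) ⊕ Fin 2) ((Fin e ⊕ Fin e) ⊕ Fin 2) F) = (g : Matrix ((Fin e ⊕ Fin e) ⊕ Fin 2) ((Fin e ⊕ Fin e) ⊕ Fin 2) F) * (g : Matrix ((Fin e ⊕ Fin e) ⊕ Fin 2) ((Fin e ⊕ Fin e) ⊕ Fin 2) F) := by
      rw [pow_two]; rfl
    rw [h5, Matrix.toLin'_mul, g2, map_smul, Matrix.toLin'_one]
    apply LinearMap.ext
    intro v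
    rw [LinearMap.comp_apply, hx2, one_smul]
    rfl
  · intro z hz
    have h5 : ∀ v, badm e F v = z • v := by
      intro v
      rw [← g2, hz, map_smul, Matrix.toLin'_one]
      rfl
    let i0 : Fin e := ⟨0, by omega⟩
    have h6 := congrFun (h5 (Sum.elim (Pi.single (Sum.inr i0) 1) 0)) (Sum.inl (Sum.inl i0.rev))
    rw [badm_apply, Sum.elim_comp_inl, Sum.elim_inl, bad_inl, S, Fin.rev_rev, Pi.smul_apply, Sum.elim_inl] at h6
    have h7 : (Pi.single (Sum.inr i0) (1 : F) : Fin e ⊕ Fin e → F) (Sum.inl i0.rev) = 0 := by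
      rw [Pi.single_apply, if_neg (fun h => Sum.inl_ne_inr h)]
    rw [h7, Pi.single_eq_same, if_neg (by
      intro h
      have h1 := congrArg Fin.val h
      rw [Fin.val_rev] at h1
      have : (i0 : ℕ) = 0 := rfl
      omega), smul_zero, zero_add] at h6
    exact one_ne_zero h6
  · intro W hW hinv h4
    rw [g2] at hinv
    have hI : Inv (qfMinus e F a b) (badm e F) W := ⟨hW, fun v hv => hinv ⟨v, hv, rfl⟩⟩
    exact pt_of_alt h2 hQ hV hx hsq (badm_alt h2 e a b) (by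
      have := badm_ker (F := F) hee
      omega) hI h4

end minus

end Cfsg.Agent.H39.OE
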