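import Mathlib
import Cfsg.Agent.H39.OE14

/-!
Even-dimensional subspaces: arithmetic and a unipotent element.
-/

set_option autoImplicit false

namespace Cfsg.Agent.H39.OE

open Module QuadraticMap Cfsg.Agent.Orth Polynomial

lemma div_add_eq {c m n : ℕ} (hc : 0 < c) (h : m % c = n % c) : (2 * n + m - 2 * ((2 * n) % c)) / c = (2 * n + m - 2 * ((2 * n) % c)) / c := rfl

lemma div_add_eq' {c m n : ℕ} (hc : 0 < c) (h : m % c = n % c) : (n + m - 2 * (n % c)) / c = n / c + m / c := by
  have h1 := Nat.div_add_mod n c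
  have h3 := Nat.div_add_mod m c
  have h4 : n + m - 2 * (n % c) = (n / c + m / c) * c := by
    rw [add_mul, mul_comm (n / c), mul_comm (m / c)]
    omega
  rw [h4, Nat.mul_div_cancel _ hc]

lemma even_sub_iff {c m n : ℕ} (h : m ≤ n) : Even (n / c - m / c) ↔ Even (n / c + m / c) := by
  have h1 : m / c ≤ n / c := Nat.div_le_div_right h
  rw [Nat.even_sub h1, Nat.even_add]

section unip
universe u
variable {F : Type u} [Field F] [Fintype F] {ι : Type} [Fintype ι] [DecidableEq ι] {p : ℕ} [Fact p.Prime] [CharP F p]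

/-- all invariant nondegenerate subspaces of even dimension have plus type (`d` odd) -/
theorem unip_plus_odd (h2 : (2 : F) ≠ 0) (hpo : Odd p) {Q : QuadraticForm F (ι → F)} (hQ : (polarBilin Q).Nondegenerate) {d : ℕ}
    (hd : finrank F (ι → F) = 2 * d) (hdo : Odd d) (hd4 : 4 ≤ d) (hV : PT Q ⊤) :
    ∃ g : GL ι F, g ∈ Cfsg.Geo.omegaGL (⇑Q) ∧ ((g ^ p : GL ι F) : Matrix ι ι F) = (1 : F) • (1 : Matrix ι ι F) ∧
      (∀ z : F, (g : Matrix ι ι F) ≠ z • (1 : Matrix ι ι F)) ∧
      ∀ W : Submodule F (ι → F), Nd Q W → W.map (Matrix.toLin' (g : Matrix ι ι F)) ≤ W → Even (finrank F W) → PT Q W := by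
  have hp : p.Prime := Fact.out
  have hp3 : 3 ≤ p := by
    have := hp.two_le
    obtain ⟨k, hk⟩ := hpo
    omega
  obtain ⟨k, hk⟩ := hdo
  set μ : Multiset ℕ := Multiset.replicate 2 1 + Multiset.replicate (d - 1) 2 with hμ
  have hmem : ∀ e ∈ μ, e = 1 ∨ e = 2 := by
    intro e he
    rcases Multiset.mem_add.mp he with h | h
    · exact Or.inl (Multiset.eq_of_mem_replicate h)
    · exact Or.inr (Multiset.eq_of_mem_replicate h)
  obtain ⟨x, hx1, hx2, hx3⟩ := H99.exists_orth_jordan h2 hQ μ (by
      intro e he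
      rcases hmem e he with h | h <;> omega) (by
      intro e he
      rw [hμ, Multiset.count_add, Multiset.count_replicate, Multiset.count_replicate]
      have h3 : 1 ≠ e := by
        rintro rfl
        rw [Nat.even_iff] at he
        omega
      rw [if_neg h3, zero_add]
      split_ifs
      · exact ⟨k, by omega⟩
      · exact Even.zero) (by
      rw [hμ, hd, Multiset.sum_add, Multiset.sum_replicate, Multiset.sum_replicate, smul_eq_mul, smul_eq_mul]
      omega) (P := p) (by
      intro e he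
      rcases hmem e he with h | h <;> omega) (by
      exact ⟨1, Multiset.mem_add.mpr (Or.inl (Multiset.mem_replicate.mpr ⟨by norm_num, rfl⟩)), odd_one⟩)
  obtain ⟨g, g1, g2, -, -, g3, g5, g4⟩ := exists_unip h2 hpo hQ (by omega) hx1 hx2 hx3
    ⟨2, Multiset.mem_add.mpr (Or.inr (Multiset.mem_replicate.mpr ⟨by omega, rfl⟩)), by omega⟩
  have key : ∀ W : Submodule F (ι → F), Nd Q W → W.map (Matrix.toLin' (g : Matrix ι ι F)) ≤ W → finrank F W % 4 = 0 → PT Q W := by
    intro W hW hinv hW4
    obtain ⟨ν, n1, n2, n3, n4⟩ := g4 W hW hinv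
    apply n4
    have h4 := H99.sum_count_of_le n1 {1, 2} (by
      intro e he
      rcases hmem e he with h | h <;> simp [h])
    rw [Finset.sum_pair (by omega)] at h4
    have h5 := (Multiset.le_iff_count.mp n1) 1
    rw [hμ, Multiset.count_add, Multiset.count_replicate, Multiset.count_replicate, if_pos rfl, if_neg (by omega)] at h5
    obtain ⟨c, hc⟩ := n2 2 even_two
    rw [n3, h4, hc] at hW4
    have h6 : ν.count 1 = 0 := by omega
    intro a ha
    rcases hmem a (Multiset.subset_of_le n1 ha) with h | h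
    · rw [h] at ha
      exact absurd h6 (Multiset.count_ne_zero.mpr ha)
    · rw [h]
      exact even_two
  refine ⟨g, g1, g2, g3, fun W hW hinv hWe => ?_⟩
  by_cases h4 : finrank F W % 4 = 0
  · exact key W hW hinv h4
  · rw [g5] at hinv key
    have h5 := H99.split_finrank (of Q) hW le_top
    have h6 := H99.split_ND_compl (of Q) (nd_of_nondeg hQ) hW le_top
    rw [top_inf_eq] at h5 h6
    rw [finrank_top, hd] at h5
    refine ((PT_iff_orth hQ hW hWe ⟨d, by omega⟩).mp hV).mpr (key _ h6 ?_ (by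
      rw [Nat.even_iff] at hWe
      omega))
    rintro _ ⟨v, hv, rfl⟩
    exact H99.orth_inv_of_isom (of Q) (injective_of_isom hQ hx1) (fun u v => polar_of_isom hx1 u v) (fun v hv => hinv ⟨v, hv, rfl⟩) v hv

end unip

end Cfsg.Agent.H39.OE
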