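import Mathlib
import Cfsg.Agent.H39.OE15

/-!
A unipotent element fixing no odd-dimensional nondegenerate space of a given isometry type (`d` even).
-/

set_option autoImplicit false

namespace Cfsg.Agent.H39.OE

open Module QuadraticMap Cfsg.Agent.Orth Polynomial

section D
variable {F : Type*} [Field F] {V : Type*} [AddCommGroup V] [Module F V] [FiniteDimensional F V]

/-- odd-dimensional spaces with a given discriminant -/
def D (Q : QuadraticForm F V) (W : Submodule F V) (α : F) : Prop :=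
  ∃ S ≤ W, TS Q S ∧ 2 * finrank F S + 1 = finrank F W ∧ ∃ w ∈ W, (∀ s ∈ S, polar Q s w = 0) ∧ Q w = α

lemma D_map {Q : QuadraticForm F V} {W : Submodule F V} {α : F} (h : D Q W α) (g : OGrp Q) :
    D Q (W.map ((g : V ≃ₗ[F] V) : V →ₗ[F] V)) α := by
  obtain ⟨S, s1, s2, s3, w, w1, w2, w3⟩ := h
  refine ⟨S.map ((g : V ≃ₗ[F] V) : V →ₗ[F] V), Submodule.map_mono s1, ?_, ?_, (g : V ≃ₗ[F] V) w, ⟨w, w1, rfl⟩, ?_, ?_⟩
  · rintro _ ⟨u, hu, rfl⟩
    exact (OGrp_q g u).trans (s2 u hu)
  · rw [LinearEquiv.finrank_map_eq, LinearEquiv.finrank_map_eq, s3]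
  · rintro _ ⟨u, hu, rfl⟩
    have h3 := polar_of_isom (f := ((g : V ≃ₗ[F] V) : V →ₗ[F] V)) (Q := Q) (Q' := Q) (fun v => OGrp_q g v) u w
    exact h3.trans (w2 u hu)
  · exact (OGrp_q g w).trans w3

lemma D_restrict {Q : QuadraticForm F V} {W : Submodule F V} {α : F} (h : D Q W α) : D (Q.restrict W) ⊤ α := by
  obtain ⟨S, s1, s2, s3, w, w1, w2, w3⟩ := h
  refine ⟨S.comap W.subtype, le_top, fun u hu => s2 _ hu, ?_, ⟨w, w1⟩, Submodule.mem_top, fun u hu => w2 _ hu, w3⟩
  rw [(Submodule.comapSubtypeEquivOfLe s1).finrank_eq, finrank_top, s3]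

lemma D_unique_top {Q : QuadraticForm F V} (hQ : (polarBilin Q).Nondegenerate) {α β : F} (ha : α ≠ 0) (hb : β ≠ 0) (h : D Q ⊤ α) (h' : D Q ⊤ β) :
    IsSquare (α * β) := by
  obtain ⟨S, -, s2, s3, w, -, w2, w3⟩ := h
  obtain ⟨S', -, s2', s3', w', -, w2', w3'⟩ := h'
  rw [finrank_top] at s3 s3'
  obtain ⟨g, hg⟩ := exists_isom_map_TS hQ s2 s2' rfl (show finrank F S' = finrank F S by omega)
  -- `S'^⊥ = S' + ⟨w'⟩`
  have h1 : S' ⊔ Submodule.span F {w'} = perp Q S' := by
    apply Submodule.eq_of_le_of_finrank_eq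
    · apply sup_le s2'.le_perp
      rw [Submodule.span_singleton_le_iff_mem]
      exact fun s hs => w2' s hs
    · have h3 := finrank_perp hQ S'
      have h4 : Disjoint S' (Submodule.span F {w'}) := by
        rw [Submodule.disjoint_def]
        intro v hv hv'
        obtain ⟨c, rfl⟩ := Submodule.mem_span_singleton.mp hv'
        have h5 := s2' _ hv
        rw [qsmul, w3'] at h5
        have h6 : c = 0 := by
          rcases mul_eq_zero.mp h5 with h6 | h6
          · simpa using h6
          · exact absurd h6 hb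
        rw [h6, zero_smul]
      have h5 : w' ≠ 0 := by
        rintro rfl
        apply hb
        rw [← w3', QuadraticMap.map_zero]
      rw [finrank_sup_disj h4, finrank_span_singleton h5]
      omega
  have h3 : (g : V ≃ₗ[F] V) w ∈ perp Q S' := by
    rw [← hg]
    rintro _ ⟨s, hs, rfl⟩
    have h3 := polar_of_isom (f := ((g : V ≃ₗ[F] V) : V →ₗ[F] V)) (Q := Q) (Q' := Q) (fun v => OGrp_q g v) s w
    exact h3.trans (w2 s hs)
  rw [← h1] at h3
  obtain ⟨s, hs, z, hz, hsz⟩ := Submodule.mem_sup.mp h3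
  obtain ⟨c, rfl⟩ := Submodule.mem_span_singleton.mp hz
  have h4 : Q ((g : V ≃ₗ[F] V) w) = α := by rw [OGrp_q, w3]
  rw [← hsz, qadd, s2' s hs, qsmul, psr, w2' s hs, w3'] at h4
  refine ⟨c * β, ?_⟩
  rw [← h4]
  ring

lemma D_unique {Q : QuadraticForm F V} {W : Submodule F V} (hW : Nd Q W) {α β : F} (ha : α ≠ 0) (hb : β ≠ 0) (h : D Q W α) (h' : D Q W β) :
    IsSquare (α * β) := D_unique_top (nd_restrict hW) ha hb (D_restrict h) (D_restrict h')

/-- values on the kernel imply `D` -/
lemma D_of_ker (h2 : (2 : F) ≠ 0) {Q : QuadraticForm F V} {x : V →ₗ[F] V} (hx : ∀ v, Q (x v) = Q v) {W : Submodule F V} (hW : Nd Q W) (hinv : ∀ v ∈ W, x v ∈ W)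
    (hN : ∀ v ∈ W, (x - 1) ((x - 1) v) = 0) (hr : 2 * finrank F (W.map (x - 1)) + 1 = finrank F W) {α : F} (ha : α ≠ 0)
    (hk : ∀ c, x c = c → ∃ l, Q c = l ^ 2 * α) : D Q W α := by
  have hp := fun u v => polar_of_isom hx u v
  have hcN : ∀ c, x c = c → ∀ v, polar Q c ((x - 1) v) = 0 := by
    intro c hc v
    have h3 : (x - 1) v = x v - v := rfl
    have h4 := hp c v
    rw [hc] at h4
    rw [h3, pdr, h4, sub_self]
  have hfix : ∀ v ∈ W, x ((x - 1) v) = (x - 1) v := by
    intro v hv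
    have h3 := hN v hv
    have h4 : (x - 1) ((x - 1) v) = x ((x - 1) v) - (x - 1) v := rfl
    rw [h4] at h3
    exact sub_eq_zero.mp h3
  have hTS : TS Q (W.map (x - 1)) := by
    rintro _ ⟨v, hv, rfl⟩
    have h3 := hcN _ (hfix v hv) v
    have h4 : polar Q ((x - 1) v) ((x - 1) v) = 0 := h3
    rw [pself] at h4
    exact (mul_eq_zero.mp h4).resolve_left h2
  have hle : W.map (x - 1) ≤ W := by
    rintro _ ⟨v, hv, rfl⟩
    exact W.sub_mem (hinv v hv) hv
  have hk1 := finrank_ker_inf (x - 1) W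
  -- an element of the kernel with nonzero value
  have hex : ∃ c ∈ W ⊓ LinearMap.ker (x - 1), Q c ≠ 0 := by
    by_contra hcon
    push Not at hcon
    have h3 := ts_bound hW (U := W ⊓ LinearMap.ker (x - 1)) hcon inf_le_left
    omega
  obtain ⟨c, ⟨hc1, hc2⟩, hc3⟩ := hex
  have hxc : x c = c := sub_eq_zero.mp (LinearMap.mem_ker.mp hc2)
  obtain ⟨l, hl⟩ := hk c hxc
  have hl0 : l ≠ 0 := by
    rintro rfl
    apply hc3
    rw [hl]
    ring
  refine ⟨W.map (x - 1), hle, hTS, hr, l⁻¹ • c, W.smul_mem _ hc1, ?_, ?_⟩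
  · rintro _ ⟨v, hv, rfl⟩
    rw [psr, pc, hcN c hxc, mul_zero]
  · rw [qsmul, hl]
    field_simp

end D

section elt
universe u
variable {F : Type u} [Field F] [Finite F]

/-- a unipotent isometry with prescribed values on its fixed space -/
theorem exists_elt {V : Type u} [AddCommGroup V] [Module F V] [FiniteDimensional F V] (h2 : (2 : F) ≠ 0) {Q : QuadraticForm F V} (hQ : (polarBilin Q).Nondegenerate)
    {d : ℕ} (hd : finrank F V = 2 * d) (hde : Even d) (hd4 : 4 ≤ d) {P : ℕ} (hP : 3 ≤ P) {α : F} (ha : α ≠ 0) :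
    ∃ x : V →ₗ[F] V, (∀ v, Q (x v) = Q v) ∧ (x - 1) ^ P = 0 ∧ H99.JT (x - 1) ⊤ ({1} + ({3} + Multiset.replicate (d - 2) 2)) ∧
      ∀ c, x c = c → ∃ l, Q c = l ^ 2 * α := by
  classical
  obtain ⟨e, he⟩ := exists_q_eq hQ (by omega) α
  have he0 : e ≠ 0 := by
    rintro rfl
    apply ha
    rw [← he, QuadraticMap.map_zero]
  obtain ⟨k, hk⟩ := hde
  set E := Submodule.span F {e} with hE
  have hNE : Nd Q E := by
    intro u hu hu2
    obtain ⟨c, rfl⟩ := Submodule.mem_span_singleton.mp hu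
    have h3 := hu2 e (Submodule.mem_span_singleton_self e)
    change polar Q (c • e) e = 0 at h3
    rw [psl, pself, he] at h3
    have h4 := (mul_eq_zero.mp h3).resolve_right (mul_ne_zero h2 ha)
    rw [h4, zero_smul]
  have hc := H99.isCompl_orth (of Q) hNE
  have hN' : Nd Q (H99.orth (of Q) E) := by
    have h1 := H99.split_ND_compl (of Q) (nd_of_nondeg hQ) hNE le_top
    rwa [top_inf_eq] at h1
  have hfE : finrank F E = 1 := finrank_span_singleton he0
  have hs := Submodule.finrank_add_eq_of_isCompl hc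
  set V' := H99.orth (of Q) E with hV'
  set μ' : Multiset ℕ := {3} + Multiset.replicate (d - 2) 2 with hμ'
  have hmem : ∀ a ∈ μ', a = 3 ∨ a = 2 := by
    intro a ha
    rcases Multiset.mem_add.mp ha with h | h
    · exact Or.inl (Multiset.mem_singleton.mp h)
    · exact Or.inr (Multiset.eq_of_mem_replicate h)
  obtain ⟨x', x1, x2, x3⟩ := H99.exists_orth_jordan h2 (nd_restrict hN') μ' (by
      intro a ha
      rcases hmem a ha with h | h <;> omega) (by
      intro a ha
      rw [hμ', Multiset.count_add, Multiset.count_replicate]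
      have h3 : a ≠ 3 := by
        rintro rfl
        rw [Nat.even_iff] at ha
        omega
      rw [Multiset.count_eq_zero_of_notMem (by rwa [Multiset.mem_singleton]), zero_add]
      split_ifs
      · exact ⟨k - 1, by omega⟩
      · exact Even.zero) (by
      rw [hμ', Multiset.sum_add, Multiset.sum_singleton, Multiset.sum_replicate, smul_eq_mul]
      omega) (P := P) (by
      intro a ha
      rcases hmem a ha with h | h <;> omega) (by
      exact ⟨3, Multiset.mem_add.mpr (Or.inl (Multiset.mem_singleton_self 3)), by decide⟩)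
  let Φ : (E × V') ≃ₗ[F] V := Submodule.prodEquivOfIsCompl E V' hc
  have hΦ : ∀ a b, Φ (a, b) = (a : V) + (b : V) := fun a b => rfl
  let x : V →ₗ[F] V := Φ.toLinearMap ∘ₗ (LinearMap.prodMap LinearMap.id x') ∘ₗ Φ.symm.toLinearMap
  have hx : ∀ a b, x (Φ (a, b)) = Φ (a, x' b) := by
    intro a b
    change Φ ((LinearMap.prodMap LinearMap.id x') (Φ.symm (Φ (a, b)))) = _
    rw [LinearEquiv.symm_apply_apply]
    rfl
  have hx' : ∀ a b, (x - 1) (Φ (a, b)) = Φ (0, (x' - 1) b) := by
    intro a b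
    change x (Φ (a, b)) - Φ (a, b) = Φ (0, x' b - b)
    rw [hx, ← map_sub]
    congr 1
    rw [Prod.mk_sub_mk, sub_self]
  have hx'' : ∀ v, (x - 1) (Φ v) = Φ ((LinearMap.prodMap (0 : E →ₗ[F] E) (x' - 1)) v) := by
    rintro ⟨a, b⟩
    rw [hx']
    rfl
  have hort : ∀ a : E, ∀ b : V', polar Q (a : V) (b : V) = 0 := fun a b => (pc Q (a : V) (b : V)).trans (b.2 a a.2)
  refine ⟨x, ?_, ?_, ?_, ?_⟩
  · intro v
    obtain ⟨⟨a, b⟩, rfl⟩ := Φ.surjective v
    rw [hx, hΦ, hΦ, qadd, qadd, hort, hort]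
    congr 2
    exact x1 b
  · have h3 : ∀ (s : ℕ) (v : E × V'), ((x - 1) ^ s) (Φ v) = Φ (((LinearMap.prodMap (0 : E →ₗ[F] E) (x' - 1)) ^ s) v) := by
      intro s v
      induction s with
      | zero => rfl
      | succ s ih => rw [pow_succ', Module.End.mul_apply, ih, hx'', ← Module.End.mul_apply, ← pow_succ']
    have h4 : ∀ s : ℕ, 0 < s → ∀ v : E × V', ((LinearMap.prodMap (0 : E →ₗ[F] E) (x' - 1)) ^ s) v = (0, ((x' - 1) ^ s) v.2) := by
      intro s hs v
      induction s with
      | zero => omega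
      | succ s ih =>
        rcases Nat.eq_zero_or_pos s with rfl | h
        · rfl
        · rw [pow_succ', Module.End.mul_apply, ih h, pow_succ']
          rfl
    apply LinearMap.ext
    intro v
    obtain ⟨w, rfl⟩ := Φ.surjective v
    rw [h3, h4 P (by omega), x2, LinearMap.zero_apply, LinearMap.zero_apply]
    exact map_zero Φ
  · refine H99.JT.transfer Φ (T := LinearMap.prodMap (0 : E →ₗ[F] E) (x' - 1)) (H99.JT.prod ?_ x3) hx''
    refine ⟨by simp, fun s => ?_⟩
    rcases Nat.eq_zero_or_pos s with rfl | h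
    · rw [pow_zero]
      have h3 : (⊤ : Submodule F E).map (1 : E →ₗ[F] E) = ⊤ := Submodule.map_id _
      rw [h3, finrank_top, hfE]
      simp
    · rw [zero_pow (by omega), Submodule.map_zero, finrank_bot, Multiset.map_singleton, Multiset.sum_singleton]
      omega
  · intro c hxc
    obtain ⟨⟨a, b⟩, rfl⟩ := Φ.surjective c
    rw [hx] at hxc
    have h3 := congrArg Prod.snd (Φ.injective hxc)
    have hb : x' b = b := h3
    -- `b` is in the image
    have hp := fun u v => polar_of_isom x1 u v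
    have hcN : ∀ v, polar (Q.restrict V') b ((x' - 1) v) = 0 := by
      intro v
      have h3 : (x' - 1) v = x' v - v := rfl
      have h4 := hp b v
      rw [hb] at h4
      rw [h3, pdr, h4, sub_self]
    have hker : LinearMap.ker (x' - 1) ≤ LinearMap.range (x' - 1) := by
      have e0 := x3.finrank_eq
      have e1 := x3.2 1
      have e2 := x3.2 2
      rw [finrank_top] at e0
      rw [pow_one, Submodule.map_top] at e1
      have h5 : (⊤ : Submodule F V').map ((x' - 1) ^ 2) = (LinearMap.range (x' - 1)).map (x' - 1) := by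
        rw [pow_two, Module.End.mul_eq_comp, Submodule.map_comp, Submodule.map_top]
      rw [h5] at e2
      rw [hμ', Multiset.sum_add, Multiset.sum_singleton, Multiset.sum_replicate, smul_eq_mul] at e0
      rw [hμ', Multiset.map_add, Multiset.sum_add, Multiset.map_singleton, Multiset.sum_singleton, Multiset.map_replicate, Multiset.sum_replicate, smul_eq_mul] at e1 e2
      have h6 := finrank_ker_inf (x' - 1) (LinearMap.range (x' - 1))
      have h7 := LinearMap.finrank_range_add_finrank_ker (x' - 1)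
      have h8 : LinearMap.range (x' - 1) ⊓ LinearMap.ker (x' - 1) = LinearMap.ker (x' - 1) := by
        apply Submodule.eq_of_le_of_finrank_eq inf_le_right
        omega
      rw [← h8]
      exact inf_le_left
    obtain ⟨v, hv⟩ := hker (show b ∈ LinearMap.ker (x' - 1) from LinearMap.mem_ker.mpr (sub_eq_zero.mpr hb))
    have h4 := hcN v
    rw [hv, pself] at h4
    have h5 : Q (b : V) = 0 := (mul_eq_zero.mp h4).resolve_left h2
    obtain ⟨c, hc⟩ := Submodule.mem_span_singleton.mp a.2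
    refine ⟨c, ?_⟩
    rw [hΦ, qadd, hort, h5, ← hc, qsmul, he]
    ring

end elt

end Cfsg.Agent.H39.OE
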