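import Mathlib
import Cfsg.Agent.H39.OE16

/-!
A unipotent element fixing no odd-dimensional nondegenerate space of a given isometry type (`d` even), conclusion.
-/

set_option autoImplicit false

namespace Cfsg.Agent.H39.OE

open Module QuadraticMap Cfsg.Agent.Orth Polynomial

lemma sum_map_counts {ν : Multiset ℕ} (h : ∀ a ∈ ν, a = 1 ∨ a = 2 ∨ a = 3) (f : ℕ → ℕ) :
    (ν.map f).sum = ν.count 1 * f 1 + ν.count 2 * f 2 + ν.count 3 * f 3 := by
  rw [Finset.sum_multiset_map_count]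
  have h1 : ν.toFinset ⊆ {1, 2, 3} := by
    intro a ha
    rcases h a (Multiset.mem_toFinset.mp ha) with h | h | h <;> simp [h]
  rw [Finset.sum_subset h1 (fun a _ ha => by
    rw [Multiset.mem_toFinset] at ha
    rw [Multiset.count_eq_zero_of_notMem ha, zero_smul])]
  rw [Finset.sum_insert (by decide), Finset.sum_insert (by decide), Finset.sum_singleton]
  simp only [smul_eq_mul]
  ring

section unip
universe u
variable {F : Type u} [Field F] [Fintype F] {ι : Type} [Fintype ι] [DecidableEq ι] {p : ℕ} [Fact p.Prime] [CharP F p]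

theorem unip_even_odd (h2 : (2 : F) ≠ 0) (hpo : Odd p) {Q : QuadraticForm F (ι → F)} (hQ : (polarBilin Q).Nondegenerate) {d m : ℕ}
    (hd : finrank F (ι → F) = 2 * d) (hde : Even d) (hd4 : 4 ≤ d) (hm : Odd m) {W₀ : Submodule F (ι → F)} (hW₀ : Nd Q W₀) (hW₀m : finrank F W₀ = m) :
    ∃ g : GL ι F, g ∈ Cfsg.Geo.omegaGL (⇑Q) ∧ ((g ^ p : GL ι F) : Matrix ι ι F) = (1 : F) • (1 : Matrix ι ι F) ∧
      (∀ z : F, (g : Matrix ι ι F) ≠ z • (1 : Matrix ι ι F)) ∧
      ∀ W : Submodule F (ι → F), IsoT (Q.restrict W₀) Q W → ¬ W.map (Matrix.toLin' (g : Matrix ι ι F)) ≤ W := by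
  classical
  have hp : p.Prime := Fact.out
  have hp3 : 3 ≤ p := by
    have := hp.two_le
    obtain ⟨k, hk⟩ := hpo
    omega
  obtain ⟨k, hk⟩ := hde
  obtain ⟨l, hl⟩ := hm
  have s1 := H99.split_finrank (of Q) hW₀ le_top
  have s2 := H99.split_ND_compl (of Q) (nd_of_nondeg hQ) hW₀ le_top
  rw [top_inf_eq] at s1 s2
  rw [finrank_top, hd, hW₀m] at s1
  -- the test space
  obtain ⟨X, hX, hX4, hXW⟩ : ∃ X, Nd Q X ∧ finrank F X % 4 = 1 ∧ ((X = W₀) ∨ X = H99.orth (of Q) W₀) := by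
    by_cases h : m % 4 = 1
    · exact ⟨W₀, hW₀, by rw [hW₀m]; exact h, Or.inl rfl⟩
    · exact ⟨_, s2, by omega, Or.inr rfl⟩
  obtain ⟨α, ha, hα⟩ : ∃ α : F, α ≠ 0 ∧ ¬ D Q X α := by
    by_contra hcon
    push Not at hcon
    obtain ⟨c, hc⟩ := FiniteField.exists_nonsquare (F := F) (by
      intro h3
      apply h2
      have h4 : CharP F 2 := by
        rw [← h3]
        exact ringChar.charP F
      exact CharTwo.two_eq_zero)
    have hc0 : c ≠ 0 := by
      rintro rfl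
      exact hc IsSquare.zero
    have h3 := D_unique hX one_ne_zero hc0 (hcon 1 one_ne_zero) (hcon c hc0)
    rw [one_mul] at h3
    exact hc h3
  obtain ⟨x, x1, x2, x3, x4⟩ := exists_elt h2 hQ hd ⟨k, hk⟩ hd4 hp3 ha
  have hmemμ : ∀ a ∈ ({1} + ({3} + Multiset.replicate (d - 2) 2) : Multiset ℕ), a = 1 ∨ a = 2 ∨ a = 3 := by
    intro a ha
    rcases Multiset.mem_add.mp ha with h | h
    · exact Or.inl (Multiset.mem_singleton.mp h)
    · rcases Multiset.mem_add.mp h with h | h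
      · exact Or.inr (Or.inr (Multiset.mem_singleton.mp h))
      · exact Or.inr (Or.inl (Multiset.eq_of_mem_replicate h))
  obtain ⟨g, g1, g2, -, -, g3, g5, -⟩ := exists_unip h2 hpo hQ (by omega) x1 x2 x3
    ⟨3, Multiset.mem_add.mpr (Or.inr (Multiset.mem_add.mpr (Or.inl (Multiset.mem_singleton_self 3)))), by omega⟩
  refine ⟨g, g1, g2, g3, ?_⟩
  rintro W ⟨f, hf, rfl⟩ hinv
  rw [g5] at hinv
  obtain ⟨h, hh⟩ := witt hQ W₀ f (inj_of (nd_restrict hW₀) hf) hf
  have hWh : LinearMap.range f = W₀.map ((h : (ι → F) ≃ₗ[F] (ι → F)) : (ι → F) →ₗ[F] (ι → F)) := by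
    apply le_antisymm
    · rintro _ ⟨u, rfl⟩
      exact ⟨u, u.2, hh u⟩
    · rintro _ ⟨u, hu, rfl⟩
      exact ⟨⟨u, hu⟩, (hh ⟨u, hu⟩).symm⟩
  have hinj := injective_of_isom hQ x1
  have hpol := fun u v => polar_of_isom x1 u v
  have hph := fun u v => polar_of_isom (f := ((h : (ι → F) ≃ₗ[F] (ι → F)) : (ι → F) →ₗ[F] (ι → F))) (Q := Q) (Q' := Q) (fun v => OGrp_q h v) u v
  -- the image of the test space is invariant
  set Y := X.map ((h : (ι → F) ≃ₗ[F] (ι → F)) : (ι → F) →ₗ[F] (ι → F)) with hY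
  have hYinv : ∀ v ∈ Y, x v ∈ Y := by
    rcases hXW with h3 | h3
    · rw [hY, h3, ← hWh]
      exact fun v hv => hinv ⟨v, hv, rfl⟩
    · have h4 : Y = H99.orth (of Q) (LinearMap.range f) := by
        rw [hY, h3, hWh]
        ext v
        constructor
        · rintro ⟨u, hu, rfl⟩ _ ⟨w, hw, rfl⟩
          exact (hph u w).trans (hu w hw)
        · intro hv
          refine ⟨(h : (ι → F) ≃ₗ[F] (ι → F)).symm v, ?_, (h : (ι → F) ≃ₗ[F] (ι → F)).apply_symm_apply v⟩
          intro w hw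
          have h5 := hv _ ⟨w, hw, rfl⟩
          change polar Q v ((h : (ι → F) ≃ₗ[F] (ι → F)) w) = 0 at h5
          change polar Q ((h : (ι → F) ≃ₗ[F] (ι → F)).symm v) w = 0
          rw [← h5, ← hph]
          congr 1
          exact (h : (ι → F) ≃ₗ[F] (ι → F)).apply_symm_apply v
      rw [h4]
      exact H99.orth_inv_of_isom (of Q) hinj hpol (fun v hv => hinv ⟨v, hv, rfl⟩)
  have hYN : Nd Q Y := by
    rintro _ ⟨u, hu, rfl⟩ h3
    have h4 : u = 0 := hX u hu (fun v hv => by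
      have h5 := h3 _ ⟨v, hv, rfl⟩
      exact (hph u v).symm.trans h5)
    rw [h4, map_zero]
  have hYf : finrank F Y = finrank F X := LinearEquiv.finrank_map_eq _ _
  have hYD : ¬ D Q Y α := by
    intro h3
    apply hα
    have h4 := D_map h3 h⁻¹
    have h5 : Y.map (((h⁻¹ : OGrp Q) : (ι → F) ≃ₗ[F] (ι → F)) : (ι → F) →ₗ[F] (ι → F)) = X := by
      rw [hY]
      apply le_antisymm
      · rintro _ ⟨_, ⟨u, hu, rfl⟩, rfl⟩
        have h6 : ((h⁻¹ : OGrp Q) : (ι → F) ≃ₗ[F] (ι → F)) ((h : (ι → F) ≃ₗ[F] (ι → F)) u) = u := coe_inv_apply_self h u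
        change ((h⁻¹ : OGrp Q) : (ι → F) ≃ₗ[F] (ι → F)) ((h : (ι → F) ≃ₗ[F] (ι → F)) u) ∈ X
        rw [h6]
        exact hu
      · intro u hu
        exact ⟨(h : (ι → F) ≃ₗ[F] (ι → F)) u, ⟨u, hu, rfl⟩, coe_inv_apply_self h u⟩
    rwa [h5] at h4
  apply hYD
  obtain ⟨ν, n1, n2, n3⟩ := H99.exists_sub_type h2 (H99.polar_eform _) (H99.ND_polar hQ) hinj hpol x2 x3 hYinv hYN
  have hmemν : ∀ a ∈ ν, a = 1 ∨ a = 2 ∨ a = 3 := fun a ha => hmemμ a (Multiset.subset_of_le n1 ha)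
  have c1 := (Multiset.le_iff_count.mp n1) 1
  have c3 := (Multiset.le_iff_count.mp n1) 3
  have e1 : Multiset.count 1 ({1} + ({3} + Multiset.replicate (d - 2) 2) : Multiset ℕ) = 1 := by
    rw [Multiset.count_add, Multiset.count_add, Multiset.count_singleton_self, Multiset.count_eq_zero_of_notMem (by simp), Multiset.count_replicate, if_neg (by omega)]
  have e3 : Multiset.count 3 ({1} + ({3} + Multiset.replicate (d - 2) 2) : Multiset ℕ) = 1 := by
    rw [Multiset.count_add, Multiset.count_add, Multiset.count_singleton_self, Multiset.count_eq_zero_of_notMem (by simp), Multiset.count_replicate, if_neg (by omega)]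
  rw [e1] at c1
  rw [e3] at c3
  obtain ⟨c, hc⟩ := n2 2 even_two
  have f0 := n3.finrank_eq
  have f0' : ν.sum = (ν.map (fun a => a)).sum := by rw [Multiset.map_id']
  have f1 := n3.2 1
  have f2 := n3.2 2
  rw [f0', sum_map_counts hmemν] at f0
  rw [sum_map_counts hmemν] at f1 f2
  rw [pow_one] at f1
  apply D_of_ker h2 x1 hYN hYinv ?_ ?_ ha x4
  · intro v hv
    have h3 : Y.map ((x - 1) ^ 2) = ⊥ := by
      apply Submodule.finrank_eq_zero.mp
      omega
    have h4 : (x - 1) ((x - 1) v) ∈ Y.map ((x - 1) ^ 2) := ⟨v, hv, rfl⟩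
    rw [h3] at h4
    exact (Submodule.mem_bot F).mp h4
  · omega

end unip

end Cfsg.Agent.H39.OE
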