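import Mathlib
import Cfsg.Agent.H39.OE17
import Cfsg.Agent.H99.IsoSub
import Cfsg.Agent.H99.IsoTypes

/-!
Totally singular subspaces fixed by semisimple elements of odd prime order in orthogonal groups.
-/

set_option autoImplicit false

namespace Cfsg.Agent.H39.OE

open Module QuadraticMap Cfsg.Agent.Orth Polynomial

section wt
variable {F : Type*} [Field F] [Fintype F] {V : Type*} [AddCommGroup V] [Module F V] [FiniteDimensional F V]

/-- totally singular subspaces of dimension `j` exist inside `W` -/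
def Wt (Q : QuadraticForm F V) (W : Submodule F V) (j : ℕ) : Prop := ∃ U ≤ W, TS Q U ∧ finrank F U = j

lemma good_of_nd {Q : QuadraticForm F V} {W : Submodule F V} (hW : Nd Q W) : (2 : F) ≠ 0 ∨ Even (finrank F W) := by
  by_cases h2 : (2 : F) = 0
  · exact Or.inr ((polar_alt h2 Q).even_finrank_sub hW)
  · exact Or.inl h2

lemma wt_iff {Q : QuadraticForm F V} {W : Submodule F V} (hW : Nd Q W) (j : ℕ) :
    Wt Q W j ↔ (2 * j < finrank F W ∨ (2 * j = finrank F W ∧ PT Q W)) := by
  constructor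
  · rintro ⟨U, h1, h2, h3⟩
    have h4 := ts_bound hW h2 h1
    rcases Nat.lt_or_ge (2 * j) (finrank F W) with h | h
    · exact Or.inl h
    · exact Or.inr ⟨by omega, U, h1, h2, by omega⟩
  · rintro (h | ⟨h, U, h1, h2, h3⟩)
    · obtain ⟨f, f1, f2⟩ := embed_sub (qfPlus_nondegenerate j F) hW (by rw [finrank_V]; exact h) (by
        rcases good_of_nd hW with h | h
        · exact Or.inl h
        · exact Or.inr ⟨by rw [finrank_V]; exact ⟨j, by ring⟩, h⟩)
      have hinj := inj_of (qfPlus_nondegenerate j F) f2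
      refine ⟨(U0 j F).map f, ?_, ?_, ?_⟩
      · rintro _ ⟨u, -, rfl⟩
        exact f1 u
      · rintro _ ⟨u, hu, rfl⟩
        rw [f2]
        exact TS_U0 j F u hu
      · rw [← (Submodule.equivMapOfInjective f hinj (U0 j F)).finrank_eq, finrank_U0]
    · exact ⟨U, h1, h2, by omega⟩

/-- invariant totally isotropic subspaces without fixed vectors are totally singular -/
lemma ts_of_ti {Q : QuadraticForm F V} {x : V →ₗ[F] V} (hx : ∀ v, Q (x v) = Q v) {S : Submodule F V} (hS : ∀ v ∈ S, x v ∈ S)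
    (hi : ∀ a ∈ S, ∀ b ∈ S, polar Q a b = 0) (hfix : ∀ v ∈ S, x v = v → v = 0) : TS Q S := by
  by_cases h2 : (2 : F) = 0
  · -- `x - 1` is bijective on `S`
    have hs : S.map (x - 1) = S := by
      apply Submodule.eq_of_le_of_finrank_eq
      · rintro _ ⟨v, hv, rfl⟩
        exact S.sub_mem (hS v hv) hv
      · have h3 := finrank_ker_inf (x - 1) S
        have h4 : S ⊓ LinearMap.ker (x - 1) = ⊥ := by
          rw [eq_bot_iff]
          rintro v ⟨h5, h6⟩
          exact (Submodule.mem_bot F).mpr (hfix v h5 (mem_ker.mp h6))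
        rw [h4, finrank_bot] at h3
        omega
    intro u hu
    rw [← hs] at hu
    obtain ⟨v, hv, rfl⟩ := hu
    rw [q_sub h2 hx]
    exact hi v hv _ (S.sub_mem (hS v hv) hv)
  · intro u hu
    have h3 := hi u hu u hu
    rw [pself] at h3
    exact (mul_eq_zero.mp h3).resolve_left h2

end wt

section a
variable {F : Type*} [Field F] [Fintype F] {V : Type*} [AddCommGroup V] [Module F V] [FiniteDimensional F V]
variable {p : ℕ} [Fact p.Prime] [CharP F p] {r : ℕ} [Fact r.Prime]

/-- `x` leaves invariant a totally singular subspace of dimension `m` -/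
def TSf (Q : QuadraticForm F V) (x : V →ₗ[F] V) (m : ℕ) : Prop := ∃ W : Submodule F V, finrank F W = m ∧ TS Q W ∧ ∀ v ∈ W, x v ∈ W

lemma tsf_nec (hrp : r ≠ p) {Q : QuadraticForm F V} {x : V →ₗ[F] V} (hr : x ^ r = 1) {m : ℕ} (h : TSf Q x m) :
    ∃ u ≤ m, u ≡ m [MOD orderOf ((Fintype.card F : ℕ) : ZMod r)] ∧ Wt Q (LinearMap.ker (x - 1)) u := by
  obtain ⟨W, w1, w2, w3⟩ := h
  refine ⟨finrank F (W ⊓ LinearMap.ker (x - 1) : Submodule F V), ?_, ?_, _, inf_le_right, w2.mono inf_le_left, rfl⟩
  · rw [← w1]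
    exact Submodule.finrank_mono inf_le_left
  · have h1 := H99.finrank_modEq_fixed_sub (p := p) hrp x hr W w3
    rw [w1] at h1
    exact h1.symm

/-- decomposition into the fixed space and blocks -/
theorem decomp (hr2 : r ≠ 2) (hrp : r ≠ p) {Q : QuadraticForm F V} (hQ : (polarBilin Q).Nondegenerate) {x : V →ₗ[F] V}
    (hx : ∀ v, Q (x v) = Q v) (hr : x ^ r = 1) : Nd Q (LinearMap.ker (x - 1)) ∧
      ∃ A, finrank F (LinearMap.ker (x - 1)) + A * H99.blk r (Fintype.card F) = finrank F V ∧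
        finrank F (H99.orth (of Q) (LinearMap.ker (x - 1))) = A * H99.blk r (Fintype.card F) ∧
        (Even (finrank F V) → (PT Q ⊤ ↔ (PT Q (LinearMap.ker (x - 1)) ↔ (Odd (orderOf ((Fintype.card F : ℕ) : ZMod r)) ∨ Even A)))) ∧
        (∀ v ∈ H99.orth (of Q) (LinearMap.ker (x - 1)), x v ∈ H99.orth (of Q) (LinearMap.ker (x - 1))) ∧
        Nd Q (H99.orth (of Q) (LinearMap.ker (x - 1))) ∧ (∀ v ∈ H99.orth (of Q) (LinearMap.ker (x - 1)), x v = v → v = 0) := by
  have hp := fun u v => polar_of_isom hx u v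
  have hev := H99.even_blk r (Fintype.card F)
  obtain ⟨s1, s2, s3, s4, s5⟩ := H99.split_fixed (p := p) hrp (H99.polar_eform Q) hp hr
    (W := ⊤) (fun _ _ => Submodule.mem_top) (nd_of_nondeg hQ)
  obtain ⟨⟨A, hA⟩, -⟩ := blocks (p := p) hr2 hrp hx hr s2 s3 s4
  have e0 : (⊤ ⊓ LinearMap.ker (x - 1) : Submodule F V) = LinearMap.ker (x - 1) := top_inf_eq _
  rw [e0] at s1 s2 s3 s4 s5 hA
  rw [top_inf_eq] at s2 s3 s4 s5 hA
  rw [finrank_top] at s5
  have h4 := type_blocks (p := p) hr2 hrp hx hr s2 s3 s4 (j := A) (by rw [mul_comm]; exact hA)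
  refine ⟨s1, A, by rw [mul_comm A]; omega, by rw [mul_comm A]; exact hA, fun hVe => ?_, s2, s3, s4⟩
  have hKe : Even (finrank F (LinearMap.ker (x - 1))) := by
    rw [← s5, Nat.even_add] at hVe
    apply hVe.mpr
    have : finrank F (H99.orth (H99.polar_eform Q).oform (LinearMap.ker (x - 1))) = H99.blk r (Fintype.card F) * A := hA
    rw [this]
    exact hev.mul_right A
  rw [PT_iff_orth hQ s1 hKe hVe]
  have h6 : PT Q (H99.orth (of Q) (LinearMap.ker (x - 1))) ↔ (Odd (orderOf ((Fintype.card F : ℕ) : ZMod r)) ∨ Even A) := h4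
  rw [h6]

lemma tsf_suff (hrp : r ≠ p) {Q : QuadraticForm F V} {x : V →ₗ[F] V} (hx : ∀ v, Q (x v) = Q v) (hr : x ^ r = 1)
    (hC : Nd Q (LinearMap.ker (x - 1))) {S : Submodule F V}
    (hSM : S ≤ H99.orth (of Q) (LinearMap.ker (x - 1))) (hSi : ∀ v ∈ S, x v ∈ S) (hSt : ∀ a ∈ S, ∀ b ∈ S, polar Q a b = 0)
    (hfix : ∀ v ∈ S, x v = v → v = 0) {m j : ℕ}
    (hj1 : j * orderOf ((Fintype.card F : ℕ) : ZMod r) ≤ finrank F S) (hj2 : j * orderOf ((Fintype.card F : ℕ) : ZMod r) ≤ m)
    (hw : Wt Q (LinearMap.ker (x - 1)) (m - j * orderOf ((Fintype.card F : ℕ) : ZMod r))) : TSf Q x m := by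
  obtain ⟨S', t1, t2, t3⟩ := H99.exists_inv_sub (p := p) hrp hr hSi hfix j hj1
  obtain ⟨U, u1, u2, u3⟩ := hw
  have hTS := ts_of_ti hx t2 (fun a ha b hb => hSt a (t1 ha) b (t1 hb)) (fun v hv => hfix v (t1 hv))
  have ho : ∀ u ∈ U, ∀ v ∈ S', polar Q u v = 0 := fun u hu v hv => (pc Q u v).trans (hSM (t1 hv) u (u1 hu))
  have hdis : Disjoint U S' := by
    rw [Submodule.disjoint_def]
    intro v hv hv'
    exact hfix v (t1 hv') (mem_ker.mp (u1 hv))
  refine ⟨U ⊔ S', ?_, TS_sup u2 hTS ho, ?_⟩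
  · rw [finrank_sup_disj hdis, u3, t3]
    omega
  · intro v hv
    obtain ⟨a, ha, b, hb, rfl⟩ := Submodule.mem_sup.mp hv
    rw [map_add, mem_ker.mp (u1 ha)]
    exact Submodule.add_mem_sup ha (t2 b hb)

end a

section types
variable {F : Type*} [Field F] [Fintype F] {p : ℕ} [Fact p.Prime] [CharP F p] {r : ℕ} [Fact r.Prime]

/-- isometries with pairwise different types -/
theorem exists_orth_types.{v} (hr2 : r ≠ 2) (hrp : r ≠ p) (hev : Even (orderOf ((Fintype.card F : ℕ) : ZMod r))) (T : Finset F[X]) (hT : T ⊆ H99.cycFac r F) :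
    ∀ (V : Type v) [AddCommGroup V] [Module F V] [FiniteDimensional F V]
    (Q : QuadraticForm F V), (polarBilin Q).Nondegenerate → ((2 : F) ≠ 0 ∨ Even (finrank F V)) → T.card * orderOf ((Fintype.card F : ℕ) : ZMod r) < finrank F V →
    ∃ x : V →ₗ[F] V, (∀ v, Q (x v) = Q v) ∧ x ^ r = 1 ∧
      finrank F (LinearMap.ker (x - 1)) + T.card * orderOf ((Fintype.card F : ℕ) : ZMod r) = finrank F V ∧
      ∀ P ∈ H99.cycFac r F, finrank F (LinearMap.ker (aeval x P)) ≤ orderOf ((Fintype.card F : ℕ) : ZMod r) ∧ (P ∉ T → finrank F (LinearMap.ker (aeval x P)) = 0) := by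
  classical
  have hblk : H99.blk r (Fintype.card F) = orderOf ((Fintype.card F : ℕ) : ZMod r) := by
    unfold H99.blk
    rw [if_pos hev]
  have hpos := H99.orderOf_pos_of_not_dvd (r := r) (H99.prime_not_dvd_card (F := F) hrp)
  have heval : ∀ P ∈ H99.cycFac r F, Polynomial.eval 1 P ≠ 0 := by
    intro P hP h1
    rw [H99.mem_cycFac] at hP
    obtain ⟨G, hG⟩ := hP.2.2
    have h2 := congrArg (Polynomial.eval 1) hG
    rw [eval_mul, h1, zero_mul, eval_one_cyclotomic_prime] at h2
    exact H99.natCast_ne_zero_of_ne (Fact.out : r.Prime) hrp h2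
  induction T using Finset.induction_on with
  | empty =>
    intro V _ _ _ Q hQ _ _
    refine ⟨1, fun _ => rfl, one_pow r, ?_, ?_⟩
    · rw [sub_self, LinearMap.ker_zero, finrank_top, Finset.card_empty, zero_mul, add_zero]
    · intro P hP
      have h0 : finrank F (LinearMap.ker (aeval (1 : V →ₗ[F] V) P)) = 0 := by
        have h1 := heval P hP
        have h2 : aeval (1 : V →ₗ[F] V) P = algebraMap F _ (Polynomial.eval 1 P) := by
          have := aeval_algebraMap_apply_eq_algebraMap_eval (A := V →ₗ[F] V) (1 : F) P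
          rw [map_one] at this
          exact this
        rw [h2]
        have h3 : LinearMap.ker (algebraMap F (V →ₗ[F] V) (Polynomial.eval 1 P)) = ⊥ := by
          rw [LinearMap.ker_eq_bot']
          intro v hv
          rw [Module.algebraMap_end_apply, smul_eq_zero] at hv
          exact hv.resolve_left h1
        rw [h3, finrank_bot]
      exact ⟨by rw [h0]; exact Nat.zero_le _, fun _ => h0⟩
  | insert P T hP ih =>
    intro V _ _ _ Q hQ hgood hj
    rw [Finset.card_insert_of_notMem hP, add_mul, one_mul] at hj ⊢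
    obtain ⟨m, hm⟩ := hev
    obtain ⟨ι', _, _, QT, hQT, hTd, hTp⟩ := exists_model (F := F) (m := m) (by omega) False
    obtain ⟨f, hf⟩ := embed hQT hQ (by omega) (by
      rcases hgood with h | h
      · exact Or.inl h
      · exact Or.inr ⟨by rw [hTd]; exact ⟨m, by ring⟩, h⟩)
    have hinj := inj_of hQT hf
    set U := LinearMap.range f with hUdef
    have hU : Nd Q U := nd_range hQT hf
    have hUd' : finrank F U = orderOf ((Fintype.card F : ℕ) : ZMod r) := by
      rw [hUdef, LinearMap.finrank_range_of_inj hinj, hTd]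
      omega
    have hUp : ¬ PT Q U := by
      rw [hUdef, pt_range_iff hinj hf, hTp]
      exact id
    have hc := H99.isCompl_orth (of Q) hU
    have hU' : Nd Q (H99.orth (of Q) U) := by
      have := H99.split_ND_compl (of Q) (nd_of_nondeg hQ) hU le_top
      rwa [top_inf_eq] at this
    have hd2 := Submodule.finrank_add_eq_of_isCompl hc
    obtain ⟨x₁, h1, h2, hfix1⟩ := exists_full_block (p := p) hr2 hrp (nd_restrict hU) (by rw [hblk]; exact hUd') (by
      rw [pt_restrict]
      exact ⟨fun h => absurd h hUp, fun h => absurd h (Nat.not_odd_iff_even.mpr ⟨m, hm⟩)⟩)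
    obtain ⟨x₂, g1, g2, g3, g4⟩ := ih (fun _ h => hT (Finset.mem_insert_of_mem h)) (H99.orth (of Q) U) (Q.restrict _) (nd_restrict hU') (good_of_nd hU') (by omega)
    have hPc : P ∈ H99.cycFac r F := hT (Finset.mem_insert_self P T)
    obtain ⟨k, hk⟩ := H99.exists_pow_type (p := p) hrp h2 hfix1 hUd' hPc
    have hyr : (x₁ ^ k) ^ r = 1 := by rw [← pow_mul, mul_comm, pow_mul, h2, one_pow]
    have hyker : finrank F (LinearMap.ker (x₁ ^ k - 1)) = 0 := by
      have hev1 := heval P hPc
      rw [H99.mem_cycFac] at hPc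
      have hcop : IsCoprime P (X - 1 : F[X]) := by
        rw [hPc.2.1.coprime_iff_not_dvd]
        intro h4
        apply hev1
        have h6 : (X - 1 : F[X]) ∣ P := by
          have h7 : Irreducible (X - 1 : F[X]) := by
            have := irreducible_X_sub_C (1 : F)
            rwa [C_1] at this
          exact (hPc.2.1.associated_of_dvd h7 h4).symm.dvd
        obtain ⟨G, hG⟩ := h6
        rw [hG, eval_mul, eval_sub, eval_X, eval_one, sub_self, zero_mul]
      have h5 := H99.ker_aeval_bot hcop hk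
      rw [map_sub, aeval_X, map_one] at h5
      rw [h5, finrank_bot]
    have hpw : ∀ (k : ℕ) (u : U), Q (((x₁ ^ k) u : U) : V) = Q (u : V) := by
      intro k
      induction k with
      | zero => intro u; rfl
      | succ k ih =>
        intro u
        rw [pow_succ', Module.End.mul_apply]
        exact (h1 _).trans (ih u)
    refine ⟨H99.glue hc (x₁ ^ k) x₂, ?_, ?_, ?_, ?_⟩
    · exact glue_isom_q hc (fun u hu v hv => (pc Q u v).trans (hv u hu)) _ _ (hpw k) g1
    · rw [H99.glue_pow, hyr, g2, H99.glue_one]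
    · rw [H99.finrank_ker_glue, hyker]
      omega
    · intro P' hP'
      rw [H99.aeval_glue, H99.finrank_ker_glue']
      obtain ⟨g5, g6⟩ := g4 P' hP'
      by_cases hQP : P' = P
      · subst hQP
        have h4 := g6 hP
        have h5 := Submodule.finrank_le (LinearMap.ker (aeval (x₁ ^ k) P'))
        rw [hUd'] at h5
        refine ⟨by omega, fun h => absurd (Finset.mem_insert_self P' T) h⟩
      · have hcop := H99.coprime_cycFac (Finset.mem_coe.mpr hPc) (Finset.mem_coe.mpr hP') (fun h => hQP h.symm)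
        have h4 : finrank F (LinearMap.ker (aeval (x₁ ^ k) P')) = 0 := by
          rw [H99.ker_aeval_bot hcop hk, finrank_bot]
        rw [h4, zero_add]
        exact ⟨g5, fun h => g6 (fun h' => h (Finset.mem_insert_of_mem h'))⟩

end types

end Cfsg.Agent.H39.OE
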