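import Mathlib
import Cfsg.Agent.H39.OT1

/-!
Totally singular subspaces: divisibility and the criterion.
-/

set_option autoImplicit false

namespace Cfsg.Agent.H39.OE

open Module QuadraticMap Cfsg.Agent.Orth Polynomial

section a
variable {F : Type*} [Field F] [Fintype F] {V : Type*} [AddCommGroup V] [Module F V] [FiniteDimensional F V]
variable {p : ℕ} [Fact p.Prime] [CharP F p] {r : ℕ} [Fact r.Prime]

/-- the number of totally singular subspaces divides the order of the orthogonal group -/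
theorem card_dvd_ts {Q : QuadraticForm F V} (hQ : (polarBilin Q).Nondegenerate) {m : ℕ} {W₀ : Submodule F V} (h₀ : finrank F W₀ = m ∧ TS Q W₀) :
    Nat.card {W : Submodule F V // finrank F W = m ∧ TS Q W} ∣ Nat.card (OGrp Q) := by
  let φ : OGrp Q → {W : Submodule F V // finrank F W = m ∧ TS Q W} := fun g =>
    ⟨W₀.map ((g : V ≃ₗ[F] V) : V →ₗ[F] V), by rw [LinearEquiv.finrank_map_eq]; exact h₀.1, by
      rintro _ ⟨u, hu, rfl⟩
      exact (OGrp_q g u).trans (h₀.2 u hu)⟩
  have hφ : Function.Surjective φ := by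
    rintro ⟨W, hW1, hW2⟩
    obtain ⟨g, hg⟩ := exists_isom_map_TS hQ h₀.2 hW2 h₀.1 hW1
    exact ⟨g, Subtype.ext hg⟩
  have h1 : ∀ (a b : OGrp Q) (W : Submodule F V), (W.map ((b : V ≃ₗ[F] V) : V →ₗ[F] V)).map ((a : V ≃ₗ[F] V) : V →ₗ[F] V)
        = W.map (((a * b : OGrp Q) : V ≃ₗ[F] V) : V →ₗ[F] V) := fun a b W => by
      rw [← Submodule.map_comp]
      rfl
  have h0 : ∀ W : Submodule F V, W.map (((1 : OGrp Q) : V ≃ₗ[F] V) : V →ₗ[F] V) = W := fun W => Submodule.map_id W
  let S : Subgroup (OGrp Q) :=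
    { carrier := {g | W₀.map ((g : V ≃ₗ[F] V) : V →ₗ[F] V) = W₀}
      one_mem' := h0 W₀
      mul_mem' := by
        intro a b ha hb
        change W₀.map (((a * b : OGrp Q) : V ≃ₗ[F] V) : V →ₗ[F] V) = W₀
        rw [← h1, hb, ha]
      inv_mem' := by
        intro a ha
        change W₀.map (((a⁻¹ : OGrp Q) : V ≃ₗ[F] V) : V →ₗ[F] V) = W₀
        have ha' : W₀.map ((a : V ≃ₗ[F] V) : V →ₗ[F] V) = W₀ := ha
        nth_rewrite 1 [← ha']
        rw [h1, inv_mul_cancel, h0] }
  rw [H99.card_eq_index φ hφ S ?_]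
  · exact S.index_dvd_card
  · intro g k
    constructor
    · intro h
      have h2 : W₀.map ((g : V ≃ₗ[F] V) : V →ₗ[F] V) = W₀.map ((k : V ≃ₗ[F] V) : V →ₗ[F] V) := congrArg Subtype.val h
      change W₀.map (((g⁻¹ * k : OGrp Q) : V ≃ₗ[F] V) : V →ₗ[F] V) = W₀
      rw [← h1, ← h2, h1, inv_mul_cancel, h0]
    · intro h
      have h2 : W₀.map (((g⁻¹ * k : OGrp Q) : V ≃ₗ[F] V) : V →ₗ[F] V) = W₀ := h
      apply Subtype.ext
      change W₀.map ((g : V ≃ₗ[F] V) : V →ₗ[F] V) = W₀.map ((k : V ≃ₗ[F] V) : V →ₗ[F] V)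
      rw [← h2, h1, mul_inv_cancel_left]
      rw [h2]

/-- divisibility excludes small fixed spaces -/
theorem not_fx_ts (hr2 : r ≠ 2) (hrp : r ≠ p) {Q : QuadraticForm F V} (hQ : (polarBilin Q).Nondegenerate) {x : V →ₗ[F] V}
    (hx : ∀ v, Q (x v) = Q v) (hr : x ^ r = 1) {m : ℕ} (hm : m < orderOf ((Fintype.card F : ℕ) : ZMod r))
    (hfree : finrank F (LinearMap.ker (x - 1)) < H99.blk r (Fintype.card F) ∨ (finrank F (LinearMap.ker (x - 1)) = H99.blk r (Fintype.card F) ∧
      ¬ (PT Q (LinearMap.ker (x - 1)) ↔ Odd (orderOf ((Fintype.card F : ℕ) : ZMod r)))))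
    (hdvd : r ∣ Nat.card {W : Submodule F V // finrank F W = m ∧ TS Q W}) : ¬ TSf Q x m := by
  classical
  intro hfx
  have hrpr : r.Prime := Fact.out
  have hp := fun u v => polar_of_isom hx u v
  have hinj := injective_of_isom hQ hx
  have hr0 : 0 < r := hrpr.pos
  have hrF : (r : F) ≠ 0 := H99.natCast_ne_zero_of_ne hrpr hrp
  -- invariant subspaces lie in the fixed space
  have hle : ∀ W : Submodule F V, finrank F W = m → (∀ v ∈ W, x v ∈ W) → W ≤ LinearMap.ker (x - 1) := by
    intro W hWm hW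
    have h1 := H99.finrank_modEq_fixed_sub (p := p) hrp x hr W hW
    have h2 := Submodule.finrank_mono (inf_le_left : W ⊓ LinearMap.ker (x - 1) ≤ W)
    rw [hWm] at h1 h2
    have h3 : m = finrank F (W ⊓ LinearMap.ker (x - 1) : Submodule F V) := Nat.ModEq.eq_of_lt_of_lt h1 hm (by omega)
    have h4 : W ⊓ LinearMap.ker (x - 1) = W := Submodule.eq_of_le_of_finrank_eq inf_le_left (by omega)
    rw [← h4]
    exact inf_le_right
  obtain ⟨W₀, w1, w2, w3⟩ := hfx
  set K := LinearMap.ker (x - 1) with hK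
  have hKN : Nd Q K := (decomp (p := p) hr2 hrp hQ hx hr).1
  -- the orthogonal group of the fixed space
  have hcard : ¬ r ∣ Nat.card (OGrp (Q.restrict K)) := by
    apply dvd_card_of_elt
    intro y hy hyr
    by_contra hy1
    obtain ⟨g1, g2⟩ := le_of_ne_one (p := p) hr2 hrp (nd_restrict hKN) hy hyr hy1
    rcases hfree with h | ⟨h, h'⟩
    · omega
    · apply h'
      have g3 := type_blocks (p := p) hr2 hrp hy hyr (W := ⊤) (fun _ _ => Submodule.mem_top) (nd_of_nondeg (nd_restrict hKN))
        (fun v _ => g2 h v) (j := 1) (by rw [finrank_top, one_mul]; exact h)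
      rw [pt_restrict] at g3
      rw [g3]
      constructor
      · rintro (h | h)
        · exact h
        · exact absurd h (by decide)
      · exact Or.inl
  have hdv := card_dvd_ts (nd_restrict hKN) (m := m) (W₀ := W₀.comap K.subtype)
    ⟨by rw [(Submodule.comapSubtypeEquivOfLe (hle W₀ w1 w3)).finrank_eq, w1], fun u hu => w2 _ hu⟩
  -- comparison
  have hfin : Finite V := Module.finite_of_finite F
  have hfinS : Finite (Submodule F V) := Finite.of_injective (fun W : Submodule F V => (W : Set V)) SetLike.coe_injective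
  let X := {W : Submodule F V // finrank F W = m ∧ TS Q W}
  have : Fintype X := Fintype.ofFinite _
  let f : Function.End X := fun W => ⟨W.1.map x, by
    rw [← (Submodule.equivMapOfInjective x hinj W.1).finrank_eq]
    exact W.2.1, by
    rintro _ ⟨u, hu, rfl⟩
    rw [hx]
    exact W.2.2 u hu⟩
  have hf : ∀ (k : ℕ) (W : X), ((f ^ k) W : Submodule F V) = W.1.map (x ^ k) := by
    intro k
    induction k with
    | zero => intro W; rw [pow_zero, pow_zero]; exact (Submodule.map_id W.1).symm
    | succ k ih =>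
      intro W
      rw [pow_succ', pow_succ']
      change ((f ^ k) W : Submodule F V).map x = _
      rw [ih]
      exact (Submodule.map_comp _ _ _).symm
  have hf1 : f ^ r ^ 1 = 1 := by
    funext W
    apply Subtype.ext
    rw [hf, pow_one, hr]
    exact Submodule.map_id W.1
  have hmod := Equiv.Perm.card_fixedPoints_modEq (f := f) (p := r) (n := 1) hf1
  have e : {W : Submodule F K // finrank F W = m ∧ TS (Q.restrict K) W} ≃ f.fixedPoints :=
    { toFun := fun W => ⟨⟨W.1.map K.subtype, by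
        rw [Submodule.finrank_map_subtype_eq]
        exact W.2.1, by
        rintro _ ⟨u, hu, rfl⟩
        exact W.2.2 u hu⟩, by
        apply Subtype.ext
        change (W.1.map K.subtype).map x = W.1.map K.subtype
        apply le_antisymm
        · rintro _ ⟨_, ⟨v, hv, rfl⟩, rfl⟩
          have : x (v : V) = v := mem_ker.mp v.2
          exact ⟨v, hv, this.symm⟩
        · rintro _ ⟨v, hv, rfl⟩
          have : x (v : V) = v := mem_ker.mp v.2
          exact ⟨v, ⟨v, hv, rfl⟩, this⟩⟩
      invFun := fun W => ⟨W.1.1.comap K.subtype, by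
        obtain ⟨⟨W, h1, h2⟩, h3⟩ := W
        have h4 : W.map x = W := congrArg Subtype.val h3
        have h5 : W ≤ K := hle W h1 (fun v hv => by rw [← h4]; exact ⟨v, hv, rfl⟩)
        exact ⟨by rw [(Submodule.comapSubtypeEquivOfLe h5).finrank_eq]; exact h1, fun u hu => h2 _ hu⟩⟩
      left_inv := fun W => by
        apply Subtype.ext
        exact Submodule.comap_map_eq_of_injective K.subtype_injective W.1
      right_inv := fun W => by
        apply Subtype.ext
        apply Subtype.ext
        obtain ⟨⟨W, hW⟩, h3⟩ := W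
        have h4 : W.map x = W := congrArg Subtype.val h3
        have h5 : W ≤ K := hle W hW.1 (fun v hv => by rw [← h4]; exact ⟨v, hv, rfl⟩)
        change (W.comap K.subtype).map K.subtype = W
        rw [Submodule.map_comap_subtype]
        exact inf_eq_right.mpr h5 }
  have h1 : r ∣ Fintype.card f.fixedPoints := by
    rw [Nat.card_eq_fintype_card] at hdvd
    exact (Nat.modEq_zero_iff_dvd.mp (hmod.symm.trans (Nat.modEq_zero_iff_dvd.mpr hdvd)))
  rw [← Nat.card_eq_fintype_card, ← Nat.card_congr e] at h1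
  exact hcard (h1.trans hdv)

/-- isotropic invariant subspaces of multiplicity-free isometries have dimension bounded by the fixed space -/
lemma wt_of_types (hr2 : r ≠ 2) (hrp : r ≠ p) (hev : Even (orderOf ((Fintype.card F : ℕ) : ZMod r))) {Q : QuadraticForm F V} (hQ : (polarBilin Q).Nondegenerate)
    {x : V →ₗ[F] V} (hx : ∀ v, Q (x v) = Q v) (hr : x ^ r = 1)
    (hmul : ∀ P ∈ H99.cycFac r F, finrank F (LinearMap.ker (aeval x P)) ≤ orderOf ((Fintype.card F : ℕ) : ZMod r)) {m : ℕ} (h : TSf Q x m) :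
    Wt Q (LinearMap.ker (x - 1)) m := by
  obtain ⟨W, w1, w2, w3⟩ := h
  have hsd : H99.SelfDualE p r (RingHom.id F) := H99.SelfDual.toE (N := 1) ⟨0, (pow_zero p).symm⟩ (fun a => (pow_one a).symm)
    ((H99.selfDual_iff_even hr2 (H99.prime_not_dvd_card hrp)).mpr hev)
  have h1 := H99.le_ker_of_types hrp (H99.polar_eform Q) (nd_of_nondeg hQ) hsd (fun u v => polar_of_isom hx u v) hr hmul w3
    (fun a ha b hb => w2.polar ha hb)
  exact ⟨W, h1, w2, w1⟩

end a

end Cfsg.Agent.H39.OE
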