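import Mathlib
import Cfsg.Agent.H39.OT2

/-!
Totally singular subspaces: the criterion for semisimple elements of odd prime order.
-/

set_option autoImplicit false

namespace Cfsg.Agent.H39.OE

open Module QuadraticMap Cfsg.Agent.Orth Polynomial

/-- the arithmetical condition -/
def Et (i N k M l t : ℕ) (τ : Prop) : Prop :=
  (Odd i ∧ ((k = 0 ∧ ¬ τ) ∨ 2 * l < k ∨ (2 * l = k ∧ τ))) ∨
  (Even i ∧ t + 2 * M ≤ N ∧ ((k = 0 ∧ ¬ (τ ↔ Even N) ∧ 2 * l ≤ i ∧ t + 2 * M < N) ∨ 2 * l < k ∨ (2 * l = k ∧ (τ ↔ Even N))))

section a
variable {F : Type*} [Field F] [Fintype F] {V : Type*} [AddCommGroup V] [Module F V] [FiniteDimensional F V]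
variable {p : ℕ} [Fact p.Prime] [CharP F p] {r : ℕ} [Fact r.Prime]

/-- elements with the largest number of blocks -/
theorem max_elt (hr2 : r ≠ 2) (hrp : r ≠ p) {Q : QuadraticForm F V} (hQ : (polarBilin Q).Nondegenerate) (hdvd : r ∣ Nat.card (OGrp Q)) :
    ∃ x : V →ₗ[F] V, (∀ v, Q (x v) = Q v) ∧ x ^ r = 1 ∧ x ≠ 1 ∧ ∃ A, finrank F (LinearMap.ker (x - 1)) + A * H99.blk r (Fintype.card F) = finrank F V ∧
      ((finrank F (LinearMap.ker (x - 1)) = finrank F V % H99.blk r (Fintype.card F) ∧ A = finrank F V / H99.blk r (Fintype.card F)) ∨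
       (finrank F (LinearMap.ker (x - 1)) = H99.blk r (Fintype.card F) ∧ finrank F V % H99.blk r (Fintype.card F) = 0 ∧ A + 1 = finrank F V / H99.blk r (Fintype.card F) ∧
        ¬ (PT Q ⊤ ↔ (Odd (orderOf ((Fintype.card F : ℕ) : ZMod r)) ∨ Even (finrank F V / H99.blk r (Fintype.card F)))))) := by
  have hcpos : 0 < H99.blk r (Fintype.card F) := blk_pos (p := p) hrp
  have hg : (2 : F) ≠ 0 ∨ Even (finrank F V) := by
    have := good_of_nd (nd_of_nondeg hQ)
    rwa [finrank_top] at this
  obtain ⟨y, y1, y2, y3⟩ := exists_elt_of_dvd hdvd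
  obtain ⟨g1, g2⟩ := le_of_ne_one (p := p) hr2 hrp hQ y1 y2 y3
  set c := H99.blk r (Fintype.card F) with hc
  set n := finrank F V with hn
  have hdm := Nat.div_add_mod n c
  have hmod : n % c < c := Nat.mod_lt _ hcpos
  have hN1 : 1 ≤ n / c := (Nat.one_le_div_iff hcpos).mpr g1
  have hne1 : ∀ x : V →ₗ[F] V, finrank F (LinearMap.ker (x - 1)) < n → x ≠ 1 := by
    rintro x hx rfl
    rw [sub_self, LinearMap.ker_zero, finrank_top] at hx
    exact lt_irrefl _ hx
  by_cases hval : n % c = 0 ∧ ¬ (PT Q ⊤ ↔ (Odd (orderOf ((Fintype.card F : ℕ) : ZMod r)) ∨ Even (n / c)))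
  · obtain ⟨h1, h2⟩ := hval
    have hN2 : n / c ≠ 1 := by
      intro h
      apply h2
      rw [h]
      rw [h, mul_one, h1, add_zero] at hdm
      exact type_blocks (p := p) hr2 hrp y1 y2 (W := ⊤) (fun _ _ => Submodule.mem_top) (nd_of_nondeg hQ)
        (fun v _ => g2 hdm.symm v) (j := 1) (by rw [finrank_top, one_mul]; exact hdm.symm)
    have h3 : (n / c - 1) * c + c = n := by
      have h4 : (n / c - 1 + 1) * c = n / c * c := by congr 1; omega
      rw [add_mul, one_mul, mul_comm (n / c)] at h4
      omega
    obtain ⟨x, x1, x2, x3⟩ := exists_blocks (p := p) hr2 hrp (n / c - 1) V Q hQ hg (by rw [← hc, ← hn]; omega) (fun h => by rw [← hc, ← hn] at h; omega)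
    rw [← hc, ← hn] at x3
    have hcp : 0 < (n / c - 1) * c := Nat.mul_pos (by omega) hcpos
    exact ⟨x, x1, x2, hne1 x (by omega), n / c - 1, x3, Or.inr ⟨by omega, h1, by omega, h2⟩⟩
  · have h3 : n / c * c + n % c = n := by rw [mul_comm]; exact hdm
    obtain ⟨x, x1, x2, x3⟩ := exists_blocks (p := p) hr2 hrp (n / c) V Q hQ hg (by rw [← hc, ← hn]; omega) (fun h => by
      rw [← hc, ← hn] at h
      by_contra h4
      exact hval ⟨by omega, h4⟩)
    rw [← hc, ← hn] at x3
    have hcp : 0 < n / c * c := Nat.mul_pos (by omega) hcpos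
    exact ⟨x, x1, x2, hne1 x (by omega), n / c, x3, Or.inl ⟨by omega, rfl⟩⟩

lemma prop1 {τ κ o e e' : Prop} (h : τ ↔ (κ ↔ (o ∨ e))) (h2 : ¬ (τ ↔ (o ∨ e'))) (he : e' ↔ ¬ e) : ¬ (κ ↔ o) := by tauto

lemma prop2 {τ κ e : Prop} (h : τ ↔ e) (h2 : τ ↔ (κ ↔ e)) : κ := by tauto

lemma prop3 {τ κ e : Prop} (h : ¬ (τ ↔ ¬ e)) (h2 : τ ↔ (κ ↔ e)) : κ := by tauto

lemma ev0 (A e : ℕ) : Even (A + 2 * e) ↔ Even A := by
  rw [Nat.even_add]
  have := even_two_mul e
  tauto

lemma ev1 (A e : ℕ) : Even (A + 2 * e + 1) ↔ ¬ Even A := by
  rw [Nat.even_add_one, ev0]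

/-- **the criterion** -/
theorem ts_criterion (hr2 : r ≠ 2) (hrp : r ≠ p) {Q : QuadraticForm F V} (hQ : (polarBilin Q).Nondegenerate) {m : ℕ} (h2m : 2 * m < finrank F V)
    (hdvd : r ∣ Nat.card {W : Submodule F V // finrank F W = m ∧ TS Q W}) {i c : ℕ} (hi : i = orderOf ((Fintype.card F : ℕ) : ZMod r)) (hc : c = H99.blk r (Fintype.card F)) :
    (∀ x : V →ₗ[F] V, (∀ v, Q (x v) = Q v) → x ^ r = 1 → x ≠ 1 → TSf Q x m) ↔
      (i ≤ m ∧ Et i (finrank F V / c) (finrank F V % c) (m / i) (m % i) ((r - 1) / i) (PT Q ⊤)) := by
  classical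
  have hcpos : 0 < c := by rw [hc]; exact blk_pos (p := p) hrp
  have hcE : Even c := by rw [hc]; exact H99.even_blk r (Fintype.card F)
  have hndvd : ¬ r ∣ Fintype.card F := H99.prime_not_dvd_card hrp
  have hipos : 0 < i := by rw [hi]; exact H99.orderOf_pos_of_not_dvd (r := r) hndvd
  have hg : (2 : F) ≠ 0 ∨ Even (finrank F V) := by
    have := good_of_nd (nd_of_nondeg hQ)
    rwa [finrank_top] at this
  have hci : c = if Even i then i else 2 * i := by rw [hc, hi]; rfl
  obtain ⟨W₀, -, w2, w1⟩ := (wt_iff (nd_of_nondeg hQ) m).mpr (Or.inl (by rw [finrank_top]; exact h2m))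
  have hdO : r ∣ Nat.card (OGrp Q) := hdvd.trans (card_dvd_ts hQ ⟨w1, w2⟩)
  have hdm := Nat.div_add_mod (finrank F V) c
  have hmod : finrank F V % c < c := Nat.mod_lt _ hcpos
  have hmi := Nat.div_add_mod m i
  have hmodm : m % i < i := Nat.mod_lt _ hipos
  rw [mul_comm] at hdm hmi
  set n := finrank F V with hn
  set N := n / c with hN
  set k := n % c with hk
  set M := m / i with hM
  set l := m % i with hl
  constructor
  · intro hfix
    obtain ⟨x, x1, x2, x3, A, x4, x5⟩ := max_elt (p := p) hr2 hrp hQ hdO
    obtain ⟨s1, A', s2, -, s3, -⟩ := decomp (p := p) hr2 hrp hQ x1 x2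
    rw [← hc] at x4 x5 s2
    rw [← hn] at x4 x5 s2 s3
    rw [← hi] at x5 s3
    rw [← hk, ← hN] at x5
    have hAA : A' = A := by
      have : A' * c = A * c := by omega
      exact Nat.eq_of_mul_eq_mul_right hcpos this
    subst hAA
    set K := LinearMap.ker (x - 1) with hK
    have hfx := hfix x x1 x2 x3
    have him : i ≤ m := by
      by_contra hcon
      push Not at hcon
      refine not_fx_ts (p := p) hr2 hrp hQ x1 x2 (by rw [← hi]; exact hcon) ?_ hdvd hfx
      rw [← hc, ← hi]
      rcases x5 with ⟨h1, h2⟩ | ⟨h1, h2, h3, h4⟩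
      · left
        rw [h1]
        exact hmod
      · right
        refine ⟨h1, ?_⟩
        have hne : Even n := by
          have : n = A' * c + c := by omega
          rw [this]
          exact (hcE.mul_left _).add hcE
        refine prop1 (s3 hne) h4 ?_
        rw [← h3, Nat.even_add_one]
    obtain ⟨u, u1, u2, u3⟩ := tsf_nec (p := p) hrp x2 hfx
    rw [← hi] at u2
    rw [← hK, wt_iff s1] at u3
    have hul : u < i → u = l := by
      intro h
      have h1 : u % i = m % i := u2
      rw [Nat.mod_eq_of_lt h] at h1
      exact h1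
    refine ⟨him, ?_⟩
    rcases Nat.even_or_odd i with hev | hod
    · right
      rw [if_pos hev] at hci
      have hno : ¬ Odd i := Nat.not_odd_iff_even.mpr hev
      have hM1 : 1 ≤ M := (Nat.one_le_div_iff hipos).mpr him
      have hcard := H99.card_cycFac (F := F) (p := p) hrp
      rw [← hi] at hcard
      have hcard' : (H99.cycFac r F).card = (r - 1) / i := by
        rw [← hcard, Nat.mul_div_cancel _ hipos]
      have h2M : 2 * M ≤ N := by
        rw [hN, hci, Nat.le_div_iff_mul_le hipos]
        have : 2 * M * i = 2 * (M * i) := by ring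
        omega
      -- elements with prescribed types
      have htype : ∀ o, o ≤ (r - 1) / i → o * i < n → ∃ κ, κ + o * i = n ∧ (2 * m < κ ∨ (2 * m = κ ∧ (Even n → (PT Q ⊤ ↔ Even o)))) ∨ o = 0 := by
        intro o ho1 ho2
        rcases Nat.eq_zero_or_pos o with ho0 | ho0
        · exact ⟨0, Or.inr ho0⟩
        obtain ⟨T, hT1, hT2⟩ := Finset.exists_subset_card_eq (s := H99.cycFac r F) (n := o) (by rw [hcard']; exact ho1)
        obtain ⟨z, z1, z2, z3, z4⟩ := exists_orth_types (p := p) hr2 hrp (by rw [← hi]; exact hev) T hT1 V Q hQ hg (by rw [hT2, ← hi]; exact ho2)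
        rw [hT2, ← hi, ← hn] at z3
        have hz1 : z ≠ 1 := by
          rintro rfl
          rw [sub_self, LinearMap.ker_zero, finrank_top] at z3
          have := Nat.mul_pos ho0 hipos
          omega
        have h5 := wt_of_types (p := p) hr2 hrp (by rw [← hi]; exact hev) hQ z1 z2 (fun P hP => (z4 P hP).1) (hfix z z1 z2 hz1)
        obtain ⟨t1, B, t2, -, t3, -⟩ := decomp (p := p) hr2 hrp hQ z1 z2
        rw [← hc, ← hn, hci] at t2
        rw [← hn, ← hi] at t3
        have hB : B = o := by
          have : B * i = o * i := by omega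
          exact Nat.eq_of_mul_eq_mul_right hipos this
        subst hB
        rw [wt_iff t1] at h5
        refine ⟨finrank F (LinearMap.ker (z - 1)), Or.inl ⟨z3, ?_⟩⟩
        rcases h5 with h5 | ⟨h5, h6⟩
        · exact Or.inl h5
        · refine Or.inr ⟨h5, fun hne => ?_⟩
          rw [t3 hne, iff_true_left h6]
          exact ⟨fun h => h.resolve_left hno, Or.inr⟩
      have ht : (r - 1) / i + 2 * M ≤ N := by
        by_contra hcon
        push Not at hcon
        have e1 : (N + 1 - 2 * M) * i + (2 * (M * i)) = N * i + i := by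
          have : N + 1 - 2 * M + 2 * M = N + 1 := by omega
          calc (N + 1 - 2 * M) * i + (2 * (M * i)) = (N + 1 - 2 * M + 2 * M) * i := by ring
            _ = N * i + i := by rw [this]; ring
        have e2 : i ≤ M * i := Nat.le_mul_of_pos_left i hM1
        rw [hci] at hdm hmod
        obtain ⟨κ, ⟨h1, h2⟩ | h1⟩ := htype (N + 1 - 2 * M) (by omega) (by omega)
        · rcases h2 with h2 | ⟨h2, -⟩ <;> omega
        · omega
      refine ⟨hev, ht, ?_⟩
      rcases x5 with ⟨h1, h2⟩ | ⟨h1, h2, h3, h4⟩
      · right
        rw [h1] at u3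
        have hu : u = l := hul (by rcases u3 with h | ⟨h, -⟩ <;> omega)
        rw [hu] at u3
        rcases u3 with h5 | ⟨h5, h6⟩
        · exact Or.inl h5
        · refine Or.inr ⟨h5, ?_⟩
          have hne : Even n := by
            rw [← hdm]
            exact (hcE.mul_left _).add ⟨l, by omega⟩
          rw [s3 hne, iff_true_left h6, h2]
          exact ⟨fun h => h.resolve_left hno, Or.inr⟩
      · left
        rw [h1, hci] at u3
        have hu : u = l := hul (by rcases u3 with h | ⟨h, -⟩ <;> omega)
        rw [hu] at u3
        have h4' : ¬ (PT Q ⊤ ↔ Even N) := by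
          intro h5
          apply h4
          rw [h5]
          exact ⟨Or.inr, fun h => h.resolve_left hno⟩
        have hne : Even n := by
          rw [← hdm]
          rw [h2, add_zero]
          exact hcE.mul_left _
        refine ⟨h2, h4', by rcases u3 with h | ⟨h, -⟩ <;> omega, ?_⟩
        rcases Nat.lt_or_ge ((r - 1) / i + 2 * M) N with h5 | h5
        · exact h5
        · exfalso
          have h6 : N = (r - 1) / i + 2 * M := by omega
          have e1 : N * i = (r - 1) / i * i + 2 * (M * i) := by rw [h6]; ring
          have e2 : i ≤ M * i := Nat.le_mul_of_pos_left i hM1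
          rw [hci, h2, add_zero] at hdm
          obtain ⟨κ, ⟨h7, h8⟩ | h7⟩ := htype ((r - 1) / i) le_rfl (by omega)
          · rcases h8 with h8 | ⟨h8, h9⟩
            · omega
            · apply h4'
              rw [h9 hne, h6, Nat.even_add]
              exact ⟨fun h => ⟨fun _ => even_two_mul M, fun _ => h⟩, fun h => h.mpr (even_two_mul M)⟩
          · rw [h7] at hcard'
            rw [hcard', zero_mul] at hcard
            have := (Fact.out : r.Prime).two_le
            omega
    · left
      have hne' : ¬ Even i := Nat.not_even_iff_odd.mpr hod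
      rw [if_neg hne'] at hci
      refine ⟨hod, ?_⟩
      rcases x5 with ⟨h1, h2⟩ | ⟨h1, h2, h3, h4⟩
      · right
        rw [h1] at u3
        have hu : u = l := hul (by rcases u3 with h | ⟨h, -⟩ <;> omega)
        rw [hu] at u3
        rcases u3 with h5 | ⟨h5, h6⟩
        · exact Or.inl h5
        · refine Or.inr ⟨h5, ?_⟩
          have hne : Even n := by
            rw [← hdm]
            exact (hcE.mul_left _).add ⟨l, by omega⟩
          rw [s3 hne]
          exact ⟨fun _ => Or.inl hod, fun _ => h6⟩
      · left
        exact ⟨h2, fun h5 => h4 ⟨fun _ => Or.inl hod, fun _ => h5⟩⟩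
  · rintro ⟨him, hE⟩ x x1 x2 x3
    obtain ⟨s1, A, s2, s2', s3, s4, s5, s6⟩ := decomp (p := p) hr2 hrp hQ x1 x2
    rw [← hc] at s2 s2'
    rw [← hn] at s2 s3
    rw [← hi] at s3
    set K := LinearMap.ker (x - 1) with hK
    have hAN : A ≤ N := by
      rw [hN, Nat.le_div_iff_mul_le hcpos]
      omega
    have hAN' : A = N → finrank F K = k := by
      rintro rfl
      omega
    have hAN2 : A < N → k + c ≤ finrank F K := by
      intro h
      have : (A + 1) * c ≤ N * c := Nat.mul_le_mul_right c h
      rw [add_mul, one_mul] at this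
      omega
    have hcr : ∀ S : Submodule F V, S ≤ H99.orth (of Q) K → (∀ v ∈ S, x v ∈ S) → (∀ a ∈ S, ∀ b ∈ S, polar Q a b = 0) → ∀ j, j * i ≤ finrank F S → j * i ≤ m →
        (2 * (m - j * i) < finrank F K ∨ (2 * (m - j * i) = finrank F K ∧ PT Q K)) → TSf Q x m := by
      intro S hS1 hS2 hS3 j hj1 hj2 hj3
      rw [hi] at hj1 hj2 hj3
      exact tsf_suff (p := p) hrp x1 x2 s1 hS1 hS2 hS3 (fun v hv => s6 v (hS1 hv)) hj1 hj2 ((wt_iff s1 _).mpr hj3)
    have hp := fun u v => polar_of_isom x1 u v
    -- the element is not invalid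
    have hval : k = 0 → A = N → (PT Q ⊤ ↔ (Odd i ∨ Even N)) := by
      intro hk0 hAN0
      have h1 := hAN' hAN0
      rw [hk0] at h1
      have hbot := Submodule.finrank_eq_zero.mp h1
      have hne : Even n := by
        rw [← hdm, hk0, add_zero]
        exact hcE.mul_left _
      rw [s3 hne, hbot, iff_true_left (PT_bot Q), hAN0]
    rcases Nat.even_or_odd i with hev | hod
    · rw [if_pos hev] at hci
      have hno : ¬ Odd i := Nat.not_odd_iff_even.mpr hev
      have hEe := hE.resolve_left (fun h => hno h.1)
      obtain ⟨-, ht, hcase⟩ := hEe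
      have hsd : H99.SelfDualE p r (RingHom.id F) := H99.SelfDual.toE (N := 1) ⟨0, (pow_zero p).symm⟩ (fun a => (pow_one a).symm)
        ((H99.selfDual_iff_even hr2 hndvd).mpr (by rw [← hi]; exact hev))
      obtain ⟨S, q1, q2, q3, q4⟩ := H99.exists_max_iso hrp hr2 (H99.polar_eform Q) hsd hp x2 _ s4 s5 s6 rfl
      have hSi := H99.dvd_finrank_of_fix (p := p) hrp x2 q2 (fun v hv => s6 v (q1 hv))
      rw [← hi] at hSi
      obtain ⟨s, hs⟩ := hSi
      rw [mul_comm] at hs
      have hq4 : A * c ≤ 2 * finrank F S + (r - 1) := by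
        have h9 : finrank F (H99.orth (H99.polar_eform Q).oform K) = A * c := s2'
        rw [← h9]
        exact q4
      have hcard := H99.card_cycFac (F := F) (p := p) hrp
      rw [← hi] at hcard
      have htt : (r - 1) / i * i = r - 1 := by
        rw [← hcard, Nat.mul_div_cancel _ hipos]
      rw [hci] at hAN2 hq4 s2 hdm hmod
      have hA2 : A ≤ 2 * s + (r - 1) / i := by
        have : A * i ≤ (2 * s + (r - 1) / i) * i := by
          rw [add_mul, htt]
          have : 2 * s * i = 2 * (s * i) := by ring
          omega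
        exact Nat.le_of_mul_le_mul_right this hipos
      set t := (r - 1) / i with htdef
      have htype : Even n → (PT Q ⊤ ↔ (PT Q K ↔ Even A)) := by
        intro hne
        rw [s3 hne]
        have : (Odd i ∨ Even A) ↔ Even A := ⟨fun h => h.resolve_left hno, Or.inr⟩
        rw [this]
      have hEn : Even (finrank F K) → Even n := by
        intro h
        rw [← s2]
        exact h.add (hev.mul_left A)
      rcases Nat.le_total M s with hMs | hMs
      · apply hcr S q1 q2 q3 M
        · rw [hs]
          exact Nat.mul_le_mul_right i hMs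
        · omega
        · have hml : m - M * i = l := by omega
          rw [hml]
          rcases Nat.eq_or_lt_of_le hAN with hAN0 | hAN0
          · have hκ := hAN' hAN0
            rcases hcase with ⟨h1, h2, -⟩ | h1 | ⟨h1, h2⟩
            · exfalso
              apply h2
              rw [hval h1 hAN0]
              exact ⟨fun h => h.resolve_left hno, Or.inr⟩
            · left
              omega
            · right
              refine ⟨by omega, ?_⟩
              have h3 := htype (hEn ⟨l, by omega⟩)
              rw [← hAN0] at h2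
              exact prop2 h2 h3
          · have hκ := hAN2 hAN0
            rcases hcase with ⟨h1, h2, h3, -⟩ | h1 | ⟨h1, h2⟩
            · rcases Nat.lt_or_ge (2 * l) (finrank F K) with h4 | h4
              · exact Or.inl h4
              · right
                refine ⟨by omega, ?_⟩
                have hA1 : A + 1 = N := by
                  have h5 : finrank F K = i := by omega
                  have h6 : (A + 1) * i = N * i := by
                    rw [add_mul, one_mul]
                    omega
                  exact Nat.eq_of_mul_eq_mul_right hipos h6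
                have h5 := htype (hEn ⟨l, by omega⟩)
                rw [← hA1, Nat.even_add_one] at h2
                exact prop3 h2 h5
            · left
              omega
            · left
              omega
      · apply hcr S q1 q2 q3 s
        · rw [hs]
        · have := Nat.mul_le_mul_right i hMs
          omega
        · -- `M = s + e`
          obtain ⟨e, he⟩ := Nat.exists_eq_add_of_le hMs
          obtain ⟨f, hf⟩ := Nat.exists_eq_add_of_le hA2
          have hml : m - s * i = e * i + l := by
            have : M * i = s * i + e * i := by rw [he]; ring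
            omega
          rw [hml]
          -- `N = t + 2 M + g`
          obtain ⟨g, hg'⟩ := Nat.exists_eq_add_of_le ht
          have hκ : finrank F K = 2 * (e * i) + k + (f + g) * i := by
            have h3 : N = A + 2 * e + (f + g) := by omega
            have h4 : N * i = A * i + 2 * (e * i) + (f + g) * i := by rw [h3]; ring
            omega
          rcases hcase with ⟨h1, h2, h3, h4⟩ | h1 | ⟨h1, h2⟩
          · rcases Nat.eq_or_lt_of_le (show 1 ≤ f + g by omega) with h5 | h5
            · rw [← h5, one_mul] at hκ
              rcases Nat.eq_or_lt_of_le h3 with h6 | h6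
              · right
                refine ⟨by omega, ?_⟩
                have h7 := htype (hEn ⟨e * i + l, by omega⟩)
                have h8 : Even N ↔ ¬ Even A := by
                  have h9 : N = A + 2 * e + 1 := by omega
                  rw [h9, ev1]
                rw [h8] at h2
                exact prop3 h2 h7
              · left
                omega
            · left
              have : 2 * i ≤ (f + g) * i := Nat.mul_le_mul_right i h5
              omega
          · left
            omega
          · rcases Nat.eq_zero_or_pos (f + g) with h5 | h5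
            · rw [h5, zero_mul] at hκ
              right
              refine ⟨by omega, ?_⟩
              have h7 := htype (hEn ⟨e * i + l, by omega⟩)
              have h8 : Even N ↔ Even A := by
                have h9 : N = A + 2 * e := by omega
                rw [h9, ev0]
              rw [h8] at h2
              exact prop2 h2 h7
            · left
              have := Nat.mul_pos h5 hipos
              omega
    · have hne' : ¬ Even i := Nat.not_even_iff_odd.mpr hod
      rw [if_neg hne'] at hci
      have hEo := hE.resolve_right (fun h => hne' h.1)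
      obtain ⟨-, hcase⟩ := hEo
      have hsd : ¬ H99.SelfDual r 1 (Fintype.card F) := by
        rw [H99.selfDual_iff_even hr2 hndvd, ← hi]
        exact hne'
      obtain ⟨S, q1, q2, q3, q4⟩ := H99.exists_max_iso' hrp (H99.polar_eform Q) (N := 1) ⟨0, (pow_zero p).symm⟩ (fun a => (pow_one a).symm) hsd hp x2 _ s4 s5 s6 rfl
      have hq4 : A * c = 2 * finrank F S := by
        have h9 : finrank F (H99.orth (H99.polar_eform Q).oform K) = A * c := s2'
        rw [← h9]
        exact q4
      have hAi : A * c = 2 * (A * i) := by rw [hci]; ring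
      have hSd : finrank F S = A * i := by omega
      have hEn : Even (finrank F K) → Even n := by
        intro h
        rw [← s2]
        exact h.add (hcE.mul_left A)
      rcases Nat.le_total M A with hMs | hMs
      · apply hcr S q1 q2 q3 M
        · rw [hSd]
          exact Nat.mul_le_mul_right i hMs
        · omega
        · have hml : m - M * i = l := by omega
          rw [hml]
          rcases Nat.eq_or_lt_of_le hAN with hAN0 | hAN0
          · have hκ := hAN' hAN0
            rcases hcase with ⟨h1, h2⟩ | h1 | ⟨h1, h2⟩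
            · exact absurd ((hval h1 hAN0).mpr (Or.inl hod)) h2
            · left
              omega
            · right
              refine ⟨by omega, ?_⟩
              have h3 := s3 (hEn ⟨l, by omega⟩)
              exact ((h3.mp h2).mpr (Or.inl hod))
          · left
            have hκ := hAN2 hAN0
            omega
      · apply hcr S q1 q2 q3 A
        · rw [hSd]
        · have := Nat.mul_le_mul_right i hMs
          omega
        · left
          have := Nat.mul_le_mul_right i hMs
          omega

end a

end Cfsg.Agent.H39.OE
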