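import Mathlib
import Cfsg.Agent.H39.OT3

/-!
The number of totally singular subspaces is one modulo the characteristic.
-/

set_option autoImplicit false

namespace Cfsg.Agent.H39.OE

open Module QuadraticMap Cfsg.Agent.Orth Polynomial

section a
variable {F : Type*} [Field F] [Fintype F] {p : ℕ} [Fact p.Prime] [CharP F p]

lemma exists_pair {V : Type*} [AddCommGroup V] [Module F V] [FiniteDimensional F V] {Q : QuadraticForm F V} (hQ : (polarBilin Q).Nondegenerate)
    (hn : 2 < finrank F V) : ∃ e g : V, Q e = 0 ∧ Q g = 0 ∧ polar Q e g = 1 := by
  obtain ⟨f, hf⟩ := embed (qfPlus_nondegenerate 1 F) hQ (by rw [finrank_V]; exact hn) (by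
    have h1 := good_of_nd (nd_of_nondeg hQ)
    rw [finrank_top] at h1
    rcases h1 with h | h
    · exact Or.inl h
    · exact Or.inr ⟨by rw [finrank_V]; exact even_two, h⟩)
  refine ⟨f (Pi.single (Sum.inl 0) 1), f (Pi.single (Sum.inr 0) 1), ?_, ?_, ?_⟩
  · rw [hf, qfPlus_apply]
    simp
  · rw [hf, qfPlus_apply]
    simp
  · rw [polar_of_isom hf, polar_qfPlus]
    simp

/-- the action of Eichler transformations on totally singular subspaces -/
@[reducible] def eichAct {V : Type*} [AddCommGroup V] [Module F V] [FiniteDimensional F V] (Q : QuadraticForm F V) {e : V} (he : Q e = 0) (V' : Submodule F V)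
    (hV' : ∀ b ∈ V', polar Q e b = 0) (m : ℕ) : MulAction (Multiplicative V') {W : Submodule F V // finrank F W = m ∧ TS Q W} where
  smul b W := ⟨W.1.map ((eich Q e ((Multiplicative.toAdd b : V') : V) he (hV' _ (Multiplicative.toAdd b).2) : V ≃ₗ[F] V) : V →ₗ[F] V),
    by rw [LinearEquiv.finrank_map_eq]; exact W.2.1, by
      rintro _ ⟨u, hu, rfl⟩
      exact (OGrp_q _ u).trans (W.2.2 u hu)⟩
  one_smul W := by
    apply Subtype.ext
    change W.1.map ((eich Q e (0 : V) he _ : V ≃ₗ[F] V) : V →ₗ[F] V) = W.1
    rw [eich_zero he]
    exact Submodule.map_id W.1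
  mul_smul a b W := by
    apply Subtype.ext
    change W.1.map ((eich Q e (((Multiplicative.toAdd a : V') : V) + ((Multiplicative.toAdd b : V') : V)) he _ : V ≃ₗ[F] V) : V →ₗ[F] V) =
      (W.1.map ((eich Q e ((Multiplicative.toAdd b : V') : V) he _ : V ≃ₗ[F] V) : V →ₗ[F] V)).map ((eich Q e ((Multiplicative.toAdd a : V') : V) he _ : V ≃ₗ[F] V) : V →ₗ[F] V)
    rw [← Submodule.map_comp, ← eich_mul he (hV' _ (Multiplicative.toAdd a).2) (hV' _ (Multiplicative.toAdd b).2)]
    rfl

theorem card_ts_modEq.{v} (m : ℕ) : ∀ (V : Type v) [AddCommGroup V] [Module F V] [FiniteDimensional F V] (Q : QuadraticForm F V), (polarBilin Q).Nondegenerate →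
    2 * m < finrank F V → Nat.card {W : Submodule F V // finrank F W = m ∧ TS Q W} ≡ 1 [MOD p] := by
  induction m with
  | zero =>
    intro V _ _ _ Q _ _
    have : Unique {W : Submodule F V // finrank F W = 0 ∧ TS Q W} :=
      { default := ⟨⊥, finrank_bot F V, fun u hu => by rw [(Submodule.mem_bot F).mp hu, QuadraticMap.map_zero]⟩
        uniq := fun W => Subtype.ext (Submodule.finrank_eq_zero.mp W.2.1) }
    rw [Nat.card_unique]
  | succ m ih =>
    intro V _ _ _ Q hQ hn
    obtain ⟨e, g, he, hg, heg⟩ := exists_pair hQ (by omega)
    have hge : polar Q g e = 1 := by rw [pc]; exact heg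
    have hee : polar Q e e = 0 := by rw [pself, he, mul_zero]
    have hgg : polar Q g g = 0 := by rw [pself, hg, mul_zero]
    -- the hyperbolic plane
    set P := Submodule.span F {e, g} with hP
    have hePm : e ∈ P := Submodule.subset_span (Or.inl rfl)
    have hgPm : g ∈ P := Submodule.subset_span (Or.inr rfl)
    have hPN : Nd Q P := by
      intro u hu hu2
      obtain ⟨a, b, rfl⟩ := Submodule.mem_span_pair.mp hu
      have h1 : polar Q (a • e + b • g) e = 0 := hu2 e hePm
      have h2 : polar Q (a • e + b • g) g = 0 := hu2 g hgPm
      rw [pal, psl, psl, hee, hge] at h1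
      rw [pal, psl, psl, heg, hgg] at h2
      have h3 : b = 0 := by linear_combination h1
      have h4 : a = 0 := by linear_combination h2
      rw [h3, h4, zero_smul, zero_smul, add_zero]
    have hPd : finrank F P = 2 := by
      rw [hP]
      have hli : LinearIndependent F ![e, g] := by
        rw [LinearIndependent.pair_iff]
        intro s t hst
        have e1 := congrArg (fun z => polar Q z e) hst
        have e2 := congrArg (fun z => polar Q z g) hst
        simp only [pal, psl, hee, hge, heg, hgg, polar_zero_left, mul_zero, mul_one, zero_add, add_zero] at e1 e2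
        exact ⟨e2, e1⟩
      have h3 : ({e, g} : Set V) = Set.range ![e, g] := by
        rw [Matrix.range_cons, Matrix.range_cons, Matrix.range_empty, Set.union_empty]
        rfl
      rw [h3, finrank_span_eq_card hli, Fintype.card_fin]
    have hc := H99.isCompl_orth (of Q) hPN
    set V' := H99.orth (of Q) P with hV'
    have hN' : Nd Q V' := by
      have := H99.split_ND_compl (of Q) (nd_of_nondeg hQ) hPN le_top
      rwa [top_inf_eq] at this
    have hd := Submodule.finrank_add_eq_of_isCompl hc
    have heV : ∀ b ∈ V', polar Q e b = 0 := fun b hb => (pc Q e b).trans (hb e hePm)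
    have hgV : ∀ b ∈ V', polar Q g b = 0 := fun b hb => (pc Q g b).trans (hb g hgPm)
    have hVe : ∀ b ∈ V', polar Q b e = 0 := fun b hb => hb e hePm
    have hdec : ∀ v : V, ∃ a b : F, ∃ w ∈ V', v = a • e + b • g + w := by
      intro v
      obtain ⟨z, w, hv⟩ := H99.exists_add_of_isCompl hc v
      obtain ⟨a, b, hz⟩ := Submodule.mem_span_pair.mp z.2
      exact ⟨a, b, w, w.2, by rw [hz, hv]⟩
    letI := eichAct Q he V' heV (m + 1)
    have hfin : Finite V := Module.finite_of_finite F
    have hfinS : Finite (Submodule F V) := Finite.of_injective (fun W : Submodule F V => (W : Set V)) SetLike.coe_injective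
    have hpg : IsPGroup p (Multiplicative V') := by
      obtain ⟨n, -, hn⟩ := FiniteField.card F p
      apply IsPGroup.of_card (n := n * finrank F V')
      have h1 : Nat.card (Multiplicative V') = Nat.card V' := Nat.card_congr Multiplicative.toAdd
      rw [h1, Module.natCard_eq_pow_finrank (K := F), Nat.card_eq_fintype_card, hn, pow_mul]
    have h1 := hpg.card_modEq_card_fixedPoints {W : Submodule F V // finrank F W = m + 1 ∧ TS Q W}
    refine h1.trans ?_
    -- fixed points
    have hact : ∀ (b : V') (W : {W : Submodule F V // finrank F W = m + 1 ∧ TS Q W}),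
        ((Multiplicative.ofAdd b • W : {W : Submodule F V // finrank F W = m + 1 ∧ TS Q W}) : Submodule F V)
          = W.1.map ((eich Q e (b : V) he (heV _ b.2) : V ≃ₗ[F] V) : V →ₗ[F] V) := fun b W => rfl
    have hfixe : ∀ W : {W : Submodule F V // finrank F W = m + 1 ∧ TS Q W}, W ∈ MulAction.fixedPoints (Multiplicative V') {W : Submodule F V // finrank F W = m + 1 ∧ TS Q W} → e ∈ W.1 := by
      rintro ⟨W, hW1, hW2⟩ hW
      have hinv : ∀ b ∈ V', ∀ v ∈ W, v + polar Q v b • e - polar Q v e • b - (Q b * polar Q v e) • e ∈ W := by
        intro b hb v hv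
        have h2 := congrArg Subtype.val (hW (Multiplicative.ofAdd ⟨b, hb⟩))
        rw [hact] at h2
        rw [← eich_apply Q e b he (heV b hb) v]
        have h3 : (eich Q e b he (heV b hb) : V ≃ₗ[F] V) v ∈ W.map ((eich Q e b he (heV b hb) : V ≃ₗ[F] V) : V →ₗ[F] V) := ⟨v, hv, rfl⟩
        exact h2.le h3
      by_contra heW
      change e ∉ W at heW
      by_cases hperp : ∀ v ∈ W, polar Q v e = 0
      · -- `W ≤ e^⊥`
        have h2 : ∀ v ∈ W, ∀ b ∈ V', polar Q v b = 0 := by
          intro v hv b hb
          by_contra hne
          have h3 := hinv b hb v hv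
          rw [hperp v hv, zero_smul, sub_zero, mul_zero, zero_smul, sub_zero] at h3
          have h4 := W.sub_mem h3 hv
          rw [add_sub_cancel_left] at h4
          apply heW
          have h5 := W.smul_mem (polar Q v b)⁻¹ h4
          rwa [smul_smul, inv_mul_cancel₀ hne, one_smul] at h5
        have h3 : W ≤ Submodule.span F {e} := by
          intro v hv
          obtain ⟨a, b, w, hw, rfl⟩ := hdec v
          have h4 := hperp _ hv
          rw [pal, pal, psl, psl, hee, hge, hVe w hw] at h4
          have hb : b = 0 := by linear_combination h4
          have hw0 : w = 0 := by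
            apply hN' w hw
            intro u hu
            have h5 := h2 _ hv u hu
            rw [pal, pal, psl, psl, heV u hu, hgV u hu] at h5
            change polar Q w u = 0
            linear_combination h5
          rw [hb, hw0, zero_smul, add_zero, add_zero]
          exact Submodule.smul_mem _ _ (Submodule.mem_span_singleton_self e)
        have he0 : e ≠ 0 := by
          rintro rfl
          rw [polar_zero_left] at heg
          exact zero_ne_one heg
        have h4 := Submodule.finrank_mono h3
        rw [finrank_span_singleton he0] at h4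
        have h5 : W = Submodule.span F {e} := Submodule.eq_of_le_of_finrank_eq h3 (by rw [finrank_span_singleton he0]; omega)
        exact heW (by rw [h5]; exact Submodule.mem_span_singleton_self e)
      · push Not at hperp
        obtain ⟨v, hv, hve⟩ := hperp
        have h2 : (⊤ : Submodule F V) ≤ W ⊔ Submodule.span F {e} := by
          have hVW : V' ≤ W ⊔ Submodule.span F {e} := by
            intro b hb
            have h3 := W.sub_mem (hinv b hb v hv) hv
            have h4 : b = (-(polar Q v e)⁻¹) • (v + polar Q v b • e - polar Q v e • b - (Q b * polar Q v e) • e - v)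
                + ((polar Q v e)⁻¹ * (polar Q v b - Q b * polar Q v e)) • e := by
              have h5 : v + polar Q v b • e - polar Q v e • b - (Q b * polar Q v e) • e - v = (polar Q v b - Q b * polar Q v e) • e - polar Q v e • b := by
                module
              rw [h5, smul_sub, smul_smul, smul_smul, neg_mul, neg_mul, inv_mul_cancel₀ hve]
              module
            rw [h4]
            exact Submodule.add_mem_sup (W.smul_mem _ h3) (Submodule.smul_mem _ _ (Submodule.mem_span_singleton_self e))
          intro z _
          obtain ⟨a, b, w, hw, rfl⟩ := hdec v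
          obtain ⟨a', b', w', hw', rfl⟩ := hdec z
          have hb : b ≠ 0 := by
            rintro rfl
            apply hve
            rw [pal, pal, psl, psl, hee, hge, hVe w hw]
            ring
          have heS : e ∈ W ⊔ Submodule.span F {e} := Submodule.mem_sup_right (Submodule.mem_span_singleton_self e)
          have hgS : g ∈ W ⊔ Submodule.span F {e} := by
            have h3 : g = b⁻¹ • (a • e + b • g + w) + (-(b⁻¹ * a)) • e + (-b⁻¹) • w := by
              rw [smul_add, smul_add, smul_smul, smul_smul, inv_mul_cancel₀ hb]
              module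
            rw [h3]
            exact Submodule.add_mem _ (Submodule.add_mem _ (Submodule.smul_mem _ _ (Submodule.mem_sup_left hv)) (Submodule.smul_mem _ _ heS)) (Submodule.smul_mem _ _ (hVW hw))
          exact Submodule.add_mem _ (Submodule.add_mem _ (Submodule.smul_mem _ _ heS) (Submodule.smul_mem _ _ hgS)) (hVW hw')
        have h3 := Submodule.finrank_mono h2
        rw [finrank_top] at h3
        have h4 := Submodule.finrank_add_le_finrank_add_finrank W (Submodule.span F {e})
        have h5 := finrank_span_le_card (R := F) ({e} : Set V)
        rw [Set.toFinset_singleton, Finset.card_singleton] at h5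
        omega
    have hmemfix : ∀ W : {W : Submodule F V // finrank F W = m + 1 ∧ TS Q W}, e ∈ W.1 → W ∈ MulAction.fixedPoints (Multiplicative V') {W : Submodule F V // finrank F W = m + 1 ∧ TS Q W} := by
      rintro ⟨W, hW1, hW2⟩ heW b
      apply Subtype.ext
      have hle : W.map ((eich Q e ((Multiplicative.toAdd b : V') : V) he (heV _ (Multiplicative.toAdd b).2) : V ≃ₗ[F] V) : V →ₗ[F] V) ≤ W := by
        rintro _ ⟨v, hv, rfl⟩
        change (eich Q e ((Multiplicative.toAdd b : V') : V) he (heV _ (Multiplicative.toAdd b).2) : V ≃ₗ[F] V) v ∈ W
        rw [eich_apply]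
        have h2 : polar Q v e = 0 := hW2.polar hv heW
        rw [h2, zero_smul, sub_zero, mul_zero, zero_smul, sub_zero]
        exact W.add_mem hv (W.smul_mem _ heW)
      exact Submodule.eq_of_le_of_finrank_eq hle (LinearEquiv.finrank_map_eq _ _)
    have he0 : e ≠ 0 := by
      rintro rfl
      rw [polar_zero_left] at heg
      exact zero_ne_one heg
    have hdis : ∀ W' : Submodule F V', Disjoint (Submodule.span F {e}) (W'.map V'.subtype) := by
      intro W'
      rw [Submodule.disjoint_def]
      rintro _ hx ⟨w, hw, rfl⟩
      obtain ⟨a, ha⟩ := Submodule.mem_span_singleton.mp hx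
      have h2 := hgV _ w.2
      have h3 : polar Q g (a • e) = a := by rw [psr, hge, mul_one]
      have ha' : a • e = (w : V) := ha
      rw [ha', h2] at h3
      change (w : V) = 0
      rw [← ha', ← h3, zero_smul]
    have eqv : {W' : Submodule F V' // finrank F W' = m ∧ TS (Q.restrict V') W'} ≃ MulAction.fixedPoints (Multiplicative V') {W : Submodule F V // finrank F W = m + 1 ∧ TS Q W} :=
      { toFun := fun W' => ⟨⟨Submodule.span F {e} ⊔ W'.1.map V'.subtype, by
          rw [finrank_sup_disj (hdis W'.1), finrank_span_singleton he0, Submodule.finrank_map_subtype_eq, W'.2.1]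
          ring, by
          apply TS_sup
          · intro u hu
            obtain ⟨a, rfl⟩ := Submodule.mem_span_singleton.mp hu
            rw [qsmul, he, mul_zero]
          · rintro _ ⟨u, hu, rfl⟩
            exact W'.2.2 u hu
          · rintro u hu _ ⟨v, hv, rfl⟩
            obtain ⟨a, rfl⟩ := Submodule.mem_span_singleton.mp hu
            rw [psl]
            have := heV _ v.2
            change a * polar Q e (v : V) = 0
            rw [this, mul_zero]⟩, hmemfix _ (Submodule.mem_sup_left (Submodule.mem_span_singleton_self e))⟩
        invFun := fun W => ⟨W.1.1.comap V'.subtype, by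
          obtain ⟨⟨W, hW1, hW2⟩, hW⟩ := W
          have heW := hfixe _ hW
          change e ∈ W at heW
          have h2 : Submodule.span F {e} ⊔ (W.comap V'.subtype).map V'.subtype = W := by
            apply le_antisymm
            · apply sup_le
              · rw [Submodule.span_singleton_le_iff_mem]
                exact heW
              · exact Submodule.map_comap_le _ _
            · intro v hv
              obtain ⟨a, b, w, hw, rfl⟩ := hdec v
              have h4 : polar Q (a • e + b • g + w) e = 0 := hW2.polar hv heW
              rw [pal, pal, psl, psl, hee, hge, hVe w hw] at h4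
              have hb : b = 0 := by linear_combination h4
              rw [hb, zero_smul, add_zero] at hv ⊢
              apply Submodule.add_mem_sup (Submodule.smul_mem _ _ (Submodule.mem_span_singleton_self e))
              refine ⟨⟨w, hw⟩, ?_, rfl⟩
              have h5 := W.sub_mem hv (W.smul_mem a heW)
              rw [add_sub_cancel_left] at h5
              exact h5
          have h3 := finrank_sup_disj (hdis (W.comap V'.subtype))
          rw [h2, finrank_span_singleton he0, Submodule.finrank_map_subtype_eq, hW1] at h3
          exact ⟨by change finrank F (W.comap V'.subtype) = m; omega, fun u hu => hW2 _ hu⟩⟩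
        left_inv := fun W' => by
          apply Subtype.ext
          change (Submodule.span F {e} ⊔ W'.1.map V'.subtype).comap V'.subtype = W'.1
          ext v
          constructor
          · intro hv
            obtain ⟨a, ha, _, ⟨w, hw, rfl⟩, h2⟩ := Submodule.mem_sup.mp hv
            obtain ⟨t, rfl⟩ := Submodule.mem_span_singleton.mp ha
            have h3 := hgV _ v.2
            have h5 : t • e + (w : V) = (v : V) := h2
            rw [← h5, par, psr, hge, hgV _ w.2, mul_one, add_zero] at h3
            rw [h3, zero_smul, zero_add] at h5
            have : w = v := Subtype.ext h5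
            rw [← this]
            exact hw
          · intro hv
            exact Submodule.mem_sup_right ⟨v, hv, rfl⟩
        right_inv := fun W => by
          apply Subtype.ext
          apply Subtype.ext
          obtain ⟨⟨W, hW1, hW2⟩, hW⟩ := W
          have heW := hfixe _ hW
          change e ∈ W at heW
          change Submodule.span F {e} ⊔ (W.comap V'.subtype).map V'.subtype = W
          apply le_antisymm
          · apply sup_le
            · rw [Submodule.span_singleton_le_iff_mem]
              exact heW
            · exact Submodule.map_comap_le _ _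
          · intro v hv
            obtain ⟨a, b, w, hw, rfl⟩ := hdec v
            have h4 : polar Q (a • e + b • g + w) e = 0 := hW2.polar hv heW
            rw [pal, pal, psl, psl, hee, hge, hVe w hw] at h4
            have hb : b = 0 := by linear_combination h4
            rw [hb, zero_smul, add_zero] at hv ⊢
            apply Submodule.add_mem_sup (Submodule.smul_mem _ _ (Submodule.mem_span_singleton_self e))
            refine ⟨⟨w, hw⟩, ?_, rfl⟩
            have h5 := W.sub_mem hv (W.smul_mem a heW)
            rw [add_sub_cancel_left] at h5
            exact h5 }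
    rw [← Nat.card_congr eqv]
    exact ih V' (Q.restrict V') (nd_restrict hN') (by omega)

end a

end Cfsg.Agent.H39.OE
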