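import Mathlib
import Cfsg.Agent.H39.OT4
import Cfsg.Agent.H99.TISymp

/-!
Totally singular subspaces fixed by projective involutions in orthogonal groups, odd characteristic.
-/

set_option autoImplicit false

namespace Cfsg.Agent.H39.OE

open Module QuadraticMap Cfsg.Agent.Orth Polynomial

section lin
variable {F : Type*} [Field F] [Fintype F] {V : Type*} [AddCommGroup V] [Module F V] [FiniteDimensional F V]

lemma isSquare_mul_iff' {a b : F} (ha : a ≠ 0) (hb : b ≠ 0) : IsSquare (a * b) ↔ (IsSquare a ↔ IsSquare b) := by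
  classical
  have h1 := quadraticChar_one_iff_isSquare (F := F) ha
  have h2 := quadraticChar_one_iff_isSquare (F := F) hb
  have h3 := quadraticChar_one_iff_isSquare (F := F) (mul_ne_zero ha hb)
  rw [← h1, ← h2, ← h3, _root_.map_mul]
  rcases quadraticChar_dichotomy ha with h4 | h4 <;> rcases quadraticChar_dichotomy hb with h5 | h5 <;> rw [h4, h5] <;> norm_num

/-- the plane spanned by two orthogonal vectors -/
lemma pt_pair (h2 : (2 : F) ≠ 0) {Q : QuadraticForm F V} {u v : V} (hu : Q u ≠ 0) (hv : Q v ≠ 0) (huv : polar Q u v = 0) :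
    Nd Q (Submodule.span F (Set.range ![u, v])) ∧ finrank F (Submodule.span F (Set.range ![u, v])) = 2 ∧
    (∀ w, w ∈ Submodule.span F (Set.range ![u, v]) ↔ ∃ a b : F, a • u + b • v = w) ∧
    (PT Q (Submodule.span F (Set.range ![u, v])) ↔ IsSquare (-(Q u * Q v))) := by
  have ho : IsOrth Q ![u, v] := by
    constructor
    · intro i
      fin_cases i
      · exact hu
      · exact hv
    · intro i j hij
      fin_cases i <;> fin_cases j
      · exact absurd rfl hij
      · exact huv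
      · exact (pc Q _ _).trans huv
      · exact absurd rfl hij
  have hfr := ho.finrank h2
  rw [Fintype.card_fin] at hfr
  have hmem : ∀ w, w ∈ Submodule.span F (Set.range ![u, v]) ↔ ∃ a b : F, a • u + b • v = w := by
    intro w
    rw [Matrix.range_cons, Matrix.range_cons, Matrix.range_empty, Set.union_empty]
    change w ∈ Submodule.span F {u, v} ↔ _
    rw [Submodule.mem_span_pair]
  have hQf : ∀ a b : F, Q (a • u + b • v) = a * a * Q u + b * b * Q v := by
    intro a b
    rw [qadd, qsmul, qsmul, psl, psr, huv]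
    ring
  refine ⟨nd_of_isOrth h2 ho, hfr, hmem, ?_⟩
  constructor
  · rintro ⟨U, u1, u2, u3⟩
    rw [hfr] at u3
    have hU0 : U ≠ ⊥ := by
      rintro rfl
      rw [finrank_bot] at u3
      omega
    obtain ⟨w, hw, hw0⟩ := Submodule.exists_mem_ne_zero_of_ne_bot hU0
    obtain ⟨a, b, rfl⟩ := (hmem w).mp (u1 hw)
    have h3 := u2 _ hw
    rw [hQf] at h3
    by_cases hb : b = 0
    · exfalso
      rw [hb, mul_zero, zero_mul, add_zero] at h3
      have h4 := mul_self_eq_zero.mp ((mul_eq_zero.mp h3).resolve_right hu)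
      apply hw0
      rw [hb, h4, zero_smul, zero_smul, add_zero]
    · refine ⟨a * Q u / b, ?_⟩
      rw [div_mul_div_comm, eq_div_iff (mul_ne_zero hb hb)]
      linear_combination (- Q u) * h3
  · rintro ⟨c, hc⟩
    refine ⟨Submodule.span F {c • u + Q u • v}, ?_, ?_, ?_⟩
    · rw [Submodule.span_singleton_le_iff_mem, hmem]
      exact ⟨c, Q u, rfl⟩
    · intro w hw
      obtain ⟨t, rfl⟩ := Submodule.mem_span_singleton.mp hw
      rw [qsmul, hQf, ← hc]
      ring
    · rw [hfr, finrank_span_singleton]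
      intro h0
      have h3 := congrArg (fun z => polar Q z v) h0
      simp only [pal, psl, huv, mul_zero, zero_add, polar_zero_left, pself] at h3
      exact mul_ne_zero hu (mul_ne_zero h2 hv) h3

lemma prop_n {w p w' s t : Prop} (h : w ↔ (p ↔ w')) (hp : p ↔ s) (hw : t ↔ w') : (s ↔ t) ↔ w := by tauto

/-- `-1` on a nondegenerate subspace of even dimension as a product of reflections, `-1` a square -/
theorem neg_list (h2 : (2 : F) ≠ 0) (hs : IsSquare (-1 : F)) {Q : QuadraticForm F V} (k : ℕ) :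
    ∀ (W Z : Submodule F V) (y : OGrp Q), Nd Q W → finrank F W = 2 * k → W ⊔ Z = ⊤ → (∀ u ∈ W, ∀ v ∈ Z, polar Q u v = 0) →
      (∀ v ∈ W, (y : V ≃ₗ[F] V) v = -v) → (∀ v ∈ Z, (y : V ≃ₗ[F] V) v = v) →
      ∃ l : List {v : V // Q v ≠ 0}, y = reflProd Q l ∧ Even l.length ∧ nrm Q l ≠ 0 ∧ (IsSquare (nrm Q l) ↔ PT Q W) := by
  induction k with
  | zero =>
    intro W Z y _ hd hsup _ _ hy
    have hW : W = ⊥ := Submodule.finrank_eq_zero.mp (by omega)
    rw [hW, bot_sup_eq] at hsup
    refine ⟨[], ?_, by simp, by rw [nrm_nil]; exact one_ne_zero, ?_⟩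
    · rw [reflProd_nil]
      exact OGrp_ext (fun v => hy v (by rw [hsup]; exact Submodule.mem_top))
    · rw [nrm_nil, hW]
      exact ⟨fun _ => PT_bot Q, fun _ => IsSquare.one⟩
  | succ k ih =>
    intro W Z y hN hd hsup hWZ hyW hyZ
    obtain ⟨b, d, hd0, hb, -⟩ := exists_diag_basis (nd_restrict hN) h2 (k := 2 * k + 1) (by rw [hd]; ring)
    set u : V := (b 0 : V) with hu
    set v : V := (b 1 : V) with hv
    have huW : u ∈ W := (b 0).2
    have hvW : v ∈ W := (b 1).2
    have hQu : Q u ≠ 0 := hb.q 0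
    have hQv : Q v ≠ 0 := hb.q 1
    have huv : polar Q u v = 0 := hb.p 0 1 (by
      intro h
      have := congrArg Fin.val h
      simp at this)
    obtain ⟨p1, p2, p3, p5⟩ := pt_pair h2 hQu hQv huv
    set P := Submodule.span F (Set.range ![u, v]) with hP
    have hPW : P ≤ W := by
      intro w hw
      obtain ⟨α, β, rfl⟩ := (p3 w).mp hw
      exact W.add_mem (W.smul_mem _ huW) (W.smul_mem _ hvW)
    have g1 := H99.split_ND_compl (of Q) hN p1 hPW
    have g2 := H99.split_ND (of Q) p1 hPW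
    have g3 := H99.split_finrank (of Q) p1 hPW
    have huP : u ∈ P := Submodule.subset_span ⟨0, rfl⟩
    have hvP : v ∈ P := Submodule.subset_span ⟨1, rfl⟩
    set ρ : OGrp Q := refl Q u hQu * refl Q v hQv with hρ
    have hρ1 : ∀ w, polar Q w u = 0 → polar Q w v = 0 → (ρ : V ≃ₗ[F] V) w = w := by
      intro w h1 h3
      rw [hρ, coe_mul_apply, refl_apply_of_ortho hQv h3, refl_apply_of_ortho hQu h1]
    have hρu : (ρ : V ≃ₗ[F] V) u = -u := by
      rw [hρ, coe_mul_apply, refl_apply_of_ortho hQv huv]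
      exact refl_apply_self hQu
    have hρv : (ρ : V ≃ₗ[F] V) v = -v := by
      rw [hρ, coe_mul_apply, refl_apply_self hQv, map_neg, refl_apply_of_ortho hQu (by rw [pc]; exact huv)]
    have hρP : ∀ w ∈ P, (ρ : V ≃ₗ[F] V) w = -w := by
      intro w hw
      obtain ⟨α, β, rfl⟩ := (p3 w).mp hw
      rw [map_add, map_smul, map_smul, hρu, hρv, smul_neg, smul_neg, neg_add]
    have hρinv : ∀ w w', (ρ : V ≃ₗ[F] V) w = w' → ((ρ⁻¹ : OGrp Q) : V ≃ₗ[F] V) w' = w := by
      intro w w' h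
      rw [← h]
      exact coe_inv_apply_self ρ w
    obtain ⟨l, l1, l2, l3, l4⟩ := ih (W ⊓ H99.orth (of Q) P) (P ⊔ Z) (ρ⁻¹ * y) g1 (by omega) (by
      rw [← sup_assoc, sup_comm (W ⊓ _) P, g2, hsup]) (by
      intro w hw w' hw'
      obtain ⟨a, ha, c, hc, rfl⟩ := Submodule.mem_sup.mp hw'
      rw [par, (show polar Q w a = 0 from hw.2 a ha), hWZ w hw.1 c hc, add_zero]) (by
      intro w hw
      rw [coe_mul_apply, hyW w hw.1, map_neg]
      rw [hρinv w w (hρ1 w (hw.2 u huP) (hw.2 v hvP))]) (by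
      intro w hw
      obtain ⟨a, ha, c, hc, rfl⟩ := Submodule.mem_sup.mp hw
      rw [coe_mul_apply, map_add, hyW a (hPW ha), hyZ c hc, map_add]
      rw [hρinv a (-a) (hρP a ha), hρinv c c (hρ1 c ((pc Q c u).trans (hWZ u huW c hc)) ((pc Q c v).trans (hWZ v hvW c hc)))])
    refine ⟨⟨u, hQu⟩ :: ⟨v, hQv⟩ :: l, ?_, ?_, ?_, ?_⟩
    · rw [reflProd_cons, reflProd_cons, ← mul_assoc, ← l1]
      rw [hρ, mul_inv_cancel_left]
    · rw [List.length_cons, List.length_cons]
      exact (Nat.even_add_one.mpr (by rw [Nat.even_add_one]; exact not_not.mpr l2))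
    · rw [nrm_cons, nrm_cons]
      exact mul_ne_zero hQu (mul_ne_zero hQv l3)
    · rw [nrm_cons, nrm_cons]
      change IsSquare (Q u * (Q v * nrm Q l)) ↔ _
      rw [← mul_assoc, isSquare_mul_iff' (mul_ne_zero hQu hQv) l3]
      have h3 := PT_iff_sub p1 g1 (fun w hw w' hw' => (pc Q w w').trans (hw'.2 w hw)) (by rw [p2]; exact even_two) ⟨k, by omega⟩
      rw [g2] at h3
      refine prop_n h3 (p5.trans ?_) l4
      constructor
      · intro h4
        have h5 := hs.mul h4
        rwa [neg_mul_neg, one_mul] at h5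
      · intro h4
        have h5 := hs.mul h4
        rwa [neg_one_mul] at h5

/-- the `-1`-eigenspace of an involution in `Ω`, `-1` a square -/
theorem invol_pt (h2 : (2 : F) ≠ 0) (hs : IsSquare (-1 : F)) {Q : QuadraticForm F V} (hQ : (polarBilin Q).Nondegenerate) (hd : 5 ≤ finrank F V)
    {y : OGrp Q} (hy : y ∈ commutator (OGrp Q)) {x : V →ₗ[F] V} (hyx : ∀ v, (y : V ≃ₗ[F] V) v = x v) (hxx : ∀ v, x (x v) = v)
    (he : Even (finrank F (LinearMap.ker (x + 1)))) : PT Q (LinearMap.ker (x + 1)) := by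
  have hx : ∀ v, Q (x v) = Q v := fun v => by rw [← hyx]; exact OGrp_q y v
  obtain ⟨n1, n2, n3, n4⟩ := invol_split h2 hQ hx hxx
  obtain ⟨k, hk⟩ := he
  obtain ⟨l, l1, l2, l3, l4⟩ := neg_list h2 hs k (LinearMap.ker (x + 1)) (LinearMap.ker (x - 1)) y n2 (by omega) (by rw [sup_comm]; exact n3.sup_eq_top)
    (fun u hu v hv => (pc Q u v).trans (n4 v hv u hu)) (fun v hv => by rw [hyx]; exact mem_ker'.mp hv) (fun v hv => by rw [hyx]; exact mem_ker.mp hv)
  have hR := RGrp_eq_top hQ (Or.inr (by omega))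
  rw [l1, reflProd_mem_commutator_iff hQ hR] at hy
  exact l4.mp hy.2

/-- the involution with `-1`-eigenspace a plane of minus type, `-1` not a square -/
theorem exists_bad_invol (h2 : (2 : F) ≠ 0) (hs : ¬ IsSquare (-1 : F)) {Q : QuadraticForm F V} (hQ : (polarBilin Q).Nondegenerate) (hd : 5 ≤ finrank F V) :
    ∃ y ∈ commutator (OGrp Q), ∃ x : V →ₗ[F] V, (∀ v, (y : V ≃ₗ[F] V) v = x v) ∧ (∀ v, x (x v) = v) ∧ finrank F (LinearMap.ker (x + 1)) = 2 ∧
      ¬ PT Q (LinearMap.ker (x + 1)) := by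
  obtain ⟨w, hw, hw1⟩ := exists_isOrth_one hQ h2 2 (by omega)
  have hu := hw.q 0
  have hv := hw.q 1
  have huv := hw.p 0 1 (by norm_num)
  obtain ⟨p1, p2, p3, p5⟩ := pt_pair h2 hu hv huv
  rw [hw1, hw1, one_mul] at p5
  have hR := RGrp_eq_top hQ (Or.inr (by omega))
  set y : OGrp Q := reflProd Q [⟨w 0, hu⟩, ⟨w 1, hv⟩] with hy
  have hyc : y ∈ commutator (OGrp Q) := by
    rw [hy, reflProd_mem_commutator_iff hQ hR]
    refine ⟨by simp, ?_⟩
    rw [nrm_cons, nrm_cons, nrm_nil]
    change IsSquare (Q (w 0) * (Q (w 1) * 1))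
    rw [hw1, hw1, one_mul, one_mul]
    exact IsSquare.one
  have hyv : ∀ v, (y : V ≃ₗ[F] V) v = (refl Q (w 0) hu : V ≃ₗ[F] V) ((refl Q (w 1) hv : V ≃ₗ[F] V) v) := by
    intro v
    rw [hy, reflProd_cons, reflProd_cons, reflProd_nil, mul_one, coe_mul_apply]
  have hform : ∀ v, (y : V ≃ₗ[F] V) v = v - polar Q v (w 0) • w 0 - polar Q v (w 1) • w 1 := by
    intro v
    rw [hyv, refl_apply Q (w 1) hv v, refl_apply Q (w 0) hu, hw1, hw1, inv_one, one_mul, one_mul]
    rw [show polar Q (v - polar Q v (w 1) • w 1) (w 0) = polar Q v (w 0) by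
      rw [pdl, psl, pc Q (w 1) (w 0), huv, mul_zero, sub_zero]]
    abel
  have hp0 : polar Q (w 0) (w 0) = 2 := by rw [pself, hw1, mul_one]
  have hp1 : polar Q (w 1) (w 1) = 2 := by rw [pself, hw1, mul_one]
  have hvu : polar Q (w 1) (w 0) = 0 := (pc Q _ _).trans huv
  refine ⟨y, hyc, ((y : V ≃ₗ[F] V) : V →ₗ[F] V), fun _ => rfl, ?_, ?_⟩
  · intro v
    change (y : V ≃ₗ[F] V) ((y : V ≃ₗ[F] V) v) = v
    rw [hform, hform v]
    rw [show polar Q (v - polar Q v (w 0) • w 0 - polar Q v (w 1) • w 1) (w 0) = - polar Q v (w 0) by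
      rw [pdl, pdl, psl, psl, hvu, hp0]; ring]
    rw [show polar Q (v - polar Q v (w 0) • w 0 - polar Q v (w 1) • w 1) (w 1) = - polar Q v (w 1) by
      rw [pdl, pdl, psl, psl, huv, hp1]; ring]
    rw [neg_smul, neg_smul]
    abel
  · have hk : LinearMap.ker (((y : V ≃ₗ[F] V) : V →ₗ[F] V) + 1) = Submodule.span F (Set.range ![w 0, w 1]) := by
      ext v
      rw [mem_ker', p3]
      change (y : V ≃ₗ[F] V) v = -v ↔ _
      rw [hform]
      constructor
      · intro h
        refine ⟨(2 : F)⁻¹ * polar Q v (w 0), (2 : F)⁻¹ * polar Q v (w 1), ?_⟩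
        have h3 : (2 : F) • v = polar Q v (w 0) • w 0 + polar Q v (w 1) • w 1 := by
          rw [two_smul]
          have h6 : v + v = (v - polar Q v (w 0) • w 0 - polar Q v (w 1) • w 1) + v + (polar Q v (w 0) • w 0 + polar Q v (w 1) • w 1) := by abel
          rw [h6, h, neg_add_cancel, zero_add]
        rw [mul_smul, mul_smul, ← smul_add, ← h3, smul_smul, inv_mul_cancel₀ h2, one_smul]
      · rintro ⟨a, b, rfl⟩
        rw [pal, psl, psl, pal, psl, psl, hvu, hp0, huv, hp1, mul_zero, mul_zero, add_zero, zero_add, mul_comm a, mul_comm b, mul_smul, mul_smul, two_smul, two_smul]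
        abel
    rw [hk]
    exact ⟨p2, fun h => hs (by rw [← p5]; exact h)⟩

end lin

end Cfsg.Agent.H39.OE
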