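import Mathlib
import Cfsg.Agent.H39.OT5

/-!
Totally singular subspaces fixed by projective involutions in orthogonal groups, odd characteristic: the criteria.
-/

set_option autoImplicit false

namespace Cfsg.Agent.H39.OE

open Module QuadraticMap Cfsg.Agent.Orth Polynomial

section lin
variable {F : Type*} [Field F] [Fintype F] {V : Type*} [AddCommGroup V] [Module F V] [FiniteDimensional F V]

/-- totally singular subspaces invariant under an involution -/
theorem tsf_invol (h2 : (2 : F) ≠ 0) {Q : QuadraticForm F V} (hQ : (polarBilin Q).Nondegenerate) {x : V →ₗ[F] V}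
    (hx : ∀ v, Q (x v) = Q v) (hxx : ∀ v, x (x v) = v) (m : ℕ) :
    TSf Q x m ↔ ∃ m₁ m₂, m₁ + m₂ = m ∧ Wt Q (LinearMap.ker (x - 1)) m₁ ∧ Wt Q (LinearMap.ker (x + 1)) m₂ := by
  obtain ⟨n1, n2, n3, n4⟩ := invol_split h2 hQ hx hxx
  constructor
  · rintro ⟨W, w1, w2, w3⟩
    refine ⟨finrank F (W ⊓ LinearMap.ker (x - 1) : Submodule F V), finrank F (W ⊓ LinearMap.ker (x + 1) : Submodule F V), ?_,
      ⟨_, inf_le_right, w2.mono inf_le_left, rfl⟩, ⟨_, inf_le_right, w2.mono inf_le_left, rfl⟩⟩
    have hd : Disjoint (W ⊓ LinearMap.ker (x - 1)) (W ⊓ LinearMap.ker (x + 1)) := n3.disjoint.mono inf_le_right inf_le_right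
    have hs : W ⊓ LinearMap.ker (x - 1) ⊔ W ⊓ LinearMap.ker (x + 1) = W := by
      apply le_antisymm (sup_le inf_le_left inf_le_left)
      intro v hv
      have h3 : v = (2 : F)⁻¹ • (v + x v) + (2 : F)⁻¹ • (v - x v) := by
        rw [← smul_add]
        have : v + x v + (v - x v) = (2 : F) • v := by rw [two_smul]; abel
        rw [this, smul_smul, inv_mul_cancel₀ h2, one_smul]
      rw [h3]
      apply Submodule.add_mem_sup
      · refine ⟨W.smul_mem _ (W.add_mem hv (w3 v hv)), ?_⟩
        rw [SetLike.mem_coe, mem_ker, map_smul, map_add, hxx, add_comm]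
      · refine ⟨W.smul_mem _ (W.sub_mem hv (w3 v hv)), ?_⟩
        rw [SetLike.mem_coe, mem_ker', map_smul, map_sub, hxx, ← smul_neg, neg_sub]
    have h4 := Submodule.finrank_sup_add_finrank_inf_eq (W ⊓ LinearMap.ker (x - 1)) (W ⊓ LinearMap.ker (x + 1))
    rw [disjoint_iff.mp hd, finrank_bot, add_zero, hs] at h4
    rw [← w1, h4]
  · rintro ⟨m₁, m₂, hm, ⟨U, u1, u2, u3⟩, ⟨U', v1, v2, v3⟩⟩
    refine ⟨U ⊔ U', ?_, ?_, ?_⟩
    · have hd : Disjoint U U' := n3.disjoint.mono u1 v1
      have h3 := Submodule.finrank_sup_add_finrank_inf_eq U U'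
      rw [disjoint_iff.mp hd, finrank_bot, add_zero] at h3
      rw [h3, u3, v3, hm]
    · intro v hv
      obtain ⟨a, ha, b, hb, rfl⟩ := Submodule.mem_sup.mp hv
      rw [qadd, u2 a ha, v2 b hb, n4 a (u1 ha) b (v1 hb), add_zero, add_zero]
    · intro v hv
      obtain ⟨a, ha, b, hb, rfl⟩ := Submodule.mem_sup.mp hv
      rw [map_add, mem_ker.mp (u1 ha), mem_ker'.mp (v1 hb)]
      exact Submodule.add_mem_sup ha (U'.neg_mem hb)

/-- square roots of `-1`, split case -/
theorem tsf_J_split (h2 : (2 : F) ≠ 0) {ι : F} (hι : ι * ι = -1) {Q : QuadraticForm F V} (hQ : (polarBilin Q).Nondegenerate) {d : ℕ}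
    (hd : finrank F V = 2 * d) {x : V →ₗ[F] V} (hx : ∀ v, Q (x v) = Q v) (hxx : ∀ v, x (x v) = -v) {m : ℕ} (hm : m ≤ d) : TSf Q x m := by
  have hmem : ∀ (ε : F) (v : V), v ∈ LinearMap.ker (x - ε • 1) ↔ x v = ε • v := by
    intro ε v
    rw [LinearMap.mem_ker, LinearMap.sub_apply, LinearMap.smul_apply, Module.End.one_apply, sub_eq_zero]
  have hE : ∀ ε : F, ε * ε = -1 → TS Q (LinearMap.ker (x - ε • 1)) := by
    intro ε hε v hv
    have h3 : x v = ε • v := (hmem ε v).mp hv
    have h4 := hx v
    rw [h3, qsmul, hε] at h4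
    have h5 : 2 * Q v = 0 := by linear_combination -h4
    exact (mul_eq_zero.mp h5).resolve_left h2
  have h0 : ι ≠ 0 := by
    rintro rfl
    rw [mul_zero] at hι
    exact one_ne_zero (neg_eq_zero.mp hι.symm)
  have hsup : LinearMap.ker (x - ι • 1) ⊔ LinearMap.ker (x - (-ι) • 1) = ⊤ := by
    rw [eq_top_iff]
    intro v _
    have h3 : v = (2 * ι)⁻¹ • (ι • v + x v) + (2 * ι)⁻¹ • (ι • v - x v) := by
      rw [← smul_add]
      have : ι • v + x v + (ι • v - x v) = (2 * ι) • v := by rw [mul_smul, two_smul]; abel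
      rw [this, smul_smul, inv_mul_cancel₀ (mul_ne_zero h2 h0), one_smul]
    rw [h3]
    apply Submodule.add_mem_sup
    · apply Submodule.smul_mem
      rw [hmem, map_add, map_smul, hxx, smul_add, smul_smul, hι, neg_one_smul, add_comm]
    · apply Submodule.smul_mem
      rw [hmem, map_sub, map_smul, hxx, smul_sub, smul_smul, neg_mul, hι, neg_neg, one_smul, neg_smul]
      abel
  have h1 : finrank F (LinearMap.ker (x - ι • 1)) ≤ d := by
    have := ts_bound (nd_of_nondeg hQ) (hE ι hι) le_top
    rw [finrank_top] at this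
    omega
  have h1' : finrank F (LinearMap.ker (x - (-ι) • 1)) ≤ d := by
    have := ts_bound (nd_of_nondeg hQ) (hE (-ι) (by rw [neg_mul_neg, hι])) le_top
    rw [finrank_top] at this
    omega
  have h3 := Submodule.finrank_add_le_finrank_add_finrank (LinearMap.ker (x - ι • 1)) (LinearMap.ker (x - (-ι) • 1))
  rw [hsup, finrank_top, hd] at h3
  obtain ⟨W, w1, w2⟩ := H99.exists_sub_finrank (LinearMap.ker (x - ι • 1)) (m := m) (by omega)
  refine ⟨W, w2, (hE ι hι).mono w1, ?_⟩
  intro v hv
  rw [(hmem ι v).mp (w1 hv)]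
  exact W.smul_mem _ hv

/-- square roots of `-1`, nonsplit case -/
theorem tsf_J_nonsplit (h2 : (2 : F) ≠ 0) (hι : ∀ a : F, a * a ≠ -1) {Q : QuadraticForm F V} {x : V →ₗ[F] V} (hx : ∀ v, Q (x v) = Q v)
    (hxx : ∀ v, x (x v) = -v) (j : ℕ) : ∀ W : Submodule F V, (∀ v ∈ W, x v ∈ W) → Nd Q W → 4 * j ≤ finrank F W →
      ∃ U ≤ W, (∀ v ∈ U, x v ∈ U) ∧ TS Q U ∧ finrank F U = 2 * j := by
  have hinj : Function.Injective x := by
    intro a b hab
    have := congrArg x hab
    rw [hxx, hxx] at this
    exact neg_injective this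
  have hp := fun u v => polar_of_isom hx u v
  induction j with
  | zero =>
    intro W _ _ _
    exact ⟨⊥, bot_le, fun v hv => by rw [(Submodule.mem_bot F).mp hv, map_zero]; exact Submodule.zero_mem _,
      fun v hv => by rw [(Submodule.mem_bot F).mp hv, QuadraticMap.map_zero], by rw [finrank_bot]⟩
  | succ j ih =>
    intro W hW hN hd
    obtain ⟨L, hL1, hL2, hL3⟩ := (wt_iff hN 1).mpr (Or.inl (by omega))
    have hL0 : L ≠ ⊥ := by
      rintro rfl
      rw [finrank_bot] at hL3
      omega
    obtain ⟨v, hvL, hv0⟩ := Submodule.exists_mem_ne_zero_of_ne_bot hL0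
    have hvW := hL1 hvL
    have hQv : Q v = 0 := hL2 v hvL
    have hQxv : Q (x v) = 0 := by rw [hx, hQv]
    have hvx := polar_J h2 hx hxx v
    have hvv : polar Q v v = 0 := by rw [pself, hQv, mul_zero]
    -- the dual vector
    obtain ⟨u, huW, hu1, hu2⟩ : ∃ u ∈ W, polar Q v u = 1 ∧ polar Q (x v) u = 0 := by
      obtain ⟨a, haW, ha⟩ : ∃ a ∈ W, polar Q v a ≠ 0 := by
        by_contra hcon
        push Not at hcon
        exact hv0 (hN v hvW hcon)
      set s := polar Q v a with hs
      set t := polar Q (x v) a with ht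
      have h1 : polar Q v (x a) = -t := by
        have h3 := hp v (x a)
        rw [hxx] at h3
        rw [← h3, ← neg_one_smul F a, psr, ht]
        ring
      have h3 : polar Q (x v) (x a) = s := hp v a
      have hst : s * s + t * t ≠ 0 := by
        intro h0
        by_cases ht0 : t = 0
        · rw [ht0, mul_zero, add_zero] at h0
          exact ha (mul_self_eq_zero.mp h0)
        · apply hι (s / t)
          field_simp
          linear_combination h0
      refine ⟨(s * s + t * t)⁻¹ • (s • a - t • x a), W.smul_mem _ (W.sub_mem (W.smul_mem _ haW) (W.smul_mem _ (hW a haW))), ?_, ?_⟩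
      · rw [psr, pdr, psr, psr, h1, ← hs, show s * s - t * -t = s * s + t * t by ring, inv_mul_cancel₀ hst]
      · rw [psr, pdr, psr, psr, h3, ← ht]
        ring
    have hvxu : polar Q v (x u) = 0 := by
      have h3 := hp v (x u)
      rw [hxx] at h3
      rw [← h3, ← neg_one_smul F u, psr, hu2, mul_zero]
    have hxvxu : polar Q (x v) (x u) = 1 := by rw [hp, hu1]
    have huv : polar Q u v = 1 := (pc Q _ _).trans hu1
    have huxv : polar Q u (x v) = 0 := (pc Q _ _).trans hu2
    have hxuv : polar Q (x u) v = 0 := (pc Q _ _).trans hvxu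
    have hxuxv : polar Q (x u) (x v) = 1 := (pc Q _ _).trans hxvxu
    have hxvv : polar Q (x v) v = 0 := (pc Q _ _).trans hvx
    have hxvxv : polar Q (x v) (x v) = 0 := by rw [pself, hQxv, mul_zero]
    -- the four-space
    set S : Submodule F V := Submodule.span F {v, x v} with hS
    set P : Submodule F V := Submodule.span F {v, x v} ⊔ Submodule.span F {u, x u} with hP
    have hmemS : ∀ w, w ∈ S ↔ ∃ a b : F, a • v + b • x v = w := fun w => Submodule.mem_span_pair
    have hmemP : ∀ w, w ∈ P ↔ ∃ a b c d : F, (a • v + b • x v) + (c • u + d • x u) = w := by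
      intro w
      rw [hP, Submodule.mem_sup]
      constructor
      · rintro ⟨y, hy, z, hz, rfl⟩
        obtain ⟨a, b, rfl⟩ := Submodule.mem_span_pair.mp hy
        obtain ⟨c, d, rfl⟩ := Submodule.mem_span_pair.mp hz
        exact ⟨a, b, c, d, rfl⟩
      · rintro ⟨a, b, c, d, rfl⟩
        exact ⟨_, Submodule.mem_span_pair.mpr ⟨a, b, rfl⟩, _, Submodule.mem_span_pair.mpr ⟨c, d, rfl⟩, rfl⟩
    have hSx : ∀ w ∈ S, x w ∈ S := by
      intro w hw
      obtain ⟨a, b, rfl⟩ := (hmemS w).mp hw
      rw [hmemS]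
      refine ⟨-b, a, ?_⟩
      rw [map_add, map_smul, map_smul, hxx, smul_neg, neg_smul, add_comm]
    have hPx : ∀ w ∈ P, x w ∈ P := by
      intro w hw
      obtain ⟨a, b, c, d, rfl⟩ := (hmemP w).mp hw
      rw [hmemP]
      refine ⟨-b, a, -d, c, ?_⟩
      rw [map_add, map_add, map_add, map_smul, map_smul, map_smul, map_smul, hxx, hxx, smul_neg, neg_smul, smul_neg, neg_smul]
      abel
    have hPN : Nd Q P := by
      intro w hw hw2
      obtain ⟨a, b, c, d, rfl⟩ := (hmemP w).mp hw
      have hc : c = 0 := by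
        have h3 : polar Q (a • v + b • x v + (c • u + d • x u)) v = 0 := hw2 v ((hmemP v).mpr ⟨1, 0, 0, 0, by simp⟩)
        rw [pal, pal, pal, psl, psl, psl, psl, hvv, hxvv, huv, hxuv] at h3
        linear_combination h3
      have hd' : d = 0 := by
        have h3 : polar Q (a • v + b • x v + (c • u + d • x u)) (x v) = 0 := hw2 (x v) ((hmemP _).mpr ⟨0, 1, 0, 0, by simp⟩)
        rw [pal, pal, pal, psl, psl, psl, psl, hvx, hxvxv, huxv, hxuxv] at h3
        linear_combination h3
      rw [hc, hd'] at hw2 ⊢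
      have ha : a = 0 := by
        have h3 : polar Q (a • v + b • x v + ((0 : F) • u + (0 : F) • x u)) u = 0 := hw2 u ((hmemP _).mpr ⟨0, 0, 1, 0, by simp⟩)
        rw [zero_smul, zero_smul, add_zero, add_zero, pal, psl, psl, hu1, hu2] at h3
        linear_combination h3
      have hb : b = 0 := by
        have h3 : polar Q (a • v + b • x v + ((0 : F) • u + (0 : F) • x u)) (x u) = 0 := hw2 (x u) ((hmemP _).mpr ⟨0, 0, 0, 1, by simp⟩)
        rw [zero_smul, zero_smul, add_zero, add_zero, pal, psl, psl, hvxu, hxvxu] at h3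
        linear_combination h3
      rw [ha, hb]
      simp
    have hSTS : TS Q S := by
      intro w hw
      obtain ⟨a, b, rfl⟩ := (hmemS w).mp hw
      rw [qadd, qsmul, qsmul, psl, psr, hQv, hQxv, hvx]
      ring
    have hSd : finrank F S = 2 := by
      have hne : ∀ a : F, a • v ≠ x v := by
        intro a h
        have h3 : x (x v) = (a * a) • v := by rw [← h, map_smul, ← h, smul_smul]
        rw [hxx, ← neg_one_smul F v, ← sub_eq_zero, ← sub_smul] at h3
        have h4 := (smul_eq_zero.mp h3).resolve_right hv0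
        exact hι a (by linear_combination -h4)
      have hli : LinearIndependent F ![v, x v] := (LinearIndependent.pair_iff' hv0).mpr hne
      have h3 := finrank_span_eq_card hli
      rw [Fintype.card_fin, Matrix.range_cons, Matrix.range_cons, Matrix.range_empty, Set.union_empty] at h3
      exact h3
    have hSW : S ≤ W := by
      intro w hw
      obtain ⟨a, b, rfl⟩ := (hmemS w).mp hw
      exact W.add_mem (W.smul_mem _ hvW) (W.smul_mem _ (hW v hvW))
    have hPW : P ≤ W := by
      intro w hw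
      obtain ⟨a, b, c, d, rfl⟩ := (hmemP w).mp hw
      exact W.add_mem (W.add_mem (W.smul_mem _ hvW) (W.smul_mem _ (hW v hvW))) (W.add_mem (W.smul_mem _ huW) (W.smul_mem _ (hW u huW)))
    have hPd : finrank F P ≤ 4 := by
      have h3 := Submodule.finrank_add_le_finrank_add_finrank (Submodule.span F {v, x v}) (Submodule.span F {u, x u})
      have h4 : finrank F (Submodule.span F {u, x u}) ≤ 2 := by
        classical
        refine (finrank_span_le_card _).trans ?_
        rw [Set.toFinset_insert, Set.toFinset_singleton]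
        exact Finset.card_le_two
      rw [← hP] at h3
      rw [← hS] at h3
      omega
    have g1 := H99.split_ND_compl (of Q) hN hPN hPW
    have g3 := H99.split_finrank (of Q) hPN hPW
    have g4 : ∀ v ∈ H99.orth (of Q) P, x v ∈ H99.orth (of Q) P := H99.orth_inv_of_isom' (of Q) hinj hp hPx
    obtain ⟨U, u1, u2, u3, u4⟩ := ih (W ⊓ H99.orth (of Q) P) (fun v hv => ⟨hW v hv.1, g4 v hv.2⟩) g1 (by omega)
    have hSP : S ≤ P := le_sup_left
    have ho : ∀ a ∈ P, ∀ b ∈ U, polar Q a b = 0 := fun a ha b hb => (pc Q a b).trans ((u1 hb).2 a ha)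
    refine ⟨S ⊔ U, sup_le hSW (u1.trans inf_le_left), ?_, ?_, ?_⟩
    · intro w hw
      obtain ⟨a, ha, b, hb, rfl⟩ := Submodule.mem_sup.mp hw
      rw [map_add]
      exact Submodule.add_mem_sup (hSx a ha) (u2 b hb)
    · intro w hw
      obtain ⟨a, ha, b, hb, rfl⟩ := Submodule.mem_sup.mp hw
      rw [qadd, hSTS a ha, u3 b hb, ho a (hSP ha) b hb, add_zero, add_zero]
    · have hdis : Disjoint S U := (disj_of_orth hPN ho).mono_left hSP
      rw [finrank_sup_disj hdis, hSd, u4]
      ring

end lin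

end Cfsg.Agent.H39.OE
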