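import Mathlib
import Cfsg.Agent.H39.OT6

/-!
Totally singular subspaces: translation to matrices, the criteria for `r = 2`.
-/

set_option autoImplicit false

namespace Cfsg.Agent.H39.OE

open Module QuadraticMap Cfsg.Agent.Orth Polynomial

variable {F : Type*} [Field F] [Fintype F] {ι : Type} [Fintype ι] [DecidableEq ι]

lemma tsf_iff {Q : QuadraticForm F (ι → F)} {x : (ι → F) →ₗ[F] (ι → F)} {m : ℕ} :
    (∃ W : Submodule F (ι → F), finrank F W = m ∧ (∀ w ∈ W, Q w = 0) ∧ W.map x ≤ W) ↔ TSf Q x m := by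
  constructor
  · rintro ⟨W, h1, h2, h3⟩
    exact ⟨W, h1, h2, fun v hv => h3 ⟨v, hv, rfl⟩⟩
  · rintro ⟨W, h1, h2, h3⟩
    refine ⟨W, h1, h2, ?_⟩
    rintro _ ⟨v, hv, rfl⟩
    exact h3 v hv

/-- translation, elements of prime order -/
theorem tsf_trans_order {Q : QuadraticForm F (ι → F)} (hQ : (polarBilin Q).Nondegenerate) (hd : 5 ≤ finrank F (ι → F))
    {m r : ℕ} [Fact r.Prime] (hr2 : r ≠ 2) :
    (∀ x : GL ι F, x ∈ Cfsg.Geo.omegaGL (⇑Q) → orderOf x = r → TSf Q (Matrix.toLin' (x : Matrix ι ι F)) m) ↔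
    (∀ x : (ι → F) →ₗ[F] (ι → F), (∀ v, Q (x v) = Q v) → x ^ r = 1 → x ≠ 1 → TSf Q x m) := by
  have hrp : r.Prime := Fact.out
  constructor
  · intro h x x1 x2 x3
    obtain ⟨g, g1, g2, g3⟩ := omega_mem hQ hd x1 (hrp.odd_of_ne_two hr2) x2
    have h4 := h g g1 (orderOf_eq_prime g2 (by
      rintro rfl
      apply x3
      rw [← g3, Units.val_one, Matrix.toLin'_one]
      rfl))
    rwa [g3] at h4
  · intro h x x1 x2
    have h1 : ∀ k : ℕ, (Matrix.toLin' (x : Matrix ι ι F)) ^ k = Matrix.toLin' ((x ^ k : GL ι F) : Matrix ι ι F) := by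
      intro k
      rw [← Matrix.toLin'_pow, Units.val_pow_eq_pow_val]
    exact h (Matrix.toLin' (x : Matrix ι ι F)) (H99.isom_of_mem_omegaGL x1) (by
      rw [h1, ← x2, pow_orderOf_eq_one, Units.val_one, Matrix.toLin'_one]
      rfl) (by
      intro h3
      have h4 : x = 1 := by
        apply Units.ext
        apply Matrix.toLin'.injective
        rw [h3, Units.val_one, Matrix.toLin'_one]
        rfl
      rw [h4, orderOf_one] at x2
      exact hrp.one_lt.ne x2)

/-- translation, projective elements of prime order -/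
theorem tsf_trans_scalar {Q : QuadraticForm F (ι → F)} (hQ : (polarBilin Q).Nondegenerate) (hd : 5 ≤ finrank F (ι → F))
    {m r : ℕ} [Fact r.Prime] (hr2 : r ≠ 2) :
    (∀ x : GL ι F, x ∈ Cfsg.Geo.omegaGL (⇑Q) → (∃ z : F, ((x ^ r : GL ι F) : Matrix ι ι F) = z • (1 : Matrix ι ι F)) →
      (∀ z : F, (x : Matrix ι ι F) ≠ z • (1 : Matrix ι ι F)) → TSf Q (Matrix.toLin' (x : Matrix ι ι F)) m) ↔
    (∀ x : (ι → F) →ₗ[F] (ι → F), (∀ v, Q (x v) = Q v) → x ^ r = 1 → x ≠ 1 → TSf Q x m) := by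
  have hrp : r.Prime := Fact.out
  have hro := hrp.odd_of_ne_two hr2
  constructor
  · intro h x x1 x2 x3
    obtain ⟨g, g1, g2, g3⟩ := omega_mem hQ hd x1 hro x2
    have h4 := h g g1 ⟨1, by rw [g2, Units.val_one, one_smul]⟩ (by
      intro z hz
      have h4 : x = z • 1 := by
        rw [← g3, hz, map_smul, Matrix.toLin'_one]
        rfl
      have h5 : z * z = 1 := scalar_sq hQ (by omega) (fun v => by
        have := x1 v
        rwa [h4] at this)
      have h6 : z ^ r = 1 := by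
        have hnt : Nontrivial (ι → F) := Module.nontrivial_of_finrank_pos (R := F) (by omega)
        obtain ⟨v, hv⟩ := exists_ne (0 : ι → F)
        have h7 : (x ^ r) v = z ^ r • v := by
          rw [h4, _root_.smul_pow, one_pow]
          rfl
        rw [x2, Module.End.one_apply] at h7
        have h8 : (z ^ r - 1) • v = 0 := by rw [sub_smul, one_smul, ← h7, sub_self]
        exact sub_eq_zero.mp ((smul_eq_zero.mp h8).resolve_right hv)
      obtain ⟨k, hk⟩ := hro
      rw [hk, pow_succ, pow_mul, pow_two, h5, one_pow, one_mul] at h6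
      apply x3
      rw [h4, h6, one_smul])
    rwa [g3] at h4
  · rintro h x x1 ⟨z, x2⟩ x3
    have h1 : ∀ k : ℕ, (Matrix.toLin' (x : Matrix ι ι F)) ^ k = Matrix.toLin' ((x ^ k : GL ι F) : Matrix ι ι F) := by
      intro k
      rw [← Matrix.toLin'_pow, Units.val_pow_eq_pow_val]
    have hx := H99.isom_of_mem_omegaGL x1
    have hpw : (Matrix.toLin' (x : Matrix ι ι F)) ^ r = z • 1 := by
      rw [h1, x2, map_smul, Matrix.toLin'_one]
      rfl
    have hxp : ∀ (k : ℕ) v, Q (((Matrix.toLin' (x : Matrix ι ι F)) ^ k) v) = Q v := by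
      intro k
      induction k with
      | zero => intro v; rfl
      | succ k ih =>
        intro v
        rw [pow_succ', Module.End.mul_apply, hx, ih]
    have hz : z * z = 1 := scalar_sq hQ (by omega) (fun v => by
      have := hxp r v
      rwa [hpw] at this)
    have hz0 : z ≠ 0 := by
      rintro rfl
      rw [zero_mul] at hz
      exact zero_ne_one hz
    obtain ⟨W, hW1, hW3, hW2⟩ := h (z • Matrix.toLin' (x : Matrix ι ι F)) (fun v => by
      rw [LinearMap.smul_apply, qsmul, hz, one_mul, hx]) (by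
      rw [_root_.smul_pow, hpw, smul_smul]
      obtain ⟨k, hk⟩ := hro
      have : z ^ r * z = 1 := by
        rw [hk, pow_succ, pow_mul, pow_two, hz, one_pow, one_mul, hz]
      rw [this, one_smul]) (by
      intro h3
      apply x3 z
      apply Matrix.toLin'.injective
      rw [map_smul, Matrix.toLin'_one]
      have h4 := congrArg (fun f : (ι → F) →ₗ[F] (ι → F) => z • f) h3
      simp only [smul_smul, hz, one_smul] at h4
      rw [h4]
      rfl)
    refine ⟨W, hW1, hW3, ?_⟩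
    intro v hv
    have h5 := W.smul_mem z (hW2 v hv)
    rw [LinearMap.smul_apply, smul_smul, hz, one_smul] at h5
    exact h5

/-- the `-1`-eigenspace of an involution in `Ω` -/
lemma invol_pt_gl (h2 : (2 : F) ≠ 0) (hs : IsSquare (-1 : F)) {Q : QuadraticForm F (ι → F)} (hQ : (polarBilin Q).Nondegenerate) (hd : 5 ≤ finrank F (ι → F))
    {x : GL ι F} (hx : x ∈ Cfsg.Geo.omegaGL (⇑Q)) (hxx : ∀ v, Matrix.toLin' (x : Matrix ι ι F) (Matrix.toLin' (x : Matrix ι ι F) v) = v) :
    PT Q (LinearMap.ker (Matrix.toLin' (x : Matrix ι ι F) + 1)) := by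
  obtain ⟨d1, -⟩ := invol_dims h2 hQ hx hxx
  obtain ⟨g, hg, rfl⟩ := hx
  exact invol_pt h2 hs hQ hd (y := bridge Q g) ((mem_Omega_iff Q g).mp hg) (fun v => by
    rw [bridge_apply, Matrix.toLin'_apply]
    rfl) hxx d1

lemma bad_gl (h2 : (2 : F) ≠ 0) (hs : ¬ IsSquare (-1 : F)) {Q : QuadraticForm F (ι → F)} (hQ : (polarBilin Q).Nondegenerate) (hd : 5 ≤ finrank F (ι → F)) :
    ∃ g : GL ι F, g ∈ Cfsg.Geo.omegaGL (⇑Q) ∧ orderOf g = 2 ∧ ((g ^ 2 : GL ι F) : Matrix ι ι F) = (1 : F) • (1 : Matrix ι ι F) ∧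
      (∀ z : F, (g : Matrix ι ι F) ≠ z • (1 : Matrix ι ι F)) ∧
      (∀ v, Matrix.toLin' (g : Matrix ι ι F) (Matrix.toLin' (g : Matrix ι ι F) v) = v) ∧
      finrank F (LinearMap.ker (Matrix.toLin' (g : Matrix ι ι F) + 1)) = 2 ∧ ¬ PT Q (LinearMap.ker (Matrix.toLin' (g : Matrix ι ι F) + 1)) := by
  obtain ⟨y, y1, x, y2, y3, y4, y5⟩ := exists_bad_invol h2 hs hQ hd
  obtain ⟨g, g1, g2⟩ := omega_of_comm (x := x) ⟨y, y1, y2⟩
  have hxi : ∀ v, Q (x v) = Q v := fun v => by rw [← y2]; exact OGrp_q y v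
  have hsq : g ^ 2 = 1 := by
    apply Units.ext
    apply Matrix.toLin'.injective
    have h5 : ((g ^ 2 : GL ι F) : Matrix ι ι F) = (g : Matrix ι ι F) * (g : Matrix ι ι F) := by
      rw [pow_two]; rfl
    rw [h5, Matrix.toLin'_mul, g2, Units.val_one, Matrix.toLin'_one]
    apply LinearMap.ext
    intro v
    rw [LinearMap.comp_apply, y3]
    rfl
  have hns : ∀ z : F, (g : Matrix ι ι F) ≠ z • (1 : Matrix ι ι F) := by
    intro z hz
    have h5 : ∀ v, x v = z • v := by
      intro v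
      rw [← g2, hz, map_smul, Matrix.toLin'_one]
      rfl
    have h6 : z * z = 1 := scalar_sq hQ (by omega) (fun v => by rw [← h5, hxi])
    rcases mul_self_eq_one_iff.mp h6 with rfl | rfl
    · have h7 : LinearMap.ker (x + 1) = ⊥ := by
        rw [eq_bot_iff]
        intro v hv
        have h8 := mem_ker'.mp hv
        rw [h5, one_smul] at h8
        have h9 : (2 : F) • v = 0 := by
          rw [two_smul]
          nth_rewrite 1 [h8]
          exact neg_add_cancel v
        exact (Submodule.mem_bot F).mpr ((smul_eq_zero.mp h9).resolve_left h2)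
      rw [h7, finrank_bot] at y4
      omega
    · have h7 : LinearMap.ker (x + 1) = ⊤ := by
        rw [eq_top_iff]
        intro v _
        rw [mem_ker', h5, neg_one_smul]
      rw [h7, finrank_top] at y4
      omega
  refine ⟨g, g1, orderOf_eq_prime hsq ?_, by rw [hsq, Units.val_one, one_smul], hns, by rw [g2]; exact y3, by rw [g2]; exact y4, by rw [g2]; exact y5⟩
  rintro rfl
  exact hns 1 (by rw [Units.val_one, one_smul])

lemma sq_iff : (∀ a : F, a * a ≠ -1) ↔ ¬ IsSquare (-1 : F) :=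
  ⟨fun h ⟨a, ha⟩ => h a ha.symm, fun h a ha => h ⟨a, ha.symm⟩⟩

/-- necessary condition from the bad involution -/
lemma bad_nec (h2 : (2 : F) ≠ 0) (hs : ¬ IsSquare (-1 : F)) {Q : QuadraticForm F (ι → F)} (hQ : (polarBilin Q).Nondegenerate)
    {m : ℕ} {x : GL ι F} (hx : x ∈ Cfsg.Geo.omegaGL (⇑Q))
    (hxx : ∀ v, Matrix.toLin' (x : Matrix ι ι F) (Matrix.toLin' (x : Matrix ι ι F) v) = v)
    (hD : finrank F (LinearMap.ker (Matrix.toLin' (x : Matrix ι ι F) + 1)) = 2) (hDP : ¬ PT Q (LinearMap.ker (Matrix.toLin' (x : Matrix ι ι F) + 1)))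
    (h : TSf Q (Matrix.toLin' (x : Matrix ι ι F)) m) :
    finrank F (LinearMap.ker (Matrix.toLin' (x : Matrix ι ι F) - 1)) + 2 = finrank F (ι → F) ∧
    (2 * m + 2 < finrank F (ι → F) ∨ (2 * m + 2 = finrank F (ι → F) ∧ PT Q (LinearMap.ker (Matrix.toLin' (x : Matrix ι ι F) - 1)))) := by
  have hxi := H99.isom_of_mem_omegaGL hx
  obtain ⟨n1, n2, n3, n4⟩ := invol_split h2 hQ hxi hxx
  obtain ⟨d1, d2⟩ := invol_dims h2 hQ hx hxx
  obtain ⟨m₁, m₂, hm, h3, h4⟩ := (tsf_invol h2 hQ hxi hxx m).mp h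
  rw [wt_iff n1] at h3
  rw [wt_iff n2, hD] at h4
  rw [hD] at d2
  refine ⟨d2, ?_⟩
  rcases h4 with h4 | ⟨-, h4⟩
  · have hm2 : m₂ = 0 := by omega
    rcases h3 with h3 | ⟨h3, h5⟩
    · left; omega
    · right; exact ⟨by omega, h5⟩
  · exact absurd h4 hDP

/-- type of the complement -/
lemma invol_types (h2 : (2 : F) ≠ 0) {Q : QuadraticForm F (ι → F)} (hQ : (polarBilin Q).Nondegenerate) (hV : Even (finrank F (ι → F)))
    {x : GL ι F} (hx : x ∈ Cfsg.Geo.omegaGL (⇑Q)) (hxx : ∀ v, Matrix.toLin' (x : Matrix ι ι F) (Matrix.toLin' (x : Matrix ι ι F) v) = v) :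
    PT Q ⊤ ↔ (PT Q (LinearMap.ker (Matrix.toLin' (x : Matrix ι ι F) - 1)) ↔ PT Q (LinearMap.ker (Matrix.toLin' (x : Matrix ι ι F) + 1))) := by
  have hxi := H99.isom_of_mem_omegaGL hx
  obtain ⟨n1, n2, n3, n4⟩ := invol_split h2 hQ hxi hxx
  obtain ⟨d1, d2⟩ := invol_dims h2 hQ hx hxx
  refine PT_iff hQ n1 n2 n4 n3.sup_eq_top ?_ d1
  rw [← d2, Nat.even_add] at hV
  exact hV.mpr d1

theorem two_ts_odd (h2 : (2 : F) ≠ 0) {Q : QuadraticForm F (ι → F)} (hQ : (polarBilin Q).Nondegenerate) {d m : ℕ}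
    (hd : finrank F (ι → F) = 2 * d + 1) (hd2 : 2 ≤ d) (hmd : m ≤ d) :
    (∀ x : GL ι F, x ∈ Cfsg.Geo.omegaGL (⇑Q) → orderOf x = 2 → TSf Q (Matrix.toLin' (x : Matrix ι ι F)) m) ↔ (m < d ∨ IsSquare (-1 : F)) := by
  constructor
  · intro h
    by_contra hcon
    rw [not_or] at hcon
    obtain ⟨h3, h4⟩ := hcon
    obtain ⟨g, g1, g2, -, -, g5, g6, g7⟩ := bad_gl h2 h4 hQ (by omega)
    have h5 := bad_nec h2 h4 hQ g1 g5 g6 g7 (h g g1 g2)
    omega
  · intro h x x1 hx2
    have hxx : ∀ v, Matrix.toLin' (x : Matrix ι ι F) (Matrix.toLin' (x : Matrix ι ι F) v) = v := by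
      intro v
      rw [toLin_sq (z := 1) (by rw [← hx2, pow_orderOf_eq_one, Units.val_one, one_smul]), one_smul]
    have hxi := H99.isom_of_mem_omegaGL x1
    obtain ⟨n1, n2, n3, n4⟩ := invol_split h2 hQ hxi hxx
    obtain ⟨⟨b, hb⟩, d2⟩ := invol_dims h2 hQ x1 hxx
    have hb0 : b ≠ 0 := by
      rintro rfl
      have h3 : LinearMap.ker (Matrix.toLin' (x : Matrix ι ι F) - 1) = ⊤ := Submodule.eq_top_of_finrank_eq (by omega)
      have h4 : x = 1 := by
        apply Units.ext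
        apply Matrix.toLin'.injective
        rw [Units.val_one, Matrix.toLin'_one]
        apply LinearMap.ext
        intro v
        have : v ∈ LinearMap.ker (Matrix.toLin' (x : Matrix ι ι F) - 1) := by rw [h3]; exact Submodule.mem_top
        exact mem_ker.mp this
      rw [h4, orderOf_one] at hx2
      omega
    rw [tsf_invol h2 hQ hxi hxx]
    rcases h with h | h
    · refine ⟨m - min m (b - 1), min m (b - 1), by omega, ?_, ?_⟩
      · rw [wt_iff n1]; left; omega
      · rw [wt_iff n2]; left; omega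
    · refine ⟨m - min m b, min m b, by omega, ?_, ?_⟩
      · rw [wt_iff n1]; left; omega
      · have h3 := invol_pt_gl h2 h hQ (by omega) x1 hxx
        rw [wt_iff n2]
        by_cases h4 : m < b
        · left; omega
        · right; exact ⟨by omega, h3⟩

/-- the criterion for projective involutions, plus type -/
theorem two_ts_plus (h2 : (2 : F) ≠ 0) {Q : QuadraticForm F (ι → F)} (hQ : (polarBilin Q).Nondegenerate) {d m : ℕ}
    (hd : finrank F (ι → F) = 2 * d) (hd3 : 3 ≤ d) (hmd : m < d) (hV : PT Q ⊤) :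
    (∀ x : GL ι F, x ∈ Cfsg.Geo.omegaGL (⇑Q) → (∃ z : F, ((x ^ 2 : GL ι F) : Matrix ι ι F) = z • (1 : Matrix ι ι F)) →
      (∀ z : F, (x : Matrix ι ι F) ≠ z • (1 : Matrix ι ι F)) → TSf Q (Matrix.toLin' (x : Matrix ι ι F)) m) ↔
    (IsSquare (-1 : F) ∨ (m + 2 ≤ d ∧ (Even m ∨ Odd d))) := by
  have hVe : Even (finrank F (ι → F)) := ⟨d, by omega⟩
  constructor
  · intro h
    by_contra hcon
    rw [not_or] at hcon
    obtain ⟨h3, h4⟩ := hcon
    apply h4
    obtain ⟨g, g1, -, g2, g3, g5, g6, g7⟩ := bad_gl h2 h3 hQ (by omega)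
    obtain ⟨h5, h6⟩ := bad_nec h2 h3 hQ g1 g5 g6 g7 (h g g1 ⟨1, g2⟩ g3)
    have h7 := (invol_types h2 hQ hVe g1 g5).mp hV
    constructor
    · rcases h6 with h6 | ⟨-, h6⟩
      · omega
      · exact absurd (h7.mp h6) g7
    · by_contra hcon2
      rw [not_or, Nat.not_odd_iff_even] at hcon2
      obtain ⟨x, x1, x2, x3, x4⟩ := J_omega_exists h2 hQ hd (by omega) (Or.inr hcon2.2) ⟨fun _ => Or.inr hcon2.2, fun _ => hV⟩
      obtain ⟨W, w1, w2, w3⟩ := h x x1 x3 x4
      have h8 := H99.even_of_neg_nonsplit (sq_iff.mpr h3) x2 w3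
      rw [w1] at h8
      exact hcon2.1 h8
  · rintro h x x1 ⟨z, hz⟩ x3
    have hxi := H99.isom_of_mem_omegaGL x1
    have hxz := toLin_sq hz
    have hzz : z * z = 1 := scalar_sq hQ (by omega) (fun v => by rw [← hxz, hxi, hxi])
    rcases mul_self_eq_one_iff.mp hzz with rfl | rfl
    · have hxx : ∀ v, Matrix.toLin' (x : Matrix ι ι F) (Matrix.toLin' (x : Matrix ι ι F) v) = v := fun v => by rw [hxz, one_smul]
      obtain ⟨⟨b, hb⟩, d2⟩ := invol_dims h2 hQ x1 hxx
      obtain ⟨e1, e2⟩ := ker_ne_zero x3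
      obtain ⟨n1, n2, n3, n4⟩ := invol_split h2 hQ hxi hxx
      rw [tsf_invol h2 hQ hxi hxx]
      rcases h with h | ⟨h, -⟩
      · have h3 := invol_pt_gl h2 h hQ (by omega) x1 hxx
        have h4 := ((invol_types h2 hQ hVe x1 hxx).mp hV).mpr h3
        refine ⟨m - min m b, min m b, by omega, ?_, ?_⟩
        · rw [wt_iff n1]
          by_cases h5 : 2 * (m - min m b) < finrank F (LinearMap.ker (Matrix.toLin' (x : Matrix ι ι F) - 1))
          · exact Or.inl h5
          · exact Or.inr ⟨by omega, h4⟩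
        · rw [wt_iff n2]
          by_cases h5 : m < b
          · left; omega
          · right; exact ⟨by omega, h3⟩
      · refine ⟨m - min m (b - 1), min m (b - 1), by omega, ?_, ?_⟩
        · rw [wt_iff n1]; left; omega
        · rw [wt_iff n2]; left; omega
    · have hxx : ∀ v, Matrix.toLin' (x : Matrix ι ι F) (Matrix.toLin' (x : Matrix ι ι F) v) = -v := fun v => by rw [hxz, neg_one_smul]
      by_cases hs : IsSquare (-1 : F)
      · obtain ⟨a, ha⟩ := hs
        exact tsf_J_split h2 ha.symm hQ hd hxi hxx (by omega)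
      · obtain ⟨h3, h4⟩ := h.resolve_left hs
        obtain ⟨-, h6⟩ := J_omega_necessary h2 hQ hd (by omega) x1 hxx
        have h7 := (h6.mp hV).resolve_left hs
        obtain ⟨j, hj⟩ := h4.resolve_right (by rw [Nat.not_odd_iff_even]; exact h7)
        obtain ⟨U, -, u1, u2, u3⟩ := tsf_J_nonsplit h2 (sq_iff.mpr hs) hxi hxx j ⊤ (fun _ _ => Submodule.mem_top) (nd_of_nondeg hQ) (by rw [finrank_top, hd]; omega)
        exact ⟨U, by omega, u2, u1⟩

/-- the criterion for projective involutions, minus type -/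
theorem two_ts_minus (h2 : (2 : F) ≠ 0) {Q : QuadraticForm F (ι → F)} (hQ : (polarBilin Q).Nondegenerate) {d m : ℕ}
    (hd : finrank F (ι → F) = 2 * d) (hd3 : 3 ≤ d) (hmd : m < d) (hV : ¬ PT Q ⊤) :
    (∀ x : GL ι F, x ∈ Cfsg.Geo.omegaGL (⇑Q) → (∃ z : F, ((x ^ 2 : GL ι F) : Matrix ι ι F) = z • (1 : Matrix ι ι F)) →
      (∀ z : F, (x : Matrix ι ι F) ≠ z • (1 : Matrix ι ι F)) → TSf Q (Matrix.toLin' (x : Matrix ι ι F)) m) ↔
    (Even d ∨ Even m ∨ IsSquare (-1 : F) ∨ ¬ IsSquare (2 : F)) := by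
  have hVe : Even (finrank F (ι → F)) := ⟨d, by omega⟩
  constructor
  · intro h
    by_contra hcon
    rw [not_or, not_or, not_or, not_not] at hcon
    obtain ⟨h3, h4, h5, h6⟩ := hcon
    obtain ⟨x, x1, x2, x3, x4⟩ := J_omega_exists h2 hQ hd (by omega) (Or.inl h6) ⟨fun h => absurd h hV, fun h => absurd h (by rw [not_or]; exact ⟨h5, h3⟩)⟩
    obtain ⟨W, w1, w2, w3⟩ := h x x1 x3 x4
    have h8 := H99.even_of_neg_nonsplit (sq_iff.mpr h5) x2 w3
    rw [w1] at h8
    exact h4 h8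
  · rintro h x x1 ⟨z, hz⟩ x3
    have hxi := H99.isom_of_mem_omegaGL x1
    have hxz := toLin_sq hz
    have hzz : z * z = 1 := scalar_sq hQ (by omega) (fun v => by rw [← hxz, hxi, hxi])
    rcases mul_self_eq_one_iff.mp hzz with rfl | rfl
    · have hxx : ∀ v, Matrix.toLin' (x : Matrix ι ι F) (Matrix.toLin' (x : Matrix ι ι F) v) = v := fun v => by rw [hxz, one_smul]
      obtain ⟨⟨b, hb⟩, d2⟩ := invol_dims h2 hQ x1 hxx
      obtain ⟨e1, e2⟩ := ker_ne_zero x3
      obtain ⟨n1, n2, n3, n4⟩ := invol_split h2 hQ hxi hxx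
      have h3 := invol_types h2 hQ hVe x1 hxx
      rw [tsf_invol h2 hQ hxi hxx]
      by_cases h4 : PT Q (LinearMap.ker (Matrix.toLin' (x : Matrix ι ι F) + 1))
      · refine ⟨m - min m b, min m b, by omega, ?_, ?_⟩
        · rw [wt_iff n1]
          left; omega
        · rw [wt_iff n2]
          by_cases h5 : m < b
          · left; omega
          · right; exact ⟨by omega, h4⟩
      · have h5 : PT Q (LinearMap.ker (Matrix.toLin' (x : Matrix ι ι F) - 1)) := by
          by_contra h6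
          exact hV (h3.mpr ⟨fun h => absurd h h6, fun h => absurd h h4⟩)
        refine ⟨m - min m (b - 1), min m (b - 1), by omega, ?_, ?_⟩
        · rw [wt_iff n1]
          by_cases h6 : 2 * (m - min m (b - 1)) < finrank F (LinearMap.ker (Matrix.toLin' (x : Matrix ι ι F) - 1))
          · exact Or.inl h6
          · exact Or.inr ⟨by omega, h5⟩
        · rw [wt_iff n2]; left; omega
    · have hxx : ∀ v, Matrix.toLin' (x : Matrix ι ι F) (Matrix.toLin' (x : Matrix ι ι F) v) = -v := fun v => by rw [hxz, neg_one_smul]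
      obtain ⟨h5, h6⟩ := J_omega_necessary h2 hQ hd (by omega) x1 hxx
      have h7 : ¬ (IsSquare (-1 : F) ∨ Even d) := fun h => hV (h6.mpr h)
      rw [not_or] at h7
      obtain ⟨j, hj⟩ : Even m := by
        rcases h with h | h | h | h
        · exact absurd h h7.2
        · exact h
        · exact absurd h h7.1
        · exact absurd (h5.resolve_right h7.2) h
      obtain ⟨U, -, u1, u2, u3⟩ := tsf_J_nonsplit h2 (sq_iff.mpr h7.1) hxi hxx j ⊤ (fun _ _ => Submodule.mem_top) (nd_of_nondeg hQ) (by rw [finrank_top, hd]; omega)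
      exact ⟨U, by omega, u2, u1⟩

end Cfsg.Agent.H39.OE
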