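import Mathlib

/-! Pieces (G) and (M) of S4781: stabilizers of equal orders on an abelian group, and actions on
cyclic groups. -/

set_option autoImplicit false

open MulAction

namespace Cfsg.Agent.H39.S4781G

theorem stab_pow_le {Y W : Type*} [Group Y] [CommGroup W] [MulDistribMulAction Y W] (w : W)
    (n : ℕ) : stabilizer Y w ≤ stabilizer Y (w ^ n) := by
  intro y hy
  rw [mem_stabilizer_iff] at hy ⊢
  rw [smul_pow', hy]

theorem stab_eq {Y W : Type*} [Group Y] [Finite Y] [CommGroup W] [MulDistribMulAction Y W]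
    (h : ∀ w w' : W, w ≠ 1 → w' ≠ 1 →
      Nat.card (MulAction.stabilizer Y w) = Nat.card (MulAction.stabilizer Y w'))
    {w w' : W} (hw : w ≠ 1) (hw' : w' ≠ 1) (hle : stabilizer Y w ≤ stabilizer Y w') :
    stabilizer Y w = stabilizer Y w' :=
  Subgroup.eq_of_le_of_card_ge hle (h w w' hw hw').symm.le

theorem exists_pow_left {W : Type*} [CommGroup W] {w w' : W}
    (hc : (orderOf w).Coprime (orderOf w')) : ∃ n : ℕ, (w * w') ^ n = w := by
  obtain ⟨n, h1, h2⟩ := Nat.chineseRemainder hc 1 0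
  refine ⟨n, ?_⟩
  rw [mul_pow]
  have h3 : w ^ n = w ^ 1 := pow_eq_pow_iff_modEq.2 h1
  have h4 : w' ^ n = w' ^ 0 := pow_eq_pow_iff_modEq.2 h2
  rw [h3, h4, pow_one, pow_zero, mul_one]

theorem stab_coprime {Y W : Type*} [Group Y] [Finite Y] [CommGroup W]
    [MulDistribMulAction Y W]
    (h : ∀ w w' : W, w ≠ 1 → w' ≠ 1 →
      Nat.card (MulAction.stabilizer Y w) = Nat.card (MulAction.stabilizer Y w'))
    {w w' : W} (hw : w ≠ 1) (hw' : w' ≠ 1) (hc : (orderOf w).Coprime (orderOf w')) :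
    stabilizer Y w = stabilizer Y w' := by
  obtain ⟨n, hn⟩ := exists_pow_left hc
  obtain ⟨m, hm⟩ := exists_pow_left hc.symm
  rw [mul_comm] at hm
  have hne : w * w' ≠ 1 := by
    intro e
    rw [e, one_pow] at hn
    exact hw hn.symm
  have h1 : stabilizer Y (w * w') = stabilizer Y w := by
    refine stab_eq h hne hw ?_
    have := stab_pow_le (Y := Y) (w * w') n
    rwa [hn] at this
  have h2 : stabilizer Y (w * w') = stabilizer Y w' := by
    refine stab_eq h hne hw' ?_
    have := stab_pow_le (Y := Y) (w * w') m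
    rwa [hm] at this
  exact h1.symm.trans h2

/-- Piece (G) of S4781 -/
theorem prime_or_const {Y W : Type*} [Group Y] [Finite Y] [CommGroup W] [Finite W]
    [MulDistribMulAction Y W]
    (h : ∀ w w' : W, w ≠ 1 → w' ≠ 1 →
      Nat.card (MulAction.stabilizer Y w) = Nat.card (MulAction.stabilizer Y w')) :
    (∃ r k : ℕ, r.Prime ∧ Nat.card W = r ^ k) ∨
      ∀ w w' : W, w ≠ 1 → w' ≠ 1 → MulAction.stabilizer Y w = MulAction.stabilizer Y w' := by
  classical
  by_cases h1 : Nat.card W = 1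
  · exact Or.inl ⟨2, 0, Nat.prime_two, by rw [h1, pow_zero]⟩
  obtain ⟨r, hr, hrW⟩ := Nat.exists_prime_and_dvd h1
  by_cases h2 : ∃ k, Nat.card W = r ^ k
  · obtain ⟨k, hk⟩ := h2
    exact Or.inl ⟨r, k, hr, hk⟩
  right
  -- another prime divisor
  obtain ⟨s, hs, hsW, hsr⟩ : ∃ s : ℕ, s.Prime ∧ s ∣ Nat.card W ∧ s ≠ r := by
    by_contra hcon
    push Not at hcon
    apply h2
    exact ⟨_, Nat.eq_prime_pow_of_unique_prime_dvd (Nat.card_pos (α := W)).ne'
      (fun {d} hd hdW => hcon d hd hdW)⟩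
  haveI : Fact r.Prime := ⟨hr⟩
  haveI : Fact s.Prime := ⟨hs⟩
  obtain ⟨wr, hwr⟩ := exists_prime_orderOf_dvd_card' r hrW
  obtain ⟨ws, hws⟩ := exists_prime_orderOf_dvd_card' s hsW
  have hwr1 : wr ≠ 1 := by
    intro e
    rw [e, orderOf_one] at hwr
    exact hr.one_lt.ne hwr
  have hws1 : ws ≠ 1 := by
    intro e
    rw [e, orderOf_one] at hws
    exact hs.one_lt.ne hws
  have hrs : stabilizer Y wr = stabilizer Y ws := by
    refine stab_coprime h hwr1 hws1 ?_
    rw [hwr, hws]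
    exact (Nat.coprime_primes hr hs).2 hsr.symm
  have key : ∀ w : W, w ≠ 1 → stabilizer Y w = stabilizer Y wr := by
    intro w hw
    have ho : orderOf w ≠ 1 := fun e => hw (orderOf_eq_one_iff.1 e)
    obtain ⟨t, ht, htw⟩ := Nat.exists_prime_and_dvd ho
    have ho' : orderOf (w ^ (orderOf w / t)) = t :=
      orderOf_pow_orderOf_div (orderOf_pos w).ne' htw
    have hw1 : w ^ (orderOf w / t) ≠ 1 := by
      intro e
      rw [e, orderOf_one] at ho'
      exact ht.one_lt.ne ho'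
    have h3 := stab_eq h hw hw1 (stab_pow_le w _)
    rw [h3]
    by_cases htr : t = r
    · rw [hrs]
      refine stab_coprime h hw1 hws1 ?_
      rw [ho', hws, htr]
      exact (Nat.coprime_primes hr hs).2 hsr.symm
    · refine stab_coprime h hw1 hwr1 ?_
      rw [ho', hwr]
      exact (Nat.coprime_primes ht hr).2 htr
  intro w w' hw hw'
  rw [key w hw, key w' hw']

/-- Piece (M) of S4781 -/
theorem cyc_action {Y V : Type*} [Group Y] [CommGroup V] [Finite V] [IsCyclic V]
    [MulDistribMulAction Y V] (a b : Y) (v : V) : (a * b * a⁻¹ * b⁻¹) • v = v := by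
  obtain ⟨g, hg⟩ := IsCyclic.exists_generator (α := V)
  have hpow : ∀ y : Y, ∃ n : ℤ, ∀ w : V, y • w = w ^ n := by
    intro y
    obtain ⟨n, hn⟩ := Subgroup.mem_zpowers_iff.1 (hg (y • g))
    refine ⟨n, fun w => ?_⟩
    obtain ⟨m, rfl⟩ := Subgroup.mem_zpowers_iff.1 (hg w)
    have h1 : y • g ^ m = (y • g) ^ m := by
      have := map_zpow (MulDistribMulAction.toMonoidHom V y) g m
      simpa using this
    rw [h1, ← hn, ← zpow_mul, ← zpow_mul, mul_comm]
  have hcomm : ∀ (c d : Y) (w : V), (c * d) • w = (d * c) • w := by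
    intro c d w
    obtain ⟨n, hn⟩ := hpow c
    obtain ⟨m, hm⟩ := hpow d
    rw [mul_smul, mul_smul, hn, hm, hm, hn, ← zpow_mul, ← zpow_mul, mul_comm]
  have h1 : a * b * a⁻¹ * b⁻¹ = (a * b) * (b * a)⁻¹ := by group
  rw [h1, mul_smul, hcomm a b, smul_inv_smul]

end Cfsg.Agent.H39.S4781G
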