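import Mathlib
import Cfsg.Agent.H91.CoprimeAb

/-! Piece (H) of S4781: a Schur-Zassenhaus / Frattini argument. -/

set_option autoImplicit false

namespace Cfsg.Agent.H39.S4781H

open scoped commutatorElement

/-- Piece (H) of S4781 -/
theorem sz {G : Type*} [Group G] [Finite G] {L H M : Subgroup G} [L.Normal] [H.Normal] [M.Normal]
    (hHL : H ≤ L) (hMH : M ≤ H) (hMab : ∀ a ∈ M, ∀ b ∈ M, a * b = b * a) {r k : ℕ}
    (hr : r.Prime) (hk : M.relIndex H = r ^ k) (hrM : ¬ r ∣ Nat.card M) (hMH' : ⁅M, H⁆ = M) :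
    ∃ R L1 : Subgroup G, R ≤ H ∧ R ≤ L1 ∧ L1 ≤ L ∧ (∀ l ∈ L1, ∀ x ∈ R, l * x * l⁻¹ ∈ R) ∧
      M ⊓ R = ⊥ ∧ M ⊔ R = H ∧ M ⊓ L1 = ⊥ ∧ M ⊔ L1 = L ∧ ⁅M, R⁆ = M := by
  classical
  haveI : Fact r.Prime := ⟨hr⟩
  obtain ⟨P⟩ : Nonempty (Sylow r H) := inferInstance
  set R : Subgroup G := (P : Subgroup H).map H.subtype with hR
  have hRH : R ≤ H := Subgroup.map_subtype_le _
  have hRp : IsPGroup r R := P.isPGroup'.map _
  have hcop : (Nat.card R).Coprime (Nat.card M) := by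
    obtain ⟨n, hn⟩ := IsPGroup.iff_card.1 hRp
    rw [hn]
    exact Nat.Coprime.pow_left _ ((Nat.Prime.coprime_iff_not_dvd hr).2 hrM)
  have hMR : M ⊓ R = ⊥ := by
    rw [inf_comm]
    exact Subgroup.inf_eq_bot_of_coprime hcop
  have hRi : ¬ r ∣ R.relIndex H := by
    have h1 : R.subgroupOf H = (P : Subgroup H) := by
      rw [hR, Subgroup.subgroupOf, Subgroup.comap_map_eq_self_of_injective H.subtype_injective]
    rw [Subgroup.relIndex, h1]
    exact P.not_dvd_index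
  have hsup : M ⊔ R = H := by
    refine le_antisymm (sup_le hMH hRH) ?_
    rw [← Subgroup.relIndex_eq_one]
    have h1 : (M ⊔ R).relIndex H ∣ r ^ k := by
      rw [← hk]
      exact Subgroup.relIndex_dvd_of_le_left _ le_sup_left
    have h2 : (M ⊔ R).relIndex H ∣ R.relIndex H :=
      Subgroup.relIndex_dvd_of_le_left _ le_sup_right
    obtain ⟨j, -, hj⟩ := (Nat.dvd_prime_pow hr).1 h1
    rcases Nat.eq_zero_or_pos j with rfl | hj0
    · rw [hj, pow_zero]
    · exfalso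
      apply hRi
      refine dvd_trans ?_ h2
      rw [hj]
      exact dvd_pow_self r hj0.ne'
  have hMRM : ⁅M, R⁆ = M := by
    refine le_antisymm (Subgroup.commutator_le_left M R) ?_
    conv_lhs => rw [← hMH']
    rw [Subgroup.commutator_le]
    intro m hm h hh
    rw [← hsup, Subgroup.mem_sup_of_normal_left] at hh
    obtain ⟨m', hm', x, hx, rfl⟩ := hh
    have h1 : ⁅m, x⁆ ∈ M := by
      have := Subgroup.commutator_mem_commutator hm hx
      exact Subgroup.commutator_le_left M R this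
    have h2 : ⁅m, m' * x⁆ = ⁅m, x⁆ := by
      have h3 := hMab m hm m' hm'
      have h4 := hMab _ h1 m' hm'
      calc ⁅m, m' * x⁆ = (m * m') * (x * m⁻¹ * x⁻¹) * m'⁻¹ := by
            simp only [commutatorElement_def]; group
        _ = (m' * m) * (x * m⁻¹ * x⁻¹) * m'⁻¹ := by rw [h3]
        _ = m' * ⁅m, x⁆ * m'⁻¹ := by simp only [commutatorElement_def]; group
        _ = ⁅m, x⁆ * m' * m'⁻¹ := by rw [← h4]
        _ = ⁅m, x⁆ := by group
    rw [h2]
    exact Subgroup.commutator_mem_commutator hm hx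
  have hRn : R ≤ Subgroup.normalizer (R : Set G) := Subgroup.le_normalizer
  have hcen : M ⊓ Subgroup.centralizer (R : Set G) = ⊥ := by
    haveI : IsMulCommutative M := ⟨⟨fun a b => Subtype.ext (hMab a a.2 b b.2)⟩⟩
    have h1 := (H91.abelian_decomp R M
      (by rw [Subgroup.normalizer_eq_top]; exact le_top) hcop).1
    rw [hMRM] at h1
    rw [← h1]
    exact (inf_eq_left.2 inf_le_left).symm
  refine ⟨R, L ⊓ Subgroup.normalizer (R : Set G), hRH, le_inf (hRH.trans hHL) hRn, inf_le_left,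
    ?_, hMR, hsup, ?_, ?_, hMRM⟩
  · intro l hl x hx
    exact (Subgroup.mem_normalizer_iff.1 hl.2 x).1 hx
  · rw [eq_bot_iff, ← hcen]
    rintro m ⟨hm, -, hmN⟩
    refine ⟨hm, Subgroup.mem_centralizer_iff.2 fun x hx => ?_⟩
    have h1 : m * x * m⁻¹ ∈ R := (Subgroup.mem_normalizer_iff.1 hmN x).1 hx
    have h2 : m * x * m⁻¹ * x⁻¹ ∈ M ⊓ R := by
      refine ⟨?_, Subgroup.mul_mem _ h1 (Subgroup.inv_mem _ hx)⟩
      have h3 : x * m⁻¹ * x⁻¹ ∈ M := ‹M.Normal›.conj_mem _ (Subgroup.inv_mem _ hm) x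
      have h4 := Subgroup.mul_mem _ hm h3
      rwa [show m * (x * m⁻¹ * x⁻¹) = m * x * m⁻¹ * x⁻¹ by group] at h4
    rw [hMR, Subgroup.mem_bot] at h2
    calc x * m = 1 * x * m := by group
      _ = (m * x * m⁻¹ * x⁻¹) * x * m := by rw [h2]
      _ = m * x := by group
  · refine le_antisymm (sup_le (hMH.trans hHL) inf_le_left) ?_
    intro l hl
    have h1 : l ∈ Subgroup.normalizer (R : Set G) ⊔ H := by
      rw [hR, Sylow.normalizer_sup_eq_top P]
      exact Subgroup.mem_top _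
    rw [Subgroup.mem_sup_of_normal_right] at h1
    obtain ⟨n, hn, h, hh, rfl⟩ := h1
    have hnL : n ∈ L := by
      have := Subgroup.mul_mem _ hl (Subgroup.inv_mem _ (hHL hh))
      rwa [mul_inv_cancel_right] at this
    refine Subgroup.mul_mem _ (Subgroup.mem_sup_right ⟨hnL, hn⟩) ?_
    rw [← hsup] at hh
    exact (sup_le_sup_left (le_inf (hRH.trans hHL) hRn) M) hh

end Cfsg.Agent.H39.S4781H
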