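import Mathlib

/-!
`SL_n` is transitive on pairs of independent vectors for `n ≥ 3`.
-/

set_option autoImplicit false
set_option linter.unusedSectionVars false

namespace Cfsg.Agent.H39

open Matrix

theorem exists_equiv_pair {F V : Type*} [Field F] [AddCommGroup V] [Module F V] [FiniteDimensional F V]
    {v w v' w' : V} (h : LinearIndependent F ![v, w]) (h' : LinearIndependent F ![v', w']) :
    ∃ g : V ≃ₗ[F] V, g v = v' ∧ g w = w' := by
  let f := h.linearCombinationEquiv.symm ≪≫ₗ h'.linearCombinationEquiv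
  obtain ⟨g, hg⟩ := Submodule.exists_linearEquiv_restrict_eq f
  have q0 : (h.linearCombinationEquiv (Finsupp.single 0 1) : V) = v := by simp
  have q1 : (h.linearCombinationEquiv (Finsupp.single 1 1) : V) = w := by simp
  have q0' : (h'.linearCombinationEquiv (Finsupp.single 0 1) : V) = v' := by simp
  have q1' : (h'.linearCombinationEquiv (Finsupp.single 1 1) : V) = w' := by simp
  refine ⟨g, ?_, ?_⟩
  · have h1 := hg (h.linearCombinationEquiv (Finsupp.single 0 1))
    rw [q0] at h1
    rw [← h1]
    simp [f]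
  · have h1 := hg (h.linearCombinationEquiv (Finsupp.single 1 1))
    rw [q1] at h1
    rw [← h1]
    simp [f]

theorem exists_sl_pair {F : Type*} [Field F] {n : ℕ} (hn : 3 ≤ n) {v w v' w' : Fin n → F}
    (h : LinearIndependent F ![v, w]) (h' : LinearIndependent F ![v', w']) :
    ∃ A : SpecialLinearGroup (Fin n) F, (A : Matrix (Fin n) (Fin n) F).mulVec v = v' ∧
      (A : Matrix (Fin n) (Fin n) F).mulVec w = w' := by
  obtain ⟨g, hg1, hg2⟩ := exists_equiv_pair h h'
  have hlt : Submodule.span F (Set.range ![v, w]) < ⊤ := by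
    rw [lt_top_iff_ne_top]
    intro htop
    have h1 := finrank_span_eq_card h
    rw [htop, finrank_top, Module.finrank_fin_fun, Fintype.card_fin] at h1
    omega
  obtain ⟨f, hf0, hf⟩ := Submodule.exists_le_ker_of_lt_top _ hlt
  have hfv : f v = 0 := by
    have : v ∈ Submodule.span F (Set.range ![v, w]) := Submodule.subset_span ⟨0, rfl⟩
    exact hf this
  have hfw : f w = 0 := by
    have : w ∈ Submodule.span F (Set.range ![v, w]) := Submodule.subset_span ⟨1, rfl⟩
    exact hf this
  obtain ⟨u, hu⟩ : ∃ u, f u = 1 := (LinearMap.surjective hf0) 1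
  have hd : LinearMap.det (g : (Fin n → F) →ₗ[F] (Fin n → F)) ≠ 0 := (LinearEquiv.isUnit_det' g).ne_zero
  set a := (LinearMap.det (g : (Fin n → F) →ₗ[F] (Fin n → F)))⁻¹ with ha
  set T := LinearMap.transvection f ((a - 1) • u) with hT
  have hTv : T v = v := by rw [hT, LinearMap.transvection.apply, hfv, zero_smul, add_zero]
  have hTw : T w = w := by rw [hT, LinearMap.transvection.apply, hfw, zero_smul, add_zero]
  have hTd : LinearMap.det T = a := by
    rw [hT, LinearMap.transvection.det, map_smul, hu, smul_eq_mul, mul_one]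
    ring
  refine ⟨⟨LinearMap.toMatrix' ((g : (Fin n → F) →ₗ[F] (Fin n → F)) ∘ₗ T), ?_⟩, ?_, ?_⟩
  · rw [LinearMap.det_toMatrix', LinearMap.det_comp, hTd, ha, mul_inv_cancel₀ hd]
  · show (LinearMap.toMatrix' ((g : (Fin n → F) →ₗ[F] (Fin n → F)) ∘ₗ T)).mulVec v = v'
    rw [← Matrix.toLin'_apply, Matrix.toLin'_toMatrix', LinearMap.comp_apply, hTv]
    exact hg1
  · show (LinearMap.toMatrix' ((g : (Fin n → F) →ₗ[F] (Fin n → F)) ∘ₗ T)).mulVec w = w'
    rw [← Matrix.toLin'_apply, Matrix.toLin'_toMatrix', LinearMap.comp_apply, hTw]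
    exact hg2

end Cfsg.Agent.H39
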