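import Mathlib
import Cfsg.Agent.H39.OT7
import Cfsg.Agent.Orth.HermQuad
import Cfsg.Agent.Orth.Spinor
import Cfsg.Agent.Orth.OrthList

/-!
Spectra of orthogonal groups in odd characteristic: gluing of isometries, realizable data.
-/

set_option autoImplicit false

namespace Cfsg.Agent.H39.SP

open Module QuadraticMap Cfsg.Agent.Orth Cfsg.Agent.H39.OE

section maps
variable {F : Type*} [Field F] {V₁ V₂ V : Type*} [AddCommGroup V₁] [Module F V₁] [AddCommGroup V₂] [Module F V₂]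
  [AddCommGroup V] [Module F V]

/-- image of a list of nonsingular vectors -/
def mapL {Q₁ : QuadraticForm F V₁} {Q : QuadraticForm F V} (f : V₁ →ₗ[F] V) (hf : ∀ v, Q (f v) = Q₁ v)
    (l : List {v : V₁ // Q₁ v ≠ 0}) : List {v : V // Q v ≠ 0} :=
  l.map fun v => ⟨f v.1, by rw [hf]; exact v.2⟩

lemma length_mapL {Q₁ : QuadraticForm F V₁} {Q : QuadraticForm F V} (f : V₁ →ₗ[F] V) (hf : ∀ v, Q (f v) = Q₁ v)
    (l : List {v : V₁ // Q₁ v ≠ 0}) : (mapL f hf l).length = l.length := by simp [mapL]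

lemma nrm_mapL {Q₁ : QuadraticForm F V₁} {Q : QuadraticForm F V} (f : V₁ →ₗ[F] V) (hf : ∀ v, Q (f v) = Q₁ v)
    (l : List {v : V₁ // Q₁ v ≠ 0}) : nrm Q (mapL f hf l) = nrm Q₁ l := by
  induction l with
  | nil => rfl
  | cons v l ih =>
    rw [mapL, List.map_cons, nrm_cons, nrm_cons, ← ih]
    change Q (f v.1) * _ = _
    rw [hf]
    rfl

lemma polar_map {Q₁ : QuadraticForm F V₁} {Q : QuadraticForm F V} {f : V₁ →ₗ[F] V} (hf : ∀ v, Q (f v) = Q₁ v) (u v : V₁) :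
    polar Q (f u) (f v) = polar Q₁ u v := polar_of_isom hf u v

lemma reflProd_mapL {Q₁ : QuadraticForm F V₁} {Q : QuadraticForm F V} (f : V₁ →ₗ[F] V) (hf : ∀ v, Q (f v) = Q₁ v)
    (l : List {v : V₁ // Q₁ v ≠ 0}) (u : V₁) :
    (reflProd Q (mapL f hf l) : V ≃ₗ[F] V) (f u) = f ((reflProd Q₁ l : V₁ ≃ₗ[F] V₁) u) := by
  induction l generalizing u with
  | nil => rfl
  | cons v l ih =>
    rw [mapL, List.map_cons, reflProd_cons, reflProd_cons, coe_mul_apply, coe_mul_apply]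
    change (refl Q (f v.1) _ : V ≃ₗ[F] V) ((reflProd Q (mapL f hf l) : V ≃ₗ[F] V) (f u)) = _
    rw [ih, refl_apply, refl_apply, hf, polar_map hf, map_sub, map_smul]

lemma reflProd_mapL_orth {Q₁ : QuadraticForm F V₁} {Q : QuadraticForm F V} (f : V₁ →ₗ[F] V) (hf : ∀ v, Q (f v) = Q₁ v)
    (l : List {v : V₁ // Q₁ v ≠ 0}) {w : V} (hw : ∀ v, polar Q w (f v) = 0) :
    (reflProd Q (mapL f hf l) : V ≃ₗ[F] V) w = w := by
  induction l with
  | nil => rfl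
  | cons v l ih =>
    rw [mapL, List.map_cons, reflProd_cons, coe_mul_apply]
    change (refl Q (f v.1) _ : V ≃ₗ[F] V) ((reflProd Q (mapL f hf l) : V ≃ₗ[F] V) w) = _
    rw [ih]
    exact refl_apply_of_ortho _ (hw _)

/-- gluing data -/
structure Gl {Q₁ : QuadraticForm F V₁} {Q₂ : QuadraticForm F V₂} {Q : QuadraticForm F V} (f₁ : V₁ →ₗ[F] V) (f₂ : V₂ →ₗ[F] V)
    (y₁ : OGrp Q₁) (y₂ : OGrp Q₂) (y : OGrp Q) : Prop where
  q1 : ∀ v, Q (f₁ v) = Q₁ v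
  q2 : ∀ v, Q (f₂ v) = Q₂ v
  o : ∀ u v, polar Q (f₁ u) (f₂ v) = 0
  s : LinearMap.range f₁ ⊔ LinearMap.range f₂ = ⊤
  e1 : ∀ u, (y : V ≃ₗ[F] V) (f₁ u) = f₁ ((y₁ : V₁ ≃ₗ[F] V₁) u)
  e2 : ∀ u, (y : V ≃ₗ[F] V) (f₂ u) = f₂ ((y₂ : V₂ ≃ₗ[F] V₂) u)

variable {Q₁ : QuadraticForm F V₁} {Q₂ : QuadraticForm F V₂} {Q : QuadraticForm F V} {f₁ : V₁ →ₗ[F] V} {f₂ : V₂ →ₗ[F] V}
    {y₁ : OGrp Q₁} {y₂ : OGrp Q₂} {y : OGrp Q}

lemma Gl.list (h : Gl f₁ f₂ y₁ y₂ y) {l₁ : List {v : V₁ // Q₁ v ≠ 0}} {l₂ : List {v : V₂ // Q₂ v ≠ 0}} (h1 : reflProd Q₁ l₁ = y₁)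
    (h2 : reflProd Q₂ l₂ = y₂) : reflProd Q (mapL f₁ h.q1 l₁ ++ mapL f₂ h.q2 l₂) = y := by
  apply OGrp_ext
  intro x
  have hx : x ∈ LinearMap.range f₁ ⊔ LinearMap.range f₂ := by rw [h.s]; exact Submodule.mem_top
  obtain ⟨_, ⟨a, rfl⟩, _, ⟨b, rfl⟩, rfl⟩ := Submodule.mem_sup.mp hx
  rw [reflProd_append, coe_mul_apply, map_add, map_add, reflProd_mapL_orth f₂ h.q2 l₂ (fun v => h.o a v), reflProd_mapL, reflProd_mapL,
    reflProd_mapL_orth f₁ h.q1 l₁ (fun v => (pc Q _ _).trans (h.o v _)), h1, h2, map_add, h.e1, h.e2]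

lemma Gl.pow (h : Gl f₁ f₂ y₁ y₂ y) (n : ℕ) : Gl f₁ f₂ (y₁ ^ n) (y₂ ^ n) (y ^ n) := by
  refine ⟨h.q1, h.q2, h.o, h.s, ?_, ?_⟩
  · induction n with
    | zero => intro u; rfl
    | succ n ih => intro u; rw [pow_succ', pow_succ', coe_mul_apply, coe_mul_apply, ih, h.e1]
  · induction n with
    | zero => intro u; rfl
    | succ n ih => intro u; rw [pow_succ', pow_succ', coe_mul_apply, coe_mul_apply, ih, h.e2]

lemma Gl.eq_one_iff (h : Gl f₁ f₂ y₁ y₂ y) (hi1 : Function.Injective f₁) (hi2 : Function.Injective f₂) : y = 1 ↔ y₁ = 1 ∧ y₂ = 1 := by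
  constructor
  · rintro rfl
    constructor
    · apply OGrp_ext
      intro x
      exact hi1 (h.e1 x).symm
    · apply OGrp_ext
      intro x
      exact hi2 (h.e2 x).symm
  · rintro ⟨rfl, rfl⟩
    apply OGrp_ext
    intro x
    have hx : x ∈ LinearMap.range f₁ ⊔ LinearMap.range f₂ := by rw [h.s]; exact Submodule.mem_top
    obtain ⟨_, ⟨a, rfl⟩, _, ⟨b, rfl⟩, rfl⟩ := Submodule.mem_sup.mp hx
    rw [map_add, h.e1, h.e2]
    rfl

lemma Gl.order (h : Gl f₁ f₂ y₁ y₂ y) (hi1 : Function.Injective f₁) (hi2 : Function.Injective f₂) :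
    orderOf y = Nat.lcm (orderOf y₁) (orderOf y₂) := by
  have key : ∀ n, y ^ n = 1 ↔ (y₁ ^ n = 1 ∧ y₂ ^ n = 1) := fun n => (h.pow n).eq_one_iff hi1 hi2
  apply Nat.dvd_antisymm
  · rw [orderOf_dvd_iff_pow_eq_one, key, ← orderOf_dvd_iff_pow_eq_one, ← orderOf_dvd_iff_pow_eq_one]
    exact ⟨Nat.dvd_lcm_left _ _, Nat.dvd_lcm_right _ _⟩
  · apply Nat.lcm_dvd
    · rw [orderOf_dvd_iff_pow_eq_one]
      exact ((key _).mp (pow_orderOf_eq_one y)).1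
    · rw [orderOf_dvd_iff_pow_eq_one]
      exact ((key _).mp (pow_orderOf_eq_one y)).2

end maps

section fin
variable {F : Type*} [Field F] [Fintype F] {V₁ V₂ V : Type*} [AddCommGroup V₁] [Module F V₁] [FiniteDimensional F V₁]
  [AddCommGroup V₂] [Module F V₂] [FiniteDimensional F V₂] [AddCommGroup V] [Module F V] [FiniteDimensional F V]

lemma rgrp (h2 : (2 : F) ≠ 0) {Q : QuadraticForm F V} (hQ : (polarBilin Q).Nondegenerate) : RGrp Q = ⊤ := by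
  refine RGrp_eq_top hQ (Or.inl ⟨-1, neg_ne_zero.mpr one_ne_zero, fun h => h2 ?_⟩)
  rw [← sub_eq_zero] at h
  linear_combination -h

/-- products of an even number of reflections -/
def SOp (Q : QuadraticForm F V) (y : OGrp Q) : Prop := ∃ l, reflProd Q l = y ∧ Even l.length

lemma rank_reflProd {Q : QuadraticForm F V} (hQ : (polarBilin Q).Nondegenerate) (l : List {v : V // Q v ≠ 0}) :
    Even (finrank F (LinearMap.range (dmap (reflProd Q l)))) ↔ Even l.length := by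
  obtain ⟨k, u, hu⟩ := exists_wall (reflProd Q l)
  rw [← hu.card]
  exact (wall_reflProd hQ l hu).1

lemma sop_iff (h2 : (2 : F) ≠ 0) {Q : QuadraticForm F V} (hQ : (polarBilin Q).Nondegenerate) (y : OGrp Q) :
    SOp Q y ↔ Even (finrank F (LinearMap.range (dmap y))) := by
  constructor
  · rintro ⟨l, rfl, hl⟩
    exact (rank_reflProd hQ l).mpr hl
  · intro h
    obtain ⟨l, rfl⟩ := exists_reflProd (rgrp h2 hQ) y
    exact ⟨l, rfl, (rank_reflProd hQ l).mp h⟩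

lemma sop_of_comm (h2 : (2 : F) ≠ 0) {Q : QuadraticForm F V} (hQ : (polarBilin Q).Nondegenerate) {y : OGrp Q} (hy : y ∈ commutator (OGrp Q)) :
    SOp Q y := by
  obtain ⟨l, rfl⟩ := exists_reflProd (rgrp h2 hQ) y
  exact ⟨l, rfl, ((reflProd_mem_commutator_iff hQ (rgrp h2 hQ)).mp hy).1⟩

lemma sop_iff_of_list (h2 : (2 : F) ≠ 0) {Q : QuadraticForm F V} (hQ : (polarBilin Q).Nondegenerate) (l : List {v : V // Q v ≠ 0}) :
    SOp Q (reflProd Q l) ↔ Even l.length := by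
  rw [sop_iff h2 hQ, rank_reflProd hQ]

lemma sop_mul {Q : QuadraticForm F V} {y z : OGrp Q} (hy : SOp Q y) (hz : SOp Q z) : SOp Q (y * z) := by
  obtain ⟨l, rfl, hl⟩ := hy
  obtain ⟨k, rfl, hk⟩ := hz
  exact ⟨l ++ k, reflProd_append Q l k, by rw [List.length_append]; exact hl.add hk⟩

lemma sop_one {Q : QuadraticForm F V} : SOp Q (1 : OGrp Q) := ⟨[], rfl, by simp⟩

lemma sop_pow {Q : QuadraticForm F V} {y : OGrp Q} (hy : SOp Q y) (n : ℕ) : SOp Q (y ^ n) := by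
  induction n with
  | zero => exact sop_one
  | succ n ih => rw [pow_succ]; exact sop_mul ih hy

lemma sop_inv {Q : QuadraticForm F V} {y : OGrp Q} (hy : SOp Q y) : SOp Q y⁻¹ := by
  obtain ⟨l, rfl, hl⟩ := hy
  exact ⟨l.reverse, reflProd_reverse Q l, by rw [List.length_reverse]; exact hl⟩

lemma sop_mul_iff {Q : QuadraticForm F V} {y z : OGrp Q} (hy : SOp Q y) : SOp Q (y * z) ↔ SOp Q z := by
  constructor
  · intro h
    have := sop_mul (sop_inv hy) h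
    rwa [inv_mul_cancel_left] at this
  · exact sop_mul hy

/-- multiplicativity of the spinor norm -/
lemma comm_mul_iff (h2 : (2 : F) ≠ 0) {Q : QuadraticForm F V} (hQ : (polarBilin Q).Nondegenerate) {y z : OGrp Q} (hy : SOp Q y) (hz : SOp Q z) :
    y * z ∈ commutator (OGrp Q) ↔ (y ∈ commutator (OGrp Q) ↔ z ∈ commutator (OGrp Q)) := by
  obtain ⟨l, rfl, hl⟩ := hy
  obtain ⟨k, rfl, hk⟩ := hz
  have hR := rgrp h2 hQ
  rw [← reflProd_append, reflProd_mem_commutator_iff hQ hR, reflProd_mem_commutator_iff hQ hR, reflProd_mem_commutator_iff hQ hR, nrm_append,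
    isSquare_mul_iff' (nrm_ne_zero Q l) (nrm_ne_zero Q k), List.length_append]
  have : Even (l.length + k.length) := hl.add hk
  tauto

variable {Q₁ : QuadraticForm F V₁} {Q₂ : QuadraticForm F V₂} {Q : QuadraticForm F V} {f₁ : V₁ →ₗ[F] V} {f₂ : V₂ →ₗ[F] V}
    {y₁ : OGrp Q₁} {y₂ : OGrp Q₂} {y : OGrp Q}

theorem Gl.comm (h2 : (2 : F) ≠ 0) (hQ₁ : (polarBilin Q₁).Nondegenerate) (hQ₂ : (polarBilin Q₂).Nondegenerate) (hQ : (polarBilin Q).Nondegenerate)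
    (h : Gl f₁ f₂ y₁ y₂ y) (h₁ : SOp Q₁ y₁) (h₂ : SOp Q₂ y₂) :
    SOp Q y ∧ (y ∈ commutator (OGrp Q) ↔ (y₁ ∈ commutator (OGrp Q₁) ↔ y₂ ∈ commutator (OGrp Q₂))) := by
  obtain ⟨l, rfl, hl⟩ := h₁
  obtain ⟨k, rfl, hk⟩ := h₂
  have h5 := h.list rfl rfl
  have hl' : Even (mapL f₁ h.q1 l ++ mapL f₂ h.q2 k).length := by
    rw [List.length_append, length_mapL, length_mapL]
    exact hl.add hk
  refine ⟨⟨_, h5, hl'⟩, ?_⟩
  rw [← h5, reflProd_mem_commutator_iff hQ (rgrp h2 hQ), reflProd_mem_commutator_iff hQ₁ (rgrp h2 hQ₁),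
    reflProd_mem_commutator_iff hQ₂ (rgrp h2 hQ₂), nrm_append, nrm_mapL, nrm_mapL, isSquare_mul_iff' (nrm_ne_zero Q₁ l) (nrm_ne_zero Q₂ k)]
  tauto

/-- parity is additive -/
theorem Gl.parity (h2 : (2 : F) ≠ 0) (hQ₁ : (polarBilin Q₁).Nondegenerate) (hQ₂ : (polarBilin Q₂).Nondegenerate) (hQ : (polarBilin Q).Nondegenerate)
    (h : Gl f₁ f₂ y₁ y₂ y) : SOp Q y ↔ (SOp Q₁ y₁ ↔ SOp Q₂ y₂) := by
  obtain ⟨l, rfl⟩ := exists_reflProd (rgrp h2 hQ₁) y₁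
  obtain ⟨k, rfl⟩ := exists_reflProd (rgrp h2 hQ₂) y₂
  have h5 := h.list rfl rfl
  rw [← h5, sop_iff_of_list h2 hQ, sop_iff_of_list h2 hQ₁, sop_iff_of_list h2 hQ₂, List.length_append, length_mapL, length_mapL,
    Nat.even_add]

theorem Gl.types (hQ₁ : (polarBilin Q₁).Nondegenerate) (hQ₂ : (polarBilin Q₂).Nondegenerate) (hQ : (polarBilin Q).Nondegenerate)
    (h : Gl f₁ f₂ y₁ y₂ y) (h₁ : Even (finrank F V₁)) (h₂ : Even (finrank F V₂)) : PT Q ⊤ ↔ (PT Q₁ ⊤ ↔ PT Q₂ ⊤) := by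
  have i1 := inj_of hQ₁ h.q1
  have i2 := inj_of hQ₂ h.q2
  have h3 := PT_iff hQ (nd_range hQ₁ h.q1) (nd_range hQ₂ h.q2) (by
    rintro _ ⟨a, rfl⟩ _ ⟨b, rfl⟩
    exact h.o a b) h.s (by rw [LinearMap.finrank_range_of_inj i1]; exact h₁) (by rw [LinearMap.finrank_range_of_inj i2]; exact h₂)
  rw [h3, pt_range_iff i1 h.q1, pt_range_iff i2 h.q2]

end fin

end Cfsg.Agent.H39.SP
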