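import Mathlib
import Cfsg.Agent.H39.SP1

/-!
Realizable data for orthogonal groups in odd characteristic.
-/

set_option autoImplicit false

namespace Cfsg.Agent.H39.SP

open Module QuadraticMap Cfsg.Agent.Orth Cfsg.Agent.H39.OE

section transport
variable {F : Type*} [Field F] [Fintype F] {V V' : Type*} [AddCommGroup V] [Module F V] [FiniteDimensional F V]
  [AddCommGroup V'] [Module F V'] [FiniteDimensional F V']

lemma congr_apply {Q : QuadraticForm F V} {Q' : QuadraticForm F V'} (e : V ≃ₗ[F] V') (he : ∀ v, Q' (e v) = Q v) (y : OGrp Q) (v : V) :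
    (OGrpCongr e he y : V' ≃ₗ[F] V') (e v) = e ((y : V ≃ₗ[F] V) v) := by
  change e ((y : V ≃ₗ[F] V) (e.symm (e v))) = _
  rw [e.symm_apply_apply]

lemma congr_comm {Q : QuadraticForm F V} {Q' : QuadraticForm F V'} (e : V ≃ₗ[F] V') (he : ∀ v, Q' (e v) = Q v) (y : OGrp Q) :
    OGrpCongr e he y ∈ commutator (OGrp Q') ↔ y ∈ commutator (OGrp Q) := by
  constructor
  · intro h
    have := map_mem_commutator (OGrpCongr e he).symm.toMonoidHom h
    change (OGrpCongr e he).symm (OGrpCongr e he y) ∈ _ at this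
    rwa [MulEquiv.symm_apply_apply] at this
  · intro h
    exact map_mem_commutator (OGrpCongr e he).toMonoidHom h

lemma congr_sop {Q : QuadraticForm F V} {Q' : QuadraticForm F V'} (e : V ≃ₗ[F] V') (he : ∀ v, Q' (e v) = Q v) {y : OGrp Q} (hy : SOp Q y) :
    SOp Q' (OGrpCongr e he y) := by
  obtain ⟨l, rfl, hl⟩ := hy
  refine ⟨mapL e.toLinearMap he l, ?_, by rw [length_mapL]; exact hl⟩
  apply OGrp_ext
  intro x
  obtain ⟨v, rfl⟩ := e.surjective x
  rw [congr_apply]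
  exact reflProd_mapL e.toLinearMap he l v

lemma nondeg_congr {Q : QuadraticForm F V} {Q' : QuadraticForm F V'} (e : V ≃ₗ[F] V') (he : ∀ v, Q' (e v) = Q v)
    (hQ : (polarBilin Q).Nondegenerate) : (polarBilin Q').Nondegenerate := by
  apply H99.nondegenerate_of_ND
  intro u _ hu
  obtain ⟨a, rfl⟩ := e.surjective u
  have h3 : a = 0 := hQ.1 a (fun b => by
    have h4 := hu (e b) Submodule.mem_top
    change polar Q' (e a) (e b) = 0 at h4
    exact (polar_of_isom (f := e.toLinearMap) he a b).symm.trans h4)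
  rw [h3, map_zero]

lemma exists_transport {ι : Type} [Fintype ι] (Q : QuadraticForm F V) (h : finrank F V = Fintype.card ι) :
    ∃ (Q' : QuadraticForm F (ι → F)) (e : V ≃ₗ[F] (ι → F)), ∀ v, Q' (e v) = Q v := by
  let e : V ≃ₗ[F] (ι → F) := LinearEquiv.ofFinrankEq _ _ (by rw [h, finrank_fintype_fun_eq_card])
  refine ⟨Q.comp e.symm.toLinearMap, e, fun v => ?_⟩
  rw [QuadraticMap.comp_apply]
  change Q (e.symm (e v)) = _
  rw [e.symm_apply_apply]

lemma congr_pt {Q : QuadraticForm F V} {Q' : QuadraticForm F V'} (e : V ≃ₗ[F] V') (he : ∀ v, Q' (e v) = Q v) : PT Q' ⊤ ↔ PT Q ⊤ := by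
  have h3 := pt_range_iff (f := e.toLinearMap) e.injective he
  rw [LinearEquiv.range] at h3
  exact h3

end transport

section res
variable {F : Type*} [Field F] [Fintype F] {V : Type*} [AddCommGroup V] [Module F V] [FiniteDimensional F V]

/-- restriction to an invariant subspace -/
noncomputable def res {Q : QuadraticForm F V} (y : OGrp Q) (W : Submodule F V) (hW : ∀ v ∈ W, (y : V ≃ₗ[F] V) v ∈ W) : OGrp (Q.restrict W) :=
  ⟨LinearEquiv.ofInjectiveEndo (((y : V ≃ₗ[F] V) : V →ₗ[F] V).restrict hW) (by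
    intro a b hab
    apply Subtype.ext
    apply (y : V ≃ₗ[F] V).injective
    exact congrArg Subtype.val hab), fun v => OGrp_q y v⟩

lemma res_apply {Q : QuadraticForm F V} (y : OGrp Q) (W : Submodule F V) (hW : ∀ v ∈ W, (y : V ≃ₗ[F] V) v ∈ W) (w : W) :
    (((res y W hW : OGrp (Q.restrict W)) : W ≃ₗ[F] W) w : V) = (y : V ≃ₗ[F] V) w := rfl

lemma orth_inv {Q : QuadraticForm F V} (y : OGrp Q) {W : Submodule F V} (hW : ∀ v ∈ W, (y : V ≃ₗ[F] V) v ∈ W) :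
    ∀ v ∈ H99.orth (of Q) W, (y : V ≃ₗ[F] V) v ∈ H99.orth (of Q) W :=
  H99.orth_inv_of_isom' (of Q) (x := ((y : V ≃ₗ[F] V) : V →ₗ[F] V)) (y : V ≃ₗ[F] V).injective (fun u v => OGrp_polar y u v) hW

lemma orth_facts {Q : QuadraticForm F V} (hQ : (polarBilin Q).Nondegenerate) {W : Submodule F V} (hW : Nd Q W) :
    Nd Q (H99.orth (of Q) W) ∧ W ⊔ H99.orth (of Q) W = ⊤ ∧ finrank F W + finrank F (H99.orth (of Q) W) = finrank F V := by
  have h1 := H99.split_ND_compl (of Q) (nd_of_nondeg hQ) hW le_top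
  have h2 := H99.split_ND (of Q) hW (le_top : W ≤ ⊤)
  have h3 := H99.split_finrank (of Q) hW (le_top : W ≤ ⊤)
  rw [top_inf_eq] at h1 h2 h3
  rw [finrank_top] at h3
  exact ⟨h1, h2, h3⟩

/-- splitting along an invariant nondegenerate subspace -/
theorem split {Q : QuadraticForm F V} (hQ : (polarBilin Q).Nondegenerate) {W : Submodule F V} (hW : Nd Q W) (y : OGrp Q)
    (hy : ∀ v ∈ W, (y : V ≃ₗ[F] V) v ∈ W) :
    Gl W.subtype (H99.orth (of Q) W).subtype (res y W hy) (res y _ (orth_inv y hy)) y := by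
  refine ⟨fun _ => rfl, fun _ => rfl, ?_, ?_, fun _ => rfl, fun _ => rfl⟩
  · intro u v
    exact (pc Q _ _).trans (v.2 u u.2)
  · rw [Submodule.range_subtype, Submodule.range_subtype]
    exact (orth_facts hQ hW).2.1

end res

section rd
universe u
variable (F : Type u) [Field F] [Fintype F]

/-- realizable data -/
def Rd (d n : ℕ) (τ ω : Prop) : Prop :=
  ∃ (Q : QuadraticForm F (Fin (2 * d) → F)) (y : OGrp Q), (polarBilin Q).Nondegenerate ∧ (PT Q ⊤ ↔ τ) ∧ SOp Q y ∧ orderOf y = n ∧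
    (y ∈ commutator (OGrp Q) ↔ ω)

variable {F}

lemma Rd.iff {d n : ℕ} {τ ω τ' ω' : Prop} (h : Rd F d n τ ω) (h1 : τ ↔ τ') (h2 : ω ↔ ω') : Rd F d n τ' ω' := by
  obtain ⟨Q, y, a1, a2, a3, a4, a5⟩ := h
  exact ⟨Q, y, a1, a2.trans h1, a3, a4, a5.trans h2⟩

lemma orderOf_congr {V V' : Type*} [AddCommGroup V] [Module F V] [FiniteDimensional F V] [AddCommGroup V'] [Module F V'] [FiniteDimensional F V']
    {Q : QuadraticForm F V} {Q' : QuadraticForm F V'} (e : V ≃ₗ[F] V') (he : ∀ v, Q' (e v) = Q v) (y : OGrp Q) :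
    orderOf (OGrpCongr e he y) = orderOf y := MulEquiv.orderOf_eq (OGrpCongr e he) y

theorem Rd.of {V : Type*} [AddCommGroup V] [Module F V] [FiniteDimensional F V] {Q : QuadraticForm F V} (hQ : (polarBilin Q).Nondegenerate)
    {d : ℕ} (hd : finrank F V = 2 * d) {y : OGrp Q} (hy : SOp Q y) : Rd F d (orderOf y) (PT Q ⊤) (y ∈ commutator (OGrp Q)) := by
  obtain ⟨Q', e, he⟩ := exists_transport (ι := Fin (2 * d)) Q (by rw [hd, Fintype.card_fin])
  exact ⟨Q', OGrpCongr e he y, nondeg_congr e he hQ, congr_pt e he, congr_sop e he hy, orderOf_congr e he y, congr_comm e he y⟩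

/-- external gluing -/
theorem exists_glue (h2 : (2 : F) ≠ 0) {V₁ V₂ : Type*} [AddCommGroup V₁] [Module F V₁] [FiniteDimensional F V₁]
    [AddCommGroup V₂] [Module F V₂] [FiniteDimensional F V₂] {Q₁ : QuadraticForm F V₁} {Q₂ : QuadraticForm F V₂}
    (hQ₁ : (polarBilin Q₁).Nondegenerate) (hQ₂ : (polarBilin Q₂).Nondegenerate) (y₁ : OGrp Q₁) (y₂ : OGrp Q₂) :
    ∃ (Q : QuadraticForm F (V₁ × V₂)) (y : OGrp Q), (polarBilin Q).Nondegenerate ∧ Gl (LinearMap.inl F V₁ V₂) (LinearMap.inr F V₁ V₂) y₁ y₂ y := by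
  let Q : QuadraticForm F (V₁ × V₂) := Q₁.comp (LinearMap.fst F V₁ V₂) + Q₂.comp (LinearMap.snd F V₁ V₂)
  have hQa : ∀ v, Q v = Q₁ v.1 + Q₂ v.2 := fun v => rfl
  have hpol : ∀ u v, polar Q u v = polar Q₁ u.1 v.1 + polar Q₂ u.2 v.2 := by
    intro u v
    simp only [polar, hQa, Prod.fst_add, Prod.snd_add]
    ring
  let y : OGrp Q := ⟨(y₁ : V₁ ≃ₗ[F] V₁).prodCongr (y₂ : V₂ ≃ₗ[F] V₂), fun v => by
    rw [hQa, hQa]
    change Q₁ ((y₁ : V₁ ≃ₗ[F] V₁) v.1) + Q₂ ((y₂ : V₂ ≃ₗ[F] V₂) v.2) = _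
    rw [OGrp_q, OGrp_q]⟩
  refine ⟨Q, y, ?_, ⟨?_, ?_, ?_, ?_, ?_, ?_⟩⟩
  · apply H99.nondegenerate_of_ND
    intro u _ hu
    have h3 : u.1 = 0 := hQ₁.1 u.1 (fun a => by
      have h4 := hu (a, 0) Submodule.mem_top
      change polar Q u (a, 0) = 0 at h4
      rw [hpol, polar_zero_right, add_zero] at h4
      exact h4)
    have h4 : u.2 = 0 := hQ₂.1 u.2 (fun a => by
      have h4 := hu (0, a) Submodule.mem_top
      change polar Q u (0, a) = 0 at h4
      rw [hpol, polar_zero_right, zero_add] at h4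
      exact h4)
    exact Prod.ext h3 h4
  · intro v
    rw [hQa]
    simp
  · intro v
    rw [hQa]
    simp
  · intro u v
    rw [hpol]
    simp [polar_zero_right, polar_zero_left]
  · exact Submodule.sup_eq_top_iff _ _ |>.mpr (fun v => ⟨(v.1, 0), ⟨v.1, rfl⟩, (0, v.2), ⟨v.2, rfl⟩, by simp⟩)
  · intro u
    change (((y₁ : V₁ ≃ₗ[F] V₁) u), ((y₂ : V₂ ≃ₗ[F] V₂) 0)) = _
    rw [map_zero]
    rfl
  · intro u
    change (((y₁ : V₁ ≃ₗ[F] V₁) 0), ((y₂ : V₂ ≃ₗ[F] V₂) u)) = _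
    rw [map_zero]
    rfl

theorem Rd.glue (h2 : (2 : F) ≠ 0) {d₁ d₂ n₁ n₂ : ℕ} {τ₁ ω₁ τ₂ ω₂ : Prop} (h₁ : Rd F d₁ n₁ τ₁ ω₁) (h₂ : Rd F d₂ n₂ τ₂ ω₂) :
    Rd F (d₁ + d₂) (Nat.lcm n₁ n₂) (τ₁ ↔ τ₂) (ω₁ ↔ ω₂) := by
  obtain ⟨Q₁, y₁, a1, a2, a3, a4, a5⟩ := h₁
  obtain ⟨Q₂, y₂, b1, b2, b3, b4, b5⟩ := h₂
  obtain ⟨Q, y, hQ, hg⟩ := exists_glue h2 a1 b1 y₁ y₂
  obtain ⟨c1, c2⟩ := hg.comm h2 a1 b1 hQ a3 b3
  have c3 := hg.types a1 b1 hQ (by simp) (by simp)
  have c4 := hg.order LinearMap.inl_injective LinearMap.inr_injective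
  have h3 := Rd.of hQ (d := d₁ + d₂) (by simp; ring) c1
  rw [c4, a4, b4] at h3
  refine h3.iff ?_ ?_
  · rw [c3, a2, b2]
  · rw [c2, a5, b5]

theorem Rd.one (d : ℕ) (τ : Prop) (h : d ≠ 0 ∨ τ) : Rd F d 1 τ True := by
  rcases Nat.eq_zero_or_pos d with rfl | hd
  · have hτ : τ := h.resolve_left (by simp)
    refine ⟨0, 1, ?_, ?_, sop_one, orderOf_one, by simp [Subgroup.one_mem]⟩
    · apply H99.nondegenerate_of_ND
      intro u _ _
      funext i
      exact absurd i.2 (by simp)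
    · refine ⟨fun _ => hτ, fun _ => ⟨⊤, le_rfl, fun v _ => rfl, ?_⟩⟩
      simp
  · obtain ⟨ι, _, _, Q, h1, h3, h4⟩ := exists_model (F := F) (m := d) hd τ
    have h5 := Rd.of h1 h3 (y := (1 : OGrp Q)) sop_one
    rw [orderOf_one] at h5
    exact h5.iff h4 (by simp [Subgroup.one_mem])

end rd

end Cfsg.Agent.H39.SP
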