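import Mathlib
import Cfsg.Agent.H39.SP2

/-!
Unipotent elements and elements of the semidirect product.
-/

set_option autoImplicit false

namespace Cfsg.Agent.H39.SP

open Module QuadraticMap Cfsg.Agent.Orth Cfsg.Agent.H39.OE

section geom
variable {F : Type*} [Field F] {p : ℕ} [Fact p.Prime] [CharP F p] {V : Type*} [AddCommGroup V] [Module F V]

lemma geom_poly (e : ℕ) : ∑ j ∈ Finset.range (p ^ e), (Polynomial.X : Polynomial F) ^ j = (Polynomial.X - 1) ^ (p ^ e - 1) := by
  have h0 : (Polynomial.X - 1 : Polynomial F) ≠ 0 := Polynomial.X_sub_C_ne_zero 1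
  apply mul_left_cancel₀ h0
  have hpos : 0 < p ^ e := pow_pos (Fact.out : p.Prime).pos e
  rw [← pow_succ', Nat.sub_add_cancel hpos, sub_pow_char_pow, one_pow, mul_comm, geom_sum_mul]

lemma geom_end (x : V →ₗ[F] V) (e : ℕ) : ∑ j ∈ Finset.range (p ^ e), x ^ j = (x - 1) ^ (p ^ e - 1) := by
  have h := congrArg (Polynomial.aeval x) (geom_poly (F := F) (p := p) e)
  rw [map_sum, map_pow, map_sub, Polynomial.aeval_X, _root_.map_one] at h
  rw [← h]
  apply Finset.sum_congr rfl
  intro j _
  rw [map_pow, Polynomial.aeval_X]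

lemma sub_pow_end (x : V →ₗ[F] V) (e : ℕ) : (x - 1) ^ (p ^ e) = x ^ (p ^ e) - 1 := by
  have h := congrArg (Polynomial.aeval x) (sub_pow_char_pow (p := p) (n := e) (Polynomial.X : Polynomial F) 1)
  rw [map_pow, map_sub, map_sub, Polynomial.aeval_X, _root_.map_one, one_pow, map_pow, Polynomial.aeval_X, _root_.map_one] at h
  exact h

end geom

section nv
variable {F : Type*} [Field F] {V V' : Type*} [AddCommGroup V] [Module F V] [AddCommGroup V'] [Module F V']

/-- the norm vector -/
noncomputable def nv {Q : QuadraticForm F V} (y : OGrp Q) (n : ℕ) (v : V) : V := ∑ j ∈ Finset.range n, ((y ^ j : OGrp Q) : V ≃ₗ[F] V) v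

lemma coe_pow_apply {Q : QuadraticForm F V} (y : OGrp Q) (j : ℕ) (v : V) :
    ((y ^ j : OGrp Q) : V ≃ₗ[F] V) v = (((y : V ≃ₗ[F] V) : V →ₗ[F] V) ^ j) v := by
  induction j generalizing v with
  | zero => rfl
  | succ j ih =>
    rw [pow_succ, coe_mul_apply, ih, pow_succ, Module.End.mul_apply]
    rfl

lemma nv_eq {Q : QuadraticForm F V} (y : OGrp Q) (n : ℕ) (v : V) :
    nv y n v = (∑ j ∈ Finset.range n, (((y : V ≃ₗ[F] V) : V →ₗ[F] V) ^ j)) v := by
  rw [nv, LinearMap.sum_apply]
  exact Finset.sum_congr rfl fun j _ => coe_pow_apply y j v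

lemma nv_map {Q : QuadraticForm F V} {Q' : QuadraticForm F V'} {y : OGrp Q} {y' : OGrp Q'} {f : V →ₗ[F] V'}
    (h : ∀ v, (y' : V' ≃ₗ[F] V') (f v) = f ((y : V ≃ₗ[F] V) v)) (n : ℕ) (v : V) : nv y' n (f v) = f (nv y n v) := by
  have key : ∀ (j : ℕ) (v : V), ((y' ^ j : OGrp Q') : V' ≃ₗ[F] V') (f v) = f (((y ^ j : OGrp Q) : V ≃ₗ[F] V) v) := by
    intro j
    induction j with
    | zero => intro v; rfl
    | succ j ih => intro v; rw [pow_succ, pow_succ, coe_mul_apply, coe_mul_apply, h, ih]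
  rw [nv, nv, map_sum]
  exact Finset.sum_congr rfl fun j _ => key j v

lemma nv_add {Q : QuadraticForm F V} (y : OGrp Q) (n : ℕ) (v w : V) : nv y n (v + w) = nv y n v + nv y n w := by
  rw [nv_eq, nv_eq, nv_eq, map_add]

/-- periodicity -/
lemma nv_mul {Q : QuadraticForm F V} (y : OGrp Q) {m : ℕ} (h : y ^ m = 1) (s : ℕ) (v : V) : nv y (m * s) v = (s : F) • nv y m v := by
  induction s with
  | zero => simp [nv]
  | succ s ih =>
    have h3 : nv y (m * (s + 1)) v = nv y (m * s) v + nv y m v := by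
      rw [nv, nv, nv, Nat.mul_succ, Finset.sum_range_add]
      congr 1
      apply Finset.sum_congr rfl
      intro j _
      rw [pow_add, pow_mul, h, one_pow, one_mul]
    rw [h3, ih, Nat.cast_succ, add_smul, one_smul]

end nv

section unip
universe u
variable {F : Type u} [Field F] [Fintype F] {p : ℕ} [Fact p.Prime] [CharP F p]

lemma comm_of_odd {V : Type*} [AddCommGroup V] [Module F V] [FiniteDimensional F V] {Q : QuadraticForm F V} (hQ : (polarBilin Q).Nondegenerate)
    {y : OGrp Q} {n : ℕ} (hn : Odd n) (h : y ^ n = 1) : y ∈ commutator (OGrp Q) := by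
  obtain ⟨k, hk⟩ := hn
  have h3 : y = y ^ (k + 1) * y ^ (k + 1) := by
    rw [← pow_add, show k + 1 + (k + 1) = n + 1 by omega, pow_succ, h, one_mul]
  rw [h3]
  exact mul_self_mem_commutator hQ _

/-- unipotent isometries with one block of odd size `b`, others trivial -/
theorem exists_block (h2 : (2 : F) ≠ 0) (hpo : Odd p) {V : Type u} [AddCommGroup V] [Module F V] [FiniteDimensional F V] {Q : QuadraticForm F V}
    (hQ : (polarBilin Q).Nondegenerate) {b e : ℕ} (hb : Odd b) (hbV : b ≤ finrank F V) (h1 : b ≤ p ^ e) (h1' : e = 0 ∨ p ^ (e - 1) < b) :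
    ∃ y : OGrp Q, y ∈ commutator (OGrp Q) ∧ orderOf y = p ^ e ∧ (b = p ^ e → ∃ v, nv y (p ^ e) v ≠ 0) := by
  have hp : p.Prime := Fact.out
  obtain ⟨k, hk⟩ := hb
  obtain ⟨x, x1, x2, x3⟩ := H99.exists_orth_jordan h2 hQ (b ::ₘ Multiset.replicate (finrank F V - b) 1) (by
      intro a ha
      rcases Multiset.mem_cons.mp ha with rfl | h
      · omega
      · rw [Multiset.eq_of_mem_replicate h]; norm_num) (by
      intro a ha
      have hab : a ≠ b := by
        rintro rfl
        rw [Nat.even_iff] at ha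
        omega
      rw [Multiset.count_cons_of_ne hab, Multiset.count_replicate, if_neg (by
        rintro rfl
        exact absurd ha (by decide))]
      exact Even.zero) (by
      rw [Multiset.sum_cons, Multiset.sum_replicate, smul_eq_mul, mul_one]
      omega) (P := b) (by
      intro a ha
      rcases Multiset.mem_cons.mp ha with rfl | h
      · exact le_rfl
      · rw [Multiset.eq_of_mem_replicate h]; omega) ⟨b, Multiset.mem_cons_self _ _, ⟨k, hk⟩⟩
  have x4 : (x - 1) ^ (b - 1) ≠ 0 := by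
    intro h0
    have h3 := x3.2 (b - 1)
    rw [h0] at h3
    have h4 : (⊤ : Submodule F V).map (0 : V →ₗ[F] V) = ⊥ := Submodule.map_zero _
    rw [h4, finrank_bot, Multiset.map_cons, Multiset.sum_cons] at h3
    omega
  have hinj := injective_of_isom hQ x1
  let y : OGrp Q := ⟨LinearEquiv.ofInjectiveEndo x hinj, fun v => x1 v⟩
  have hyx : ((y : V ≃ₗ[F] V) : V →ₗ[F] V) = x := by
    apply LinearMap.ext
    intro v
    rfl
  have hpow : ∀ m : ℕ, y ^ m = 1 ↔ x ^ m = 1 := by
    intro m
    constructor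
    · intro h
      apply LinearMap.ext
      intro v
      have h3 := coe_pow_apply y m v
      rw [h, hyx] at h3
      exact h3.symm
    · intro h
      apply OGrp_ext
      intro v
      rw [coe_pow_apply, hyx, h]
      rfl
  have hle : ∀ m : ℕ, b ≤ m → (x - 1) ^ m = 0 := by
    intro m hm
    obtain ⟨c, rfl⟩ := Nat.exists_eq_add_of_le hm
    rw [pow_add, x2, zero_mul]
  have ho : orderOf y = p ^ e := by
    rcases Nat.eq_zero_or_pos e with rfl | he
    · rw [pow_zero, orderOf_eq_one_iff]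
      have h3 := (hpow 1).mpr (by
        have := sub_pow_end (p := p) x 0
        rw [hle _ h1, pow_zero] at this
        exact (sub_eq_zero.mp this.symm))
      rwa [pow_one] at h3
    · obtain ⟨e', rfl⟩ : ∃ e', e = e' + 1 := ⟨e - 1, by omega⟩
      have hlt : p ^ e' < b := by
        rcases h1' with h | h
        · omega
        · exact h
      apply orderOf_eq_prime_pow
      · rw [hpow]
        intro h
        have := sub_pow_end (p := p) x e'
        rw [h, sub_self] at this
        apply x4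
        obtain ⟨c, hc⟩ := Nat.exists_eq_add_of_le (show p ^ e' ≤ b - 1 by omega)
        rw [hc, pow_add, this, zero_mul]
      · rw [hpow]
        have := sub_pow_end (p := p) x (e' + 1)
        rw [hle _ h1] at this
        exact (sub_eq_zero.mp this.symm)
  refine ⟨y, comm_of_odd hQ (hpo.pow (n := e)) (by rw [← ho, pow_orderOf_eq_one]), ho, ?_⟩
  intro hbe
  by_contra hcon
  push Not at hcon
  apply x4
  apply LinearMap.ext
  intro v
  rw [hbe, ← geom_end (p := p) x e, ← hyx, ← nv_eq, hcon]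
  rfl

variable (F) in
/-- orders in the semidirect product, second kind -/
def Bp (p N : ℕ) : Prop := ∃ (Q : QuadraticForm F (Fin (2 * 4) → F)) (y : OGrp Q) (v : Fin (2 * 4) → F), (polarBilin Q).Nondegenerate ∧ ¬ PT Q ⊤ ∧
  y ∈ commutator (OGrp Q) ∧ nv y (orderOf y) v ≠ 0 ∧ N = p * orderOf y

theorem Bp.of {V : Type*} [AddCommGroup V] [Module F V] [FiniteDimensional F V] {Q : QuadraticForm F V} (hQ : (polarBilin Q).Nondegenerate)
    (hd : finrank F V = 8) (hV : ¬ PT Q ⊤) {y : OGrp Q} (hy : y ∈ commutator (OGrp Q)) {v : V} (hv : nv y (orderOf y) v ≠ 0) : Bp F p (p * orderOf y) := by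
  obtain ⟨Q', e, he⟩ := exists_transport (ι := Fin (2 * 4)) Q (by rw [hd, Fintype.card_fin])
  have hc := orderOf_congr e he y
  refine ⟨Q', OGrpCongr e he y, e v, nondeg_congr e he hQ, fun h => hV ((congr_pt e he).mp h), (congr_comm e he y).mpr hy, ?_, by rw [hc]⟩
  rw [hc]
  have h3 := nv_map (f := e.toLinearMap) (y := y) (y' := OGrpCongr e he y) (fun v => congr_apply e he y v) (orderOf y) v
  intro h0
  apply hv
  apply e.injective
  rw [map_zero]
  exact h3.symm.trans h0

/-- construction of elements of the semidirect product -/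
theorem T2 (h2 : (2 : F) ≠ 0) (hpo : Odd p) {j n e s : ℕ} {τ : Prop} (h : Rd F j n τ True) (he : p ^ e + 2 * j ≤ 7)
    (hn : Nat.lcm (p ^ e) n = p ^ e * s) (hs : ¬ p ∣ s) : Bp F p (p ^ (e + 1) * s) := by
  have hp : p.Prime := Fact.out
  have hpe : 0 < p ^ e := pow_pos hp.pos e
  obtain ⟨Q₂, y₂, b1, b2, b3, b4, b5⟩ := h
  obtain ⟨ι, _, _, Q₁, a1, a2, a3⟩ := exists_model (F := F) (m := 4 - j) (by omega) (¬ τ)
  obtain ⟨y₁, c1, c2, c3⟩ := exists_block (p := p) h2 hpo a1 (b := p ^ e) (e := e) (hpo.pow) (by omega) le_rfl (by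
    rcases Nat.eq_zero_or_pos e with h | h
    · exact Or.inl h
    · exact Or.inr (Nat.pow_lt_pow_right hp.one_lt (by omega)))
  obtain ⟨v, hv⟩ := c3 rfl
  obtain ⟨Q, y, hQ, hg⟩ := exists_glue h2 a1 b1 y₁ y₂
  obtain ⟨d1, d2⟩ := hg.comm h2 a1 b1 hQ (sop_of_comm h2 a1 c1) b3
  have d3 := hg.types a1 b1 hQ (by rw [a2]; exact even_two_mul _) (by simp)
  have d4 := hg.order LinearMap.inl_injective LinearMap.inr_injective
  rw [c2, b4, hn] at d4
  have hs0 : (s : F) ≠ 0 := by
    rw [Ne, CharP.cast_eq_zero_iff F p]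
    exact hs
  have hfin : finrank F ((ι → F) × (Fin (2 * j) → F)) = 8 := by
    rw [finrank_prod, a2, finrank_fintype_fun_eq_card, Fintype.card_fin]
    omega
  have h3 := Bp.of (p := p) hQ hfin (by rw [d3, a3, b2]; tauto) (d2.mpr (by rw [b5]; exact ⟨fun _ => trivial, fun _ => c1⟩)) (y := y)
    (v := LinearMap.inl F (ι → F) (Fin (2 * j) → F) v) (by
      rw [d4, nv_map (f := LinearMap.inl F (ι → F) (Fin (2 * j) → F)) (y := y₁) hg.e1, nv_mul y₁ (by rw [← c2, pow_orderOf_eq_one])]
      intro h0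
      have h4 := LinearMap.inl_injective (h0.trans (map_zero _).symm)
      exact hv ((smul_eq_zero.mp h4).resolve_left hs0))
  rw [d4] at h3
  rw [pow_succ']
  rwa [mul_assoc]

end unip

end Cfsg.Agent.H39.SP
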