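import Mathlib
import Cfsg.Agent.H39.SP3

/-!
The element `-1`; tori.
-/

set_option autoImplicit false

namespace Cfsg.Agent.H39.SP

open Module QuadraticMap Cfsg.Agent.Orth Cfsg.Agent.H39.OE

section neg
variable {F : Type*} [Field F] [Fintype F] {V : Type*} [AddCommGroup V] [Module F V] [FiniteDimensional F V]

lemma prop_m {w p w' s s' t o e : Prop} (h : w ↔ (p ↔ w')) (hp : p ↔ s') (hw : t ↔ (w' ↔ (o ∨ e))) (hs : s' ↔ (o ↔ s)) :
    (s ↔ t) ↔ (w ↔ (o ∨ ¬ e)) := by tauto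

/-- `-1` on a nondegenerate subspace of even dimension as a product of reflections -/
theorem neg_list' (h2 : (2 : F) ≠ 0) {Q : QuadraticForm F V} (k : ℕ) :
    ∀ (W Z : Submodule F V) (y : OGrp Q), Nd Q W → finrank F W = 2 * k → W ⊔ Z = ⊤ → (∀ u ∈ W, ∀ v ∈ Z, polar Q u v = 0) →
      (∀ v ∈ W, (y : V ≃ₗ[F] V) v = -v) → (∀ v ∈ Z, (y : V ≃ₗ[F] V) v = v) →
      ∃ l : List {v : V // Q v ≠ 0}, y = reflProd Q l ∧ Even l.length ∧ (IsSquare (nrm Q l) ↔ (PT Q W ↔ (IsSquare (-1 : F) ∨ Even k))) := by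
  induction k with
  | zero =>
    intro W Z y _ hd hsup _ _ hy
    have hW : W = ⊥ := Submodule.finrank_eq_zero.mp (by omega)
    rw [hW, bot_sup_eq] at hsup
    refine ⟨[], ?_, by simp, ?_⟩
    · rw [reflProd_nil]
      exact OGrp_ext (fun v => hy v (by rw [hsup]; exact Submodule.mem_top))
    · rw [nrm_nil, hW]
      exact ⟨fun _ => ⟨fun _ => Or.inr Even.zero, fun _ => PT_bot Q⟩, fun _ => IsSquare.one⟩
  | succ k ih =>
    intro W Z y hN hd hsup hWZ hyW hyZ
    obtain ⟨b, d, hd0, hb, -⟩ := exists_diag_basis (nd_restrict hN) h2 (k := 2 * k + 1) (by rw [hd]; ring)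
    set u : V := (b 0 : V) with hu
    set v : V := (b 1 : V) with hv
    have huW : u ∈ W := (b 0).2
    have hvW : v ∈ W := (b 1).2
    have hQu : Q u ≠ 0 := hb.q 0
    have hQv : Q v ≠ 0 := hb.q 1
    have huv : polar Q u v = 0 := hb.p 0 1 (by
      intro h
      have := congrArg Fin.val h
      simp at this)
    obtain ⟨p1, p2, p3, p5⟩ := pt_pair h2 hQu hQv huv
    set P := Submodule.span F (Set.range ![u, v]) with hP
    have hPW : P ≤ W := by
      intro w hw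
      obtain ⟨α, β, rfl⟩ := (p3 w).mp hw
      exact W.add_mem (W.smul_mem _ huW) (W.smul_mem _ hvW)
    have g1 := H99.split_ND_compl (of Q) hN p1 hPW
    have g2 := H99.split_ND (of Q) p1 hPW
    have g3 := H99.split_finrank (of Q) p1 hPW
    have huP : u ∈ P := Submodule.subset_span ⟨0, rfl⟩
    have hvP : v ∈ P := Submodule.subset_span ⟨1, rfl⟩
    set ρ : OGrp Q := refl Q u hQu * refl Q v hQv with hρ
    have hρ1 : ∀ w, polar Q w u = 0 → polar Q w v = 0 → (ρ : V ≃ₗ[F] V) w = w := by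
      intro w h1 h3
      rw [hρ, coe_mul_apply, refl_apply_of_ortho hQv h3, refl_apply_of_ortho hQu h1]
    have hρu : (ρ : V ≃ₗ[F] V) u = -u := by
      rw [hρ, coe_mul_apply, refl_apply_of_ortho hQv huv]
      exact refl_apply_self hQu
    have hρv : (ρ : V ≃ₗ[F] V) v = -v := by
      rw [hρ, coe_mul_apply, refl_apply_self hQv, map_neg, refl_apply_of_ortho hQu (by rw [pc]; exact huv)]
    have hρP : ∀ w ∈ P, (ρ : V ≃ₗ[F] V) w = -w := by
      intro w hw
      obtain ⟨α, β, rfl⟩ := (p3 w).mp hw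
      rw [map_add, map_smul, map_smul, hρu, hρv, smul_neg, smul_neg, neg_add]
    have hρinv : ∀ w w', (ρ : V ≃ₗ[F] V) w = w' → ((ρ⁻¹ : OGrp Q) : V ≃ₗ[F] V) w' = w := by
      intro w w' h
      rw [← h]
      exact coe_inv_apply_self ρ w
    obtain ⟨l, l1, l2, l4⟩ := ih (W ⊓ H99.orth (of Q) P) (P ⊔ Z) (ρ⁻¹ * y) g1 (by omega) (by
      rw [← sup_assoc, sup_comm (W ⊓ _) P, g2, hsup]) (by
      intro w hw w' hw'
      obtain ⟨a, ha, c, hc, rfl⟩ := Submodule.mem_sup.mp hw'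
      rw [par, (show polar Q w a = 0 from hw.2 a ha), hWZ w hw.1 c hc, add_zero]) (by
      intro w hw
      rw [coe_mul_apply, hyW w hw.1, map_neg]
      rw [hρinv w w (hρ1 w (hw.2 u huP) (hw.2 v hvP))]) (by
      intro w hw
      obtain ⟨a, ha, c, hc, rfl⟩ := Submodule.mem_sup.mp hw
      rw [coe_mul_apply, map_add, hyW a (hPW ha), hyZ c hc, map_add]
      rw [hρinv a (-a) (hρP a ha), hρinv c c (hρ1 c ((pc Q c u).trans (hWZ u huW c hc)) ((pc Q c v).trans (hWZ v hvW c hc)))])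
    refine ⟨⟨u, hQu⟩ :: ⟨v, hQv⟩ :: l, ?_, ?_, ?_⟩
    · rw [reflProd_cons, reflProd_cons, ← mul_assoc, ← l1]
      rw [hρ, mul_inv_cancel_left]
    · rw [List.length_cons, List.length_cons]
      exact (Nat.even_add_one.mpr (by rw [Nat.even_add_one]; exact not_not.mpr l2))
    · rw [nrm_cons, nrm_cons]
      change IsSquare (Q u * (Q v * nrm Q l)) ↔ _
      rw [← mul_assoc, isSquare_mul_iff' (mul_ne_zero hQu hQv) (nrm_ne_zero Q l), Nat.even_add_one]
      have h3 := PT_iff_sub p1 g1 (fun w hw w' hw' => (pc Q w w').trans (hw'.2 w hw)) (by rw [p2]; exact even_two) ⟨k, by omega⟩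
      rw [g2] at h3
      refine prop_m h3 p5 l4 ?_
      rw [← neg_one_mul, isSquare_mul_iff' (neg_ne_zero.mpr one_ne_zero) (mul_ne_zero hQu hQv)]

/-- the element `-1` -/
noncomputable def ng (Q : QuadraticForm F V) : OGrp Q := ⟨LinearEquiv.neg F, fun v => by
  change Q (-v) = Q v
  rw [QuadraticMap.map_neg]⟩

lemma ng_apply (Q : QuadraticForm F V) (v : V) : (ng Q : V ≃ₗ[F] V) v = -v := rfl

theorem ng_facts (h2 : (2 : F) ≠ 0) {Q : QuadraticForm F V} (hQ : (polarBilin Q).Nondegenerate) {k : ℕ} (hk : finrank F V = 2 * k) :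
    SOp Q (ng Q) ∧ (ng Q ∈ commutator (OGrp Q) ↔ (PT Q ⊤ ↔ (IsSquare (-1 : F) ∨ Even k))) := by
  obtain ⟨l, l1, l2, l3⟩ := neg_list' h2 k ⊤ ⊥ (ng Q) (nd_of_nondeg hQ) (by rw [finrank_top, hk]) (by simp)
    (fun u _ v hv => by rw [(Submodule.mem_bot F).mp hv, polar_zero_right]) (fun v _ => ng_apply Q v)
    (fun v hv => by rw [(Submodule.mem_bot F).mp hv, map_zero])
  refine ⟨⟨l, l1.symm, l2⟩, ?_⟩
  rw [l1, reflProd_mem_commutator_iff hQ (rgrp h2 hQ), l3]
  exact ⟨fun h => h.2, fun h => ⟨l2, h⟩⟩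

lemma ng_sq (Q : QuadraticForm F V) : ng Q ^ 2 = 1 := by
  apply OGrp_ext
  intro v
  rw [pow_two, coe_mul_apply, ng_apply, ng_apply, neg_neg]
  rfl

lemma orderOf_ng (h2 : (2 : F) ≠ 0) (Q : QuadraticForm F V) (hV : 0 < finrank F V) : orderOf (ng Q) = 2 := by
  apply orderOf_eq_prime (ng_sq Q)
  intro h
  have hnt : Nontrivial V := Module.nontrivial_of_finrank_pos (R := F) hV
  obtain ⟨v, hv⟩ := exists_ne (0 : V)
  have h3 : (ng Q : V ≃ₗ[F] V) v = v := by rw [h]; rfl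
  rw [ng_apply] at h3
  have h4 : (2 : F) • v = 0 := by
    rw [two_smul]
    nth_rewrite 1 [← h3]
    exact neg_add_cancel v
  exact hv ((smul_eq_zero.mp h4).resolve_left h2)

/-- the data of `-1` -/
theorem Rd.neg (h2 : (2 : F) ≠ 0) (k : ℕ) (hk : 0 < k) (τ : Prop) : Rd F k 2 τ (τ ↔ (IsSquare (-1 : F) ∨ Even k)) := by
  obtain ⟨ι, _, _, Q, h1, h3, h4⟩ := exists_model (F := F) (m := k) hk τ
  obtain ⟨h5, h6⟩ := ng_facts h2 h1 h3
  have h7 := Rd.of h1 h3 h5
  rw [orderOf_ng h2 Q (by omega)] at h7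
  refine h7.iff h4 ?_
  rw [h6, h4]

end neg

section tor
variable {F : Type*} [Field F] [Fintype F] {L : Type*} [Field L] [Fintype L] [Algebra F L]

lemma exists_order {L : Type*} [Field L] [Fintype L] {n : ℕ} (hn : n ∣ Fintype.card L - 1) : ∃ a : Lˣ, orderOf a = n := by
  classical
  have hc : Nat.card Lˣ = Fintype.card L - 1 := by
    rw [Nat.card_eq_fintype_card, Fintype.card_units]
  obtain ⟨g, hg⟩ := IsCyclic.exists_ofOrder_eq_natCard (α := Lˣ)
  obtain ⟨k, hk⟩ := hn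
  have hpos : 0 < Fintype.card L - 1 := by
    rw [← hc]
    exact Nat.card_pos
  have hk0 : 0 < k := by
    rcases Nat.eq_zero_or_pos k with rfl | h
    · omega
    · exact h
  refine ⟨g ^ k, ?_⟩
  rw [orderOf_pow_of_dvd hk0.ne' (by rw [hg, hc, hk]; exact dvd_mul_left _ _), hg, hc, hk]
  exact Nat.mul_div_cancel _ hk0

lemma trace_nd {a : L} (h : ∀ b : L, Algebra.trace F L (a * b) = 0) : a = 0 := by
  have h3 := traceForm_nondegenerate F L
  exact h3.1 a (fun b => h b)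

end tor

end Cfsg.Agent.H39.SP
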