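import Mathlib
import Cfsg.Agent.H39.SP4

/-!
Tori in orthogonal groups.
-/

set_option autoImplicit false

namespace Cfsg.Agent.H39.SP

open Module QuadraticMap Cfsg.Agent.Orth Cfsg.Agent.H39.OE

section tor
universe u
variable {F : Type u} [Field F] [Fintype F]

lemma sop_of_rank (h2 : (2 : F) ≠ 0) {V : Type*} [AddCommGroup V] [Module F V] [FiniteDimensional F V] {Q : QuadraticForm F V}
    (hQ : (polarBilin Q).Nondegenerate) (hV : Even (finrank F V)) {y : OGrp Q} (h : y = 1 ∨ ∀ v, (y : V ≃ₗ[F] V) v = v → v = 0) : SOp Q y := by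
  rcases h with rfl | h
  · exact sop_one
  · rw [sop_iff h2 hQ]
    have h3 := LinearMap.finrank_range_add_finrank_ker (dmap y)
    have h4 : LinearMap.ker (dmap y) = ⊥ := by
      rw [eq_bot_iff]
      intro v hv
      rw [LinearMap.mem_ker, dmap_apply, sub_eq_zero] at hv
      exact (Submodule.mem_bot F).mpr (h v hv.symm)
    rw [h4, finrank_bot, add_zero] at h3
    rw [h3]
    exact hV

lemma exists_ext (n : ℕ) (hn : n ≠ 0) : ∃ (K : Type) (_ : Field K) (_ : Fintype K) (_ : Algebra F K), finrank F K = n ∧ Fintype.card K = Fintype.card F ^ n := by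
  obtain ⟨p, hp⟩ := CharP.exists F
  have hpp : Fact p.Prime := ⟨CharP.char_is_prime F p⟩
  have hne : NeZero n := ⟨hn⟩
  have : Finite (FiniteField.Extension F p n) := inferInstance
  letI : Fintype (FiniteField.Extension F p n) := Fintype.ofFinite _
  refine ⟨FiniteField.Extension F p n, inferInstance, inferInstance, inferInstance, FiniteField.finrank_extension F p n, ?_⟩
  rw [← Nat.card_eq_fintype_card, ← Nat.card_eq_fintype_card]
  exact FiniteField.natCard_extension F p n

/-- split tori -/
theorem torPlus (h2 : (2 : F) ≠ 0) {e n : ℕ} (he : e ≠ 0) (hn : n ∣ Fintype.card F ^ e - 1) : ∃ ω, Rd F e n True ω := by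
  obtain ⟨L, _, _, _, hL, hcL⟩ := exists_ext (F := F) e he
  obtain ⟨a, ha⟩ := exists_order (L := L) (n := n) (by rw [hcL]; exact hn)
  let B : LinearMap.BilinForm F (L × L) := LinearMap.mk₂ F (fun u v => Algebra.trace F L (u.1 * v.2))
    (fun u u' v => by rw [Prod.fst_add, add_mul, map_add])
    (fun c u v => by rw [Prod.smul_fst, smul_mul_assoc, map_smul, smul_eq_mul])
    (fun u v v' => by rw [Prod.snd_add, mul_add, map_add])
    (fun c u v => by rw [Prod.smul_snd, mul_smul_comm, map_smul, smul_eq_mul])
  let Q : QuadraticForm F (L × L) := LinearMap.BilinMap.toQuadraticMap B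
  have hQa : ∀ v, Q v = Algebra.trace F L (v.1 * v.2) := fun v => rfl
  have hpol : ∀ u v, polar Q u v = Algebra.trace F L (u.1 * v.2 + v.1 * u.2) := by
    intro u v
    rw [polar, hQa, hQa, hQa, ← map_sub, ← map_sub]
    congr 1
    rw [Prod.fst_add, Prod.snd_add]
    ring
  have hQ : (polarBilin Q).Nondegenerate := by
    apply H99.nondegenerate_of_ND
    intro u _ hu
    have h3 : u.1 = 0 := trace_nd (F := F) (fun b => by
      have h4 := hu (0, b) Submodule.mem_top
      change polar Q u (0, b) = 0 at h4
      rw [hpol] at h4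
      simpa using h4)
    have h4 : u.2 = 0 := trace_nd (F := F) (fun b => by
      have h4 := hu (b, 0) Submodule.mem_top
      change polar Q u (b, 0) = 0 at h4
      rw [hpol] at h4
      simp only [mul_zero, zero_add] at h4
      rw [mul_comm]
      exact h4)
    exact Prod.ext h3 h4
  have hV : finrank F (L × L) = 2 * e := by rw [finrank_prod, hL]; ring
  have hPT : PT Q ⊤ := by
    refine ⟨LinearMap.range (LinearMap.inl F L L), le_top, ?_, ?_⟩
    · rintro _ ⟨u, rfl⟩
      rw [hQa]
      simp
    · rw [LinearMap.finrank_range_of_inj LinearMap.inl_injective, finrank_top, hV, hL]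
  let y : Lˣ → OGrp Q := fun b => mkIsom Q
    (LinearMap.prodMap (LinearMap.mulLeft F (b : L)) (LinearMap.mulLeft F ((b⁻¹ : Lˣ) : L)))
    (LinearMap.prodMap (LinearMap.mulLeft F ((b⁻¹ : Lˣ) : L)) (LinearMap.mulLeft F (b : L)))
    (fun x => by
      apply Prod.ext <;> simp [LinearMap.prodMap_apply])
    (fun x => by
      apply Prod.ext <;> simp [LinearMap.prodMap_apply])
    (fun x => by
      rw [hQa, hQa]
      simp only [LinearMap.prodMap_apply, LinearMap.mulLeft_apply]
      congr 1
      rw [mul_mul_mul_comm, Units.mul_inv, one_mul])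
  have hya : ∀ b v, (y b : (L × L) ≃ₗ[F] (L × L)) v = ((b : L) * v.1, ((b⁻¹ : Lˣ) : L) * v.2) := fun b v => rfl
  have hpow : ∀ (b : Lˣ) (m : ℕ), y b ^ m = y (b ^ m) := by
    intro b m
    induction m with
    | zero =>
      apply OGrp_ext
      intro v
      rw [hya, pow_zero, pow_zero]
      simp
    | succ m ih =>
      rw [pow_succ, ih]
      apply OGrp_ext
      intro v
      rw [coe_mul_apply, hya, hya, hya]
      apply Prod.ext
      · simp [pow_succ, mul_assoc]
      · simp only [pow_succ, mul_inv_rev]
        push_cast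
        ring
  have hone : ∀ b, y b = 1 ↔ b = 1 := by
    intro b
    constructor
    · intro h
      have h3 := hya b (1, 1)
      rw [h] at h3
      have h4 := congrArg Prod.fst h3
      apply Units.ext
      simp only [mul_one] at h4
      exact h4.symm
    · rintro rfl
      apply OGrp_ext
      intro v
      rw [hya]
      simp
  have ho : orderOf (y a) = n := by
    rw [← ha]
    apply Nat.dvd_antisymm
    · rw [orderOf_dvd_iff_pow_eq_one, hpow, hone, pow_orderOf_eq_one]
    · rw [orderOf_dvd_iff_pow_eq_one, ← hone, ← hpow, pow_orderOf_eq_one]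
  have hS : SOp Q (y a) := by
    apply sop_of_rank h2 hQ (by rw [hV]; exact even_two_mul e)
    by_cases h1 : a = 1
    · exact Or.inl ((hone a).mpr h1)
    · right
      intro v hv
      rw [hya] at hv
      have h3 := congrArg Prod.fst hv
      have h4 := congrArg Prod.snd hv
      simp only at h3 h4
      have ha1 : (a : L) ≠ 1 := fun h => h1 (Units.ext h)
      have ha2 : ((a⁻¹ : Lˣ) : L) ≠ 1 := fun h => h1 (by rw [← inv_eq_one]; exact Units.ext h)
      apply Prod.ext
      · have : ((a : L) - 1) * v.1 = 0 := by linear_combination h3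
        exact (mul_eq_zero.mp this).resolve_left (sub_ne_zero.mpr ha1)
      · have : (((a⁻¹ : Lˣ) : L) - 1) * v.2 = 0 := by linear_combination h4
        exact (mul_eq_zero.mp this).resolve_left (sub_ne_zero.mpr ha2)
  have h5 := Rd.of hQ hV hS
  rw [ho] at h5
  exact ⟨_, h5.iff ⟨fun _ => trivial, fun _ => hPT⟩ Iff.rfl⟩

/-- nonsplit tori -/
theorem torMinus (h2 : (2 : F) ≠ 0) {e n : ℕ} (he : e ≠ 0) (hn : n ∣ Fintype.card F ^ e + 1)
    (hr : e = 1 ∨ ∃ r : ℕ, r.Prime ∧ r ≠ 2 ∧ orderOf ((Fintype.card F : ℕ) : ZMod r) = 2 * e) : ∃ ω, Rd F e n False ω := by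
  obtain ⟨L, _, _, _, hL, hcL⟩ := exists_ext (F := F) (2 * e) (by omega)
  set q := Fintype.card F with hq
  have hq1 : 1 < q := Fintype.one_lt_card
  have hfac : q ^ (2 * e) - 1 = (q ^ e - 1) * (q ^ e + 1) := by
    rw [mul_comm 2 e, pow_mul, mul_comm]
    have := Nat.sq_sub_sq (q ^ e) 1
    rwa [one_pow] at this
  obtain ⟨a, ha⟩ := exists_order (L := L) (n := n) (by rw [hcL, hfac]; exact hn.mul_left _)
  let c : L ≃ₐ[F] L := (FiniteField.frobeniusAlgEquivOfAlgebraic F L) ^ e
  have hc : ∀ z : L, c z = z ^ (q ^ e) := by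
    intro z
    have h3 := congrFun (FiniteField.coe_frobeniusAlgEquivOfAlgebraic_iterate F L e) z
    rw [← h3]
    change ((FiniteField.frobeniusAlgEquivOfAlgebraic F L) ^ e) z = _
    rw [AlgEquiv.coe_pow]
  have hcc : ∀ z : L, c (c z) = z := by
    intro z
    rw [hc, hc, ← pow_mul, ← pow_add, ← two_mul, ← hcL]
    exact FiniteField.pow_card z
  have htr : ∀ z : L, Algebra.trace F L (c z) = Algebra.trace F L z := fun z => Algebra.trace_eq_of_algEquiv c z
  let B : LinearMap.BilinForm F L := LinearMap.mk₂ F (fun u v => Algebra.trace F L (u * c v))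
    (fun u u' v => by rw [add_mul, map_add])
    (fun k u v => by rw [smul_mul_assoc, map_smul, smul_eq_mul])
    (fun u v v' => by rw [map_add, mul_add, map_add])
    (fun k u v => by rw [map_smul, mul_smul_comm, map_smul, smul_eq_mul])
  let Q : QuadraticForm F L := LinearMap.BilinMap.toQuadraticMap B
  have hQa : ∀ v, Q v = Algebra.trace F L (v * c v) := fun v => rfl
  have hsym : ∀ u v : L, Algebra.trace F L (v * c u) = Algebra.trace F L (u * c v) := by
    intro u v
    rw [← htr (v * c u), _root_.map_mul, hcc, mul_comm]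
  have hpol : ∀ u v, polar Q u v = 2 * Algebra.trace F L (u * c v) := by
    intro u v
    rw [polar, hQa, hQa, hQa, map_add, add_mul, mul_add, mul_add, map_add, map_add, map_add, hsym u v]
    ring
  have hQ : (polarBilin Q).Nondegenerate := by
    apply H99.nondegenerate_of_ND
    intro u _ hu
    apply trace_nd (F := F)
    intro b
    have h4 := hu (c b) Submodule.mem_top
    change polar Q u (c b) = 0 at h4
    rw [hpol, hcc] at h4
    exact (mul_eq_zero.mp h4).resolve_left h2
  have hnorm : ∀ b : Lˣ, (b : L) ^ (q ^ e + 1) = 1 → (b : L) * c b = 1 := by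
    intro b hb
    rw [hc, ← pow_succ', hb]
  let y : (b : Lˣ) → (b : L) ^ (q ^ e + 1) = 1 → OGrp Q := fun b hb => mkIsom Q
    (LinearMap.mulLeft F (b : L)) (LinearMap.mulLeft F ((b⁻¹ : Lˣ) : L))
    (fun x => by simp) (fun x => by simp)
    (fun x => by
      rw [hQa, hQa, LinearMap.mulLeft_apply, _root_.map_mul c (b : L) x]
      have h3 := hnorm b hb
      have h4 : (b : L) * x * (c (b : L) * c x) = x * c x := by linear_combination (x * c x) * h3
      rw [h4])
  have hya : ∀ b hb v, (y b hb : L ≃ₗ[F] L) v = (b : L) * v := fun b hb v => rfl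
  have hpow : ∀ (b : Lˣ) hb (m : ℕ) v, ((y b hb ^ m : OGrp Q) : L ≃ₗ[F] L) v = (b : L) ^ m * v := by
    intro b hb m
    induction m with
    | zero => intro v; rw [pow_zero, pow_zero, one_mul]; rfl
    | succ m ih =>
      intro v
      rw [pow_succ, coe_mul_apply, ih, hya b hb, pow_succ]
      ring
  have hone : ∀ (b : Lˣ) hb (m : ℕ), y b hb ^ m = 1 ↔ b ^ m = 1 := by
    intro b hb m
    constructor
    · intro h
      have h3 := hpow b hb m 1
      rw [h, mul_one] at h3
      apply Units.ext
      rw [Units.val_pow_eq_pow_val, Units.val_one]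
      exact h3.symm
    · intro h
      apply OGrp_ext
      intro v
      rw [hpow b hb]
      have h3 : (b : L) ^ m = 1 := by rw [← Units.val_pow_eq_pow_val, h, Units.val_one]
      rw [h3, one_mul]
      rfl
  have han : (a : L) ^ (q ^ e + 1) = 1 := by
    obtain ⟨k, hk⟩ := hn
    rw [hk, pow_mul, ← Units.val_pow_eq_pow_val, ← ha, pow_orderOf_eq_one, Units.val_one, one_pow]
  have ho : orderOf (y a han) = n := by
    rw [← ha]
    apply Nat.dvd_antisymm
    · rw [orderOf_dvd_iff_pow_eq_one, hone a han, pow_orderOf_eq_one]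
    · rw [orderOf_dvd_iff_pow_eq_one, ← hone a han, pow_orderOf_eq_one]
  have hfixy : ∀ (b : Lˣ) hb, b ≠ 1 → ∀ v, (y b hb : L ≃ₗ[F] L) v = v → v = 0 := by
    intro b hb h1 v hv
    rw [hya b hb] at hv
    have hb1 : (b : L) ≠ 1 := fun h => h1 (Units.ext h)
    have : ((b : L) - 1) * v = 0 := by linear_combination hv
    exact (mul_eq_zero.mp this).resolve_left (sub_ne_zero.mpr hb1)
  have hS : SOp Q (y a han) := by
    apply sop_of_rank h2 hQ (by rw [hL]; exact even_two_mul e)
    by_cases h1 : a = 1
    · left
      have := (hone a han 1).mpr (by rw [h1, one_pow])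
      rwa [pow_one] at this
    · exact Or.inr (hfixy a han h1)
  have hPT : ¬ PT Q ⊤ := by
    rcases hr with rfl | ⟨r, hrp, hr2, hro⟩
    · rintro ⟨U, -, u2, u3⟩
      rw [finrank_top, hL] at u3
      have hU0 : U ≠ ⊥ := by
        rintro rfl
        rw [finrank_bot] at u3
        omega
      obtain ⟨x, hx, hx0⟩ := Submodule.exists_mem_ne_zero_of_ne_bot hU0
      have h3 := u2 x hx
      rw [hQa] at h3
      have h4 : ∀ b : F, Algebra.trace F L ((x * c x) * algebraMap F L b) = 0 := by
        intro b
        rw [mul_comm, ← Algebra.smul_def, map_smul, h3, smul_zero]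
      -- `x * c x` lies in `F`
      have h5 : c (x * c x) = x * c x := by rw [_root_.map_mul, hcc, mul_comm]
      have h6 : ∃ b : F, algebraMap F L b = x * c x := by
        rw [hc, pow_one] at h5
        have h7 : finrank F L = 2 := by rw [hL]
        have h8 := (FiniteField.coe_frobeniusAlgEquivOfAlgebraic F L)
        by_contra hcon
        -- the polynomial `X^q - X` has at most `q` roots
        have hroots : ∀ t : L, t ^ q = t → t ∈ Set.range (algebraMap F L) := by
          intro t ht
          have hsp := FiniteField.roots_X_pow_card_sub_X F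
          have h9 : (Polynomial.X ^ q - Polynomial.X : Polynomial F).Splits := by
            rw [Polynomial.splits_iff_card_roots, hsp, Finset.card_val, Finset.card_univ, FiniteField.X_pow_card_sub_X_natDegree_eq F hq1]
          have h10 : (Polynomial.X ^ q - Polynomial.X : Polynomial F).aeval t = 0 := by
            simp [ht]
          exact h9.mem_range_of_isRoot (FiniteField.X_pow_card_sub_X_ne_zero F hq1) (by
            rw [Polynomial.IsRoot, Polynomial.eval_map_algebraMap]
            exact h10)
        exact hcon (hroots _ h5)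
      obtain ⟨b, hb⟩ := h6
      rw [← hb, Algebra.trace_algebraMap, hL] at h3
      have h7 : b = 0 := by
        have h8 : (2 : F) = 0 ∨ b = 0 := by simpa using h3
        exact h8.resolve_left h2
      rw [h7, map_zero] at hb
      have h8 : x ≠ 0 := hx0
      have h9 : c x ≠ 0 := fun h => h8 (by
        have := hcc x
        rw [h, map_zero] at this
        exact this.symm)
      exact mul_ne_zero h8 h9 hb.symm
    · haveI : Fact r.Prime := ⟨hrp⟩
      obtain ⟨p, hp⟩ := CharP.exists F
      haveI : Fact p.Prime := ⟨CharP.char_is_prime F p⟩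
      have hrp' : r ≠ p := by
        rintro rfl
        have h3 : ((q : ℕ) : ZMod r) = 0 := by
          rw [ZMod.natCast_eq_zero_iff]
          obtain ⟨k, -, hk⟩ := FiniteField.card F r
          rw [hq, hk]
          exact dvd_pow_self r k.ne_zero
        rw [h3] at hro
        have h4 : orderOf (0 : ZMod r) = 0 := by
          rw [orderOf_eq_zero_iff']
          intro m hm h
          rw [zero_pow hm.ne'] at h
          exact zero_ne_one h
        omega
      have hrd : r ∣ q ^ e + 1 := by
        have h3 : r ∣ q ^ (2 * e) - 1 := by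
          rw [← hro]
          have h4 : ((q ^ orderOf ((q : ℕ) : ZMod r) : ℕ) : ZMod r) = ((1 : ℕ) : ZMod r) := by
            push_cast
            exact pow_orderOf_eq_one _
          rw [ZMod.natCast_eq_natCast_iff] at h4
          exact (Nat.modEq_iff_dvd' (Nat.one_le_pow _ _ (by omega))).mp h4.symm
        rw [hfac] at h3
        rcases (Nat.Prime.dvd_mul hrp).mp h3 with h4 | h4
        · exfalso
          have h5 : ((q : ℕ) : ZMod r) ^ e = 1 := by
            have h6 : ((q ^ e : ℕ) : ZMod r) = ((1 : ℕ) : ZMod r) := by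
              rw [ZMod.natCast_eq_natCast_iff]
              exact ((Nat.modEq_iff_dvd' (Nat.one_le_pow _ _ (by omega))).mpr h4).symm
            push_cast at h6
            exact h6
          have h6 := orderOf_dvd_of_pow_eq_one h5
          rw [hro] at h6
          have := Nat.le_of_dvd (by omega) h6
          omega
        · exact h4
      obtain ⟨ξ, hξ⟩ := exists_order (L := L) (n := r) (by rw [hcL, hfac]; exact hrd.mul_left _)
      have hξn : (ξ : L) ^ (q ^ e + 1) = 1 := by
        obtain ⟨k, hk⟩ := hrd
        rw [hk, pow_mul, ← Units.val_pow_eq_pow_val, ← hξ, pow_orderOf_eq_one, Units.val_one, one_pow]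
      have hξ1 : ξ ≠ 1 := by
        rintro rfl
        rw [orderOf_one] at hξ
        exact hrp.one_lt.ne hξ
      have hblk : H99.blk r q = 2 * e := by
        rw [H99.blk, hro, if_pos (even_two_mul e)]
      have h3 := type_blocks (p := p) hr2 hrp' (Q := Q) (x := ((y ξ hξn : L ≃ₗ[F] L) : L →ₗ[F] L)) (fun v => OGrp_q _ v) (by
          apply LinearMap.ext
          intro v
          rw [← coe_pow_apply, (hone ξ hξn r).mpr (by rw [← hξ, pow_orderOf_eq_one])]
          rfl) (W := ⊤) (fun _ _ => Submodule.mem_top) (nd_of_nondeg hQ) (fun v _ hv => hfixy ξ hξn hξ1 v hv) (j := 1) (by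
          rw [finrank_top, hL, hblk, one_mul])
      rw [h3, hro]
      rintro (h4 | h4)
      · rw [← Nat.not_even_iff_odd] at h4
        exact h4 (even_two_mul e)
      · exact absurd h4 (by decide)
  have h5 := Rd.of hQ hL hS
  rw [ho] at h5
  exact ⟨_, h5.iff ⟨fun h => hPT h, fun h => absurd h id⟩ Iff.rfl⟩

end tor

end Cfsg.Agent.H39.SP
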