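import Mathlib
import Cfsg.Agent.H39.SP5

/-!
Element orders realized in the semidirect product.
-/

set_option autoImplicit false

namespace Cfsg.Agent.H39.SP

open Module QuadraticMap Cfsg.Agent.Orth Cfsg.Agent.H39.OE

section K
universe u
variable {F : Type u} [Field F] [Fintype F]

lemma Rd.om {d n : ℕ} {τ ω : Prop} (h : Rd F d n τ ω) (hn : Odd n) : ω := by
  obtain ⟨Q, y, a1, a2, a3, a4, a5⟩ := h
  exact a5.mp (comm_of_odd a1 hn (by rw [← a4, pow_orderOf_eq_one]))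

lemma Rd.odd {d n : ℕ} {τ ω : Prop} (h : Rd F d n τ ω) (hn : Odd n) : Rd F d n τ True :=
  h.iff Iff.rfl ⟨fun _ => trivial, fun _ => h.om hn⟩

lemma Rd.negmul (h2 : (2 : F) ≠ 0) {d n : ℕ} {τ ω : Prop} (h : Rd F d n τ ω) (hd : 0 < d) (hn : Odd n) :
    Rd F d (2 * n) τ (ω ↔ (τ ↔ (IsSquare (-1 : F) ∨ Even d))) := by
  obtain ⟨Q, y, a1, a2, a3, a4, a5⟩ := h
  have hf : finrank F (Fin (2 * d) → F) = 2 * d := by simp
  obtain ⟨b1, b2⟩ := ng_facts h2 a1 hf
  refine ⟨Q, y * ng Q, a1, a2, sop_mul a3 b1, ?_, ?_⟩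
  · have hc : Commute y (ng Q) := by
      apply OGrp_ext
      intro v
      rw [coe_mul_apply, coe_mul_apply, ng_apply, ng_apply, map_neg]
    have ho := orderOf_ng h2 Q (by rw [hf]; omega)
    rw [hc.orderOf_mul_eq_mul_orderOf_of_coprime (by rw [a4, ho]; exact (Nat.coprime_two_right.mpr hn)), a4, ho, mul_comm]
  · rw [comm_mul_iff h2 a1 a3 b1, a5, b2, a2]

lemma plane_any (h2 : (2 : F) ≠ 0) (ω : Prop) : ∃ τ, Rd F 1 2 τ ω := by
  refine ⟨(ω ↔ IsSquare (-1 : F)), (Rd.neg h2 1 one_pos _).iff Iff.rfl ?_⟩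
  have : ¬ Even 1 := by decide
  tauto

variable (F) in
/-- the spectrum of the semidirect product -/
def Sx (p N : ℕ) : Prop := Rd F 4 N False True ∨ Bp F p N

lemma Sx.of_lt (h2 : (2 : F) ≠ 0) {p d n : ℕ} {τ : Prop} (h : Rd F d n τ True) (hd : d < 4) : Sx F p n := by
  left
  have h3 := h.glue h2 (Rd.one (F := F) (4 - d) (¬ τ) (Or.inl (by omega)))
  rw [Nat.lcm_one_right, show d + (4 - d) = 4 by omega] at h3
  exact h3.iff (by tauto) (by tauto)

variable {p : ℕ} [Fact p.Prime] [CharP F p]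

lemma G3 (h2 : (2 : F) ≠ 0) (hpo : Odd p) {d n : ℕ} {τ : Prop} (h : Rd F d n τ True) (hd : d ≤ 3) (hn : ¬ p ∣ n) : Sx F p n ∧ Sx F p (p * n) := by
  refine ⟨Sx.of_lt h2 h (by omega), Or.inr ?_⟩
  have := T2 (p := p) h2 hpo h (e := 0) (s := n) (by rw [pow_zero]; omega) (by rw [pow_zero, Nat.lcm_one_left, one_mul]) hn
  rwa [zero_add, pow_one] at this

lemma G4 (h2 : (2 : F) ≠ 0) (hpo : Odd p) {d n : ℕ} {τ ω : Prop} (h : Rd F d n τ ω) (hd : d ≤ 2) (hn : ¬ p ∣ n) : Sx F p n ∧ Sx F p (p * n) := by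
  by_cases hω : ω
  · exact G3 h2 hpo (h.iff Iff.rfl ⟨fun _ => trivial, fun _ => hω⟩) (by omega) hn
  · have hne : Even n := by
      by_contra ho
      exact hω (h.om (Nat.not_even_iff_odd.mp ho))
    obtain ⟨τ', h'⟩ := plane_any (F := F) h2 False
    have h3 := h.glue h2 h'
    rw [Nat.lcm_eq_left (even_iff_two_dvd.mp hne)] at h3
    exact G3 h2 hpo (h3.iff Iff.rfl (by tauto)) (by omega) hn

lemma K5 (h2 : (2 : F) ≠ 0) (hp3 : p = 3) {n : ℕ} {τ ω : Prop} (h : Rd F 1 n τ ω) (hn : ¬ p ∣ n) : Sx F p (p ^ 2 * n) := by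
  have h3 := h.glue h2 h
  rw [Nat.lcm_self] at h3
  right
  have h4 := T2 (p := p) h2 (by rw [hp3]; decide) (h3.iff Iff.rfl (by tauto) : Rd F (1 + 1) n _ True) (e := 1) (s := n) (by rw [hp3]; norm_num)
    (by rw [pow_one]; exact Nat.Coprime.lcm_eq_mul ((Nat.Prime.coprime_iff_not_dvd Fact.out).mpr hn)) hn
  exact h4

lemma q_facts (h2 : (2 : F) ≠ 0) : Odd (Fintype.card F) := by
  apply Nat.odd_iff.mpr
  apply FiniteField.odd_card_of_char_ne_two
  intro h
  apply h2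
  have : ((2 : ℕ) : F) = 0 := by
    rw [← h]
    exact CharP.cast_eq_zero F (ringChar F)
  exact_mod_cast this

lemma ord4 (h2 : (2 : F) ≠ 0) : ∃ r : ℕ, r.Prime ∧ r ≠ 2 ∧ orderOf ((Fintype.card F : ℕ) : ZMod r) = 2 * 2 := by
  set q := Fintype.card F with hq
  obtain ⟨k, hk⟩ := q_facts h2
  have hq1 : 1 < q := Fintype.one_lt_card
  have hk1 : 1 ≤ k := by omega
  -- `(q² + 1)/2` is odd and larger than one
  rw [← hq] at hk
  have h3 : q ^ 2 + 1 = 2 * (2 * (k * (k + 1)) + 1) := by rw [hk]; ring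
  obtain ⟨r, hr, hrd⟩ := Nat.exists_prime_and_dvd (n := 2 * (k * (k + 1)) + 1) (by
    have : 1 * 1 ≤ k * (k + 1) := Nat.mul_le_mul hk1 (by omega)
    omega)
  have hr2 : r ≠ 2 := by
    rintro rfl
    omega
  have hrq : r ∣ q ^ 2 + 1 := by rw [h3]; exact hrd.mul_left 2
  haveI : Fact r.Prime := ⟨hr⟩
  refine ⟨r, hr, hr2, ?_⟩
  have h4 : ((q : ℕ) : ZMod r) ^ 2 = -1 := by
    have h5 : ((q ^ 2 + 1 : ℕ) : ZMod r) = 0 := (ZMod.natCast_eq_zero_iff _ _).mpr hrq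
    push_cast at h5
    linear_combination h5
  have hne : (-1 : ZMod r) ≠ 1 := by
    intro h
    have h5 : (2 : ZMod r) = 0 := by linear_combination -h
    have h6 : ((2 : ℕ) : ZMod r) = 0 := by exact_mod_cast h5
    rw [ZMod.natCast_eq_zero_iff] at h6
    exact hr2 ((Nat.prime_dvd_prime_iff_eq hr Nat.prime_two).mp h6)
  have h5 := orderOf_eq_prime_pow (p := 2) (n := 1) (x := ((q : ℕ) : ZMod r)) (by rw [pow_one, h4]; exact hne) (by
    rw [show 2 ^ (1 + 1) = 2 * 2 by norm_num, pow_mul, h4]; norm_num)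
  rw [h5]
  norm_num

lemma ord6 (h2 : (2 : F) ≠ 0) : ∃ r : ℕ, r.Prime ∧ r ≠ 2 ∧ orderOf ((Fintype.card F : ℕ) : ZMod r) = 2 * 3 := by
  set q := Fintype.card F with hq
  obtain ⟨k, hk⟩ := q_facts h2
  have hq1 : 1 < q := Fintype.one_lt_card
  have hk1 : 1 ≤ k := by omega
  -- `q² - q + 1 = m`
  obtain ⟨m, hm⟩ : ∃ m, m + q = q ^ 2 + 1 := ⟨q ^ 2 + 1 - q, by
    have : q ≤ q ^ 2 := Nat.le_self_pow (by norm_num) q
    omega⟩
  have hm7 : 7 ≤ m := by
    have : 3 * q ≤ q ^ 2 := by rw [pow_two]; exact Nat.mul_le_mul_right q (by omega)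
    omega
  have hmo : Odd m := by
    have h3 : Odd (q ^ 2) := (q_facts h2).pow
    obtain ⟨l, hl⟩ := h3
    rw [Nat.odd_iff]
    omega
  have h9 : ¬ 9 ∣ m := by
    rintro ⟨c, hc⟩
    have h4 : (9 * c + q) % 9 = (q ^ 2 + 1) % 9 := by rw [← hc, hm]
    have h5 : q % 9 < 9 := Nat.mod_lt _ (by norm_num)
    have h6 : (q ^ 2 + 1) % 9 = ((q % 9) ^ 2 + 1) % 9 := by
      rw [Nat.add_mod, Nat.pow_mod, ← Nat.add_mod]
    rw [h6, Nat.mul_add_mod] at h4
    generalize q % 9 = x at h4 h5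
    interval_cases x <;> omega
  -- a prime divisor different from 3
  obtain ⟨r, hr, hr3, hrd⟩ : ∃ r : ℕ, r.Prime ∧ r ≠ 3 ∧ r ∣ m := by
    by_contra hcon
    push Not at hcon
    have h4 : ∀ r : ℕ, r.Prime → r ∣ m → r = 3 := fun r hr hd => by
      by_contra h
      exact hcon r hr h hd
    have h5 := Nat.eq_prime_pow_of_unique_prime_dvd (n := m) (p := 3) (by omega) (fun {d} hd hdm => h4 d hd hdm)
    have h6 : 2 ≤ m.primeFactorsList.length := by
      by_contra h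
      have h7 : m.primeFactorsList.length = 0 ∨ m.primeFactorsList.length = 1 := by omega
      rcases h7 with h7 | h7 <;> rw [h7] at h5 <;> omega
    apply h9
    rw [h5]
    exact pow_dvd_pow 3 h6
  have hr2 : r ≠ 2 := by
    rintro rfl
    rw [Nat.odd_iff] at hmo
    omega
  haveI : Fact r.Prime := ⟨hr⟩
  refine ⟨r, hr, hr2, ?_⟩
  set x : ZMod r := ((q : ℕ) : ZMod r) with hx
  have h4 : x ^ 2 - x + 1 = 0 := by
    have h5 : ((m + q : ℕ) : ZMod r) = ((q ^ 2 + 1 : ℕ) : ZMod r) := by rw [hm]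
    push_cast at h5
    have h6 : ((m : ℕ) : ZMod r) = 0 := (ZMod.natCast_eq_zero_iff _ _).mpr hrd
    rw [h6] at h5
    linear_combination -h5
  have h23 : (2 : ZMod r) ≠ 0 := by
    intro h
    have h6 : ((2 : ℕ) : ZMod r) = 0 := by exact_mod_cast h
    rw [ZMod.natCast_eq_zero_iff] at h6
    exact hr2 ((Nat.prime_dvd_prime_iff_eq hr Nat.prime_two).mp h6)
  have h33 : (3 : ZMod r) ≠ 0 := by
    intro h
    have h6 : ((3 : ℕ) : ZMod r) = 0 := by exact_mod_cast h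
    rw [ZMod.natCast_eq_zero_iff] at h6
    exact hr3 ((Nat.prime_dvd_prime_iff_eq hr Nat.prime_three).mp h6)
  have h5 : x ^ 3 = -1 := by linear_combination (x + 1) * h4
  apply orderOf_eq_of_pow_and_pow_div_prime (by norm_num)
  · have h7 : x ^ (3 * 2) = 1 := by rw [pow_mul, h5]; norm_num
    exact h7
  · intro s hs hsd
    have hs6 : s = 2 ∨ s = 3 := by
      rcases (Nat.Prime.dvd_mul hs).mp hsd with h | h
      · exact Or.inl ((Nat.prime_dvd_prime_iff_eq hs Nat.prime_two).mp h)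
      · exact Or.inr ((Nat.prime_dvd_prime_iff_eq hs Nat.prime_three).mp h)
    rcases hs6 with rfl | rfl
    · rw [show 2 * 3 / 2 = 3 by norm_num, h5]
      intro h
      exact h23 (by linear_combination -h)
    · rw [show 2 * 3 / 3 = 2 by norm_num]
      intro h
      -- `x² = 1` and `x² - x + 1 = 0` give `x = 2`, `3 = 0`
      have h6 : x = 2 := by linear_combination h - h4
      rw [h6] at h
      exact h33 (by linear_combination h)

end K

end Cfsg.Agent.H39.SP
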