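import Mathlib
import Cfsg.Agent.H39.SP6

/-!
Arithmetic: which orders occur in the semidirect product.
-/

set_option autoImplicit false

namespace Cfsg.Agent.H39.SP

open Module QuadraticMap Cfsg.Agent.Orth Cfsg.Agent.H39.OE

section K
universe u
variable {F : Type u} [Field F] [Fintype F] {p : ℕ} [Fact p.Prime] [CharP F p]

/-- the list of orders -/
def Good (q p N : ℕ) : Prop :=
  N ∣ (q ^ 4 - 1) / 2 ∨ N ∣ q ^ 3 - 1 ∨ N ∣ q ^ 3 + 1 ∨ N ∣ p * (q ^ 2 - 1) ∨ N ∣ p * (q ^ 2 + 1) ∨ (p = 3 ∧ (N ∣ 9 * (q - 1) ∨ N ∣ 9 * (q + 1)))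

lemma p_dvd_q : p ∣ Fintype.card F := by
  have h1 : ((Fintype.card F : ℕ) : F) = 0 := FiniteField.cast_card_eq_zero F
  exact (CharP.cast_eq_zero_iff F p _).mp h1

/-- divisors of `p ^ i * m` -/
lemma dvd_cases {p m N : ℕ} (hp : p.Prime) (hm : ¬ p ∣ m) {i : ℕ} (h : N ∣ p ^ i * m) : ∃ j n, j ≤ i ∧ n ∣ m ∧ N = p ^ j * n ∧ ¬ p ∣ n := by
  obtain ⟨a, b, ha, hb, rfl⟩ := exists_dvd_and_dvd_of_dvd_mul h
  obtain ⟨j, hj, rfl⟩ := (Nat.dvd_prime_pow hp).mp ha
  exact ⟨j, b, hj, hb, rfl, fun h => hm (h.trans hb)⟩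

lemma K1 (h2 : (2 : F) ≠ 0) {N : ℕ} (hN : N ∣ ((Fintype.card F) ^ 4 - 1) / 2) : Sx F p N := by
  set q := Fintype.card F with hq
  obtain ⟨k, hk⟩ := q_facts (F := F) h2
  rw [← hq] at hk
  have hq1 : 1 < q := Fintype.one_lt_card
  -- `(q² + 1) / 2 = c`, `q² - 1 = m`
  obtain ⟨c, hc⟩ : ∃ c, q ^ 2 + 1 = 2 * c := ⟨2 * (k * (k + 1)) + 1, by rw [hk]; ring⟩
  have hq20 : 0 < q ^ 2 := by positivity
  obtain ⟨m, hm⟩ : ∃ m, q ^ 2 = m + 1 := ⟨q ^ 2 - 1, by omega⟩
  have hco : Odd c := by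
    refine ⟨k * (k + 1), ?_⟩
    have : q ^ 2 + 1 = 2 * (2 * (k * (k + 1)) + 1) := by rw [hk]; ring
    omega
  have h4 : (q ^ 4 - 1) / 2 = c * m := by
    have h5 : q ^ 4 = 2 * (c * m) + 1 := by
      have h6 : q ^ 4 = (m + 1) * (m + 1) := by rw [← hm]; ring
      have h7 : m + 2 = 2 * c := by omega
      calc q ^ 4 = (m + 1) * (m + 1) := h6
        _ = (m + 2) * m + 1 := by ring
        _ = 2 * c * m + 1 := by rw [h7]
        _ = 2 * (c * m) + 1 := by ring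
    omega
  rw [h4] at hN
  have hcm : Nat.Coprime c m := by
    have h7 : m + 2 = 2 * c := by omega
    rw [Nat.coprime_iff_gcd_eq_one]
    have h8 : Nat.gcd c m ∣ 2 := by
      have h9 : Nat.gcd c m ∣ m + 2 := by rw [h7]; exact (Nat.gcd_dvd_left c m).mul_left 2
      exact (Nat.dvd_add_right (Nat.gcd_dvd_right c m)).mp h9
    rcases (Nat.dvd_prime Nat.prime_two).mp h8 with h | h
    · exact h
    · exfalso
      have h9 : 2 ∣ c := by rw [← h]; exact Nat.gcd_dvd_left c m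
      obtain ⟨l, hl⟩ := hco
      omega
  obtain ⟨n₁, n₂, hn1, hn2, rfl⟩ := exists_dvd_and_dvd_of_dvd_mul hN
  have hn12 : Nat.Coprime n₁ n₂ := Nat.Coprime.coprime_dvd_left hn1 (Nat.Coprime.coprime_dvd_right hn2 hcm)
  have ho1 : Odd n₁ := Odd.of_dvd_nat hco hn1
  obtain ⟨ω₁, r1⟩ := torMinus (F := F) h2 (e := 2) (n := n₁) (by norm_num) (by rw [← hq, hc]; exact hn1.mul_left 2) (Or.inr (ord4 h2))
  have r1' := r1.odd ho1
  obtain ⟨ω₂, r2⟩ := torPlus (F := F) h2 (e := 2) (n := n₂) (by norm_num) (by rw [← hq, hm, Nat.add_sub_cancel]; exact hn2)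
  left
  by_cases hω : ω₂
  · have h5 := r1'.glue h2 r2
    rw [hn12.lcm_eq_mul] at h5
    exact h5.iff (by tauto) (by tauto)
  · have hne : Even n₂ := by
      by_contra ho
      exact hω (r2.om (Nat.not_even_iff_odd.mp ho))
    have h5 := (r1'.negmul h2 (by norm_num) ho1).glue h2 r2
    have h6 : Nat.lcm (2 * n₁) n₂ = n₁ * n₂ := by
      obtain ⟨t, ht⟩ := hne
      apply Nat.dvd_antisymm
      · apply Nat.lcm_dvd
        · rw [ht, ← two_mul, mul_left_comm]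
          exact Nat.mul_dvd_mul_left 2 (Dvd.intro t rfl)
        · exact Dvd.intro_left n₁ rfl
      · exact hn12.mul_dvd_of_dvd_of_dvd ((Dvd.intro_left 2 rfl).trans (Nat.dvd_lcm_left _ _)) (Nat.dvd_lcm_right _ _)
    rw [h6] at h5
    have he : Even 2 := even_two
    exact h5.iff (by tauto) (by tauto)

/-- `d = 3` -/
lemma K2 (h2 : (2 : F) ≠ 0) {N : ℕ} {τ : Prop} (hR : ∀ n, n ∣ N → ∃ ω, Rd F 3 n τ ω) (h4 : (τ ↔ IsSquare (-1 : F)) ∨ ¬ 4 ∣ N) : Sx F p N := by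
  obtain ⟨ω, h⟩ := hR N dvd_rfl
  by_cases hω : ω
  · exact Sx.of_lt h2 (h.iff Iff.rfl (iff_true_intro hω)) (by norm_num)
  · have hne : Even N := by
      by_contra ho
      exact hω (h.om (Nat.not_even_iff_odd.mp ho))
    have h1 : ¬ Even 1 := by decide
    have hpl := Rd.neg (F := F) h2 1 one_pos (¬ τ)
    left
    rcases h4 with h4 | h4
    · have h5 := h.glue h2 hpl
      rw [Nat.lcm_eq_left (even_iff_two_dvd.mp hne)] at h5
      exact h5.iff (by tauto) (by tauto)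
    · by_cases h5 : τ ↔ IsSquare (-1 : F)
      · have h5 := h.glue h2 hpl
        rw [Nat.lcm_eq_left (even_iff_two_dvd.mp hne)] at h5
        exact h5.iff (by tauto) (by tauto)
      · obtain ⟨t, ht⟩ := hne
        have hto : Odd t := by
          by_contra hto
          rw [Nat.not_odd_iff_even] at hto
          obtain ⟨r, hr⟩ := hto
          exact h4 ⟨r, by omega⟩
        obtain ⟨ω', h'⟩ := hR t ⟨2, by omega⟩
        have h6 := (h'.odd hto).glue h2 hpl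
        rw [Nat.Coprime.lcm_eq_mul (Nat.coprime_two_right.mpr hto)] at h6
        rw [show t * 2 = N by omega] at h6
        exact h6.iff (by tauto) (by tauto)

theorem Good.sx (h2 : (2 : F) ≠ 0) (hpo : Odd p) {N : ℕ} (h : Good (Fintype.card F) p N) : Sx F p N := by
  set q := Fintype.card F with hq
  have hp : p.Prime := Fact.out
  have hpq : p ∣ q := p_dvd_q (F := F)
  have hq1 : 1 < q := Fintype.one_lt_card
  obtain ⟨k, hk⟩ := q_facts (F := F) h2
  rw [← hq] at hk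
  have hsub : ∀ e, e ≠ 0 → ¬ p ∣ q ^ e - 1 := by
    intro e he hd
    have h3 : p ∣ q ^ e := hpq.trans (dvd_pow_self q he)
    have h4 : 0 < q ^ e := by positivity
    have h5 := (Nat.dvd_sub h3 hd)
    rw [show q ^ e - (q ^ e - 1) = 1 by omega] at h5
    exact hp.one_lt.ne' (Nat.dvd_one.mp h5)
  have hadd : ∀ e, e ≠ 0 → ¬ p ∣ q ^ e + 1 := by
    intro e he hd
    have h3 : p ∣ q ^ e := hpq.trans (dvd_pow_self q he)
    have h5 := (Nat.dvd_add_right h3).mp hd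
    exact hp.one_lt.ne' (Nat.dvd_one.mp h5)
  have hm1 : IsSquare (-1 : F) ↔ q % 4 ≠ 3 := FiniteField.isSquare_neg_one_iff
  rcases h with h | h | h | h | h | ⟨h3, h⟩
  · exact K1 h2 h
  · refine K2 h2 (τ := True) (fun n hn => torPlus h2 (by norm_num) (hn.trans h)) ?_
    by_cases h4 : q % 4 = 3
    · right
      intro h5
      have h6 := h5.trans h
      have h7 : (q ^ 3) % 4 = 3 := by rw [Nat.pow_mod, h4]
      omega
    · left
      rw [hm1]
      tauto
  · refine K2 h2 (τ := False) (fun n hn => torMinus h2 (by norm_num) (hn.trans h) (Or.inr (ord6 h2))) ?_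
    by_cases h4 : q % 4 = 3
    · left
      rw [hm1]
      tauto
    · right
      intro h5
      have h6 := h5.trans h
      have h8 : q % 4 = 1 := by omega
      have h7 : (q ^ 3) % 4 = 1 := by rw [Nat.pow_mod, h8]
      omega
  · obtain ⟨j, n, hj, hn, rfl, hpn⟩ := dvd_cases (N := N) hp (hsub 2 (by norm_num)) (i := 1) (by rw [pow_one]; exact h)
    obtain ⟨ω, r⟩ := torPlus (F := F) h2 (e := 2) (n := n) (by norm_num) hn
    obtain ⟨g1, g2⟩ := G4 (p := p) h2 hpo r (by norm_num) hpn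
    interval_cases j
    · rwa [pow_zero, one_mul]
    · rwa [pow_one]
  · obtain ⟨j, n, hj, hn, rfl, hpn⟩ := dvd_cases (N := N) hp (hadd 2 (by norm_num)) (i := 1) (by rw [pow_one]; exact h)
    obtain ⟨ω, r⟩ := torMinus (F := F) h2 (e := 2) (n := n) (by norm_num) hn (Or.inr (ord4 h2))
    obtain ⟨g1, g2⟩ := G4 (p := p) h2 hpo r (by norm_num) hpn
    interval_cases j
    · rwa [pow_zero, one_mul]
    · rwa [pow_one]
  · have key : ∀ {n : ℕ} {τ ω : Prop} (j : ℕ), j ≤ 2 → Rd F 1 n τ ω → ¬ p ∣ n → Sx F p (p ^ j * n) := by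
      intro n τ ω j hj r hpn
      obtain ⟨g1, g2⟩ := G4 (p := p) h2 hpo r (by norm_num) hpn
      interval_cases j
      · rwa [pow_zero, one_mul]
      · rwa [pow_one]
      · exact K5 h2 h3 r hpn
    have h9 : (9 : ℕ) = p ^ 2 := by rw [h3]; norm_num
    rcases h with h | h
    · rw [h9] at h
      obtain ⟨j, n, hj, hn, rfl, hpn⟩ := dvd_cases hp (by have := hsub 1 (by norm_num); rwa [pow_one] at this) h
      obtain ⟨ω, r⟩ := torPlus (F := F) h2 (e := 1) (n := n) (by norm_num) (by rw [pow_one]; exact hn)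
      exact key j hj r hpn
    · rw [h9] at h
      obtain ⟨j, n, hj, hn, rfl, hpn⟩ := dvd_cases hp (by have := hadd 1 (by norm_num); rwa [pow_one] at this) h
      obtain ⟨ω, r⟩ := torMinus (F := F) h2 (e := 1) (n := n) (by norm_num) (by rw [pow_one]; exact hn) (Or.inl rfl)
      exact key j hj r hpn

/-- eigenvalue `-1` of large multiplicity -/
theorem A4 (h2 : (2 : F) ≠ 0) (hpo : Odd p) {j n a : ℕ} {τ ω : Prop} (h : Rd F j n τ ω) (hj : j ≤ 2)
    (ha : a = 0 ∨ p ^ (a - 1) + 3 ≤ 8 - 2 * j) (hn0 : n ≠ 0) : Sx F p (Nat.lcm (2 * p ^ a) n) := by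
  have hp : p.Prime := Fact.out
  obtain ⟨τ', h'⟩ := plane_any (F := F) h2 ω
  have h3 : Rd F (j + 1) (Nat.lcm n 2) (τ ↔ τ') True := (h.glue h2 h').iff Iff.rfl (by tauto)
  have h2p : Nat.Coprime 2 p := (Nat.coprime_two_left.mpr hpo)
  -- write the order as `p ^ c * s`
  have hne : Nat.lcm n 2 ≠ 0 := Nat.lcm_ne_zero hn0 (by norm_num)
  obtain ⟨c, s, hs, hcs⟩ := Nat.exists_eq_pow_mul_and_not_dvd hne p hp.one_lt.ne'
  have h4 : Nat.lcm (2 * p ^ a) n = Nat.lcm (p ^ a) (Nat.lcm n 2) := by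
    rw [← Nat.Coprime.lcm_eq_mul (h2p.pow_right a), Nat.lcm_comm 2, Nat.lcm_assoc, Nat.lcm_comm 2 n]
  rw [h4, hcs]
  have hl : ∀ i, Nat.lcm (p ^ i) (p ^ c * s) = p ^ (max i c) * s := by
    intro i
    rcases le_total i c with h | h
    · rw [max_eq_right h]
      exact Nat.lcm_eq_right ((pow_dvd_pow p h).mul_right s)
    · rw [max_eq_left h]
      apply Nat.dvd_antisymm
      · exact Nat.lcm_dvd (Dvd.intro s rfl) (Nat.mul_dvd_mul_right (pow_dvd_pow p h) s)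
      · exact (Nat.Coprime.pow_left i ((Nat.Prime.coprime_iff_not_dvd hp).mpr hs)).mul_dvd_of_dvd_of_dvd (Nat.dvd_lcm_left _ _)
          ((Dvd.intro_left (p ^ c) rfl).trans (Nat.dvd_lcm_right _ _))
  rw [hl]
  by_cases hac : a ≤ c
  · rw [max_eq_right hac, ← hcs]
    exact Sx.of_lt h2 h3 (by omega)
  · rw [max_eq_left (by omega)]
    right
    obtain ⟨e, rfl⟩ : ∃ e, a = e + 1 := ⟨a - 1, by omega⟩
    rw [Nat.add_sub_cancel] at ha
    refine T2 (p := p) h2 hpo h3 (e := e) (s := s) (by omega) ?_ hs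
    rw [hcs, hl, max_eq_left (by omega)]

/-- eigenvalue `1` of large multiplicity -/
theorem A3 (h2 : (2 : F) ≠ 0) (hpo : Odd p) {j n a : ℕ} {τ : Prop} (h : Rd F j n τ True) (hj : j ≤ 3)
    (ha : a = 0 ∨ p ^ (a - 1) + 2 * j ≤ 7) (hn0 : n ≠ 0) : Sx F p (Nat.lcm (p ^ a) n) := by
  have hp : p.Prime := Fact.out
  obtain ⟨c, s, hs, hcs⟩ := Nat.exists_eq_pow_mul_and_not_dvd hn0 p hp.one_lt.ne'
  have hl : ∀ i, Nat.lcm (p ^ i) (p ^ c * s) = p ^ (max i c) * s := by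
    intro i
    rcases le_total i c with h | h
    · rw [max_eq_right h]
      exact Nat.lcm_eq_right ((pow_dvd_pow p h).mul_right s)
    · rw [max_eq_left h]
      apply Nat.dvd_antisymm
      · exact Nat.lcm_dvd (Dvd.intro s rfl) (Nat.mul_dvd_mul_right (pow_dvd_pow p h) s)
      · exact (Nat.Coprime.pow_left i ((Nat.Prime.coprime_iff_not_dvd hp).mpr hs)).mul_dvd_of_dvd_of_dvd (Nat.dvd_lcm_left _ _)
          ((Dvd.intro_left (p ^ c) rfl).trans (Nat.dvd_lcm_right _ _))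
  rw [hcs, hl]
  by_cases hac : a ≤ c
  · rw [max_eq_right hac, ← hcs]
    exact Sx.of_lt h2 h (by omega)
  · rw [max_eq_left (by omega)]
    right
    obtain ⟨e, rfl⟩ : ∃ e, a = e + 1 := ⟨a - 1, by omega⟩
    rw [Nat.add_sub_cancel] at ha
    refine T2 (p := p) h2 hpo h (e := e) (s := s) (by omega) ?_ hs
    rw [hcs, hl, max_eq_left (by omega)]

end K

end Cfsg.Agent.H39.SP
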