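import Mathlib
import Cfsg.Agent.H39.SP7

/-!
Irreducible operators over finite fields.
-/

set_option autoImplicit false

namespace Cfsg.Agent.H39.SP

open Module QuadraticMap Cfsg.Agent.Orth Cfsg.Agent.H39.OE

section irr
variable {F : Type*} [Field F] [Fintype F] {V : Type*} [AddCommGroup V] [Module F V] [FiniteDimensional F V]

/-- irreducible operators -/
def Irr (S : V →ₗ[F] V) : Prop := ∀ W : Submodule F V, (∀ w ∈ W, S w ∈ W) → W = ⊥ ∨ W = ⊤

lemma aeval_comm (S : V →ₗ[F] V) (g : Polynomial F) (v : V) : S (Polynomial.aeval S g v) = Polynomial.aeval S g (S v) := by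
  have h : Polynomial.aeval S (Polynomial.X * g) = Polynomial.aeval S (g * Polynomial.X) := by rw [mul_comm]
  rw [_root_.map_mul, _root_.map_mul, Polynomial.aeval_X] at h
  exact LinearMap.congr_fun h v

lemma irr_minpoly [Nontrivial V] {S : V →ₗ[F] V} (hS : Irr S) : Irreducible (minpoly F S) ∧ (minpoly F S).natDegree = finrank F V := by
  have hint : IsIntegral F S := Algebra.IsIntegral.isIntegral S
  have hker : ∀ g : Polynomial F, Polynomial.aeval S g = 0 ∨ ∀ v, Polynomial.aeval S g v = 0 → v = 0 := by
    intro g
    rcases hS (LinearMap.ker (Polynomial.aeval S g)) (by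
      intro w hw
      rw [LinearMap.mem_ker] at hw ⊢
      rw [← aeval_comm, hw, map_zero]) with h | h
    · right
      intro v hv
      have : v ∈ LinearMap.ker (Polynomial.aeval S g) := hv
      rw [h] at this
      exact (Submodule.mem_bot F).mp this
    · left
      exact LinearMap.ker_eq_top.mp h
  constructor
  · refine ⟨minpoly.not_isUnit F S, ?_⟩
    intro a b hab
    have h0 : Polynomial.aeval S a * Polynomial.aeval S b = 0 := by rw [← _root_.map_mul, ← hab, minpoly.aeval]
    have hne : minpoly F S ≠ 0 := minpoly.ne_zero hint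
    have hor : Polynomial.aeval S a = 0 ∨ Polynomial.aeval S b = 0 := by
      rcases hker a with h | h
      · exact Or.inl h
      · right
        apply LinearMap.ext
        intro v
        exact h _ (LinearMap.congr_fun h0 v)
    rcases hor with h | h
    · right
      have h3 := minpoly.dvd F S h
      rw [hab] at h3
      have ha : a ≠ 0 := by rintro rfl; rw [zero_mul] at hab; exact hne hab
      obtain ⟨c, hc⟩ := h3
      have : b * c = 1 := by
        apply mul_left_cancel₀ ha
        rw [← mul_assoc, ← hc, mul_one]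
      exact IsUnit.of_mul_eq_one _ this
    · left
      have h3 := minpoly.dvd F S h
      rw [hab] at h3
      have hb : b ≠ 0 := by rintro rfl; rw [mul_zero] at hab; exact hne hab
      obtain ⟨c, hc⟩ := h3
      have : a * c = 1 := by
        apply mul_left_cancel₀ hb
        rw [mul_one, ← mul_assoc, mul_comm b a, ← hc]
      exact IsUnit.of_mul_eq_one _ this
  · apply le_antisymm
    · have h1 := LinearMap.minpoly_dvd_charpoly S
      have h2 := Polynomial.natDegree_le_of_dvd h1 S.charpoly_monic.ne_zero
      rwa [LinearMap.charpoly_natDegree] at h2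
    · obtain ⟨x, hx⟩ := exists_ne (0 : V)
      let m := (minpoly F S).natDegree
      let φ : Polynomial.degreeLT F m →ₗ[F] V :=
        { toFun := fun g => Polynomial.aeval S (g : Polynomial F) x
          map_add' := fun g h => by
            change Polynomial.aeval S ((g : Polynomial F) + (h : Polynomial F)) x = _
            rw [map_add, LinearMap.add_apply]
          map_smul' := fun c g => by
            change Polynomial.aeval S (c • (g : Polynomial F)) x = _
            rw [map_smul]
            rfl }
      have hmon : (minpoly F S).Monic := minpoly.monic hint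
      have hsurj : Function.Surjective φ := by
        have hall : ∀ g : Polynomial F, Polynomial.aeval S g x ∈ LinearMap.range φ := by
          intro g
          have hdeg : (g %ₘ minpoly F S) ∈ Polynomial.degreeLT F m := by
            rw [Polynomial.mem_degreeLT]
            have h1 := Polynomial.degree_modByMonic_lt g hmon
            rwa [Polynomial.degree_eq_natDegree hmon.ne_zero] at h1
          refine ⟨⟨g %ₘ minpoly F S, hdeg⟩, ?_⟩
          change Polynomial.aeval S (g %ₘ minpoly F S) x = _
          conv_rhs => rw [← Polynomial.modByMonic_add_div g (minpoly F S)]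
          rw [map_add, _root_.map_mul, minpoly.aeval, zero_mul, add_zero]
        have h3 : LinearMap.range φ = ⊤ := by
          rcases hS (LinearMap.range φ) (by
            rintro _ ⟨g, rfl⟩
            have h4 := hall (Polynomial.X * (g : Polynomial F))
            rw [_root_.map_mul, Polynomial.aeval_X] at h4
            exact h4) with h | h
          · exfalso
            have h4 := hall 1
            rw [h, map_one] at h4
            exact hx ((Submodule.mem_bot F).mp h4)
          · exact h
        exact LinearMap.range_eq_top.mp h3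
      have h5 := LinearMap.finrank_le_finrank_of_surjective hsurj
      rw [(Polynomial.degreeLTEquiv F m).finrank_eq, finrank_fintype_fun_eq_card, Fintype.card_fin] at h5
      exact h5

variable {p : ℕ} [Fact p.Prime] [CharP F p]

lemma pow_eq_iff {S : V →ₗ[F] V} (hf : Irreducible (minpoly F S)) (g h : Polynomial F) :
    Polynomial.aeval S g = Polynomial.aeval S h ↔ AdjoinRoot.mk (minpoly F S) g = AdjoinRoot.mk (minpoly F S) h := by
  rw [AdjoinRoot.mk_eq_mk]
  constructor
  · intro h1
    apply minpoly.dvd
    rw [map_sub, h1, sub_self]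
  · rintro ⟨c, hc⟩
    have h2 := congrArg (Polynomial.aeval S) hc
    rw [_root_.map_mul, minpoly.aeval, zero_mul, map_sub] at h2
    exact sub_eq_zero.mp h2

/-- the order of an irreducible operator -/
theorem irr_pow [Nontrivial V] {S : V →ₗ[F] V} (hS : Irr S) (hinj : Function.Injective S) : S ^ (Fintype.card F ^ finrank F V - 1) = 1 := by
  obtain ⟨hf, hd⟩ := irr_minpoly hS
  haveI : Fact (Irreducible (minpoly F S)) := ⟨hf⟩
  have hmon : (minpoly F S).Monic := minpoly.monic (Algebra.IsIntegral.isIntegral S)
  let pb := AdjoinRoot.powerBasis hmon.ne_zero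
  haveI : FiniteDimensional F (AdjoinRoot (minpoly F S)) := pb.finite
  haveI : Finite (AdjoinRoot (minpoly F S)) := Module.finite_of_finite F
  letI : Fintype (AdjoinRoot (minpoly F S)) := Fintype.ofFinite _
  have hc : Fintype.card (AdjoinRoot (minpoly F S)) = Fintype.card F ^ finrank F V := by
    rw [Module.card_eq_pow_finrank (K := F), pb.finrank, AdjoinRoot.powerBasis_dim, hd]
  have h1 := FiniteField.pow_card (AdjoinRoot.root (minpoly F S))
  rw [hc] at h1
  have h2 : Polynomial.aeval S ((Polynomial.X : Polynomial F) ^ (Fintype.card F ^ finrank F V)) = Polynomial.aeval S (Polynomial.X : Polynomial F) := by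
    rw [pow_eq_iff hf, map_pow, AdjoinRoot.mk_X]
    exact h1
  rw [map_pow, Polynomial.aeval_X] at h2
  have hpos : 0 < Fintype.card F ^ finrank F V := pow_pos Fintype.card_pos _
  obtain ⟨k, hk⟩ : ∃ k, Fintype.card F ^ finrank F V = k + 1 := ⟨_, (Nat.sub_add_cancel hpos).symm⟩
  rw [hk, pow_succ'] at h2
  rw [hk, Nat.add_sub_cancel]
  apply LinearMap.ext
  intro v
  apply hinj
  exact LinearMap.congr_fun h2 v

/-- adjoint of a polynomial -/
lemma adj_pol {S S' : V →ₗ[F] V} {B : V → V →ₗ[F] F} (hadd : ∀ x x' y, B (x + x') y = B x y + B x' y) (hsm : ∀ (c : F) x y, B (c • x) y = c * B x y)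
    (hB : ∀ x y, B (S x) y = B x (S' y)) (g : Polynomial F) (x y : V) : B (Polynomial.aeval S g x) y = B x (Polynomial.aeval S' g y) := by
  induction g using Polynomial.induction_on' generalizing x y with
  | add g h hg hh => rw [map_add, map_add, LinearMap.add_apply, LinearMap.add_apply, hadd, map_add, hg, hh]
  | monomial n c =>
    have hp : ∀ (n : ℕ) x y, B ((S ^ n) x) y = B x ((S' ^ n) y) := by
      intro n
      induction n with
      | zero => intro x y; rfl
      | succ n ih =>
        intro x y
        rw [pow_succ, pow_succ', Module.End.mul_apply, Module.End.mul_apply, ih, hB]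
    rw [Polynomial.aeval_monomial, Polynomial.aeval_monomial, Module.End.mul_apply, Module.End.mul_apply, Module.algebraMap_end_apply,
      Module.algebraMap_end_apply, hsm, hp, map_smul, smul_eq_mul]

/-- irreducible operators preserving a nonzero form -/
theorem irr_sd [Nontrivial V] {S : V →ₗ[F] V} (hS : Irr S) {n : ℕ} (hn0 : 0 < n) (hn : S ^ n = 1) (h2 : S * S ≠ 1)
    {B : V → V →ₗ[F] F} (hadd : ∀ x x' y, B (x + x') y = B x y + B x' y) (hsm : ∀ (c : F) x y, B (c • x) y = c * B x y)
    (hB : ∀ x y, B (S x) (S y) = B x y) (hne : ∃ x y, B x y ≠ 0) :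
    ∃ e, finrank F V = 2 * e ∧ 0 < e ∧ S ^ (Fintype.card F ^ e + 1) = 1 ∧ S ^ (Fintype.card F ^ e) = S ^ (n - 1) := by
  obtain ⟨hf, hd⟩ := irr_minpoly hS
  haveI : Fact (Irreducible (minpoly F S)) := ⟨hf⟩
  have hmon : (minpoly F S).Monic := minpoly.monic (Algebra.IsIntegral.isIntegral S)
  let pb := AdjoinRoot.powerBasis hmon.ne_zero
  haveI : FiniteDimensional F (AdjoinRoot (minpoly F S)) := pb.finite
  haveI : Finite (AdjoinRoot (minpoly F S)) := Module.finite_of_finite F
  letI : Fintype (AdjoinRoot (minpoly F S)) := Fintype.ofFinite _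
  have hfr : finrank F (AdjoinRoot (minpoly F S)) = finrank F V := by
    rw [pb.finrank, AdjoinRoot.powerBasis_dim, hd]
  obtain ⟨m, rfl⟩ : ∃ m, n = m + 1 := ⟨n - 1, by omega⟩
  rw [Nat.add_sub_cancel]
  have hSm : S * S ^ m = 1 := by rw [← pow_succ', hn]
  have hSm' : S ^ m * S = 1 := by rw [← pow_succ, hn]
  have hB' : ∀ x y, B (S x) y = B x ((S ^ m) y) := by
    intro x y
    have h3 : S ((S ^ m) y) = y := LinearMap.congr_fun hSm y
    conv_lhs => rw [← h3]
    rw [hB]
  -- the radical
  have hrad : ∀ y, (∀ x, B x y = 0) → y = 0 := by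
    let R : Submodule F V :=
      { carrier := {y | ∀ x, B x y = 0}
        add_mem' := fun {a b} ha hb x => by rw [map_add, ha, hb, add_zero]
        zero_mem' := fun x => map_zero _
        smul_mem' := fun c a ha x => by rw [map_smul, ha, smul_zero] }
    have hR : R = ⊥ := by
      rcases hS R (by
        intro w hw x
        have h3 : S ((S ^ m) x) = x := LinearMap.congr_fun hSm x
        rw [← h3, hB]
        exact hw _) with h | h
      · exact h
      · exfalso
        obtain ⟨x, y, hxy⟩ := hne
        apply hxy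
        have : y ∈ R := by rw [h]; exact Submodule.mem_top
        exact this x
    intro y hy
    have : y ∈ R := hy
    rw [hR] at this
    exact (Submodule.mem_bot F).mp this
  have hfm : Polynomial.aeval (S ^ m) (minpoly F S) = 0 := by
    apply LinearMap.ext
    intro y
    apply hrad
    intro x
    rw [← adj_pol hadd hsm hB', minpoly.aeval]
    have := hsm 0 0 y
    rwa [zero_smul, zero_mul] at this
  -- the second root
  set r := AdjoinRoot.root (minpoly F S) with hr
  have hroot : Polynomial.aeval (r ^ m) (minpoly F S) = 0 := by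
    have h3 : Polynomial.aeval S ((minpoly F S).comp (Polynomial.X ^ m)) = Polynomial.aeval S (0 : Polynomial F) := by
      rw [Polynomial.aeval_comp, map_pow, Polynomial.aeval_X, hfm, map_zero]
    rw [pow_eq_iff hf, map_zero] at h3
    have h4 : Polynomial.aeval (r ^ m) (minpoly F S) = AdjoinRoot.mk (minpoly F S) ((minpoly F S).comp (Polynomial.X ^ m)) := by
      rw [← AdjoinRoot.aeval_eq, Polynomial.aeval_comp, map_pow, Polynomial.aeval_X]
    rw [h4, h3]
  let σ : AdjoinRoot (minpoly F S) →ₐ[F] AdjoinRoot (minpoly F S) := AdjoinRoot.liftAlgHom (minpoly F S) (Algebra.ofId F _) (r ^ m) hroot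
  have hσ : σ r = r ^ m := AdjoinRoot.liftAlgHom_root _ _ _ _
  have hbij : Function.Bijective σ := (Algebra.IsAlgebraic.algHom_bijective σ)
  let σ' : AdjoinRoot (minpoly F S) ≃ₐ[F] AdjoinRoot (minpoly F S) := AlgEquiv.ofBijective σ hbij
  obtain ⟨⟨i, hilt⟩, hi⟩ := (FiniteField.bijective_frobeniusAlgEquivOfAlgebraic_pow F (AdjoinRoot (minpoly F S))).2 σ'
  have hfrob : ∀ z, σ z = z ^ (Fintype.card F ^ (i : ℕ)) := by
    intro z
    have h3 := congrFun (FiniteField.coe_frobeniusAlgEquivOfAlgebraic_iterate F (AdjoinRoot (minpoly F S)) i) z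
    rw [← h3]
    have h4 := DFunLike.congr_fun hi z
    change σ' z = _
    rw [← h4]
    change ((FiniteField.frobeniusAlgEquivOfAlgebraic F (AdjoinRoot (minpoly F S))) ^ (i : ℕ)) z = _
    rw [AlgEquiv.coe_pow]
  have hrr : r ^ m * r = 1 := by
    have h3 : Polynomial.aeval S ((Polynomial.X : Polynomial F) ^ (m + 1)) = Polynomial.aeval S (1 : Polynomial F) := by
      rw [map_pow, Polynomial.aeval_X, hn, map_one]
    rw [pow_eq_iff hf, map_pow, AdjoinRoot.mk_X, map_one, pow_succ] at h3
    exact h3
  have hri : r ^ m = r ^ (Fintype.card F ^ (i : ℕ)) := by rw [← hσ, hfrob]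
  have hSi : S ^ (Fintype.card F ^ (i : ℕ)) = S ^ m := by
    have h3 : Polynomial.aeval S ((Polynomial.X : Polynomial F) ^ (Fintype.card F ^ (i : ℕ))) = Polynomial.aeval S ((Polynomial.X : Polynomial F) ^ m) := by
      rw [pow_eq_iff hf, map_pow, map_pow, AdjoinRoot.mk_X]
      exact hri.symm
    rw [map_pow, map_pow, Polynomial.aeval_X] at h3
    exact h3
  have hσ2 : σ'  * σ' = 1 := by
    have h3 : σ.comp σ = AlgHom.id F _ := by
      apply AdjoinRoot.algHom_ext
      rw [AlgHom.comp_apply, AlgHom.id_apply]
      change σ (σ r) = r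
      rw [hσ, map_pow, hσ]
      have h4 : (r ^ m) ^ m * r ^ m = 1 := by rw [← mul_pow, hrr, one_pow]
      have h5 : r ^ m ≠ 0 := by
        intro h
        rw [h, zero_mul] at hrr
        exact zero_ne_one hrr
      apply mul_right_cancel₀ h5
      rw [h4, mul_comm, hrr]
    apply AlgEquiv.ext
    intro z
    exact DFunLike.congr_fun h3 z
  have hdvd : finrank F V ∣ 2 * (i : ℕ) := by
    rw [← hfr, ← FiniteField.orderOf_frobeniusAlgEquivOfAlgebraic F (AdjoinRoot (minpoly F S)), orderOf_dvd_iff_pow_eq_one, two_mul, pow_add]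
    have h3 : FiniteField.frobeniusAlgEquivOfAlgebraic F (AdjoinRoot (minpoly F S)) ^ (i : ℕ) = σ' := hi
    rw [h3, hσ2]
  have hlt : (i : ℕ) < finrank F V := by rw [← hfr]; exact hilt
  have hi0 : (i : ℕ) ≠ 0 := by
    intro h0
    rw [h0, pow_zero, pow_one] at hSi
    apply h2
    rw [← hSi] at hSm'
    exact hSm'
  obtain ⟨c, hc⟩ := hdvd
  have hc1 : c = 1 := by
    have h3 : 0 < c := by
      rcases Nat.eq_zero_or_pos c with rfl | h
      · omega
      · exact h
    have h4 : c < 2 := by
      by_contra h
      have : finrank F V * 2 ≤ finrank F V * c := Nat.mul_le_mul_left _ (by omega)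
      omega
    omega
  refine ⟨i, by rw [hc, hc1, mul_one], by omega, ?_, hSi⟩
  rw [pow_succ, hSi, hSm']

end irr

end Cfsg.Agent.H39.SP
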