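import Mathlib
import Cfsg.Agent.H39.SP8

/-!
Semisimple isometries without eigenvalues `1`, `-1`.
-/

set_option autoImplicit false

namespace Cfsg.Agent.H39.SP

open Module QuadraticMap Cfsg.Agent.Orth Cfsg.Agent.H39.OE

section ops
variable {F : Type*} [Field F] {V : Type*} [AddCommGroup V] [Module F V] [FiniteDimensional F V]

lemma maschke {S : V →ₗ[F] V} {n : ℕ} (hn : S ^ n = 1) (hnF : (n : F) ≠ 0) {W : Submodule F V} (hW : ∀ w ∈ W, S w ∈ W) :
    ∃ W' : Submodule F V, (∀ w ∈ W', S w ∈ W') ∧ IsCompl W W' := by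
  have h1 : Module.End.IsSemisimple S := Module.End.isSemisimple_of_squarefree_aeval_eq_zero (p := Polynomial.X ^ n - 1)
    ((Polynomial.X_pow_sub_one_separable_iff.mpr hnF).squarefree) (by simp [hn])
  obtain ⟨W', h2, h3⟩ := (Module.End.isSemisimple_iff.mp h1) W (fun w hw => hW w hw)
  exact ⟨W', h2, h3⟩

/-- irreducible subspaces -/
def IrrS (S : V →ₗ[F] V) (E : Submodule F V) : Prop :=
  E ≠ ⊥ ∧ (∀ w ∈ E, S w ∈ E) ∧ ∀ E' ≤ E, (∀ w ∈ E', S w ∈ E') → E' = ⊥ ∨ E' = E

lemma exists_irr {S : V →ₗ[F] V} {W : Submodule F V} (hW : ∀ w ∈ W, S w ∈ W) (h0 : W ≠ ⊥) : ∃ E ≤ W, IrrS S E := by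
  classical
  have hex : ∃ k, ∃ E : Submodule F V, E ≤ W ∧ E ≠ ⊥ ∧ (∀ w ∈ E, S w ∈ E) ∧ finrank F E = k := ⟨_, W, le_rfl, h0, hW, rfl⟩
  obtain ⟨E, h1, h2, h3, h4⟩ := Nat.find_spec hex
  refine ⟨E, h1, h2, h3, ?_⟩
  intro E' h5 h6
  by_cases h7 : E' = ⊥
  · exact Or.inl h7
  · right
    have h8 := Nat.find_min' hex ⟨E', h5.trans h1, h7, h6, rfl⟩
    rw [← h4] at h8
    exact Submodule.eq_of_le_of_finrank_le h5 h8

lemma IrrS.irr {S : V →ₗ[F] V} {E : Submodule F V} (h : IrrS S E) : Irr (S.restrict h.2.1) := by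
  intro W hW
  have h3 := h.2.2 (W.map E.subtype) (Submodule.map_subtype_le E W) (by
    rintro _ ⟨w, hw, rfl⟩
    exact ⟨S.restrict h.2.1 w, hW w hw, rfl⟩)
  rcases h3 with h3 | h3
  · left
    exact Submodule.map_injective_of_injective E.injective_subtype (by rw [h3, Submodule.map_bot])
  · right
    rw [eq_top_iff]
    intro w _
    have h4 : (w : V) ∈ W.map E.subtype := by rw [h3]; exact w.2
    obtain ⟨w', hw', h5⟩ := h4
    have : w' = w := Subtype.ext h5
    rw [← this]
    exact hw'

lemma restrict_pow {S : V →ₗ[F] V} {E : Submodule F V} (h : ∀ w ∈ E, S w ∈ E) (m : ℕ) (w : E) : (((S.restrict h) ^ m) w : V) = (S ^ m) w := by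
  induction m generalizing w with
  | zero => rfl
  | succ m ih =>
    rw [pow_succ, pow_succ, Module.End.mul_apply, Module.End.mul_apply, ih]
    rfl

end ops

section fin
variable {F : Type*} [Field F] [Fintype F] {V : Type*} [AddCommGroup V] [Module F V] [FiniteDimensional F V]

lemma IrrS.pow {S : V →ₗ[F] V} {E : Submodule F V} (h : IrrS S E) (hinj : Function.Injective S) {v : V} (hv : v ∈ E) :
    (S ^ (Fintype.card F ^ finrank F E - 1)) v = v := by
  haveI : Nontrivial E := Submodule.nontrivial_iff_ne_bot.mpr h.1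
  have h3 := irr_pow h.irr (by
    intro a b hab
    apply Subtype.ext
    exact hinj (congrArg Subtype.val hab))
  have h4 := LinearMap.congr_fun h3 ⟨v, hv⟩
  have h5 := restrict_pow h.2.1 (Fintype.card F ^ finrank F E - 1) ⟨v, hv⟩
  rw [h4] at h5
  exact h5.symm

/-- the linear map -/
abbrev lm {Q : QuadraticForm F V} (y : OGrp Q) : V →ₗ[F] V := ((y : V ≃ₗ[F] V) : V →ₗ[F] V)

lemma lm_pow {Q : QuadraticForm F V} (y : OGrp Q) (j : ℕ) : lm y ^ j = lm (y ^ j) := by
  apply LinearMap.ext
  intro v
  exact (coe_pow_apply y j v).symm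

lemma lm_one {Q : QuadraticForm F V} : lm (1 : OGrp Q) = 1 := rfl

lemma lm_pow_one {Q : QuadraticForm F V} {y : OGrp Q} {j : ℕ} : lm y ^ j = 1 ↔ y ^ j = 1 := by
  rw [lm_pow]
  constructor
  · intro h
    apply OGrp_ext
    intro v
    exact LinearMap.congr_fun h v
  · intro h
    rw [h]
    rfl

/-- no eigenvalues `1`, `-1` -/
def NF {Q : QuadraticForm F V} (y : OGrp Q) : Prop := ∀ v, ((y : V ≃ₗ[F] V) v = v ∨ (y : V ≃ₗ[F] V) v = -v) → v = 0

lemma NF.res {Q : QuadraticForm F V} {y : OGrp Q} (h : NF y) (W : Submodule F V) (hW : ∀ v ∈ W, (y : V ≃ₗ[F] V) v ∈ W) : NF (res y W hW) := by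
  intro w hw
  apply Subtype.ext
  apply h
  rcases hw with hw | hw
  · exact Or.inl (congrArg Subtype.val hw)
  · exact Or.inr (congrArg Subtype.val hw)

lemma NF.sq [Nontrivial V] {Q : QuadraticForm F V} {y : OGrp Q} (h : NF y) : lm y * lm y ≠ 1 := by
  intro h1
  obtain ⟨v, hv⟩ := exists_ne (0 : V)
  have h2 : (y : V ≃ₗ[F] V) ((y : V ≃ₗ[F] V) v) = v := LinearMap.congr_fun h1 v
  have h3 : v + (y : V ≃ₗ[F] V) v = 0 := h _ (Or.inl (by rw [map_add, h2, add_comm]))
  apply hv
  apply h v
  right
  exact (eq_neg_of_add_eq_zero_right h3)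

/-- type of irreducible isometries -/
theorem irr_type [Nontrivial V] (h2 : (2 : F) ≠ 0) {Q : QuadraticForm F V} (hQ : (polarBilin Q).Nondegenerate) {s : OGrp Q} (hirr : Irr (lm s))
    {n : ℕ} (hn0 : 0 < n) (hn : s ^ n = 1) (hNF : NF s) {e : ℕ} (he : finrank F V = 2 * e) (hS : lm s ^ (Fintype.card F ^ e) = lm s ^ (n - 1))
    (hr : e = 1 ∨ ∃ r : ℕ, r.Prime ∧ r ≠ 2 ∧ orderOf ((Fintype.card F : ℕ) : ZMod r) = 2 * e) : ¬ PT Q ⊤ := by
  rcases hr with rfl | ⟨r, hrp, hr2, hro⟩
  · rintro ⟨U, -, u2, u3⟩
    rw [finrank_top, he] at u3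
    have hU0 : U ≠ ⊥ := by
      rintro rfl
      rw [finrank_bot] at u3
      omega
    obtain ⟨x, hx, hx0⟩ := Submodule.exists_mem_ne_zero_of_ne_bot hU0
    have hqx : Q x = 0 := u2 x hx
    set T := (s : V ≃ₗ[F] V) with hT
    -- no eigenvectors
    have hne : ∀ c : F, T x ≠ c • x := by
      intro c hc
      rcases hirr (Submodule.span F {x}) (by
        intro w hw
        obtain ⟨d, rfl⟩ := Submodule.mem_span_singleton.mp hw
        change T (d • x) ∈ _
        rw [map_smul, hc]
        exact Submodule.smul_mem _ _ (Submodule.smul_mem _ _ (Submodule.mem_span_singleton_self x))) with h | h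
      · exact hx0 (Submodule.span_singleton_eq_bot.mp h)
      · have h3 := finrank_span_singleton (K := F) hx0
        rw [h, finrank_top] at h3
        omega
    have hli : LinearIndependent F ![x, T x] := by
      rw [LinearIndependent.pair_iff' hx0]
      intro a h
      exact hne a h.symm
    have hspan : ∀ v, ∃ a b : F, v = a • x + b • T x := by
      intro v
      have h3 := hli.span_eq_top_of_card_eq_finrank (by rw [Fintype.card_fin, he])
      have h4 : v ∈ Submodule.span F (Set.range ![x, T x]) := by rw [h3]; exact Submodule.mem_top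
      rw [Matrix.range_cons, Matrix.range_cons, Matrix.range_empty, Set.union_empty, Set.singleton_union, Submodule.mem_span_pair] at h4
      obtain ⟨a, b, h5⟩ := h4
      exact ⟨a, b, h5.symm⟩
    have hqT : Q (T x) = 0 := (OGrp_q s x).trans hqx
    have hc : polar Q x (T x) ≠ 0 := by
      intro h0
      apply hx0
      apply hQ.1
      intro v
      obtain ⟨a, b, rfl⟩ := hspan v
      change polar Q x (a • x + b • T x) = 0
      rw [polar_add_right, polar_smul_right, polar_smul_right, h0, smul_eq_mul, smul_eq_mul, mul_zero, add_zero, QuadraticMap.polar_self, hqx,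
        smul_zero, mul_zero]
    obtain ⟨a, b, hab⟩ := hspan (T (T x))
    have h3 : Q (T (T x)) = 0 := (OGrp_q s _).trans hqT
    rw [hab, qadd, QuadraticMap.map_smul, QuadraticMap.map_smul, hqx, hqT, polar_smul_left, polar_smul_right] at h3
    simp only [smul_eq_mul, mul_zero, zero_add] at h3
    rcases mul_eq_zero.mp h3 with h4 | h4
    · rw [h4, zero_smul, zero_add] at hab
      apply hne b
      apply T.injective
      rw [hab, map_smul]
    · have hb : b = 0 := (mul_eq_zero.mp h4).resolve_right hc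
      rw [hb, zero_smul, add_zero] at hab
      have h5 : polar Q (T (T x)) (T x) = polar Q (T x) x := OGrp_polar s _ _
      rw [hab, polar_smul_left, pc Q (T x) x, smul_eq_mul] at h5
      have ha : a = 1 := mul_right_cancel₀ hc (by rw [h5, one_mul])
      rw [ha, one_smul] at hab
      have h6 : x + T x = 0 := hNF _ (Or.inl (by
        change T (x + T x) = _
        rw [map_add, hab, add_comm]))
      exact hne (-1) (by rw [neg_one_smul]; exact eq_neg_of_add_eq_zero_right h6)
  · haveI : Fact r.Prime := ⟨hrp⟩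
    obtain ⟨p, hp⟩ := CharP.exists F
    haveI : Fact p.Prime := ⟨CharP.char_is_prime F p⟩
    set q := Fintype.card F with hq
    have hq1 : 1 < q := Fintype.one_lt_card
    have hfac : q ^ (2 * e) - 1 = (q ^ e - 1) * (q ^ e + 1) := by
      rw [mul_comm 2 e, pow_mul, mul_comm]
      have := Nat.sq_sub_sq (q ^ e) 1
      rwa [one_pow] at this
    have he0 : 0 < e := by
      have := finrank_pos (R := F) (M := V)
      omega
    have hrp' : r ≠ p := by
      rintro rfl
      have h3 : ((q : ℕ) : ZMod r) = 0 := by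
        rw [ZMod.natCast_eq_zero_iff]
        exact p_dvd_q (F := F)
      rw [h3] at hro
      have h4 : orderOf (0 : ZMod r) = 0 := by
        rw [orderOf_eq_zero_iff']
        intro m hm h
        rw [zero_pow hm.ne'] at h
        exact zero_ne_one h
      omega
    have hrd : r ∣ q ^ e + 1 := by
      have h3 : r ∣ q ^ (2 * e) - 1 := by
        rw [← hro]
        have h4 : ((q ^ orderOf ((q : ℕ) : ZMod r) : ℕ) : ZMod r) = ((1 : ℕ) : ZMod r) := by
          push_cast
          exact pow_orderOf_eq_one _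
        rw [ZMod.natCast_eq_natCast_iff] at h4
        exact (Nat.modEq_iff_dvd' (Nat.one_le_pow _ _ (by omega))).mp h4.symm
      rw [hfac] at h3
      rcases (Nat.Prime.dvd_mul hrp).mp h3 with h4 | h4
      · exfalso
        have h5 : ((q : ℕ) : ZMod r) ^ e = 1 := by
          have h6 : ((q ^ e : ℕ) : ZMod r) = ((1 : ℕ) : ZMod r) := by
            rw [ZMod.natCast_eq_natCast_iff]
            exact ((Nat.modEq_iff_dvd' (Nat.one_le_pow _ _ (by omega))).mpr h4).symm
          push_cast at h6
          exact h6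
        have h6 := orderOf_dvd_of_pow_eq_one h5
        rw [hro] at h6
        have := Nat.le_of_dvd he0 h6
        omega
      · exact h4
    -- the field generated by `s`
    obtain ⟨hf, hd⟩ := irr_minpoly hirr
    haveI : Fact (Irreducible (minpoly F (lm s))) := ⟨hf⟩
    have hmon : (minpoly F (lm s)).Monic := minpoly.monic (Algebra.IsIntegral.isIntegral (lm s))
    let pb := AdjoinRoot.powerBasis hmon.ne_zero
    haveI : FiniteDimensional F (AdjoinRoot (minpoly F (lm s))) := pb.finite
    haveI : Finite (AdjoinRoot (minpoly F (lm s))) := Module.finite_of_finite F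
    letI : Fintype (AdjoinRoot (minpoly F (lm s))) := Fintype.ofFinite _
    have hcard : Fintype.card (AdjoinRoot (minpoly F (lm s))) = q ^ (2 * e) := by
      rw [Module.card_eq_pow_finrank (K := F), pb.finrank, AdjoinRoot.powerBasis_dim, hd, he]
    obtain ⟨ξ, hξ⟩ := exists_order (L := AdjoinRoot (minpoly F (lm s))) (n := r) (by rw [hcard, hfac]; exact hrd.mul_left _)
    obtain ⟨g, hg⟩ := AdjoinRoot.mk_surjective (ξ : AdjoinRoot (minpoly F (lm s)))
    set Z := Polynomial.aeval (lm s) g with hZ
    have hZr : Z ^ r = 1 := by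
      have h3 : Polynomial.aeval (lm s) (g ^ r) = Polynomial.aeval (lm s) (1 : Polynomial F) := by
        rw [pow_eq_iff hf, map_pow, hg, ← Units.val_pow_eq_pow_val, ← hξ, pow_orderOf_eq_one, Units.val_one, _root_.map_one]
      rwa [map_pow, _root_.map_one] at h3
    have hZ1 : ∀ v, Z v = v → v = 0 := by
      intro v hv
      have hlin : ∀ w ∈ LinearMap.ker (Z - 1), lm s w ∈ LinearMap.ker (Z - 1) := by
        intro w hw
        rw [LinearMap.mem_ker, LinearMap.sub_apply, Module.End.one_apply] at hw ⊢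
        rw [hZ, ← aeval_comm, ← hZ, ← map_sub, hw, map_zero]
      rcases hirr _ hlin with h | h
      · have : v ∈ LinearMap.ker (Z - 1) := by
          rw [LinearMap.mem_ker, LinearMap.sub_apply, Module.End.one_apply, hv, sub_self]
        rw [h] at this
        exact (Submodule.mem_bot F).mp this
      · exfalso
        have h3 : Z - 1 = 0 := LinearMap.ker_eq_top.mp h
        have h4 : Polynomial.aeval (lm s) g = Polynomial.aeval (lm s) (1 : Polynomial F) := by
          rw [_root_.map_one]
          exact sub_eq_zero.mp h3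
        rw [pow_eq_iff hf, hg, _root_.map_one] at h4
        have h5 : ξ = 1 := Units.ext h4
        rw [h5, orderOf_one] at hξ
        exact hrp.one_lt.ne hξ
    -- the adjoint
    have hexp : ∀ (i : ℕ) (h : Polynomial F), Polynomial.aeval (lm s ^ (q ^ i)) h = (Polynomial.aeval (lm s) h) ^ (q ^ i) := by
      intro i
      induction i with
      | zero => intro h; rw [pow_zero, pow_one, pow_one]
      | succ i ih =>
        intro h
        have h3 : Polynomial.aeval (lm s ^ (q ^ (i + 1))) h = Polynomial.aeval (lm s ^ (q ^ i)) (Polynomial.expand F q h) := by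
          rw [Polynomial.expand_aeval, ← pow_mul, pow_succ]
        rw [h3, FiniteField.expand_card, map_pow, ih, ← pow_mul, pow_succ]
    have hadj : ∀ x y, polar Q (Z x) y = polar Q x ((Z ^ (q ^ e)) y) := by
      intro x y
      have h3 := adj_pol (S := lm s) (S' := lm s ^ (n - 1)) (B := fun x => polarBilin Q x) (fun x x' y => by rw [map_add]; rfl)
        (fun c x y => by rw [map_smul]; rfl) (fun x y => by
          change polar Q ((s : V ≃ₗ[F] V) x) y = polar Q x ((lm s ^ (n - 1)) y)
          have h4 : (s : V ≃ₗ[F] V) ((lm s ^ (n - 1)) y) = y := by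
            have h5 : lm s * lm s ^ (n - 1) = 1 := by
              rw [← pow_succ', Nat.sub_add_cancel hn0, lm_pow_one.mpr hn]
            exact LinearMap.congr_fun h5 y
          conv_lhs => rw [← h4]
          exact OGrp_polar s _ _) g x y
      rw [← hS, hexp] at h3
      exact h3
    have hZe : Z ^ (q ^ e) * Z = 1 := by
      rw [← pow_succ]
      obtain ⟨k, hk⟩ := hrd
      rw [hk, pow_mul, hZr, one_pow]
    have hZq : ∀ v, Q (Z v) = Q v := by
      intro v
      have h3 := hadj v (Z v)
      have h4 : (Z ^ (q ^ e)) (Z v) = v := LinearMap.congr_fun hZe v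
      rw [h4, QuadraticMap.polar_self, QuadraticMap.polar_self, nsmul_eq_mul, nsmul_eq_mul] at h3
      have h2' : ((2 : ℕ) : F) ≠ 0 := by exact_mod_cast h2
      exact mul_left_cancel₀ h2' h3
    have hblk : H99.blk r q = 2 * e := by
      rw [H99.blk, hro, if_pos (even_two_mul e)]
    have h3 := type_blocks (p := p) hr2 hrp' (Q := Q) (x := Z) hZq hZr (W := ⊤) (fun _ _ => Submodule.mem_top) (nd_of_nondeg hQ)
      (fun v _ hv => hZ1 v hv) (j := 1) (by
        rw [finrank_top, he, hblk, one_mul])
    rw [h3, hro]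
    rintro (h4 | h4)
    · rw [← Nat.not_even_iff_odd] at h4
      exact h4 (even_two_mul e)
    · exact absurd h4 (by decide)

end fin

end Cfsg.Agent.H39.SP
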