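import Mathlib
import Cfsg.Agent.H39.SP9

/-!
Spinor norms on totally singular subspaces, hyperbolic hulls.
-/

set_option autoImplicit false

namespace Cfsg.Agent.H39.SP

open Module QuadraticMap Cfsg.Agent.Orth Cfsg.Agent.H39.OE

section ts
universe u
variable {F : Type u} [Field F] [Fintype F] {p : ℕ} [Fact p.Prime] [CharP F p] {V : Type*} [AddCommGroup V] [Module F V] [FiniteDimensional F V]

lemma ord8 (h2 : (2 : F) ≠ 0) : ∃ r : ℕ, r.Prime ∧ r ≠ 2 ∧ orderOf ((Fintype.card F : ℕ) : ZMod r) = 2 * 4 := by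
  set q := Fintype.card F with hq
  obtain ⟨k, hk⟩ := q_facts h2
  have hq1 : 1 < q := Fintype.one_lt_card
  have hk1 : 1 ≤ k := by omega
  rw [← hq] at hk
  obtain ⟨c, hc⟩ : ∃ c, q ^ 4 + 1 = 2 * (2 * c + 1) ∧ 1 ≤ c := by
    refine ⟨4 * k ^ 4 + 8 * k ^ 3 + 6 * k ^ 2 + 2 * k, ?_, ?_⟩
    · rw [hk]; ring
    · omega
  obtain ⟨hc, hc1⟩ := hc
  obtain ⟨r, hr, hrd⟩ := Nat.exists_prime_and_dvd (n := 2 * c + 1) (by omega)
  have hr2 : r ≠ 2 := by
    rintro rfl
    omega
  have hrq : r ∣ q ^ 4 + 1 := by rw [hc]; exact hrd.mul_left 2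
  haveI : Fact r.Prime := ⟨hr⟩
  refine ⟨r, hr, hr2, ?_⟩
  have h4 : ((q : ℕ) : ZMod r) ^ 4 = -1 := by
    have h5 : ((q ^ 4 + 1 : ℕ) : ZMod r) = 0 := (ZMod.natCast_eq_zero_iff _ _).mpr hrq
    push_cast at h5
    linear_combination h5
  have hne : (-1 : ZMod r) ≠ 1 := by
    intro h
    have h5 : (2 : ZMod r) = 0 := by linear_combination -h
    have h6 : ((2 : ℕ) : ZMod r) = 0 := by exact_mod_cast h5
    rw [ZMod.natCast_eq_zero_iff] at h6
    exact hr2 ((Nat.prime_dvd_prime_iff_eq hr Nat.prime_two).mp h6)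
  have h5 := orderOf_eq_prime_pow (p := 2) (n := 2) (x := ((q : ℕ) : ZMod r)) (by
    rw [show 2 ^ 2 = 4 by norm_num, h4]; exact hne) (by
    rw [show 2 ^ (2 + 1) = 4 * 2 by norm_num, pow_mul, h4]; norm_num)
  rw [h5]
  norm_num

lemma ords (h2 : (2 : F) ≠ 0) {e : ℕ} (he : 0 < e) (he' : e ≤ 4) :
    e = 1 ∨ ∃ r : ℕ, r.Prime ∧ r ≠ 2 ∧ orderOf ((Fintype.card F : ℕ) : ZMod r) = 2 * e := by
  interval_cases e
  · exact Or.inl rfl
  · exact Or.inr (ord4 h2)
  · exact Or.inr (ord6 h2)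
  · exact Or.inr (ord8 h2)

/-- isometries trivial on a maximal totally singular subspace -/
lemma ts_unip (h2p : 2 ≤ p) {Q : QuadraticForm F V} (hQ : (polarBilin Q).Nondegenerate) {E : Submodule F V} (hE : TS Q E)
    (hd : 2 * finrank F E = finrank F V) {y : OGrp Q} (hy : ∀ v ∈ E, (y : V ≃ₗ[F] V) v = v) : y ^ p = 1 := by
  have h1 : E = perp Q E := by
    apply Submodule.eq_of_le_of_finrank_eq (le_perp_of_singular hE)
    have := finrank_perp hQ E
    omega
  have h3 : ∀ v, (y : V ≃ₗ[F] V) v - v ∈ E := by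
    intro v
    rw [h1, mem_perp]
    intro u hu
    rw [polar_sub_right]
    conv_lhs => enter [1]; rw [← hy u hu]
    rw [OGrp_polar, sub_self]
  have h4 : (lm y - 1) ^ 2 = 0 := by
    apply LinearMap.ext
    intro v
    rw [pow_two, Module.End.mul_apply]
    change (y : V ≃ₗ[F] V) ((y : V ≃ₗ[F] V) v - v) - ((y : V ≃ₗ[F] V) v - v) = 0
    rw [hy _ (h3 v), sub_self]
  have h5 := sub_pow_end (p := p) (lm y) 1
  rw [pow_one] at h5
  have h6 : (lm y - 1) ^ p = 0 := by
    obtain ⟨c, rfl⟩ := Nat.exists_eq_add_of_le h2p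
    rw [pow_add, h4, zero_mul]
  rw [h6] at h5
  exact lm_pow_one.mp (sub_eq_zero.mp h5.symm)

lemma ts_triv (h2p : 2 ≤ p) {Q : QuadraticForm F V} (hQ : (polarBilin Q).Nondegenerate) {E : Submodule F V} (hE : TS Q E)
    (hd : 2 * finrank F E = finrank F V) {s : OGrp Q} {n : ℕ} (hn : s ^ n = 1) (hpn : ¬ p ∣ n) {m : ℕ} (hm : ∀ v ∈ E, (lm s ^ m) v = v) :
    s ^ m = 1 := by
  have h3 := ts_unip h2p hQ hE hd (y := s ^ m) (fun v hv => by
    rw [coe_pow_apply]
    exact hm v hv)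
  have h4 : (s ^ m) ^ n = 1 := by rw [← pow_mul, mul_comm, pow_mul, hn, one_pow]
  have h5 : Nat.Coprime p n := (Nat.Prime.coprime_iff_not_dvd Fact.out).mpr hpn
  have h6 := Nat.dvd_gcd (orderOf_dvd_of_pow_eq_one h3) (orderOf_dvd_of_pow_eq_one h4)
  rw [h5, Nat.dvd_one, orderOf_eq_one_iff] at h6
  exact h6

/-- the spinor norm on the stabilizer of a maximal totally singular subspace -/
theorem levi (h2 : (2 : F) ≠ 0) (hpo : Odd p) {Q : QuadraticForm F V} (hQ : (polarBilin Q).Nondegenerate) {E : Submodule F V} (hE : TS Q E)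
    (hE0 : 0 < finrank F E) (hd : 2 * finrank F E = finrank F V) {s : OGrp Q} (hs : ∀ v ∈ E, lm s v ∈ E) (hc : s ∈ commutator (OGrp Q)) :
    IsSquare (LinearMap.det ((lm s).restrict hs)) := by
  set m := finrank F E with hm
  obtain ⟨g, hg⟩ := exists_isom_plus (m := m) hE0 hd.symm hQ hE hm.symm
  have hQs := nondeg_congr g hg hQ
  obtain ⟨k, hk⟩ := exists_isom_map_TS hQs (hE.map_isom g hg) (TS_U0 m F) (k := m) (by rw [LinearEquiv.finrank_map_eq]) (finrank_U0 m F)
  let Φ : V ≃ₗ[F] (Fin m ⊕ Fin m → F) := g.trans (k : (Fin m ⊕ Fin m → F) ≃ₗ[F] (Fin m ⊕ Fin m → F))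
  have hΦ : ∀ v, qfPlus m F (Φ v) = Q v := fun v => (OGrp_q k _).trans (hg v)
  have hΦE : E.map (Φ : V →ₗ[F] (Fin m ⊕ Fin m → F)) = U0 m F := by
    rw [← hk, ← Submodule.map_comp]
    rfl
  have hinr : ∀ v ∈ E, ∀ i, Φ v (Sum.inr i) = 0 := by
    intro v hv
    rw [← mem_U0, ← hΦE]
    exact ⟨v, hv, rfl⟩
  let φ₀ : E →ₗ[F] (Fin m → F) := (LinearMap.funLeft F F Sum.inl) ∘ₗ (Φ : V →ₗ[F] (Fin m ⊕ Fin m → F)) ∘ₗ E.subtype
  have hφ₀ : ∀ v i, φ₀ v i = Φ v (Sum.inl i) := fun v i => rfl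
  have hinj : Function.Injective φ₀ := by
    intro a b hab
    apply Subtype.ext
    apply Φ.injective
    funext i
    rcases i with i | i
    · exact congrFun hab i
    · rw [hinr a a.2, hinr b b.2]
  let φ : E ≃ₗ[F] (Fin m → F) := LinearEquiv.ofInjectiveOfFinrankEq φ₀ hinj (by rw [finrank_fintype_fun_eq_card, Fintype.card_fin])
  have hφ : ∀ v, φ v = φ₀ v := fun v => rfl
  let f : (Fin m → F) →ₗ[F] (Fin m → F) := φ.toLinearMap ∘ₗ ((lm s).restrict hs) ∘ₗ φ.symm.toLinearMap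
  have hdet : LinearMap.det f = LinearMap.det ((lm s).restrict hs) := LinearMap.det_conj _ φ
  let M := LinearMap.toMatrix' f
  have hM : M.det = LinearMap.det ((lm s).restrict hs) := by rw [← hdet, LinearMap.det_toMatrix']
  have hM0 : M.det ≠ 0 := by
    rw [hM]
    have hinj' : Function.Injective ((lm s).restrict hs) := by
      intro a b hab
      apply Subtype.ext
      exact (s : V ≃ₗ[F] V).injective (congrArg Subtype.val hab)
    have : IsUnit ((lm s).restrict hs) := by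
      rw [Module.End.isUnit_iff]
      exact ⟨hinj', LinearMap.injective_iff_surjective.mp hinj'⟩
    exact (LinearMap.isUnit_iff_isUnit_det _).mp this |>.ne_zero
  obtain ⟨l, l1, l2, l3⟩ := exists_list_levF h2 hM0
  set s' := OGrpCongr Φ hΦ s with hs'
  have hagree : ∀ v ∈ E, (s' : (Fin m ⊕ Fin m → F) ≃ₗ[F] (Fin m ⊕ Fin m → F)) (Φ v) = levF M (Φ v) := by
    intro v hv
    rw [hs', congr_apply]
    have e1 : Matrix.mulVec M (Φ v ∘ Sum.inl) = fun i => Φ ((s : V ≃ₗ[F] V) v) (Sum.inl i) := by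
      have e2 : Matrix.mulVec M (Φ v ∘ Sum.inl) = f (Φ v ∘ Sum.inl) := LinearMap.toMatrix'_mulVec f _
      have e3 : Φ v ∘ Sum.inl = φ ⟨v, hv⟩ := rfl
      rw [e2, e3]
      change φ (((lm s).restrict hs) (φ.symm (φ ⟨v, hv⟩))) = _
      rw [φ.symm_apply_apply]
      rfl
    funext i
    rcases i with i | i
    · rw [levF, Sum.elim_inl, e1]
    · rw [levF, Sum.elim_inr]
      have e2 : Φ v ∘ Sum.inr = 0 := funext fun j => hinr v hv j
      rw [e2, Matrix.mulVec_zero]
      exact hinr _ (hs v hv) i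
  have hy := ts_unip (p := p) (Fact.out : p.Prime).two_le hQs (TS_U0 m F) (by rw [finrank_U0, finrank_V]) (y := (reflProd (qfPlus m F) l)⁻¹ * s') (by
    intro w hw
    rw [← hΦE] at hw
    obtain ⟨v, hv, rfl⟩ := hw
    rw [coe_mul_apply]
    change ((reflProd (qfPlus m F) l)⁻¹ : OGrp (qfPlus m F)).1 ((s' : (Fin m ⊕ Fin m → F) ≃ₗ[F] (Fin m ⊕ Fin m → F)) (Φ v)) = Φ v
    rw [hagree v hv, ← l3]
    exact LinearEquiv.symm_apply_apply _ _)
  have hy' := comm_of_odd hQs hpo hy
  have hs'c : s' ∈ commutator (OGrp (qfPlus m F)) := (congr_comm Φ hΦ s).mpr hc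
  have h5 : reflProd (qfPlus m F) l ∈ commutator (OGrp (qfPlus m F)) := by
    have := (commutator (OGrp (qfPlus m F))).mul_mem hs'c ((commutator (OGrp (qfPlus m F))).inv_mem hy')
    rwa [mul_inv_rev, mul_inv_cancel_left, inv_inv] at this
  rw [reflProd_mem_commutator_iff hQs (rgrp h2 hQs)] at h5
  rw [← hM]
  exact (isSquare_mul_iff' (nrm_ne_zero _ l) hM0).mp l2 |>.mp h5.2

/-- the determinant of an irreducible operator -/
theorem irr_det (h2 : (2 : F) ≠ 0) [Nontrivial V] {S : V →ₗ[F] V} (hS : Irr S) (hinj : Function.Injective S) (hd : IsSquare (LinearMap.det S)) :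
    S ^ ((Fintype.card F ^ finrank F V - 1) / 2) = 1 := by
  obtain ⟨hf, hdeg⟩ := irr_minpoly hS
  haveI : Fact (Irreducible (minpoly F S)) := ⟨hf⟩
  have hmon : (minpoly F S).Monic := minpoly.monic (Algebra.IsIntegral.isIntegral S)
  let pb := AdjoinRoot.powerBasis hmon.ne_zero
  haveI : FiniteDimensional F (AdjoinRoot (minpoly F S)) := pb.finite
  haveI : Finite (AdjoinRoot (minpoly F S)) := Module.finite_of_finite F
  letI : Fintype (AdjoinRoot (minpoly F S)) := Fintype.ofFinite _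
  have hdim : pb.dim = finrank F V := by rw [AdjoinRoot.powerBasis_dim, hdeg]
  have hfr : finrank F (AdjoinRoot (minpoly F S)) = finrank F V := by rw [pb.finrank, hdim]
  have hch : S.charpoly = minpoly F S := by
    apply Polynomial.eq_of_monic_of_dvd_of_natDegree_le hmon S.charpoly_monic (LinearMap.minpoly_dvd_charpoly S)
    rw [LinearMap.charpoly_natDegree, hdeg]
  have hnorm : Algebra.norm F (AdjoinRoot.root (minpoly F S)) = LinearMap.det S := by
    have h3 := Algebra.PowerBasis.norm_gen_eq_coeff_zero_minpoly pb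
    rw [AdjoinRoot.powerBasis_gen, AdjoinRoot.minpoly_root hmon.ne_zero, hmon.leadingCoeff, inv_one, Polynomial.C_1, mul_one, hdim] at h3
    rw [h3, LinearMap.det_eq_sign_charpoly_coeff, hch]
  have hpow := FiniteField.algebraMap_norm_eq_pow_sum F (AdjoinRoot (minpoly F S)) (AdjoinRoot.root (minpoly F S))
  rw [hnorm, hfr, Nat.card_eq_fintype_card] at hpow
  obtain ⟨c, hc⟩ := hd
  have hc0 : c ≠ 0 := by
    rintro rfl
    rw [mul_zero] at hc
    have : IsUnit S := by
      rw [Module.End.isUnit_iff]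
      exact ⟨hinj, LinearMap.injective_iff_surjective.mp hinj⟩
    exact ((LinearMap.isUnit_iff_isUnit_det _).mp this).ne_zero hc
  obtain ⟨k, hk⟩ := q_facts (F := F) h2
  have h3 : (LinearMap.det S) ^ k = 1 := by
    have h4 := FiniteField.pow_card_sub_one_eq_one c hc0
    rw [hk, Nat.add_sub_cancel, pow_mul, pow_two] at h4
    rw [hc]
    exact h4
  have h5 : AdjoinRoot.root (minpoly F S) ^ ((∑ i ∈ Finset.range (finrank F V), Fintype.card F ^ i) * k) = 1 := by
    rw [pow_mul, ← hpow, ← map_pow, h3, _root_.map_one]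
  have h6 : (∑ i ∈ Finset.range (finrank F V), Fintype.card F ^ i) * k = (Fintype.card F ^ finrank F V - 1) / 2 := by
    have h7 := Nat.geomSum_eq (m := Fintype.card F) (by have := Fintype.one_lt_card (α := F); omega) (finrank F V)
    have h8 : (∑ i ∈ Finset.range (finrank F V), Fintype.card F ^ i) * (2 * k) = Fintype.card F ^ finrank F V - 1 := by
      have h9 : Fintype.card F - 1 = 2 * k := by omega
      have h10 := Nat.geomSum_eq (m := Fintype.card F) (by have := Fintype.one_lt_card (α := F); omega) (finrank F V)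
      have h11 : (Fintype.card F - 1) ∣ Fintype.card F ^ finrank F V - 1 := by
        have := Nat.sub_dvd_pow_sub_pow (Fintype.card F) 1 (finrank F V)
        rwa [one_pow] at this
      rw [h10, ← h9, Nat.div_mul_cancel h11]
    rw [← h8]
    have : (∑ i ∈ Finset.range (finrank F V), Fintype.card F ^ i) * (2 * k) = 2 * ((∑ i ∈ Finset.range (finrank F V), Fintype.card F ^ i) * k) := by ring
    rw [this, Nat.mul_div_cancel_left _ (by norm_num)]
  rw [h6] at h5
  have h7 : Polynomial.aeval S ((Polynomial.X : Polynomial F) ^ ((Fintype.card F ^ finrank F V - 1) / 2)) = Polynomial.aeval S (1 : Polynomial F) := by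
    rw [pow_eq_iff hf, map_pow, AdjoinRoot.mk_X, _root_.map_one]
    exact h5
  rw [map_pow, Polynomial.aeval_X, _root_.map_one] at h7
  exact h7

/-- hyperbolic hull of an invariant totally singular subspace -/
theorem ts_hyp {Q : QuadraticForm F V} (hQ : (polarBilin Q).Nondegenerate) {s : OGrp Q} {n : ℕ} (hn : s ^ n = 1) (hnF : (n : F) ≠ 0)
    {G : Submodule F V} (hG : TS Q G) (hGi : ∀ v ∈ G, (s : V ≃ₗ[F] V) v ∈ G) :
    ∃ W : Submodule F V, G ≤ W ∧ (∀ v ∈ W, (s : V ≃ₗ[F] V) v ∈ W) ∧ Nd Q W ∧ finrank F W = 2 * finrank F G := by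
  have hpi : ∀ w ∈ perp Q G, (s : V ≃ₗ[F] V) w ∈ perp Q G := by
    intro w hw
    have h3 := orth_inv s (W := G) hGi w (by
      intro v hv
      exact (pc Q w v).trans (mem_perp.mp hw v hv))
    rw [mem_perp]
    intro u hu
    exact (pc Q _ _).trans (h3 u hu)
  obtain ⟨C, hC1, hC2⟩ := maschke (lm_pow_one.mpr hn) hnF (W := perp Q G) hpi
  have hGp := le_perp_of_singular hG
  have hdisj : Disjoint G C := hC2.disjoint.mono_left hGp
  refine ⟨G ⊔ C, le_sup_left, ?_, ?_, ?_⟩
  · intro v hv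
    obtain ⟨a, ha, c, hc, rfl⟩ := Submodule.mem_sup.mp hv
    rw [map_add]
    exact Submodule.add_mem_sup (hGi a ha) (hC1 c hc)
  · intro v hv hall
    obtain ⟨a, ha, c, hc, rfl⟩ := Submodule.mem_sup.mp hv
    have hc0 : c = 0 := by
      have h3 : c ∈ perp Q G := by
        rw [mem_perp]
        intro u hu
        have h4 := hall u (Submodule.mem_sup_left hu)
        change polar Q (a + c) u = 0 at h4
        rw [polar_add_left, hG.polar ha hu, zero_add] at h4
        exact (pc Q _ _).trans h4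
      exact Submodule.disjoint_def.mp hC2.disjoint c h3 hc
    subst hc0
    rw [add_zero] at hall ⊢
    apply hQ.1
    intro w
    have h3 : w ∈ perp Q G ⊔ C := by rw [hC2.sup_eq_top]; exact Submodule.mem_top
    obtain ⟨b, hb, d, hd, rfl⟩ := Submodule.mem_sup.mp h3
    change polar Q a (b + d) = 0
    rw [polar_add_right, mem_perp.mp hb a ha, zero_add]
    exact hall d (Submodule.mem_sup_right hd)
  · rw [finrank_sup_disj hdisj]
    have h3 := finrank_perp hQ G
    have h4 := Submodule.finrank_add_eq_of_isCompl hC2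
    omega

end ts

end Cfsg.Agent.H39.SP
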