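import Mathlib
import Cfsg.Agent.H39.SP10

/-!
Orders of semisimple isometries without eigenvalues `1`, `-1` in small dimension.
-/

set_option autoImplicit false

namespace Cfsg.Agent.H39.SP

open Module QuadraticMap Cfsg.Agent.Orth Cfsg.Agent.H39.OE

section cl
universe u
variable {F : Type u} [Field F] [Fintype F]

section noP
variable {V : Type*} [AddCommGroup V] [Module F V] [FiniteDimensional F V]

lemma pd {G : Type*} [Group G] {s : G} {a b : ℕ} (h : s ^ a = 1) (hab : a ∣ b) : s ^ b = 1 := by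
  obtain ⟨c, rfl⟩ := hab
  rw [pow_mul, h, one_pow]

lemma pdl {S : V →ₗ[F] V} {W : Submodule F V} {a b : ℕ} (h : ∀ w ∈ W, (S ^ a) w = w) (hab : a ∣ b) : ∀ w ∈ W, (S ^ b) w = w := by
  obtain ⟨c, rfl⟩ := hab
  intro w hw
  rw [pow_mul]
  induction c with
  | zero => rw [pow_zero]; rfl
  | succ c ih => rw [pow_succ, Module.End.mul_apply, h w hw, ih]

lemma res_pow_one {Q : QuadraticForm F V} (y : OGrp Q) (W : Submodule F V) (hW : ∀ v ∈ W, (y : V ≃ₗ[F] V) v ∈ W) (m : ℕ) :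
    (res y W hW) ^ m = 1 ↔ ∀ w ∈ W, (lm y ^ m) w = w := by
  rw [← lm_pow_one]
  have h3 : lm (res y W hW) = (lm y).restrict hW := rfl
  rw [h3]
  constructor
  · intro h w hw
    rw [← restrict_pow hW m ⟨w, hw⟩, h]
    rfl
  · intro h
    apply LinearMap.ext
    intro w
    apply Subtype.ext
    rw [restrict_pow hW m w, h _ w.2]
    rfl

lemma all_top {Q : QuadraticForm F V} {y : OGrp Q} {W : Submodule F V} (hW : finrank F W = finrank F V) {m : ℕ} (h : ∀ w ∈ W, (lm y ^ m) w = w) : y ^ m = 1 := by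
  have h3 : W = ⊤ := Submodule.eq_top_of_finrank_eq hW
  rw [← lm_pow_one]
  apply LinearMap.ext
  intro v
  exact h v (by rw [h3]; exact Submodule.mem_top)

lemma dec {Q : QuadraticForm F V} (hQ : (polarBilin Q).Nondegenerate) {s : OGrp Q} {W : Submodule F V} (hN : Nd Q W) (hW : ∀ v ∈ W, (s : V ≃ₗ[F] V) v ∈ W) :
    (polarBilin (Q.restrict (H99.orth (of Q) W))).Nondegenerate ∧ finrank F W + finrank F (H99.orth (of Q) W) = finrank F V ∧
    (Even (finrank F W) → Even (finrank F V) → (PT Q ⊤ ↔ (PT Q W ↔ PT (Q.restrict (H99.orth (of Q) W)) ⊤))) ∧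
    ∀ m, s ^ m = 1 ↔ ((∀ w ∈ W, (lm s ^ m) w = w) ∧ (res s (H99.orth (of Q) W) (orth_inv s hW)) ^ m = 1) := by
  obtain ⟨h1, h2, h3⟩ := orth_facts hQ hN
  have hg := split hQ hN s hW
  refine ⟨nd_restrict h1, h3, ?_, ?_⟩
  · intro e1 e2
    have e3 : Even (finrank F (H99.orth (of Q) W)) := by
      rw [← h3, Nat.even_add] at e2
      exact e2.mp e1
    have := hg.types (nd_restrict hN) (nd_restrict h1) hQ e1 e3
    rwa [pt_restrict (W := W)] at this
  · intro m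
    rw [(hg.pow m).eq_one_iff W.injective_subtype (Submodule.injective_subtype _), res_pow_one]

end noP

variable {p : ℕ} [Fact p.Prime] [CharP F p] {V : Type*} [AddCommGroup V] [Module F V] [FiniteDimensional F V]

theorem semi (h2 : (2 : F) ≠ 0) {Q : QuadraticForm F V} (hQ : (polarBilin Q).Nondegenerate) {s : OGrp Q} {n : ℕ} (hn : s ^ n = 1)
    (hpn : ¬ p ∣ n) (hNF : NF s) (hV0 : 0 < finrank F V) (hV : finrank F V ≤ 8) :
    ∃ (W : Submodule F V) (e : ℕ), (∀ v ∈ W, (s : V ≃ₗ[F] V) v ∈ W) ∧ Nd Q W ∧ 0 < e ∧ finrank F W = 2 * e ∧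
      ((∃ E ≤ W, IrrS (lm s) E ∧ TS Q E ∧ finrank F E = e ∧ PT Q W ∧ ∀ w ∈ W, (lm s ^ (Fintype.card F ^ e - 1)) w = w) ∨
       (¬ PT Q W ∧ ∀ w ∈ W, (lm s ^ (Fintype.card F ^ e + 1)) w = w)) := by
  haveI hnt : Nontrivial V := Module.nontrivial_of_finrank_pos (R := F) hV0
  have hp : p.Prime := Fact.out
  have hn0 : 0 < n := Nat.pos_of_ne_zero (by rintro rfl; exact hpn (dvd_zero p))
  have hnF : (n : F) ≠ 0 := by rw [Ne, CharP.cast_eq_zero_iff F p]; exact hpn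
  obtain ⟨E, -, hE⟩ := exists_irr (S := lm s) (W := ⊤) (fun _ _ => Submodule.mem_top) top_ne_bot
  rcases hE.2.2 (E ⊓ H99.orth (of Q) E) inf_le_left (by
    rintro w ⟨hw1, hw2⟩
    exact ⟨hE.2.1 w hw1, orth_inv s hE.2.1 w hw2⟩) with h | h
  · have hN : Nd Q E := (H99.ND_iff_disjoint (of Q) E).mpr (disjoint_iff.mpr h)
    haveI : Nontrivial E := Submodule.nontrivial_iff_ne_bot.mpr hE.1
    have hirr : Irr (lm (res s E hE.2.1)) := hE.irr
    have hNF' : NF (res s E hE.2.1) := hNF.res E hE.2.1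
    have hs' : (res s E hE.2.1) ^ n = 1 := by
      rw [res_pow_one]
      intro w _
      rw [lm_pow_one.mpr hn]
      rfl
    obtain ⟨e, e1, e2, e3, e4⟩ := irr_sd hirr hn0 (lm_pow_one.mpr hs') hNF'.sq (B := fun x => polarBilin (Q.restrict E) x)
      (fun x x' y => by rw [map_add]; rfl) (fun c x y => by rw [_root_.map_smul]; rfl) (fun x y => OGrp_polar (res s E hE.2.1) x y) (by
        by_contra hcon
        push Not at hcon
        obtain ⟨x, hx⟩ := exists_ne (0 : E)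
        exact hx ((nd_restrict hN).1 x (fun y => hcon x y)))
    have h4 : finrank F E ≤ 8 := (Submodule.finrank_le E).trans hV
    have h5 := irr_type h2 (nd_restrict hN) hirr hn0 hs' hNF' e1 e4 (ords h2 e2 (by omega))
    rw [pt_restrict] at h5
    refine ⟨E, e, hE.2.1, hN, e2, e1, Or.inr ⟨h5, ?_⟩⟩
    rw [← res_pow_one s E hE.2.1]
    exact lm_pow_one.mp e3
  · have hTS : TS Q E := by
      intro v hv
      have h3 : v ∈ H99.orth (of Q) E := by
        have : v ∈ E ⊓ H99.orth (of Q) E := by rw [h]; exact hv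
        exact this.2
      have h4 := h3 v hv
      change polar Q v v = 0 at h4
      rw [QuadraticMap.polar_self, nsmul_eq_mul] at h4
      have h2' : ((2 : ℕ) : F) ≠ 0 := by exact_mod_cast h2
      exact (mul_eq_zero.mp h4).resolve_left h2'
    obtain ⟨W, w1, w2, w3, w4⟩ := ts_hyp hQ hn hnF hTS hE.2.1
    have hE0 : 0 < finrank F E := by
      rw [Nat.pos_iff_ne_zero]
      intro h0
      exact hE.1 (Submodule.finrank_eq_zero.mp h0)
    refine ⟨W, finrank F E, w2, w3, hE0, w4, Or.inl ⟨E, w1, hE, hTS, rfl, ⟨E, w1, hTS, w4.symm⟩, ?_⟩⟩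
    rw [← res_pow_one s W w2]
    have hs' : (res s W w2) ^ n = 1 := by
      rw [res_pow_one]
      intro w _
      rw [lm_pow_one.mpr hn]
      rfl
    apply ts_triv (p := p) hp.two_le (nd_restrict w3) (E := E.comap W.subtype) (fun v hv => hTS _ hv) (by
      rw [(Submodule.comapSubtypeEquivOfLe w1).finrank_eq]; exact w4.symm) hs' hpn
    intro v hv
    apply Subtype.ext
    have h3 : lm (res s W w2) = (lm s).restrict w2 := rfl
    rw [h3, restrict_pow]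
    exact hE.pow (s : V ≃ₗ[F] V).injective hv

section dvd
variable {q k : ℕ}

lemma D1 (hq : 1 < q) : q - 1 ∣ q ^ 2 - 1 := by
  have := Nat.sub_dvd_pow_sub_pow q 1 2
  rwa [one_pow] at this

lemma D2 (hq : 1 < q) : q + 1 ∣ q ^ 2 - 1 := by
  have := Nat.sq_sub_sq q 1
  rw [one_pow] at this
  rw [this]
  exact Dvd.intro _ rfl

lemma D3 (hq : 1 < q) : q - 1 ∣ q ^ 3 - 1 := by
  have := Nat.sub_dvd_pow_sub_pow q 1 3
  rwa [one_pow] at this

lemma D4 : q + 1 ∣ q ^ 3 + 1 := by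
  have := Odd.nat_add_dvd_pow_add_pow q 1 (n := 3) (by decide)
  rwa [one_pow] at this

lemma D56 (hk : q = 2 * k + 1) : q ^ 2 - 1 ∣ (q ^ 4 - 1) / 2 ∧ q ^ 2 + 1 ∣ (q ^ 4 - 1) / 2 ∧ 2 ∣ (q ^ 4 - 1) / 2 := by
  have e1 : q ^ 2 - 1 = 2 * (2 * (k * (k + 1))) := by
    have : q ^ 2 = 2 * (2 * (k * (k + 1))) + 1 := by rw [hk]; ring
    omega
  have e2 : q ^ 2 + 1 = 2 * (2 * (k * (k + 1)) + 1) := by rw [hk]; ring
  have e3 : (q ^ 4 - 1) / 2 = 2 * (2 * (k * (k + 1))) * (2 * (k * (k + 1)) + 1) := by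
    have : q ^ 4 = 2 * (2 * (2 * (k * (k + 1))) * (2 * (k * (k + 1)) + 1)) + 1 := by rw [hk]; ring
    omega
  rw [e1, e2, e3]
  refine ⟨Dvd.intro _ rfl, ⟨2 * (k * (k + 1)), by ring⟩, ⟨2 * (k * (k + 1)) * (2 * (k * (k + 1)) + 1), by ring⟩⟩

end dvd

theorem C1 (h2 : (2 : F) ≠ 0) {Q : QuadraticForm F V} (hQ : (polarBilin Q).Nondegenerate) {s : OGrp Q} {n : ℕ} (hn : s ^ n = 1)
    (hpn : ¬ p ∣ n) (hNF : NF s) (hV : finrank F V = 2) :
    (PT Q ⊤ ∧ s ^ (Fintype.card F - 1) = 1) ∨ (¬ PT Q ⊤ ∧ s ^ (Fintype.card F + 1) = 1) := by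
  obtain ⟨W, e, w1, w2, w3, w4, w5⟩ := semi (p := p) h2 hQ hn hpn hNF (by omega) (by omega)
  have h3 := Submodule.finrank_le W
  have he : e = 1 := by omega
  subst he
  have hWV : finrank F W = finrank F V := by omega
  have hWt : W = ⊤ := Submodule.eq_top_of_finrank_eq hWV
  rcases w5 with ⟨E, -, -, -, -, h4, h5⟩ | ⟨h4, h5⟩
  · left
    refine ⟨by rw [← hWt]; exact h4, ?_⟩
    have := all_top hWV h5
    rwa [pow_one] at this
  · right
    refine ⟨by rw [← hWt]; exact h4, ?_⟩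
    have := all_top hWV h5
    rwa [pow_one] at this

theorem C2 (h2 : (2 : F) ≠ 0) {Q : QuadraticForm F V} (hQ : (polarBilin Q).Nondegenerate) {s : OGrp Q} {n : ℕ} (hn : s ^ n = 1)
    (hpn : ¬ p ∣ n) (hNF : NF s) (hV : finrank F V = 4) :
    (¬ PT Q ⊤ ∧ s ^ (Fintype.card F ^ 2 + 1) = 1) ∨ s ^ (Fintype.card F ^ 2 - 1) = 1 := by
  have hq1 : 1 < Fintype.card F := Fintype.one_lt_card
  obtain ⟨W, e, w1, w2, w3, w4, w5⟩ := semi (p := p) h2 hQ hn hpn hNF (by omega) (by omega)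
  have h3 := Submodule.finrank_le W
  obtain rfl | rfl : e = 1 ∨ e = 2 := by omega
  · obtain ⟨d1, d2, d3, d4⟩ := dec hQ w2 w1
    have hn' := ((d4 n).mp hn).2
    right
    rw [d4]
    constructor
    · rcases w5 with ⟨E, -, -, -, -, h4, h5⟩ | ⟨h4, h5⟩
      · exact pdl h5 (by rw [pow_one]; exact D1 hq1)
      · exact pdl h5 (by rw [pow_one]; exact D2 hq1)
    · rcases C1 (p := p) h2 d1 hn' hpn (hNF.res _ _) (by omega) with ⟨-, h⟩ | ⟨-, h⟩
      · exact pd h (D1 hq1)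
      · exact pd h (D2 hq1)
  · have hWV : finrank F W = finrank F V := by omega
    have hWt : W = ⊤ := Submodule.eq_top_of_finrank_eq hWV
    rcases w5 with ⟨E, -, -, -, -, h4, h5⟩ | ⟨h4, h5⟩
    · exact Or.inr (all_top hWV h5)
    · exact Or.inl ⟨by rw [← hWt]; exact h4, all_top hWV h5⟩

theorem C3 (h2 : (2 : F) ≠ 0) {Q : QuadraticForm F V} (hQ : (polarBilin Q).Nondegenerate) {s : OGrp Q} {n : ℕ} (hn : s ^ n = 1)
    (hpn : ¬ p ∣ n) (hNF : NF s) (hV : finrank F V = 6) :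
    (PT Q ⊤ ∧ s ^ (Fintype.card F ^ 3 - 1) = 1) ∨ (¬ PT Q ⊤ ∧ s ^ (Fintype.card F ^ 3 + 1) = 1) ∨ s ^ (Fintype.card F ^ 2 - 1) = 1 ∨
      s ^ ((Fintype.card F ^ 4 - 1) / 2) = 1 := by
  have hq1 : 1 < Fintype.card F := Fintype.one_lt_card
  obtain ⟨k, hk⟩ := q_facts (F := F) h2
  obtain ⟨D5, D6, -⟩ := D56 hk
  obtain ⟨W, e, w1, w2, w3, w4, w5⟩ := semi (p := p) h2 hQ hn hpn hNF (by omega) (by omega)
  have h3 := Submodule.finrank_le W
  obtain rfl | rfl | rfl : e = 1 ∨ e = 2 ∨ e = 3 := by omega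
  · obtain ⟨d1, d2, d3, d4⟩ := dec hQ w2 w1
    have hn' := ((d4 n).mp hn).2
    have hW : ∀ w ∈ W, (lm s ^ (Fintype.card F ^ 2 - 1)) w = w := by
      rcases w5 with ⟨E, -, -, -, -, h4, h5⟩ | ⟨h4, h5⟩
      · exact pdl h5 (by rw [pow_one]; exact D1 hq1)
      · exact pdl h5 (by rw [pow_one]; exact D2 hq1)
    rcases C2 (p := p) h2 d1 hn' hpn (hNF.res _ _) (by omega) with ⟨-, h⟩ | h
    · right; right; right
      rw [d4]
      exact ⟨pdl hW D5, pd h D6⟩
    · right; right; left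
      rw [d4]
      exact ⟨hW, h⟩
  · obtain ⟨d1, d2, d3, d4⟩ := dec hQ w2 w1
    have hn' := ((d4 n).mp hn).2
    have hV2 : (res s (H99.orth (of Q) W) (orth_inv s w1)) ^ (Fintype.card F ^ 2 - 1) = 1 := by
      rcases C1 (p := p) h2 d1 hn' hpn (hNF.res _ _) (by omega) with ⟨-, h⟩ | ⟨-, h⟩
      · exact pd h (D1 hq1)
      · exact pd h (D2 hq1)
    rcases w5 with ⟨E, -, -, -, -, h4, h5⟩ | ⟨h4, h5⟩
    · right; right; left
      rw [d4]
      exact ⟨h5, hV2⟩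
    · right; right; right
      rw [d4]
      exact ⟨pdl h5 D6, pd hV2 D5⟩
  · have hWV : finrank F W = finrank F V := by omega
    have hWt : W = ⊤ := Submodule.eq_top_of_finrank_eq hWV
    rcases w5 with ⟨E, -, -, -, -, h4, h5⟩ | ⟨h4, h5⟩
    · exact Or.inl ⟨by rw [← hWt]; exact h4, all_top hWV h5⟩
    · exact Or.inr (Or.inl ⟨by rw [← hWt]; exact h4, all_top hWV h5⟩)

theorem C4 (h2 : (2 : F) ≠ 0) (hpo : Odd p) {Q : QuadraticForm F V} (hQ : (polarBilin Q).Nondegenerate) {s : OGrp Q} {n : ℕ} (hn : s ^ n = 1)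
    (hpn : ¬ p ∣ n) (hNF : NF s) (hV : finrank F V = 8) (hPT : PT Q ⊤) (hc : s ∈ commutator (OGrp Q)) :
    s ^ ((Fintype.card F ^ 4 - 1) / 2) = 1 ∨ s ^ (Fintype.card F ^ 3 - 1) = 1 ∨ s ^ (Fintype.card F ^ 3 + 1) = 1 ∨
      s ^ (Fintype.card F ^ 2 - 1) = 1 ∨ s ^ (Fintype.card F ^ 2 + 1) = 1 := by
  have hp : p.Prime := Fact.out
  have hq1 : 1 < Fintype.card F := Fintype.one_lt_card
  obtain ⟨k, hk⟩ := q_facts (F := F) h2
  obtain ⟨D5, D6, -⟩ := D56 hk
  obtain ⟨W, e, w1, w2, w3, w4, w5⟩ := semi (p := p) h2 hQ hn hpn hNF (by omega) (by omega)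
  have h3 := Submodule.finrank_le W
  obtain ⟨d1, d2, d3, d4⟩ := dec hQ w2 w1
  have d3' := (d3 (by rw [w4]; exact even_two_mul e) (by rw [hV]; decide)).mp hPT
  have hn' := ((d4 n).mp hn).2
  obtain rfl | rfl | rfl | rfl : e = 1 ∨ e = 2 ∨ e = 3 ∨ e = 4 := by omega
  · rcases C3 (p := p) h2 d1 hn' hpn (hNF.res _ _) (by omega) with ⟨h6, h⟩ | ⟨h6, h⟩ | h | h
    · right; left
      rw [d4]
      rcases w5 with ⟨E, -, -, -, -, h4, h5⟩ | ⟨h4, h5⟩
      · exact ⟨pdl h5 (by rw [pow_one]; exact D3 hq1), h⟩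
      · exact absurd (d3'.mpr h6) h4
    · right; right; left
      rw [d4]
      rcases w5 with ⟨E, -, -, -, -, h4, h5⟩ | ⟨h4, h5⟩
      · exact absurd (d3'.mp h4) h6
      · exact ⟨pdl h5 (by rw [pow_one]; exact D4), h⟩
    · right; right; right; left
      rw [d4]
      refine ⟨?_, h⟩
      rcases w5 with ⟨E, -, -, -, -, h4, h5⟩ | ⟨h4, h5⟩
      · exact pdl h5 (by rw [pow_one]; exact D1 hq1)
      · exact pdl h5 (by rw [pow_one]; exact D2 hq1)
    · left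
      rw [d4]
      refine ⟨?_, h⟩
      rcases w5 with ⟨E, -, -, -, -, h4, h5⟩ | ⟨h4, h5⟩
      · exact pdl h5 (by rw [pow_one]; exact (D1 hq1).trans D5)
      · exact pdl h5 (by rw [pow_one]; exact (D2 hq1).trans D5)
  · rcases w5 with ⟨E, -, -, -, -, h4, h5⟩ | ⟨h4, h5⟩
    · rcases C2 (p := p) h2 d1 hn' hpn (hNF.res _ _) (by omega) with ⟨h6, h⟩ | h
      · exact absurd (d3'.mp h4) h6
      · right; right; right; left
        rw [d4]
        exact ⟨h5, h⟩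
    · rcases C2 (p := p) h2 d1 hn' hpn (hNF.res _ _) (by omega) with ⟨h6, h⟩ | h
      · right; right; right; right
        rw [d4]
        exact ⟨h5, h⟩
      · left
        rw [d4]
        exact ⟨pdl h5 D6, pd h D5⟩
  · rcases C1 (p := p) h2 d1 hn' hpn (hNF.res _ _) (by omega) with ⟨h6, h⟩ | ⟨h6, h⟩
    · rcases w5 with ⟨E, -, -, -, -, h4, h5⟩ | ⟨h4, h5⟩
      · right; left
        rw [d4]
        exact ⟨h5, pd h (D3 hq1)⟩
      · exact absurd (d3'.mpr h6) h4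
    · rcases w5 with ⟨E, -, -, -, -, h4, h5⟩ | ⟨h4, h5⟩
      · exact absurd (d3'.mp h4) h6
      · right; right; left
        rw [d4]
        exact ⟨h5, pd h D4⟩
  · have hWV : finrank F W = finrank F V := by omega
    have hWt : W = ⊤ := Submodule.eq_top_of_finrank_eq hWV
    rcases w5 with ⟨E, -, hE, hTS, hE4, h4, h5⟩ | ⟨h4, h5⟩
    · left
      have h6 := levi (p := p) h2 hpo hQ hTS (by omega) (by omega) hE.2.1 hc
      haveI : Nontrivial E := Submodule.nontrivial_iff_ne_bot.mpr hE.1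
      have h7 := irr_det h2 hE.irr (by
        intro a b hab
        apply Subtype.ext
        exact (s : V ≃ₗ[F] V).injective (congrArg Subtype.val hab)) h6
      rw [hE4] at h7
      apply ts_triv (p := p) hp.two_le hQ hTS (by omega) hn hpn
      intro v hv
      rw [← restrict_pow hE.2.1 _ ⟨v, hv⟩, h7]
      rfl
    · rw [hWt] at h4
      exact absurd hPT h4

end cl

end Cfsg.Agent.H39.SP
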