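import Mathlib
import Cfsg.Agent.H39.SP11

/-!
Chains of irreducible subspaces.
-/

set_option autoImplicit false

namespace Cfsg.Agent.H39.SP

open Module QuadraticMap Cfsg.Agent.Orth Cfsg.Agent.H39.OE

section ch
universe u
variable {F : Type u} [Field F] {V : Type*} [AddCommGroup V] [Module F V] [FiniteDimensional F V]

/-- Jordan decomposition in a finite cyclic group -/
lemma jordan {G : Type*} [Group G] {y : G} {m n : ℕ} (hmn : Nat.Coprime m n) (hy : y ^ (m * n) = 1) :
    ∃ i j : ℕ, y ^ i * y ^ j = y ∧ (y ^ i) ^ n = 1 ∧ (y ^ j) ^ m = 1 := by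
  obtain ⟨i, hi1, hi2⟩ := Nat.chineseRemainder hmn 0 1
  obtain ⟨j, hj1, hj2⟩ := Nat.chineseRemainder hmn 1 0
  have hi3 : m ∣ i := (Nat.modEq_zero_iff_dvd).mp hi1
  have hj3 : n ∣ j := (Nat.modEq_zero_iff_dvd).mp hj2
  refine ⟨i, j, ?_, ?_, ?_⟩
  · rw [← pow_add]
    have h1 : i + j ≡ 1 [MOD m] := by
      have := hi1.add hj1
      rwa [zero_add] at this
    have h2 : i + j ≡ 1 [MOD n] := by
      have := hi2.add hj2
      rwa [add_zero] at this
    have h3 : i + j ≡ 1 [MOD m * n] := (Nat.modEq_and_modEq_iff_modEq_mul hmn).mp ⟨h1, h2⟩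
    have h4 : y ^ (i + j) = y ^ 1 := by
      rw [pow_eq_pow_iff_modEq]
      exact h3.of_dvd (orderOf_dvd_of_pow_eq_one hy)
    rw [h4, pow_one]
  · rw [← pow_mul]
    exact pd hy (Nat.mul_dvd_mul_right hi3 n)
  · rw [← pow_mul, mul_comm]
    exact pd hy (Nat.mul_dvd_mul_left m hj3)

/-- the chain -/
def Hc (N : V →ₗ[F] V) (M : Submodule F V) (b : ℕ) : ℕ → Submodule F V
  | 0 => ⊥
  | k + 1 => M.map (N ^ (b - k)) ⊔ Hc N M b k

lemma Hc_le {N : V →ₗ[F] V} {M : Submodule F V} {b : ℕ} (hN : N ^ (b + 1) = 0) (k : ℕ) (hk : k ≤ b + 1) : Hc N M b k ≤ LinearMap.ker (N ^ k) := by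
  induction k with
  | zero => exact bot_le
  | succ k ih =>
    apply sup_le
    · rintro _ ⟨x, -, rfl⟩
      rw [LinearMap.mem_ker, ← Module.End.mul_apply, ← pow_add, show k + 1 + (b - k) = b + 1 by omega, hN]
      rfl
    · refine (ih (by omega)).trans ?_
      intro x hx
      rw [LinearMap.mem_ker] at hx ⊢
      rw [pow_succ', Module.End.mul_apply, hx, map_zero]

lemma Hc_finrank {N : V →ₗ[F] V} {M : Submodule F V} {b : ℕ} (hN : N ^ (b + 1) = 0) (hM : ∀ x ∈ M, (N ^ b) x = 0 → x = 0) (k : ℕ) (hk : k ≤ b + 1) :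
    finrank F (Hc N M b k) = k * finrank F M := by
  induction k with
  | zero => rw [Hc, finrank_bot, zero_mul]
  | succ k ih =>
    have hd : Disjoint (M.map (N ^ (b - k))) (Hc N M b k) := by
      rw [Submodule.disjoint_def]
      rintro _ ⟨x, hx, rfl⟩ h
      have h3 := Hc_le hN k (by omega) h
      rw [LinearMap.mem_ker, ← Module.End.mul_apply, ← pow_add, show k + (b - k) = b by omega] at h3
      rw [hM x hx h3, map_zero]
    have hi : finrank F (M.map (N ^ (b - k))) = finrank F M := by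
      rw [← LinearMap.range_domRestrict]
      apply LinearMap.finrank_range_of_inj
      intro x y hxy
      have h4 : (N ^ (b - k)) ((x : V) - y) = 0 := by
        rw [map_sub, sub_eq_zero]
        exact hxy
      have h5 : (N ^ b) ((x : V) - y) = 0 := by
        rw [show b = k + (b - k) by omega, pow_add, Module.End.mul_apply, h4, map_zero]
      exact Subtype.ext (sub_eq_zero.mp (hM _ (M.sub_mem x.2 y.2) h5))
    rw [Hc, finrank_sup_disj hd, ih (by omega), hi]
    ring

lemma Hc_zero {N : V →ₗ[F] V} {M : Submodule F V} {b : ℕ} {P : V →ₗ[F] V} (hP : Commute P N) (hM : ∀ x ∈ M, P x = 0) (k : ℕ) : ∀ x ∈ Hc N M b k, P x = 0 := by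
  induction k with
  | zero =>
    intro x hx
    rw [(Submodule.mem_bot F).mp hx, map_zero]
  | succ k ih =>
    intro x hx
    obtain ⟨_, ⟨a, ha, rfl⟩, c, hc, rfl⟩ := Submodule.mem_sup.mp hx
    have h3 : P ((N ^ (b - k)) a) = (N ^ (b - k)) (P a) := LinearMap.congr_fun (hP.pow_right (b - k)) a
    rw [map_add, h3, hM a ha, map_zero, ih c hc, add_zero]

lemma Hc_inv {N : V →ₗ[F] V} {M : Submodule F V} {b : ℕ} {S : V →ₗ[F] V} (hS : Commute S N) (hM : ∀ x ∈ M, S x ∈ M) (k : ℕ) :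
    ∀ x ∈ Hc N M b k, S x ∈ Hc N M b k := by
  induction k with
  | zero =>
    intro x hx
    rw [(Submodule.mem_bot F).mp hx, map_zero]
    exact Submodule.zero_mem _
  | succ k ih =>
    intro x hx
    obtain ⟨_, ⟨a, ha, rfl⟩, c, hc, rfl⟩ := Submodule.mem_sup.mp hx
    have h3 : S ((N ^ (b - k)) a) = (N ^ (b - k)) (S a) := LinearMap.congr_fun (hS.pow_right (b - k)) a
    rw [map_add, h3]
    exact Submodule.add_mem_sup ⟨_, hM a ha, rfl⟩ (ih c hc)

/-- the nilpotent operator -/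
abbrev nil {Q : QuadraticForm F V} (u : OGrp Q) : V →ₗ[F] V := lm u - 1

lemma nil_adj {Q : QuadraticForm F V} (u : OGrp Q) (j : ℕ) (x y : V) : polar Q ((nil u ^ j) x) y = polar Q x ((nil u⁻¹ ^ j) y) := by
  induction j generalizing x y with
  | zero => rfl
  | succ j ih =>
    rw [pow_succ, Module.End.mul_apply, ih, pow_succ', Module.End.mul_apply]
    have h3 : ∀ x y, polar Q ((nil u) x) y = polar Q x ((nil u⁻¹) y) := by
      intro x y
      have h4 : (u : V ≃ₗ[F] V) ((u⁻¹ : OGrp Q).1 y) = y := LinearEquiv.apply_symm_apply _ _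
      change polar Q ((u : V ≃ₗ[F] V) x - x) y = polar Q x ((u⁻¹ : OGrp Q).1 y - y)
      rw [polar_sub_left, polar_sub_right]
      conv_lhs => rw [← h4]
      rw [OGrp_polar, h4]
    rw [h3]

lemma nil_inv {Q : QuadraticForm F V} (u : OGrp Q) (j : ℕ) : nil u⁻¹ ^ j = (-1) ^ j * (lm u⁻¹) ^ j * (nil u) ^ j := by
  have hU : lm u⁻¹ * lm u = 1 := by
    apply LinearMap.ext
    intro v
    exact LinearEquiv.symm_apply_apply _ _
  have hU' : lm u * lm u⁻¹ = 1 := by
    apply LinearMap.ext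
    intro v
    exact LinearEquiv.apply_symm_apply _ _
  have h1 : nil u⁻¹ = (-1) * (lm u⁻¹ * nil u) := by
    change lm u⁻¹ - 1 = -1 * (lm u⁻¹ * (lm u - 1))
    rw [mul_sub, hU, mul_one]
    noncomm_ring
  have hc : Commute (lm u⁻¹) (nil u) := by
    change lm u⁻¹ * (lm u - 1) = (lm u - 1) * lm u⁻¹
    rw [mul_sub, sub_mul, hU, hU', mul_one, one_mul]
  rw [h1, (Commute.neg_one_left _).mul_pow, hc.mul_pow, mul_assoc]

/-- the image of a power is orthogonal to the kernel -/
lemma nil_orth {Q : QuadraticForm F V} (u : OGrp Q) (j : ℕ) {x y : V} (hy : (nil u ^ j) y = 0) : polar Q ((nil u ^ j) x) y = 0 := by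
  rw [nil_adj, nil_inv, Module.End.mul_apply, hy, map_zero, polar_zero_right]

lemma neg_pow_apply (j : ℕ) (w : V) : ((-1 : V →ₗ[F] V) ^ j) w = ((-1 : F) ^ j) • w := by
  induction j with
  | zero => rw [pow_zero, pow_zero, one_smul]; rfl
  | succ j ih =>
    rw [pow_succ', Module.End.mul_apply, ih, pow_succ', mul_smul, neg_one_smul]
    rfl

/-- skew symmetry -/
lemma nil_skew {Q : QuadraticForm F V} (u : OGrp Q) (j : ℕ) {x y : V} (hy : (nil u ^ (j + 1)) y = 0) :
    polar Q ((nil u ^ j) x) y = (-1) ^ j * polar Q x ((nil u ^ j) y) := by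
  have h1 : ∀ m, ((lm u⁻¹) ^ m) ((nil u ^ j) y) = (nil u ^ j) y := by
    have h2 : (u : V ≃ₗ[F] V) ((nil u ^ j) y) = (nil u ^ j) y := by
      rw [pow_succ', Module.End.mul_apply] at hy
      change (u : V ≃ₗ[F] V) ((nil u ^ j) y) - (nil u ^ j) y = 0 at hy
      exact sub_eq_zero.mp hy
    intro m
    induction m with
    | zero => rfl
    | succ m ih =>
      rw [pow_succ', Module.End.mul_apply, ih]
      change (u⁻¹ : OGrp Q).1 ((nil u ^ j) y) = _
      conv_lhs => rw [← h2]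
      exact LinearEquiv.symm_apply_apply _ _
  rw [nil_adj, nil_inv, Module.End.mul_apply, Module.End.mul_apply, h1]
  rw [neg_pow_apply, polar_smul_right, smul_eq_mul]

end ch

end Cfsg.Agent.H39.SP
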