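import Mathlib
import Cfsg.Agent.H39.SP12

/-!
Orders of isometries without eigenvalues `1`, `-1` in dimension 6 and 8.
-/

set_option autoImplicit false

namespace Cfsg.Agent.H39.SP

open Module QuadraticMap Cfsg.Agent.Orth Cfsg.Agent.H39.OE

section uni
universe u
variable {F : Type u} [Field F] [Fintype F] {p : ℕ} [Fact p.Prime] [CharP F p] {V : Type*} [AddCommGroup V] [Module F V] [FiniteDimensional F V]

lemma nil_comm {Q : QuadraticForm F V} {s u : OGrp Q} (h : Commute s u) : Commute (lm s) (nil u) := by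
  change lm s * (lm u - 1) = (lm u - 1) * lm s
  rw [mul_sub, sub_mul, mul_one, one_mul]
  congr 1
  have h3 : s * u = u * s := h
  change lm (s * u) = lm (u * s)
  rw [h3]

lemma nil_pow {Q : QuadraticForm F V} {u : OGrp Q} {a : ℕ} (h : nil u ^ (p ^ a) = 0) : u ^ (p ^ a) = 1 := by
  have h5 := sub_pow_end (p := p) (lm u) a
  rw [h] at h5
  exact lm_pow_one.mp (sub_eq_zero.mp h5.symm)

lemma nil_of_pow {Q : QuadraticForm F V} {u : OGrp Q} {a : ℕ} (h : u ^ (p ^ a) = 1) : nil u ^ (p ^ a) = 0 := by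
  have h5 := sub_pow_end (p := p) (lm u) a
  rw [lm_pow_one.mpr h, sub_self] at h5
  exact h5

lemma nil_le {N : V →ₗ[F] V} {a b : ℕ} (h : N ^ a = 0) (hab : a ≤ b) : N ^ b = 0 := by
  obtain ⟨c, rfl⟩ := Nat.exists_eq_add_of_le hab
  rw [pow_add, h, zero_mul]

lemma exists_index {Q : QuadraticForm F V} {u : OGrp Q} {a : ℕ} (h : u ^ (p ^ a) = 1) (hu : u ≠ 1) : ∃ b, 1 ≤ b ∧ nil u ^ (b + 1) = 0 ∧ nil u ^ b ≠ 0 := by
  classical
  have hex : ∃ k, nil u ^ k = 0 := ⟨_, nil_of_pow h⟩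
  have h1 := Nat.find_spec hex
  have h2 : ∀ k, k < Nat.find hex → nil u ^ k ≠ 0 := fun k hk => Nat.find_min hex hk
  have h3 : nil u ≠ 0 := by
    intro h0
    apply hu
    have h4 : lm u = 1 := sub_eq_zero.mp h0
    have h5 : lm u ^ 1 = 1 := by rw [pow_one, h4]
    have := lm_pow_one.mp h5
    rwa [pow_one] at this
  have h4 : 2 ≤ Nat.find hex := by
    by_contra hcon
    exact h3 (by have := nil_le h1 (show Nat.find hex ≤ 1 by omega); rwa [pow_one] at this)
  refine ⟨Nat.find hex - 1, by omega, ?_, h2 _ (by omega)⟩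
  rw [Nat.sub_add_cancel (by omega)]
  exact h1

theorem chain {Q : QuadraticForm F V} {s u : OGrp Q} (hsu : Commute s u) {n : ℕ} (hn : s ^ n = 1) (hnF : (n : F) ≠ 0) {b : ℕ}
    (hb0 : nil u ^ b ≠ 0) : ∃ M, IrrS (lm s) M ∧ ∀ x ∈ M, (nil u ^ b) x = 0 → x = 0 := by
  have hK : ∀ w ∈ LinearMap.ker (nil u ^ b), lm s w ∈ LinearMap.ker (nil u ^ b) := by
    intro w hw
    rw [LinearMap.mem_ker] at hw ⊢
    have h3 : lm s ((nil u ^ b) w) = (nil u ^ b) (lm s w) := LinearMap.congr_fun ((nil_comm hsu).pow_right b) w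
    rw [← h3, hw, map_zero]
  obtain ⟨C, hC1, hC2⟩ := maschke (lm_pow_one.mpr hn) hnF hK
  have hC0 : C ≠ ⊥ := by
    rintro rfl
    apply hb0
    apply LinearMap.ker_eq_top.mp
    have h5 := hC2.sup_eq_top
    rwa [sup_bot_eq] at h5
  obtain ⟨M, hM1, hM2⟩ := exists_irr hC1 hC0
  refine ⟨M, hM2, fun x hx h => ?_⟩
  exact Submodule.disjoint_def.mp hC2.disjoint x h (hM1 hx)

theorem chain_zero {Q : QuadraticForm F V} (hQ : (polarBilin Q).Nondegenerate) {u : OGrp Q} {b : ℕ} (hb : nil u ^ (b + 1) = 0) {M : Submodule F V}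
    (hM : ∀ x ∈ M, (nil u ^ b) x = 0 → x = 0) (hz : ∀ x ∈ M, ∀ y ∈ M, polar Q ((nil u ^ b) x) y = 0) : (b + 2) * finrank F M ≤ finrank F V := by
  have h1 := Hc_finrank hb hM 1 (by omega)
  have h2 := Hc_finrank hb hM (b + 1) le_rfl
  have h3 : Hc (nil u) M b (b + 1) ≤ perp Q (Hc (nil u) M b 1) := by
    intro y hy
    rw [mem_perp]
    intro x hx
    obtain ⟨_, ⟨a, ha, rfl⟩, c, hc, rfl⟩ := Submodule.mem_sup.mp hx
    have hc0 : c = 0 := (Submodule.mem_bot F).mp hc
    obtain ⟨_, ⟨a', ha', rfl⟩, c', hc', rfl⟩ := Submodule.mem_sup.mp hy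
    rw [hc0, add_zero, polar_add_right]
    have h4 := Hc_le hb b (by omega) hc'
    rw [LinearMap.mem_ker] at h4
    rw [Nat.sub_zero, nil_orth u b h4, add_zero, Nat.sub_self, pow_zero]
    exact hz a ha a' ha'
  have h4 := Submodule.finrank_mono h3
  have h5 := finrank_perp hQ (Hc (nil u) M b 1)
  rw [h2] at h4
  rw [h1] at h5
  have : (b + 2) * finrank F M = (b + 1) * finrank F M + 1 * finrank F M := by ring
  omega

theorem chain_sd {Q : QuadraticForm F V} {s u : OGrp Q} (hsu : Commute s u) {n : ℕ} (hn : s ^ n = 1) (hn0 : 0 < n) (hNF : NF s)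
    {b : ℕ} {M : Submodule F V} (hM : IrrS (lm s) M) (hz : ¬ ∀ x ∈ M, ∀ y ∈ M, polar Q ((nil u ^ b) x) y = 0) :
    ∃ e, finrank F M = 2 * e ∧ 0 < e ∧ ∀ x ∈ M, (lm s ^ (Fintype.card F ^ e + 1)) x = x := by
  haveI : Nontrivial M := Submodule.nontrivial_iff_ne_bot.mpr hM.1
  have hs' : ((lm s).restrict hM.2.1) ^ n = 1 := by
    apply LinearMap.ext
    intro w
    apply Subtype.ext
    rw [restrict_pow, lm_pow_one.mpr hn]
    rfl
  push Not at hz
  obtain ⟨x₀, hx₀, y₀, hy₀, hxy⟩ := hz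
  obtain ⟨e, e1, e2, e3, -⟩ := irr_sd hM.irr hn0 hs' (by
      intro h
      have h3 := (hNF.res M hM.2.1).sq
      exact h3 h) (B := fun x => (polarBilin Q ((nil u ^ b) (x : V))) ∘ₗ M.subtype)
    (fun x x' y => by
      change polar Q ((nil u ^ b) ((x : V) + x')) y = _
      rw [map_add, polar_add_left]
      rfl)
    (fun c x y => by
      change polar Q ((nil u ^ b) (c • (x : V))) y = _
      rw [_root_.map_smul, polar_smul_left]
      rfl)
    (fun x y => by
      change polar Q ((nil u ^ b) (lm s (x : V))) (lm s (y : V)) = polar Q ((nil u ^ b) (x : V)) (y : V)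
      have h3 : lm s ((nil u ^ b) (x : V)) = (nil u ^ b) (lm s (x : V)) := LinearMap.congr_fun ((nil_comm hsu).pow_right b) x
      rw [← h3]
      exact OGrp_polar s _ _) ⟨⟨x₀, hx₀⟩, ⟨y₀, hy₀⟩, hxy⟩
  refine ⟨e, e1, e2, fun x hx => ?_⟩
  rw [← restrict_pow hM.2.1 _ ⟨x, hx⟩, e3]
  rfl

theorem hull (h2 : (2 : F) ≠ 0) {Q : QuadraticForm F V} (hQ : (polarBilin Q).Nondegenerate) {s : OGrp Q} {n : ℕ} (hn : s ^ n = 1)
    (hpn : ¬ p ∣ n) (hNF : NF s) {G : Submodule F V} (hG : TS Q G) (hGi : ∀ v ∈ G, (s : V ≃ₗ[F] V) v ∈ G) (hG2 : finrank F G = 2)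
    (hGs : ∀ x ∈ G, (lm s ^ (Fintype.card F ^ 2 - 1)) x = x) (hV : finrank F V = 6 ∨ (finrank F V = 8 ∧ PT Q ⊤)) :
    s ^ (Fintype.card F ^ 2 - 1) = 1 := by
  have hp : p.Prime := Fact.out
  have hnF : (n : F) ≠ 0 := by rw [Ne, CharP.cast_eq_zero_iff F p]; exact hpn
  obtain ⟨W, w1, w2, w3, w4⟩ := ts_hyp hQ hn hnF hG hGi
  rw [hG2] at w4
  obtain ⟨d1, d2, d3, d4⟩ := dec hQ w3 w2
  have hn' := ((d4 n).mp hn).2
  rw [d4]
  have hs' : (res s W w2) ^ n = 1 := by
    rw [res_pow_one]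
    exact ((d4 n).mp hn).1
  constructor
  · rw [← res_pow_one s W w2]
    apply ts_triv (p := p) hp.two_le (nd_restrict w3) (E := G.comap W.subtype) (fun v hv => hG _ hv) (by
      rw [(Submodule.comapSubtypeEquivOfLe w1).finrank_eq, hG2]; exact w4.symm) hs' hpn
    intro v hv
    apply Subtype.ext
    have h3 : lm (res s W w2) = (lm s).restrict w2 := rfl
    rw [h3, restrict_pow]
    exact hGs _ hv
  · have hq1 : 1 < Fintype.card F := Fintype.one_lt_card
    rcases hV with hV | ⟨hV, hPT⟩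
    · rcases C1 (p := p) h2 d1 hn' hpn (hNF.res _ _) (by omega) with ⟨-, h⟩ | ⟨-, h⟩
      · exact pd h (D1 hq1)
      · exact pd h (D2 hq1)
    · have d3' := (d3 (by rw [w4]; decide) (by rw [hV]; decide)).mp hPT
      rcases C2 (p := p) h2 d1 hn' hpn (hNF.res _ _) (by omega) with ⟨h6, h⟩ | h
      · exact absurd (d3'.mp ⟨G, w1, hG, by rw [hG2, w4]⟩) h6
      · exact h

theorem uni (h2 : (2 : F) ≠ 0) (hpo : Odd p) {Q : QuadraticForm F V} (hQ : (polarBilin Q).Nondegenerate) {s u : OGrp Q} (hsu : Commute s u)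
    {n a : ℕ} (hn : s ^ n = 1) (hpn : ¬ p ∣ n) (hNF : NF s) (hua : u ^ (p ^ a) = 1) (hu1 : u ≠ 1)
    (hV : finrank F V = 6 ∨ (finrank F V = 8 ∧ PT Q ⊤)) :
    (s ^ (Fintype.card F ^ 2 - 1) = 1 ∧ u ^ p = 1) ∨ (finrank F V = 8 ∧ s ^ (Fintype.card F ^ 2 + 1) = 1 ∧ u ^ p = 1) ∨
      (finrank F V = 8 ∧ p = 3 ∧ u ^ 9 = 1 ∧ (s ^ (Fintype.card F - 1) = 1 ∨ s ^ (Fintype.card F + 1) = 1)) := by
  have hp : p.Prime := Fact.out
  have hp3 : 3 ≤ p := by
    have := hp.two_le
    obtain ⟨k, hk⟩ := hpo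
    omega
  have hq1 : 1 < Fintype.card F := Fintype.one_lt_card
  have hnF : (n : F) ≠ 0 := by rw [Ne, CharP.cast_eq_zero_iff F p]; exact hpn
  have hn0 : 0 < n := Nat.pos_of_ne_zero (by rintro rfl; exact hpn (dvd_zero p))
  obtain ⟨b, hb1, hb, hb0⟩ := exists_index hua hu1
  obtain ⟨M, hM1, hM2⟩ := chain hsu hn hnF hb0
  have hd0 : 0 < finrank F M := by
    rw [Nat.pos_iff_ne_zero]
    intro h0
    exact hM1.1 (Submodule.finrank_eq_zero.mp h0)
  have hH := Hc_finrank hb hM2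
  have hbd : (b + 1) * finrank F M ≤ finrank F V := by
    rw [← hH (b + 1) le_rfl]
    exact Submodule.finrank_le _
  have hup : b + 1 ≤ p → u ^ p = 1 := by
    intro h
    have := nil_pow (p := p) (a := 1) (u := u) (by rw [pow_one]; exact nil_le hb h)
    rwa [pow_one] at this
  have hu9 : p = 3 → b + 1 ≤ 9 → u ^ 9 = 1 := by
    intro h3 h
    have h9 : (9 : ℕ) = p ^ 2 := by rw [h3]; norm_num
    rw [h9]
    apply nil_pow
    rw [← h9]
    exact nil_le hb h
  have hinj := (s : V ≃ₗ[F] V).injective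
  have hHi : ∀ k, ∀ v ∈ Hc (nil u) M b k, (s : V ≃ₗ[F] V) v ∈ Hc (nil u) M b k := fun k => Hc_inv (nil_comm hsu) hM1.2.1 k
  have hHs : ∀ m, (∀ x ∈ M, (lm s ^ m) x = x) → ∀ k, ∀ x ∈ Hc (nil u) M b k, (lm s ^ m) x = x := by
    intro m hm k x hx
    have h3 : Commute (lm s ^ m - 1) (nil u) := ((nil_comm hsu).pow_left m).sub_left (Commute.one_left _)
    have h4 := Hc_zero h3 (fun x hx => by rw [LinearMap.sub_apply, hm x hx, Module.End.one_apply, sub_self]) k x hx
    rw [LinearMap.sub_apply, Module.End.one_apply] at h4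
    exact sub_eq_zero.mp h4
  have hD8 : finrank F V ≤ 8 := by rcases hV with h | ⟨h, -⟩ <;> omega
  have hH1 : 1 ≤ b → TS Q (Hc (nil u) M b 1) := by
    intro _ x hx
    obtain ⟨_, ⟨a, ha, rfl⟩, c, hc, rfl⟩ := Submodule.mem_sup.mp hx
    have hc0 : c = 0 := (Submodule.mem_bot F).mp hc
    rw [hc0, add_zero, Nat.sub_zero]
    have h3 : polar Q ((nil u ^ b) a) ((nil u ^ b) a) = 0 := by
      apply nil_orth u b
      rw [← Module.End.mul_apply, ← pow_add]
      rw [nil_le hb (show b + 1 ≤ b + b by omega)]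
      rfl
    rw [QuadraticMap.polar_self, nsmul_eq_mul] at h3
    have h2' : ((2 : ℕ) : F) ≠ 0 := by exact_mod_cast h2
    exact (mul_eq_zero.mp h3).resolve_left h2'
  have hull2 : finrank F M = 2 → (∀ x ∈ M, (lm s ^ (Fintype.card F ^ 2 - 1)) x = x) → s ^ (Fintype.card F ^ 2 - 1) = 1 := by
    intro hM' hx
    exact hull (p := p) h2 hQ hn hpn hNF (hH1 hb1) (hHi 1) (by rw [hH 1 (by omega), hM', one_mul]) (hHs _ hx 1) hV
  by_cases hz : ∀ x ∈ M, ∀ y ∈ M, polar Q ((nil u ^ b) x) y = 0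
  · have h3 := chain_zero hQ hb hM2 hz
    have h4 : finrank F M ≤ 2 := by
      by_contra hcon
      have : 3 * 3 ≤ (b + 2) * finrank F M := Nat.mul_le_mul (by omega) (by omega)
      omega
    obtain h5 | h5 : finrank F M = 1 ∨ finrank F M = 2 := by omega
    · rw [h5, mul_one] at h3 hbd
      -- the eigenvalue
      obtain ⟨⟨x, hxM⟩, hx0, hxs⟩ := finrank_eq_one_iff'.mp h5
      have hx0' : x ≠ 0 := fun h => hx0 (Subtype.ext h)
      obtain ⟨c, hc⟩ := hxs ⟨lm s x, hM1.2.1 x hxM⟩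
      have hc' : (s : V ≃ₗ[F] V) x = c • x := (congrArg Subtype.val hc).symm
      have hcM : ∀ z ∈ M, lm s z = c • z := by
        intro z hz
        obtain ⟨d, hd⟩ := hxs ⟨z, hz⟩
        have hd' : d • x = z := congrArg Subtype.val hd
        rw [← hd']
        change (s : V ≃ₗ[F] V) (d • x) = _
        rw [_root_.map_smul, hc', smul_comm]
      have hc2 : c * c ≠ 1 := by
        intro h
        rcases mul_self_eq_one_iff.mp h with h | h
        · exact hx0' (hNF x (Or.inl (by rw [hc', h, one_smul])))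
        · exact hx0' (hNF x (Or.inr (by rw [hc', h, neg_one_smul])))
      have hTS : ∀ k, TS Q (Hc (nil u) M b k) := by
        intro k z hz
        have h6 : Commute (lm s - c • (1 : V →ₗ[F] V)) (nil u) := (nil_comm hsu).sub_left ((Commute.one_left _).smul_left c)
        have h7 := Hc_zero h6 (fun x hx => by
          rw [LinearMap.sub_apply, hcM x hx, LinearMap.smul_apply, Module.End.one_apply, sub_self]) k z hz
        rw [LinearMap.sub_apply, LinearMap.smul_apply, Module.End.one_apply] at h7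
        have h8 : (s : V ≃ₗ[F] V) z = c • z := sub_eq_zero.mp h7
        have h9 := OGrp_q s z
        rw [h8, QuadraticMap.map_smul, smul_eq_mul] at h9
        have h10 : (c * c - 1) * Q z = 0 := by linear_combination h9
        exact (mul_eq_zero.mp h10).resolve_left (sub_ne_zero.mpr hc2)
      have h6 := ts_bound (nd_of_nondeg hQ) (hTS (b + 1)) le_top
      rw [hH (b + 1) le_rfl, h5, finrank_top] at h6
      have hMs : ∀ x ∈ M, (lm s ^ (Fintype.card F - 1)) x = x := by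
        intro x hx
        have := hM1.pow hinj hx
        rwa [h5, pow_one] at this
      by_cases hb3 : b = 3
      · subst hb3
        have hV8 : finrank F V = 8 := by omega
        have h7 : s ^ (Fintype.card F - 1) = 1 := by
          apply ts_triv (p := p) hp.two_le hQ (hTS 4) (by rw [hH 4 (by omega), h5, hV8]) hn hpn
          exact hHs _ hMs 4
        by_cases hp5 : p = 3
        · exact Or.inr (Or.inr ⟨hV8, hp5, hu9 hp5 (by omega), Or.inl h7⟩)
        · left
          refine ⟨pd h7 (D1 hq1), hup ?_⟩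
          rcases hpo with ⟨k, hk⟩
          omega
      · left
        refine ⟨?_, hup (by omega)⟩
        exact hull (p := p) h2 hQ hn hpn hNF (hTS 2) (hHi 2) (by rw [hH 2 (by omega), h5]) (hHs _ (pdl hMs (D1 hq1)) 2) hV
    · rw [h5] at h3
      left
      refine ⟨hull2 h5 ?_, hup (by omega)⟩
      intro x hx
      have := hM1.pow hinj hx
      rwa [h5] at this
  · obtain ⟨e, e1, e2, e3⟩ := chain_sd hsu hn hn0 hNF hM1 hz
    have h4 : e ≤ 2 := by
      by_contra hcon
      have : 2 * 6 ≤ (b + 1) * finrank F M := Nat.mul_le_mul (by omega) (by omega)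
      omega
    have htop : (b + 1) * finrank F M = finrank F V → ∀ m, (∀ x ∈ M, (lm s ^ m) x = x) → s ^ m = 1 := by
      intro h m hm
      exact all_top (W := Hc (nil u) M b (b + 1)) (by rw [hH (b + 1) le_rfl, h]) (hHs m hm (b + 1))
    obtain rfl | rfl : e = 1 ∨ e = 2 := by omega
    · rw [e1] at hbd
      rw [pow_one] at e3
      by_cases hb3 : b = 3
      · subst hb3
        have hV8 : finrank F V = 8 := by omega
        have h7 := htop (by rw [e1, hV8]) _ e3
        by_cases hp5 : p = 3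
        · exact Or.inr (Or.inr ⟨hV8, hp5, hu9 hp5 (by omega), Or.inr h7⟩)
        · left
          refine ⟨pd h7 (D2 hq1), hup ?_⟩
          rcases hpo with ⟨k, hk⟩
          omega
      · left
        exact ⟨hull2 e1 (pdl e3 (D2 hq1)), hup (by omega)⟩
    · have hb' : b = 1 := by
        rw [e1] at hbd
        omega
      subst hb'
      have hV8 : finrank F V = 8 := by rw [e1] at hbd; omega
      right; left
      exact ⟨hV8, htop (by rw [e1, hV8]) _ e3, hup (by omega)⟩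

end uni

end Cfsg.Agent.H39.SP
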