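import Mathlib
import Cfsg.Agent.H39.SP13

/-!
Orders of isometries without eigenvalues `1`, `-1`; unipotent elements; eigenspaces.
-/

set_option autoImplicit false

namespace Cfsg.Agent.H39.SP

open Module QuadraticMap Cfsg.Agent.Orth Cfsg.Agent.H39.OE

section gd
universe u
variable {F : Type u} [Field F] [Fintype F] {p : ℕ} [Fact p.Prime] [CharP F p] {V : Type*} [AddCommGroup V] [Module F V] [FiniteDimensional F V]

lemma fin_order {Q : QuadraticForm F V} (y : OGrp Q) : 0 < orderOf y := by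
  haveI : Finite V := Module.finite_of_finite F
  haveI : Finite (V ≃ₗ[F] V) := Finite.of_injective (fun e : V ≃ₗ[F] V => (e : V → V)) DFunLike.coe_injective
  haveI : Finite (OGrp Q) := inferInstance
  exact orderOf_pos y

/-- common hypotheses of the Jordan decomposition -/
structure JD (p : ℕ) {Q : QuadraticForm F V} (y s u : OGrp Q) (i j a n : ℕ) : Prop where
  mul : s * u = y
  si : s = y ^ i
  uj : u = y ^ j
  sn : s ^ n = 1
  pn : ¬ p ∣ n
  ua : u ^ (p ^ a) = 1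

lemma exists_JD (p : ℕ) [Fact p.Prime] {Q : QuadraticForm F V} (y : OGrp Q) : ∃ s u i j a n, JD p y s u i j a n := by
  have hp : p.Prime := Fact.out
  obtain ⟨a, n, hn, han⟩ := Nat.exists_eq_pow_mul_and_not_dvd (fin_order y).ne' p hp.one_lt.ne'
  obtain ⟨i, j, h1, h2, h3⟩ := jordan (y := y) (m := p ^ a) (n := n) (Nat.Coprime.pow_left a ((Nat.Prime.coprime_iff_not_dvd hp).mpr hn))
    (by rw [← han, pow_orderOf_eq_one])
  exact ⟨y ^ i, y ^ j, i, j, a, n, h1, rfl, rfl, h2, hn, h3⟩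

lemma JD.comm {Q : QuadraticForm F V} {y s u : OGrp Q} {i j a n : ℕ} (h : JD p y s u i j a n) : Commute s u := by
  rw [h.si, h.uj]
  exact Commute.pow_pow (Commute.refl y) i j

lemma JD.ys {Q : QuadraticForm F V} {y s u : OGrp Q} {i j a n : ℕ} (h : JD p y s u i j a n) : Commute y s := by
  rw [h.si]
  exact Commute.self_pow y i

lemma JD.yu {Q : QuadraticForm F V} {y s u : OGrp Q} {i j a n : ℕ} (h : JD p y s u i j a n) : Commute y u := by
  rw [h.uj]
  exact Commute.self_pow y j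

lemma JD.app {Q : QuadraticForm F V} {y s u : OGrp Q} {i j a n : ℕ} (h : JD p y s u i j a n) (v : V) :
    (y : V ≃ₗ[F] V) v = (s : V ≃ₗ[F] V) ((u : V ≃ₗ[F] V) v) := by
  rw [← coe_mul_apply, h.mul]

lemma JD.app' {Q : QuadraticForm F V} {y s u : OGrp Q} {i j a n : ℕ} (h : JD p y s u i j a n) (v : V) :
    (y : V ≃ₗ[F] V) v = (u : V ≃ₗ[F] V) ((s : V ≃ₗ[F] V) v) := by
  rw [← coe_mul_apply, ← h.comm.eq, h.mul]

/-- eigenvectors of `s` for `1`, `-1` give eigenvectors of `y` -/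
lemma JD.nf {Q : QuadraticForm F V} {y s u : OGrp Q} {i j a n : ℕ} (h : JD p y s u i j a n) (hNF : NF y) : NF s := by
  classical
  intro v hv
  by_contra hv0
  have hex : ∃ k, (nil u ^ k) v = 0 := ⟨p ^ a, by rw [nil_of_pow h.ua]; rfl⟩
  have h1 := Nat.find_spec hex
  have h2 : ∀ k, k < Nat.find hex → (nil u ^ k) v ≠ 0 := fun k hk => Nat.find_min hex hk
  have h3 : 0 < Nat.find hex := by
    rw [Nat.pos_iff_ne_zero]
    intro h0
    rw [h0] at h1
    exact hv0 h1
  obtain ⟨k, hk⟩ : ∃ k, Nat.find hex = k + 1 := ⟨Nat.find hex - 1, by omega⟩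
  rw [hk] at h1 h2
  apply h2 k (by omega)
  apply hNF
  have h4 : (u : V ≃ₗ[F] V) ((nil u ^ k) v) = (nil u ^ k) v := by
    rw [pow_succ', Module.End.mul_apply] at h1
    exact sub_eq_zero.mp h1
  have h5 : lm s ((nil u ^ k) v) = (nil u ^ k) (lm s v) := LinearMap.congr_fun ((nil_comm h.comm).pow_right k) v
  rw [h.app, h4]
  change lm s ((nil u ^ k) v) = _ ∨ lm s ((nil u ^ k) v) = _
  rw [h5]
  rcases hv with hv | hv
  · left
    change (nil u ^ k) ((s : V ≃ₗ[F] V) v) = _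
    rw [hv]
  · right
    change (nil u ^ k) ((s : V ≃ₗ[F] V) v) = _
    rw [hv, map_neg]

/-- eigenvectors of `y` for `1`, `-1` are eigenvectors of `s` -/
lemma JD.eig (h2 : (2 : F) ≠ 0) (hpo : Odd p) {Q : QuadraticForm F V} {y s u : OGrp Q} {i j a n : ℕ} (h : JD p y s u i j a n) {v : V}
    (hv : (y : V ≃ₗ[F] V) v = v ∨ (y : V ≃ₗ[F] V) v = -v) : (u : V ≃ₗ[F] V) v = v := by
  by_cases hv0 : v = 0
  · rw [hv0, map_zero]
  have h3 : ∀ (z : OGrp Q), ((z : V ≃ₗ[F] V) v = v ∨ (z : V ≃ₗ[F] V) v = -v) → ∀ k : ℕ, ((z ^ k : OGrp Q) : V ≃ₗ[F] V) v = v ∨ ((z ^ k : OGrp Q) : V ≃ₗ[F] V) v = -v := by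
    intro z hz k
    induction k with
    | zero => left; rfl
    | succ k ih =>
      rw [pow_succ', coe_mul_apply]
      rcases ih with ih | ih <;> rw [ih]
      · exact hz
      · rw [map_neg]
        rcases hz with hz | hz <;> rw [hz]
        · exact Or.inr rfl
        · rw [neg_neg]; exact Or.inl rfl
  have h4 := h3 y hv j
  rw [← h.uj] at h4
  rcases h4 with h4 | h4
  · exact h4
  · exfalso
    have h5 : ∀ k : ℕ, ((u ^ k : OGrp Q) : V ≃ₗ[F] V) v = ((-1 : F) ^ k) • v := by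
      intro k
      induction k with
      | zero => rw [pow_zero, pow_zero, one_smul]; rfl
      | succ k ih => rw [pow_succ, coe_mul_apply, h4, map_neg, ih, pow_succ, mul_neg_one, neg_smul]
    have h6 := h5 (p ^ a)
    rw [h.ua, (hpo.pow (n := a)).neg_one_pow, neg_one_smul] at h6
    have h7 : v = -v := h6
    have h8 : (2 : F) • v = 0 := by rw [two_smul]; nth_rewrite 2 [h7]; exact add_neg_cancel v
    exact hv0 ((smul_eq_zero.mp h8).resolve_left h2)

lemma JD.ord {Q : QuadraticForm F V} {y s u : OGrp Q} {i j a n : ℕ} (h : JD p y s u i j a n) {k l : ℕ} (hs : s ^ k = 1) (hu : u ^ l = 1) :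
    orderOf y ∣ l * k := by
  rw [orderOf_dvd_iff_pow_eq_one, ← h.mul, h.comm.mul_pow, pd hs (Dvd.intro_left l rfl), pd hu (Dvd.intro k rfl), one_mul]

theorem good8 (h2 : (2 : F) ≠ 0) (hpo : Odd p) {Q : QuadraticForm F V} (hQ : (polarBilin Q).Nondegenerate) {y : OGrp Q} (hNF : NF y)
    (hV : finrank F V = 8) (hPT : PT Q ⊤) (hc : y ∈ commutator (OGrp Q)) : Good (Fintype.card F) p (orderOf y) := by
  obtain ⟨s, u, i, j, a, n, hJ⟩ := exists_JD p y
  have hNFs := hJ.nf hNF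
  have hq1 : 1 < Fintype.card F := Fintype.one_lt_card
  by_cases hu : u = 1
  · have hys : y = s := by rw [← hJ.mul, hu, mul_one]
    have hsc : s ∈ commutator (OGrp Q) := by rw [← hys]; exact hc
    rcases C4 (p := p) h2 hpo hQ hJ.sn hJ.pn hNFs hV hPT hsc with h | h | h | h | h <;> rw [← hys] at h
    · exact Or.inl (orderOf_dvd_of_pow_eq_one h)
    · exact Or.inr (Or.inl (orderOf_dvd_of_pow_eq_one h))
    · exact Or.inr (Or.inr (Or.inl (orderOf_dvd_of_pow_eq_one h)))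
    · exact Or.inr (Or.inr (Or.inr (Or.inl ((orderOf_dvd_of_pow_eq_one h).mul_left p))))
    · exact Or.inr (Or.inr (Or.inr (Or.inr (Or.inl ((orderOf_dvd_of_pow_eq_one h).mul_left p)))))
  · rcases uni (p := p) h2 hpo hQ hJ.comm hJ.sn hJ.pn hNFs hJ.ua hu (Or.inr ⟨hV, hPT⟩) with ⟨h3, h4⟩ | ⟨-, h3, h4⟩ | ⟨-, h0, h3, h4⟩
    · exact Or.inr (Or.inr (Or.inr (Or.inl (hJ.ord h3 h4))))
    · exact Or.inr (Or.inr (Or.inr (Or.inr (Or.inl (hJ.ord h3 h4)))))
    · rcases h4 with h4 | h4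
      · exact Or.inr (Or.inr (Or.inr (Or.inr (Or.inr ⟨h0, Or.inl (hJ.ord h4 h3)⟩))))
      · exact Or.inr (Or.inr (Or.inr (Or.inr (Or.inr ⟨h0, Or.inr (hJ.ord h4 h3)⟩))))

theorem good6 (h2 : (2 : F) ≠ 0) (hpo : Odd p) {Q : QuadraticForm F V} (hQ : (polarBilin Q).Nondegenerate) {y : OGrp Q} (hNF : NF y)
    (hV : finrank F V = 6) : Good (Fintype.card F) p (Nat.lcm 2 (orderOf y)) := by
  obtain ⟨s, u, i, j, a, n, hJ⟩ := exists_JD p y
  have hNFs := hJ.nf hNF
  have hq1 : 1 < Fintype.card F := Fintype.one_lt_card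
  obtain ⟨k, hk⟩ := q_facts (F := F) h2
  obtain ⟨-, -, D7⟩ := D56 hk
  have t2 : 2 ∣ Fintype.card F ^ 2 - 1 := by
    have : Fintype.card F ^ 2 = 2 * (2 * (k * (k + 1))) + 1 := by rw [hk]; ring
    omega
  obtain ⟨c, hc⟩ : ∃ c, Fintype.card F ^ 3 = 2 * c + 1 := by
    obtain ⟨c, hc⟩ := (q_facts (F := F) h2).pow (n := 3)
    exact ⟨c, hc⟩
  by_cases hu : u = 1
  · have hys : y = s := by rw [← hJ.mul, hu, mul_one]
    rcases C3 (p := p) h2 hQ hJ.sn hJ.pn hNFs hV with ⟨-, h⟩ | ⟨-, h⟩ | h | h <;> rw [← hys] at h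
    · exact Or.inr (Or.inl (Nat.lcm_dvd (by omega) (orderOf_dvd_of_pow_eq_one h)))
    · exact Or.inr (Or.inr (Or.inl (Nat.lcm_dvd (by omega) (orderOf_dvd_of_pow_eq_one h))))
    · exact Or.inr (Or.inr (Or.inr (Or.inl (Nat.lcm_dvd (t2.mul_left p) ((orderOf_dvd_of_pow_eq_one h).mul_left p)))))
    · exact Or.inl (Nat.lcm_dvd D7 (orderOf_dvd_of_pow_eq_one h))
  · rcases uni (p := p) h2 hpo hQ hJ.comm hJ.sn hJ.pn hNFs hJ.ua hu (Or.inl hV) with ⟨h3, h4⟩ | ⟨h0, -⟩ | ⟨h0, -⟩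
    · exact Or.inr (Or.inr (Or.inr (Or.inl (Nat.lcm_dvd (t2.mul_left p) (hJ.ord h3 h4)))))
    · omega
    · omega

/-- unipotent isometries: bounds for the index -/
theorem unip_bound (h2 : (2 : F) ≠ 0) {Q : QuadraticForm F V} (hQ : (polarBilin Q).Nondegenerate) {u : OGrp Q} {a m : ℕ} (hua : u ^ (p ^ a) = 1)
    (hm : nil u ^ m ≠ 0) : m + 1 ≤ finrank F V ∧ (Odd m → Even (finrank F V) → m + 3 ≤ finrank F V) := by
  classical
  rcases Nat.eq_zero_or_pos m with rfl | hm0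
  · refine ⟨?_, fun h => absurd h (by decide)⟩
    rw [zero_add, Nat.one_le_iff_ne_zero]
    intro h0
    apply hm
    apply LinearMap.ext
    intro v
    have : Subsingleton V := Module.finrank_zero_iff.mp h0
    exact Subsingleton.elim _ _
  have hu : u ≠ 1 := by
    rintro rfl
    apply hm
    have : nil (1 : OGrp Q) = 0 := sub_self _
    rw [this, zero_pow hm0.ne']
  obtain ⟨b, hb1, hb, hb0⟩ := exists_index hua hu
  have hmb : m ≤ b := by
    by_contra hcon
    exact hm (nil_le hb (by omega))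
  obtain ⟨x, hx⟩ : ∃ x, (nil u ^ b) x ≠ 0 := by
    by_contra hcon
    push Not at hcon
    exact hb0 (LinearMap.ext hcon)
  have hx0 : x ≠ 0 := by rintro rfl; exact hx (map_zero _)
  have hM : ∀ z ∈ Submodule.span F {x}, (nil u ^ b) z = 0 → z = 0 := by
    intro z hz h
    obtain ⟨c, rfl⟩ := Submodule.mem_span_singleton.mp hz
    rw [_root_.map_smul] at h
    rw [(smul_eq_zero.mp h).resolve_right hx, zero_smul]
  have h1 := Hc_finrank hb hM (b + 1) le_rfl
  rw [finrank_span_singleton hx0, mul_one] at h1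
  have h3 := Submodule.finrank_le (Hc (nil u) (Submodule.span F {x}) b (b + 1))
  rw [h1] at h3
  refine ⟨by omega, ?_⟩
  rintro ⟨c, hc⟩ ⟨d, hd⟩
  by_cases hmb' : m = b
  · subst hmb'
    have h4 : polar Q ((nil u ^ m) x) x = 0 := by
      have h5 := nil_skew u m (x := x) (y := x) (by rw [hb]; rfl)
      rw [Odd.neg_one_pow (⟨c, hc⟩ : Odd m), pc Q x] at h5
      have h6 : (2 : F) * polar Q ((nil u ^ m) x) x = 0 := by linear_combination h5
      exact (mul_eq_zero.mp h6).resolve_left h2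
    have h5 := chain_zero hQ hb hM (by
      intro z hz w hw
      obtain ⟨c, rfl⟩ := Submodule.mem_span_singleton.mp hz
      obtain ⟨d, rfl⟩ := Submodule.mem_span_singleton.mp hw
      rw [_root_.map_smul, polar_smul_left, polar_smul_right, h4, smul_zero, smul_zero])
    rw [finrank_span_singleton hx0, mul_one] at h5
    omega
  · omega

/-- the fixed space of a semisimple isometry is nondegenerate -/
theorem fix_nd {Q : QuadraticForm F V} (hQ : (polarBilin Q).Nondegenerate) {s : OGrp Q} {n : ℕ} (hn : s ^ n = 1) (hnF : (n : F) ≠ 0) :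
    Nd Q (LinearMap.ker (lm s - 1)) := by
  intro v hv hall
  apply hQ.1
  intro x
  change polar Q v x = 0
  have hv' : (s : V ≃ₗ[F] V) v = v := sub_eq_zero.mp hv
  have h1 : ∀ k : ℕ, polar Q v ((lm s ^ k) x) = polar Q v x := by
    intro k
    induction k with
    | zero => rfl
    | succ k ih =>
      rw [pow_succ', Module.End.mul_apply]
      conv_lhs => rw [← hv']
      exact (OGrp_polar s _ _).trans ih
  have h2 : (∑ k ∈ Finset.range n, lm s ^ k) x ∈ LinearMap.ker (lm s - 1) := by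
    rw [LinearMap.mem_ker, ← Module.End.mul_apply, mul_geom_sum, lm_pow_one.mpr hn, sub_self]
    rfl
  have h3 := hall _ h2
  change polar Q v _ = 0 at h3
  rw [LinearMap.sum_apply] at h3
  have h4 : polar Q v (∑ k ∈ Finset.range n, (lm s ^ k) x) = ∑ k ∈ Finset.range n, polar Q v ((lm s ^ k) x) :=
    map_sum (polarBilin Q v) _ _
  rw [h4, Finset.sum_congr rfl (fun k _ => h1 k), Finset.sum_const, Finset.card_range, nsmul_eq_mul] at h3
  exact (mul_eq_zero.mp h3).resolve_left hnF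

end gd

end Cfsg.Agent.H39.SP
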