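import Mathlib
import Cfsg.Agent.H39.SP14

/-!
Element orders of the nine-dimensional group occur in the semidirect product.
-/

set_option autoImplicit false

namespace Cfsg.Agent.H39.SP

open Module QuadraticMap Cfsg.Agent.Orth Cfsg.Agent.H39.OE

section nine
universe u
variable {F : Type u} [Field F] [Fintype F] {V : Type*} [AddCommGroup V] [Module F V] [FiniteDimensional F V]

lemma rank_full {Q : QuadraticForm F V} {y : OGrp Q} (h : ∀ v, (y : V ≃ₗ[F] V) v = v → v = 0) :
    finrank F (LinearMap.range (dmap y)) = finrank F V := by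
  have h3 := LinearMap.finrank_range_add_finrank_ker (dmap y)
  have h4 : LinearMap.ker (dmap y) = ⊥ := by
    rw [LinearMap.ker_eq_bot']
    intro v hv
    apply h
    have h5 : (y : V ≃ₗ[F] V) v - v = 0 ∨ v - (y : V ≃ₗ[F] V) v = 0 := by
      first
        | exact Or.inl hv
        | exact Or.inr hv
    rcases h5 with h5 | h5
    · exact sub_eq_zero.mp h5
    · exact (sub_eq_zero.mp h5).symm
  rw [h4, finrank_bot] at h3
  omega

lemma even_nf (h2 : (2 : F) ≠ 0) {Q : QuadraticForm F V} (hQ : (polarBilin Q).Nondegenerate) {y : OGrp Q} (hNF : NF y) : Even (finrank F V) := by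
  by_contra hodd
  obtain ⟨l, hl⟩ := exists_reflProd (rgrp h2 hQ) y
  obtain ⟨k, hk⟩ := exists_reflProd (rgrp h2 hQ) (ng Q)
  have h1 := rank_reflProd hQ l
  rw [hl, rank_full (fun v hv => hNF v (Or.inl hv))] at h1
  have h3 := rank_reflProd hQ k
  rw [hk, rank_full (fun v hv => by
    rw [ng_apply] at hv
    have h8 : (2 : F) • v = 0 := by rw [two_smul]; nth_rewrite 1 [← hv]; exact neg_add_cancel v
    exact (smul_eq_zero.mp h8).resolve_left h2)] at h3
  have h4 := rank_reflProd hQ (l ++ k)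
  rw [reflProd_append, hl, hk, rank_full (fun v hv => by
    rw [coe_mul_apply, ng_apply, map_neg] at hv
    exact hNF v (Or.inr (neg_eq_iff_eq_neg.mp hv))), List.length_append, Nat.even_add] at h4
  tauto

variable {p : ℕ} [Fact p.Prime] [CharP F p]

/-- the order of a unipotent isometry -/
lemma unip_order (hpo : Odd p) (h2 : (2 : F) ≠ 0) {Q : QuadraticForm F V} (hQ : (polarBilin Q).Nondegenerate) {u : OGrp Q} {a : ℕ}
    (hua : u ^ (p ^ a) = 1) : ∃ c, orderOf u = p ^ c ∧ (c = 0 ∨ (p ^ (c - 1) + 1 ≤ finrank F V ∧ (Even (finrank F V) → p ^ (c - 1) + 3 ≤ finrank F V))) := by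
  have hp : p.Prime := Fact.out
  obtain ⟨c, -, hc⟩ := (Nat.dvd_prime_pow hp).mp (orderOf_dvd_of_pow_eq_one hua)
  refine ⟨c, hc, ?_⟩
  rcases Nat.eq_zero_or_pos c with h | h
  · exact Or.inl h
  · right
    have h3 : nil u ^ (p ^ (c - 1)) ≠ 0 := by
      intro h0
      have h4 := orderOf_dvd_of_pow_eq_one (nil_pow (p := p) h0)
      rw [hc] at h4
      have h5 := (Nat.pow_dvd_pow_iff_le_right hp.one_lt).mp h4
      omega
    obtain ⟨h4, h5⟩ := unip_bound h2 hQ hua h3
    exact ⟨h4, h5 (hpo.pow)⟩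

theorem eight (h2 : (2 : F) ≠ 0) (hpo : Odd p) {Q : QuadraticForm F V} (hQ : (polarBilin Q).Nondegenerate) (hV : finrank F V = 8) (hPT : PT Q ⊤)
    {y : OGrp Q} (hc : y ∈ commutator (OGrp Q)) (hfix : ∀ v, (y : V ≃ₗ[F] V) v = v → v = 0) : Sx F p (orderOf y) := by
  have hp : p.Prime := Fact.out
  obtain ⟨s, u, i, j, a, n, hJ⟩ := exists_JD p y
  have hcng : ∀ z : OGrp Q, Commute z (ng Q) := by
    intro z
    apply OGrp_ext
    intro v
    rw [coe_mul_apply, coe_mul_apply, ng_apply, ng_apply, map_neg]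
  have ht : (s * ng Q) ^ (2 * n) = 1 := by
    rw [(hcng s).mul_pow, pd hJ.sn (Dvd.intro_left 2 rfl), pd (ng_sq Q) (Dvd.intro n rfl), one_mul]
  have hpn2 : ¬ p ∣ 2 * n := by
    intro h
    rcases (Nat.Prime.dvd_mul hp).mp h with h | h
    · have h3 := (Nat.prime_dvd_prime_iff_eq hp Nat.prime_two).mp h
      rw [h3] at hpo
      exact absurd hpo (by decide)
    · exact hJ.pn h
  have htF : ((2 * n : ℕ) : F) ≠ 0 := by rw [Ne, CharP.cast_eq_zero_iff F p]; exact hpn2
  set W := LinearMap.ker (lm (s * ng Q) - 1) with hWdef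
  have hN : Nd Q W := fix_nd hQ ht htF
  have hmemW : ∀ v, v ∈ W ↔ (s : V ≃ₗ[F] V) v = -v := by
    intro v
    rw [hWdef, LinearMap.mem_ker]
    change (s : V ≃ₗ[F] V) (-v) - v = 0 ↔ _
    rw [map_neg, sub_eq_zero]
    exact neg_eq_iff_eq_neg
  have hcom : ∀ (z : OGrp Q), Commute z s → ∀ v ∈ W, (z : V ≃ₗ[F] V) v ∈ W := by
    intro z hz v hv
    rw [hmemW] at hv ⊢
    rw [← coe_mul_apply, ← hz.eq, coe_mul_apply, hv, map_neg]
  have hW := hcom y hJ.ys
  have hWu := hcom u hJ.comm.symm
  obtain ⟨o1, o2, o3⟩ := orth_facts hQ hN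
  have hg := split hQ hN y hW
  have hord := hg.order W.injective_subtype (Submodule.injective_subtype _)
  have hNF₂ : NF (res y _ (orth_inv y hW)) := by
    intro w hw
    rcases hw with hw | hw
    · exact Subtype.ext (hfix w (congrArg Subtype.val hw))
    · have hw' : (y : V ≃ₗ[F] V) (w : V) = -(w : V) := congrArg Subtype.val hw
      have h3 := hJ.eig h2 hpo (Or.inr hw')
      have h4 : (s : V ≃ₗ[F] V) (w : V) = -(w : V) := by
        rw [← hw', hJ.app, h3]
      have h5 := (H99.ND_iff_disjoint (of Q) W).mp hN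
      exact Subtype.ext (Submodule.disjoint_def.mp h5 _ ((hmemW _).mpr h4) w.2)
  have hev := even_nf h2 (nd_restrict o1) hNF₂
  have hevW : Even (finrank F W) := by
    have h8 : Even (finrank F V) := by rw [hV]; decide
    rw [← o3, Nat.even_add] at h8
    exact h8.mpr hev
  rcases Nat.eq_zero_or_pos (finrank F W) with h0 | hpos
  · have hWb : W = ⊥ := Submodule.finrank_eq_zero.mp h0
    have hNF : NF y := by
      intro v hv
      rcases hv with hv | hv
      · exact hfix v hv
      · have h3 := hJ.eig h2 hpo (Or.inr hv)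
        have h4 : v ∈ W := by
          rw [hmemW, ← hv, hJ.app, h3]
        rw [hWb] at h4
        exact (Submodule.mem_bot F).mp h4
    exact (good8 h2 hpo hQ hNF hV hPT hc).sx h2 hpo
  · -- the order on `W`
    obtain ⟨c, hc1, hc2⟩ := unip_order (p := p) hpo h2 (nd_restrict hN) (u := res u W hWu) (a := a) (by
      rw [res_pow_one]
      intro w _
      rw [lm_pow_one.mpr hJ.ua]
      rfl)
    have hy1 : res y W hW = ng (Q.restrict W) * res u W hWu := by
      apply OGrp_ext
      intro w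
      apply Subtype.ext
      rw [coe_mul_apply, ng_apply]
      change (y : V ≃ₗ[F] V) (w : V) = -((u : V ≃ₗ[F] V) (w : V))
      rw [hJ.app', (hmemW _).mp w.2, map_neg]
    have hcng' : Commute (ng (Q.restrict W)) (res u W hWu) := by
      apply OGrp_ext
      intro v
      rw [coe_mul_apply, coe_mul_apply, ng_apply, ng_apply, map_neg]
    have hord1 : orderOf (res y W hW) = 2 * p ^ c := by
      rw [hy1, hcng'.orderOf_mul_eq_mul_orderOf_of_coprime (by
        rw [orderOf_ng h2 _ hpos, hc1]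
        exact Nat.coprime_two_left.mpr (hpo.pow)), orderOf_ng h2 _ hpos, hc1]
    rw [hord, hord1]
    by_cases hk2 : finrank F W = 2
    · have hc0 : c = 0 := by
        rcases hc2 with h | ⟨-, h⟩
        · exact h
        · have := h hevW
          omega
      subst hc0
      rw [pow_zero, mul_one]
      exact (good6 h2 hpo (nd_restrict o1) hNF₂ (by omega)).sx h2 hpo
    · obtain ⟨j', hj'⟩ := hev
      have hS := sop_of_rank h2 (nd_restrict o1) ⟨j', hj'⟩ (y := res y _ (orth_inv y hW)) (Or.inr (fun v hv => hNF₂ v (Or.inl hv)))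
      have hR := Rd.of (nd_restrict o1) (d := j') (by omega) hS
      obtain ⟨k', hk'⟩ := hevW
      refine A4 h2 hpo hR (by omega) ?_ (fin_order _).ne'
      rcases hc2 with h | ⟨-, h⟩
      · exact Or.inl h
      · right
        have := h ⟨k', hk'⟩
        omega

theorem sx_of_nine (h2 : (2 : F) ≠ 0) (hpo : Odd p) {Q : QuadraticForm F V} (hQ : (polarBilin Q).Nondegenerate) (hV : finrank F V = 9)
    {y : OGrp Q} (hc : y ∈ commutator (OGrp Q)) : Sx F p (orderOf y) := by
  have hp : p.Prime := Fact.out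
  obtain ⟨s, u, i, j, a, n, hJ⟩ := exists_JD p y
  have hnF : (n : F) ≠ 0 := by rw [Ne, CharP.cast_eq_zero_iff F p]; exact hJ.pn
  set W := LinearMap.ker (lm s - 1) with hWdef
  have hN : Nd Q W := fix_nd hQ hJ.sn hnF
  have hmemW : ∀ v, v ∈ W ↔ (s : V ≃ₗ[F] V) v = v := by
    intro v
    rw [hWdef, LinearMap.mem_ker]
    change (s : V ≃ₗ[F] V) v - v = 0 ↔ _
    rw [sub_eq_zero]
  have hW : ∀ v ∈ W, (y : V ≃ₗ[F] V) v ∈ W := by
    intro v hv
    rw [hmemW] at hv ⊢
    rw [← coe_mul_apply, ← hJ.ys.eq, coe_mul_apply, hv]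
  obtain ⟨o1, o2, o3⟩ := orth_facts hQ hN
  have hg := split hQ hN y hW
  have hord := hg.order W.injective_subtype (Submodule.injective_subtype _)
  have hfix : ∀ w : H99.orth (of Q) W, (res y _ (orth_inv y hW) : OGrp (Q.restrict (H99.orth (of Q) W))).1 w = w → w = 0 := by
    intro w hw
    have hw' : (y : V ≃ₗ[F] V) (w : V) = (w : V) := congrArg Subtype.val hw
    have h3 := hJ.eig h2 hpo (Or.inl hw')
    have h4 : (s : V ≃ₗ[F] V) (w : V) = (w : V) := by
      have := hJ.app (w : V)
      rw [h3, hw'] at this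
      exact this.symm
    have h5 := (H99.ND_iff_disjoint (of Q) W).mp hN
    exact Subtype.ext (Submodule.disjoint_def.mp h5 _ ((hmemW _).mpr h4) w.2)
  have hy1 : (res y W hW) ^ (p ^ a) = 1 := by
    rw [res_pow_one]
    intro w hw
    rw [lm_pow, ← hJ.mul, hJ.comm.mul_pow, hJ.ua, mul_one, ← lm_pow]
    have h3 : ∀ k : ℕ, (lm s ^ k) w = w := by
      intro k
      induction k with
      | zero => rfl
      | succ k ih => rw [pow_succ', Module.End.mul_apply, ih]; exact (hmemW w).mp hw
    exact h3 _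
  have hc1 := comm_of_odd (nd_restrict hN) (hpo.pow (n := a)) hy1
  have hS := sop_of_comm h2 hQ hc
  have hS1 := sop_of_comm h2 (nd_restrict hN) hc1
  have hS2 := ((hg.parity h2 (nd_restrict hN) (nd_restrict o1) hQ).mp hS).mp hS1
  have hc2 := ((hg.comm h2 (nd_restrict hN) (nd_restrict o1) hQ hS1 hS2).2.mp hc).mp hc1
  have hev : Even (finrank F (H99.orth (of Q) W)) := by
    have h3 := (sop_iff h2 (nd_restrict o1) _).mp hS2
    rwa [rank_full hfix] at h3
  obtain ⟨c, hc3, hc4⟩ := unip_order (p := p) hpo h2 (nd_restrict hN) hy1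
  obtain ⟨j', hj'⟩ := hev
  have hR := Rd.of (nd_restrict o1) (d := j') (by omega) hS2
  rw [hord, hc3]
  by_cases hj4 : j' = 4
  · subst hj4
    have hc0 : c = 0 := by
      rcases hc4 with h | ⟨h, -⟩
      · exact h
      · have : 0 < p ^ (c - 1) := pow_pos hp.pos _
        omega
    rw [hc0, pow_zero, Nat.lcm_one_left]
    by_cases hPT : PT (Q.restrict (H99.orth (of Q) W)) ⊤
    · exact eight h2 hpo (nd_restrict o1) (by omega) hPT hc2 hfix
    · exact Or.inl (hR.iff ⟨fun h => hPT h, fun h => h.elim⟩ ⟨fun _ => trivial, fun _ => hc2⟩)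
  · refine A3 h2 hpo (hR.iff Iff.rfl ⟨fun _ => trivial, fun _ => hc2⟩) (by omega) ?_ (fin_order _).ne'
    rcases hc4 with h | ⟨h, -⟩
    · exact Or.inl h
    · right
      obtain ⟨t, ht⟩ := hpo.pow (n := c - 1)
      omega

end nine

end Cfsg.Agent.H39.SP
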