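import Mathlib
import Cfsg.Agent.H39.SP15
import Cfsg.Agent.ClassO.Card

/-!
Element orders of the semidirect product occur in the nine-dimensional group.
-/

set_option autoImplicit false

namespace Cfsg.Agent.H39.SP

open Module QuadraticMap Cfsg.Agent.Orth Cfsg.Agent.H39.OE

section std
universe u
variable {F : Type u} [Field F] [Fintype F]

theorem center_triv9 (hodd : Odd (Fintype.card F)) : Nat.card (Subgroup.center ↥(commutator (OGrp (qfOdd 4 F)))) = 1 := by
  have h2 := two_ne_zero_of_odd hodd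
  have hQ := qfOdd_nondegenerate 4 F h2
  have hR := RGrp_top_of_two hQ h2
  have hH := ClassO.hyp_odd F 4 (Fin.castLE (by norm_num : 3 ≤ 4)) (Fin.castLE_injective (by norm_num))
  refine ClassO.card_center_one hQ hR hH _ (ClassO.commutator_eq_EGrp hQ hR hH) ?_
  right
  rintro ⟨⟨g, hg⟩, hg1⟩
  have h3 := sop_of_comm h2 hQ hg
  rw [sop_iff h2 hQ, rank_full (fun v hv => by
    have hv' : -v = v := (hg1 v).symm.trans hv
    have h8 : (2 : F) • v = 0 := by rw [two_smul]; nth_rewrite 1 [← hv']; exact neg_add_cancel v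
    exact (smul_eq_zero.mp h8).resolve_left h2)] at h3
  rw [finrank_fintype_fun_eq_card] at h3
  have h4 : Fintype.card (Unit ⊕ (Fin 4 ⊕ Fin 4)) = 9 := by simp
  rw [h4] at h3
  exact absurd h3 (by decide)

theorem range_iff9 (hodd : Odd (Fintype.card F)) (N : ℕ) :
    (N ∈ Set.range (orderOf : Cfsg.POmega F (Cfsg.quadFormOdd 4 F) → ℕ)) ↔
    (∃ g' : OGrp (qfOdd 4 F), g' ∈ commutator (OGrp (qfOdd 4 F)) ∧ orderOf g' = N) := by
  have hbot : Subgroup.center ↥(commutator (OGrp (qfOdd 4 F))) = ⊥ := Subgroup.card_eq_one.1 (center_triv9 hodd)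
  let E : Cfsg.POmega F (Cfsg.quadFormOdd 4 F) ≃* ↥(commutator (OGrp (qfOdd 4 F))) :=
    ((ClassO.pomE (qfOdd 4 F)).trans (QuotientGroup.quotientMulEquivOfEq hbot)).trans QuotientGroup.quotientBot
  constructor
  · rintro ⟨x, hx⟩
    exact ⟨(E x : ↥(commutator (OGrp (qfOdd 4 F)))), (E x).2, by
      rw [Subgroup.orderOf_coe, MulEquiv.orderOf_eq, hx]⟩
  · rintro ⟨g, hg, hgo⟩
    refine ⟨E.symm ⟨g, hg⟩, ?_⟩
    rw [MulEquiv.orderOf_eq, ← hgo, ← Subgroup.orderOf_coe]

theorem similar_odd9 (h2 : (2 : F) ≠ 0) {V : Type*} [AddCommGroup V] [Module F V] [FiniteDimensional F V] (hV : finrank F V = 9)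
    {S0 : QuadraticForm F V} (hS0 : (polarBilin S0).Nondegenerate) :
    ∃ (L : V ≃ₗ[F] (Unit ⊕ (Fin 4 ⊕ Fin 4) → F)) (t : F), t ≠ 0 ∧ ∀ w, qfOdd 4 F (L w) = t * S0 w := by
  classical
  let b : Basis (Fin 9) F V := finBasisOfFinrankEq F V hV
  let b' := Pi.basisFun F (Unit ⊕ (Fin 4 ⊕ Fin 4))
  have hnd := qfOdd_nondegenerate 4 F h2
  set δ := (gram S0 b).det * (gram (qfOdd 4 F) b').det with hδ
  have hδ0 : δ ≠ 0 := mul_ne_zero (gram_det_ne_zero hS0 b) (gram_det_ne_zero hnd b')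
  have hpb : ∀ u v, polar (δ • S0) u v = δ * polar S0 u v := by
    intro u v
    simp only [QuadraticMap.polar, QuadraticMap.smul_apply, smul_eq_mul]
    ring
  have hnd' : (polarBilin (δ • S0)).Nondegenerate := by
    refine ⟨fun u hu => hS0.1 u fun w => ?_, fun u hu => hS0.2 u fun w => ?_⟩
    · have h1 : polar (δ • S0) u w = 0 := hu w
      rw [hpb] at h1
      exact (mul_eq_zero.1 h1).resolve_left hδ0
    · have h1 : polar (δ • S0) w u = 0 := hu w
      rw [hpb] at h1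
      exact (mul_eq_zero.1 h1).resolve_left hδ0
  have hg : gram (δ • S0) b = δ • gram S0 b := by
    ext u v
    exact hpb _ _
  obtain ⟨L, hL⟩ := exists_isom_of_disc h2 hnd' hnd (by
    rw [Module.finrank_fintype_fun_eq_card, hV]; simp) b b' (by
    rw [hg, Matrix.det_smul, Fintype.card_fin, mul_assoc, ← hδ]
    exact ⟨δ ^ 5, by ring⟩)
  exact ⟨L, δ, hδ0, fun w => by rw [hL]; rfl⟩

theorem to_std9 (h2 : (2 : F) ≠ 0) {V : Type*} [AddCommGroup V] [Module F V] [FiniteDimensional F V] (hV : finrank F V = 9)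
    {Q : QuadraticForm F V} (hQ : (polarBilin Q).Nondegenerate) {y : OGrp Q} (hy : y ∈ commutator (OGrp Q)) :
    ∃ g' : OGrp (qfOdd 4 F), g' ∈ commutator (OGrp (qfOdd 4 F)) ∧ orderOf g' = orderOf y := by
  obtain ⟨L, t, ht, hL⟩ := similar_odd9 h2 hV hQ
  have hmem : ∀ g : V ≃ₗ[F] V, g ∈ OGrp Q ↔ g ∈ OGrp (t • Q) := by
    intro g
    constructor
    · intro h v
      change t * Q (g v) = t * Q v
      rw [h v]
    · intro h v
      have h3 : t * Q (g v) = t * Q v := h v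
      exact mul_left_cancel₀ ht h3
  let e₁ : OGrp Q ≃* OGrp (t • Q) := MulEquiv.subgroupCongr (Subgroup.ext hmem)
  let e₂ : OGrp (t • Q) ≃* OGrp (qfOdd 4 F) := OGrpCongr L (fun v => hL v)
  refine ⟨e₂ (e₁ y), ?_, ?_⟩
  · rw [← mem_commutator_equiv e₂, ← mem_commutator_equiv e₁]
    exact hy
  · rw [MulEquiv.orderOf_eq e₂, MulEquiv.orderOf_eq e₁]

variable {p : ℕ} [Fact p.Prime] [CharP F p]

lemma sq_nd (h2 : (2 : F) ≠ 0) : (polarBilin (QuadraticMap.sq : QuadraticForm F F)).Nondegenerate := by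
  apply H99.nondegenerate_of_ND
  intro u _ hu
  have h4 := hu 1 Submodule.mem_top
  change polar (QuadraticMap.sq : QuadraticForm F F) u 1 = 0 at h4
  simp only [QuadraticMap.polar, QuadraticMap.sq_apply] at h4
  have h5 : 2 * u = 0 := by linear_combination h4
  exact (mul_eq_zero.mp h5).resolve_left h2

theorem nine_of_sx (h2 : (2 : F) ≠ 0) (hpo : Odd p) {N : ℕ} (h : Sx F p N) :
    ∃ g' : OGrp (qfOdd 4 F), g' ∈ commutator (OGrp (qfOdd 4 F)) ∧ orderOf g' = N := by
  have hp : p.Prime := Fact.out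
  have hsq := sq_nd (F := F) h2
  rcases h with ⟨Q, y, a1, a2, a3, a4, a5⟩ | ⟨Q, y, v, a1, a2, a3, a4, a5⟩
  · obtain ⟨Q', y', b1, b2⟩ := exists_glue h2 a1 hsq y 1
    obtain ⟨b3, b4⟩ := b2.comm h2 a1 hsq b1 a3 sop_one
    have b5 := b2.order LinearMap.inl_injective LinearMap.inr_injective
    rw [orderOf_one, Nat.lcm_one_right, a4] at b5
    rw [← b5]
    refine to_std9 h2 (by rw [finrank_prod, finrank_fintype_fun_eq_card, Fintype.card_fin, finrank_self]) b1 (b4.mpr ?_)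
    exact ⟨fun _ => Subgroup.one_mem _, fun _ => a5.mpr trivial⟩
  · obtain ⟨s, u, i, j, a, n, hJ⟩ := exists_JD p y
    have hnF : (n : F) ≠ 0 := by rw [Ne, CharP.cast_eq_zero_iff F p]; exact hJ.pn
    set W := LinearMap.ker (lm s - 1) with hWdef
    have hN : Nd Q W := fix_nd a1 hJ.sn hnF
    have hmemW : ∀ v, v ∈ W ↔ (s : (Fin (2 * 4) → F) ≃ₗ[F] (Fin (2 * 4) → F)) v = v := by
      intro v
      rw [hWdef, LinearMap.mem_ker]
      change (s : (Fin (2 * 4) → F) ≃ₗ[F] (Fin (2 * 4) → F)) v - v = 0 ↔ _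
      rw [sub_eq_zero]
    have hW : ∀ v ∈ W, (y : (Fin (2 * 4) → F) ≃ₗ[F] (Fin (2 * 4) → F)) v ∈ W := by
      intro v hv
      rw [hmemW] at hv ⊢
      rw [← coe_mul_apply, ← hJ.ys.eq, coe_mul_apply, hv]
    obtain ⟨o1, o2, o3⟩ := orth_facts a1 hN
    have hg := split a1 hN y hW
    have hord := hg.order W.injective_subtype (Submodule.injective_subtype _)
    have hfix : ∀ w : H99.orth (of Q) W, (res y _ (orth_inv y hW) : OGrp (Q.restrict (H99.orth (of Q) W))).1 w = w → w = 0 := by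
      intro w hw
      have hw' : (y : (Fin (2 * 4) → F) ≃ₗ[F] (Fin (2 * 4) → F)) (w : (Fin (2 * 4) → F)) = (w : (Fin (2 * 4) → F)) := congrArg Subtype.val hw
      have h3 := hJ.eig h2 hpo (Or.inl hw')
      have h4 : (s : (Fin (2 * 4) → F) ≃ₗ[F] (Fin (2 * 4) → F)) (w : (Fin (2 * 4) → F)) = (w : (Fin (2 * 4) → F)) := by
        have := hJ.app (w : (Fin (2 * 4) → F))
        rw [h3, hw'] at this
        exact this.symm
      have h5 := (H99.ND_iff_disjoint (of Q) W).mp hN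
      exact Subtype.ext (Submodule.disjoint_def.mp h5 _ ((hmemW _).mpr h4) w.2)
    have hy1 : (res y W hW) ^ (p ^ a) = 1 := by
      rw [res_pow_one]
      intro w hw
      rw [lm_pow, ← hJ.mul, hJ.comm.mul_pow, hJ.ua, mul_one, ← lm_pow]
      have h3 : ∀ k : ℕ, (lm s ^ k) w = w := by
        intro k
        induction k with
        | zero => rfl
        | succ k ih => rw [pow_succ', Module.End.mul_apply, ih]; exact (hmemW w).mp hw
      exact h3 _
    set y₁ := res y W hW with hy₁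
    set y₂ := res y _ (orth_inv y hW) with hy₂
    have hc1 := comm_of_odd (nd_restrict hN) (hpo.pow (n := a)) hy1
    have hS := sop_of_comm h2 a1 a3
    have hS1 := sop_of_comm h2 (nd_restrict hN) hc1
    have hS2 := ((hg.parity h2 (nd_restrict hN) (nd_restrict o1) a1).mp hS).mp hS1
    have hc2 := ((hg.comm h2 (nd_restrict hN) (nd_restrict o1) a1 hS1 hS2).2.mp a3).mp hc1
    have hev : Even (finrank F (H99.orth (of Q) W)) := by
      have h3 := (sop_iff h2 (nd_restrict o1) _).mp hS2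
      rwa [rank_full hfix] at h3
    have hV8 : finrank F (Fin (2 * 4) → F) = 8 := by simp
    obtain ⟨c, -, hc3⟩ := (Nat.dvd_prime_pow hp).mp (orderOf_dvd_of_pow_eq_one hy1)
    -- the norm vector
    have hsup : v ∈ W ⊔ H99.orth (of Q) W := by rw [o2]; exact Submodule.mem_top
    obtain ⟨v₁, hv₁, v₂, hv₂, rfl⟩ := Submodule.mem_sup.mp hsup
    have hnv1 := nv_map (f := W.subtype) (y := y₁) (y' := y) hg.e1 (orderOf y) ⟨v₁, hv₁⟩
    have hnv2 := nv_map (f := (H99.orth (of Q) W).subtype) (y := y₂) (y' := y) hg.e2 (orderOf y) ⟨v₂, hv₂⟩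
    have hy2o : y₂ ^ orderOf y = 1 := ((hg.pow (orderOf y)).eq_one_iff W.injective_subtype (Submodule.injective_subtype _)).mp (pow_orderOf_eq_one y) |>.2
    have hz2 : nv y₂ (orderOf y) ⟨v₂, hv₂⟩ = 0 := by
      apply hfix
      have h3 : (lm y₂ - 1) * (∑ k ∈ Finset.range (orderOf y), lm y₂ ^ k) = 0 := by
        have h5 := mul_geom_sum (lm y₂) (orderOf y)
        rw [lm_pow_one.mpr hy2o, sub_self] at h5
        exact h5
      have h4 := LinearMap.congr_fun h3 ⟨v₂, hv₂⟩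
      rw [Module.End.mul_apply, ← nv_eq] at h4
      exact sub_eq_zero.mp h4
    have hz1 : nv y₁ (orderOf y) ⟨v₁, hv₁⟩ ≠ 0 := by
      intro h0
      apply a4
      rw [nv_add]
      change nv y (orderOf y) (W.subtype ⟨v₁, hv₁⟩) + nv y (orderOf y) ((H99.orth (of Q) W).subtype ⟨v₂, hv₂⟩) = 0
      rw [hnv1, hnv2, h0, hz2, map_zero, map_zero, add_zero]
    -- divisibility
    obtain ⟨t, ht⟩ : p ^ c ∣ orderOf y := by
      rw [hord, hc3]
      exact Nat.dvd_lcm_left _ _
    have hpt : ¬ p ∣ t := by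
      intro hpt
      apply hz1
      have h3 := nv_mul y₁ (m := p ^ c) (by rw [← hc3, pow_orderOf_eq_one]) t ⟨v₁, hv₁⟩
      rw [← ht] at h3
      rw [h3, (CharP.cast_eq_zero_iff F p t).mpr hpt, zero_smul]
    have hz3 : nv y₁ (p ^ c) ⟨v₁, hv₁⟩ ≠ 0 := by
      intro h0
      apply hz1
      have h3 := nv_mul y₁ (m := p ^ c) (by rw [← hc3, pow_orderOf_eq_one]) t ⟨v₁, hv₁⟩
      rw [← ht] at h3
      rw [h3, h0, smul_zero]
    have hpc : 0 < p ^ c := pow_pos hp.pos c
    have hdim : p ^ c ≤ finrank F W := by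
      have h3 : nil y₁ ^ (p ^ c - 1) ≠ 0 := by
        intro h0
        apply hz3
        rw [nv_eq, geom_end (p := p)]
        change ((nil y₁) ^ (p ^ c - 1)) _ = 0
        rw [h0]
        rfl
      have := (unip_bound (p := p) h2 (nd_restrict hN) (a := a) hy1 h3).1
      omega
    have hdim' : p ^ c + 1 ≤ finrank F W := by
      obtain ⟨k, hk⟩ := hev
      obtain ⟨l, hl⟩ := hpo.pow (n := c)
      omega
    -- the new unipotent element
    obtain ⟨Q', y', b1, b2⟩ := exists_glue h2 (nd_restrict hN) hsq (1 : OGrp (Q.restrict W)) 1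
    have hfin' : finrank F (W × F) = finrank F W + 1 := by rw [finrank_prod, finrank_self]
    have hp3 : 3 ≤ p := by
      have := hp.two_le
      obtain ⟨k, hk⟩ := hpo
      omega
    obtain ⟨z, c1, c2, -⟩ := exists_block (p := p) h2 hpo b1 (b := p ^ c + 2) (e := c + 1) (by
        obtain ⟨l, hl⟩ := hpo.pow (n := c)
        exact ⟨l + 1, by omega⟩) (by rw [hfin']; omega) (by
        rw [pow_succ]
        have : p ^ c * 3 ≤ p ^ c * p := Nat.mul_le_mul_left _ hp3
        omega) (Or.inr (by rw [Nat.add_sub_cancel]; omega))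
    obtain ⟨Q'', y'', d1, d2⟩ := exists_glue h2 b1 (nd_restrict o1) z y₂
    obtain ⟨d3, d4⟩ := d2.comm h2 b1 (nd_restrict o1) d1 (sop_of_comm h2 b1 c1) hS2
    have d5 := d2.order LinearMap.inl_injective LinearMap.inr_injective
    have hord2 : Nat.lcm (p ^ (c + 1)) (orderOf y₂) = p * orderOf y := by
      rw [hord, hc3] at ht
      rw [hord, hc3]
      apply Nat.dvd_antisymm
      · apply Nat.lcm_dvd
        · rw [pow_succ']
          exact Nat.mul_dvd_mul_left p (Nat.dvd_lcm_left _ _)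
        · exact (Nat.dvd_lcm_right _ _).mul_left p
      · rw [ht, ← mul_assoc, ← pow_succ']
        have hcop : Nat.Coprime (p ^ (c + 1)) t := Nat.Coprime.pow_left _ ((Nat.Prime.coprime_iff_not_dvd hp).mpr hpt)
        apply hcop.mul_dvd_of_dvd_of_dvd (Nat.dvd_lcm_left _ _)
        have h3 : t ∣ p ^ c * orderOf y₂ := by
          have h4 : t ∣ Nat.lcm (p ^ c) (orderOf y₂) := by rw [ht]; exact Dvd.intro_left _ rfl
          exact h4.trans (Nat.lcm_dvd_mul _ _)
        have hcop' : Nat.Coprime t (p ^ c) := (Nat.Coprime.pow_left _ ((Nat.Prime.coprime_iff_not_dvd hp).mpr hpt)).symm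
        exact (hcop'.dvd_of_dvd_mul_left h3).trans (Nat.dvd_lcm_right _ _)
    rw [c2, hord2] at d5
    rw [a5, ← d5]
    refine to_std9 h2 ?_ d1 (d4.mpr ⟨fun _ => hc2, fun _ => c1⟩)
    rw [finrank_prod, hfin']
    omega

theorem nine_iff (h2 : (2 : F) ≠ 0) (hpo : Odd p) (N : ℕ) :
    (∃ g' : OGrp (qfOdd 4 F), g' ∈ commutator (OGrp (qfOdd 4 F)) ∧ orderOf g' = N) ↔ Sx F p N := by
  constructor
  · rintro ⟨g, hg, rfl⟩
    exact sx_of_nine h2 hpo (qfOdd_nondegenerate 4 F h2) (by rw [finrank_fintype_fun_eq_card]; simp) hg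
  · exact nine_of_sx h2 hpo

end std

end Cfsg.Agent.H39.SP
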