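import Mathlib
import Cfsg.Agent.H39.SP16

/-!
Element orders in the semidirect product of the natural module and `Ω₈⁻`.
-/

set_option autoImplicit false

namespace Cfsg.Agent.H39.SP

open Module QuadraticMap Cfsg.Agent.Orth Cfsg.Agent.H39.OE

section sd
variable {N G : Type*} [CommGroup N] [Group G] {φ : G →* MulAut N}

lemma sd_right (x : N ⋊[φ] G) (n : ℕ) : (x ^ n).right = x.right ^ n := map_pow SemidirectProduct.rightHom x n

lemma sd_left_succ (x : N ⋊[φ] G) (n : ℕ) : (x ^ (n + 1)).left = (x ^ n).left * φ (x.right ^ n) x.left := by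
  rw [pow_succ, SemidirectProduct.mul_left, sd_right]

lemma sd_dvd (x : N ⋊[φ] G) : orderOf x.right ∣ orderOf x := by
  rw [orderOf_dvd_iff_pow_eq_one, ← sd_right, pow_orderOf_eq_one]
  rfl

lemma sd_pow (x : N ⋊[φ] G) : x ^ orderOf x.right = SemidirectProduct.inl (x ^ orderOf x.right).left := by
  apply SemidirectProduct.ext
  · rfl
  · rw [sd_right, pow_orderOf_eq_one]
    rfl

theorem sd_one (x : N ⋊[φ] G) (h : (x ^ orderOf x.right).left = 1) : orderOf x = orderOf x.right := by
  apply Nat.dvd_antisymm _ (sd_dvd x)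
  rw [orderOf_dvd_iff_pow_eq_one, sd_pow, h, _root_.map_one]

theorem sd_p {p : ℕ} (hp : p.Prime) (x : N ⋊[φ] G) (hm : 0 < orderOf x.right) (h : (x ^ orderOf x.right).left ≠ 1)
    (h' : (x ^ orderOf x.right).left ^ p = 1) : orderOf x = p * orderOf x.right := by
  obtain ⟨k, hk⟩ := sd_dvd x
  have h3 : orderOf x ∣ orderOf x.right * p := by
    rw [orderOf_dvd_iff_pow_eq_one, pow_mul, sd_pow, ← map_pow, h', _root_.map_one]
  rw [hk] at h3
  have h4 : k ∣ p := (Nat.mul_dvd_mul_iff_left hm).mp h3
  rcases (Nat.dvd_prime hp).mp h4 with h5 | h5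
  · exfalso
    rw [h5, mul_one] at hk
    apply h
    rw [← hk, pow_orderOf_eq_one]
    rfl
  · rw [hk, h5, mul_comm]

end sd

section app
universe u
variable {F : Type u} [Field F] [Fintype F] {p : ℕ} [Fact p.Prime] [CharP F p] {ι : Type} [Fintype ι] [DecidableEq ι]
  {Q : QuadraticForm F (ι → F)}

theorem sd_main (hι : Fintype.card ι = 8) (h2 : (2 : F) ≠ 0) (hQ : (polarBilin Q).Nondegenerate) (hPT : ¬ PT Q ⊤)
    (φ : Cfsg.Omega F ⇑Q →* MulAut (Multiplicative (ι → F)))
    (hφ : ∀ g v, φ g (Multiplicative.ofAdd v) = Multiplicative.ofAdd ((bridge Q g.1 : (ι → F) ≃ₗ[F] (ι → F)) v)) (N : ℕ) :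
    (N ∈ Set.range (orderOf : (Multiplicative (ι → F)) ⋊[φ] (Cfsg.Omega F ⇑Q) → ℕ)) ↔ Sx F p N := by
  have hp : p.Prime := Fact.out
  have hfin : finrank F (ι → F) = 8 := by rw [finrank_fintype_fun_eq_card, hι]
  -- the norm vector
  have hleft : ∀ (x : (Multiplicative (ι → F)) ⋊[φ] (Cfsg.Omega F ⇑Q)) (n : ℕ),
      (x ^ n).left = Multiplicative.ofAdd (nv (bridge Q x.right.1) n (Multiplicative.toAdd x.left)) := by
    intro x n
    induction n with
    | zero => rfl
    | succ n ih =>
      rw [sd_left_succ, ih]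
      have h3 := hφ (x.right ^ n) (Multiplicative.toAdd x.left)
      rw [ofAdd_toAdd] at h3
      rw [h3, ← ofAdd_add]
      congr 1
      rw [nv, nv, Finset.sum_range_succ]
      congr 1
      have h4 : bridge Q (x.right ^ n).1 = (bridge Q x.right.1) ^ n := by
        rw [← map_pow]
        rfl
      rw [h4]
  have hord : ∀ g : Cfsg.Omega F ⇑Q, orderOf (bridge Q g.1) = orderOf g := by
    intro g
    rw [MulEquiv.orderOf_eq, Subgroup.orderOf_coe]
  have hpw : ∀ w : Multiplicative (ι → F), w ^ p = 1 := by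
    intro w
    apply Multiplicative.toAdd.injective
    rw [toAdd_pow, toAdd_one]
    funext i
    change p • (Multiplicative.toAdd w i) = 0
    rw [nsmul_eq_mul, CharP.cast_eq_zero, zero_mul]
  constructor
  · rintro ⟨x, rfl⟩
    have hc : bridge Q x.right.1 ∈ commutator (OGrp Q) := (mem_Omega_iff Q x.right.1).mp x.right.2
    have hx := hleft x (orderOf x.right)
    by_cases h0 : (x ^ orderOf x.right).left = 1
    · rw [sd_one x h0, ← hord]
      left
      exact (Rd.of hQ (d := 4) hfin (sop_of_comm h2 hQ hc)).iff ⟨fun h => hPT h, fun h => h.elim⟩ ⟨fun _ => trivial, fun _ => hc⟩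
    · have hm : 0 < orderOf x.right := by
        rw [← hord]
        exact fin_order _
      rw [sd_p hp x hm h0 (hpw _), ← hord]
      right
      apply Bp.of hQ hfin hPT hc (v := Multiplicative.toAdd x.left)
      rw [hord]
      intro h3
      apply h0
      rw [hx, h3]
      rfl
  · intro h
    have hell : ∀ {Q' : QuadraticForm F (Fin (2 * 4) → F)}, (polarBilin Q').Nondegenerate → ¬ PT Q' ⊤ → ∃ g : (Fin (2 * 4) → F) ≃ₗ[F] (ι → F), ∀ v, Q (g v) = Q' v := by
      intro Q' b1 b2
      apply exists_isom_elliptic (m := 4) (by norm_num) (by simp) (by rw [hfin]) b1 hQ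
      · rw [← not_pt_iff (by simp)]
        exact b2
      · rw [← not_pt_iff (by rw [hfin])]
        exact hPT
    rcases h with ⟨Q', y, a1, a2, a3, a4, a5⟩ | ⟨Q', y, v, a1, a2, a3, a4, a5⟩
    · obtain ⟨g, hg⟩ := hell a1 (fun h => a2.mp h)
      have hc := (congr_comm g hg y).mpr (a5.mpr trivial)
      have hg1 : (bridge Q).symm (OGrpCongr g hg y) ∈ Cfsg.Omega F ⇑Q := by
        rw [mem_Omega_iff, MulEquiv.apply_symm_apply]
        exact hc
      refine ⟨SemidirectProduct.inr ⟨_, hg1⟩, ?_⟩
      rw [orderOf_injective _ SemidirectProduct.inr_injective, ← hord]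
      change orderOf (bridge Q ((bridge Q).symm (OGrpCongr g hg y))) = N
      rw [MulEquiv.apply_symm_apply, orderOf_congr, a4]
    · obtain ⟨g, hg⟩ := hell a1 a2
      have hc := (congr_comm g hg y).mpr a3
      have hg1 : (bridge Q).symm (OGrpCongr g hg y) ∈ Cfsg.Omega F ⇑Q := by
        rw [mem_Omega_iff, MulEquiv.apply_symm_apply]
        exact hc
      let x : (Multiplicative (ι → F)) ⋊[φ] (Cfsg.Omega F ⇑Q) := ⟨Multiplicative.ofAdd (g v), ⟨_, hg1⟩⟩
      have hb : bridge Q x.right.1 = OGrpCongr g hg y := MulEquiv.apply_symm_apply _ _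
      have ho : orderOf x.right = orderOf y := by
        rw [← hord, hb, orderOf_congr]
      refine ⟨x, ?_⟩
      have hx := hleft x (orderOf x.right)
      have hne : (x ^ orderOf x.right).left ≠ 1 := by
        rw [hx]
        intro h0
        have h1 : nv (bridge Q x.right.1) (orderOf x.right) (g v) = 0 := Multiplicative.ofAdd.injective h0
        rw [hb, ho] at h1
        have h3 := nv_map (f := g.toLinearMap) (y := y) (y' := OGrpCongr g hg y) (fun v => congr_apply g hg y v) (orderOf y) v
        apply a4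
        apply g.injective
        rw [map_zero]
        exact h3.symm.trans h1
      rw [sd_p hp x (by rw [ho]; exact fin_order y) hne (hpw _), ho, a5]

end app

end Cfsg.Agent.H39.SP
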