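import Cfsg.Agent.Uni.Iso
import Cfsg.Agent.Uni.SU
import Cfsg.Agent.Fus.QDWPSU

set_option autoImplicit false

/-!
# Involutions of `SU(3, q)`, `q` odd, and unit vectors (helper39)
-/

namespace Cfsg.Agent.H39.SU3

open Cfsg Matrix Cfsg.Agent.Uni

variable {F : Type*} [Field F] [Fintype F] {q : ℕ}

local notation "h" => hermForm 3 F q

theorem two_ne (hF : Fintype.card F = q ^ 2) (hq : Odd q) : (2 : F) ≠ 0 := by
  intro h2
  have hodd : Odd (Fintype.card F) := by rw [hF]; exact hq.pow
  have := FiniteField.even_card_iff_char_two (F := F)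
  have hc : ringChar F = 2 := by
    obtain ⟨p, hp⟩ := CharP.exists F
    have h3 : p ∣ 2 := (CharP.cast_eq_zero_iff F p 2).1 (by exact_mod_cast h2)
    have h4 : p ≠ 1 := CharP.char_ne_one F p
    have h5 : p = 2 := by
      rcases (Nat.dvd_prime Nat.prime_two).1 h3 with h6 | h6
      · exact absurd h6 h4
      · exact h6
    subst h5
    exact ringChar.eq F 2 |>.symm ▸ rfl
  have h6 := this.1 hc
  rw [Nat.odd_iff] at hodd
  omega

/-- the matrix of the involution `v ↦ 2 h(v, u) u - v` -/
def tauM (q : ℕ) (u : Fin 3 → F) : Matrix (Fin 3) (Fin 3) F := fun i j => 2 * (u i * u j ^ q) - if i = j then 1 else 0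

theorem tauM_mulVec (u v : Fin 3 → F) : tauM q u *ᵥ v = (2 * h v u) • u - v := by
  funext i
  rw [QDW.herm3]
  fin_cases i <;> simp [tauM, Matrix.mulVec, dotProduct, Fin.sum_univ_three] <;> ring

theorem tauM_det {u : Fin 3 → F} (hu : h u u = 1) : (tauM q u).det = 1 := by
  rw [QDW.herm3] at hu
  rw [Matrix.det_fin_three]
  simp [tauM]
  linear_combination 2 * hu

theorem tauM_pres (hF : Fintype.card F = q ^ 2) {u : Fin 3 → F} (hu : h u u = 1) : Pres q (tauM q u) := by
  intro v w
  rw [tauM_mulVec, tauM_mulVec]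
  rw [hermForm_sub_left, hermForm_sub_right hF, hermForm_sub_right hF, hermForm_smul_left,
    hermForm_smul_left, hermForm_smul_right, hermForm_smul_right, hu, mul_pow, hermForm_symm hF]
  have h2 : (2 : F) ^ q = 2 := by
    have := add_pow_q hF (1 : F) 1
    rw [one_pow] at this
    rw [← one_add_one_eq_two, this]
  rw [h2]
  ring

/-- the involution `v ↦ 2 h(v, u) u - v` -/
def tau (hF : Fintype.card F = q ^ 2) (u : {u : Fin 3 → F // h u u = 1}) : SU 3 F q :=
  ⟨⟨tauM q u.1, tauM_det u.2⟩, tauM_pres hF u.2⟩

/-- the action -/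
def act (g : SU 3 F q) (v : Fin 3 → F) : Fin 3 → F :=
  ((g : SpecialLinearGroup (Fin 3) F) : Matrix (Fin 3) (Fin 3) F) *ᵥ v

theorem act_tau (hF : Fintype.card F = q ^ 2) (u : {u : Fin 3 → F // h u u = 1}) (v : Fin 3 → F) :
    act (tau hF u) v = (2 * h v u.1) • u.1 - v := tauM_mulVec u.1 v

theorem act_mul (g k : SU 3 F q) (v : Fin 3 → F) : act (g * k) v = act g (act k v) := by
  simp [act, Matrix.mulVec_mulVec]

theorem act_one (v : Fin 3 → F) : act (1 : SU 3 F q) v = v := by simp [act]

theorem act_add (g : SU 3 F q) (v w : Fin 3 → F) : act g (v + w) = act g v + act g w := by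
  simp [act, Matrix.mulVec_add]

theorem act_sub (g : SU 3 F q) (v w : Fin 3 → F) : act g (v - w) = act g v - act g w := by
  simp [act, Matrix.mulVec_sub]

theorem act_smul (g : SU 3 F q) (c : F) (v : Fin 3 → F) : act g (c • v) = c • act g v := by
  simp [act, Matrix.mulVec_smul]

theorem act_neg (g : SU 3 F q) (v : Fin 3 → F) : act g (-v) = - act g v := by
  simp [act, Matrix.mulVec_neg]

theorem act_form (g : SU 3 F q) (v w : Fin 3 → F) : h (act g v) (act g w) = h v w := g.2 v w

theorem act_ext {g k : SU 3 F q} (hgk : ∀ v, act g v = act k v) : g = k := by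
  apply Subtype.ext
  apply Subtype.ext
  apply Matrix.toLin'.injective
  apply LinearMap.ext
  intro v
  simpa [act] using hgk v

theorem act_ext_on (hF : Fintype.card F = q ^ 2) {b : Fin 3 → Fin 3 → F} (hb : Uni.IsON q b) {g k : SU 3 F q}
    (hgk : ∀ i, act g (b i) = act k (b i)) : g = k := by
  apply act_ext
  intro v
  rw [← hb.sum_eq hF v]
  simp only [Fin.sum_univ_three, act_add, act_smul, hgk]

theorem tau_sq (hF : Fintype.card F = q ^ 2) (u : {u : Fin 3 → F // h u u = 1}) : tau hF u * tau hF u = 1 := by
  apply act_ext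
  intro v
  rw [act_mul, act_one, act_tau, act_tau, hermForm_sub_left, hermForm_smul_left, u.2]
  module

theorem tau_self (hF : Fintype.card F = q ^ 2) (u : {u : Fin 3 → F // h u u = 1}) : act (tau hF u) u.1 = u.1 := by
  rw [act_tau, u.2]
  module

theorem tau_perp (hF : Fintype.card F = q ^ 2) (u : {u : Fin 3 → F // h u u = 1}) {v : Fin 3 → F}
    (hv : h v u.1 = 0) : act (tau hF u) v = - v := by
  rw [act_tau, hv]
  simp

/-- every unit vector extends to an orthonormal basis -/
theorem exists_basis (hF : Fintype.card F = q ^ 2) (u : Fin 3 → F) (hu : h u u = 1) :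
    ∃ v w : Fin 3 → F, Uni.IsON q ![u, v, w] := by
  have h1 : Uni.IsON q (fun _ : Fin 1 => u) := by
    intro i j
    rw [if_pos (Subsingleton.elim _ _)]
    exact hu
  obtain ⟨b, hb, hb0⟩ := h1.exists_complete hF (n := 3) (by norm_num)
  refine ⟨b 1, b 2, ?_⟩
  have h2 : ![u, b 1, b 2] = b := by
    funext i
    fin_cases i
    · exact (hb0 0).symm
    · rfl
    · rfl
  rw [h2]
  exact hb

/-- two orthonormal vectors extend to an orthonormal basis -/
theorem exists_basis2 (hF : Fintype.card F = q ^ 2) (u v : Fin 3 → F) (hu : h u u = 1) (hv : h v v = 1)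
    (huv : h u v = 0) : ∃ w : Fin 3 → F, Uni.IsON q ![u, v, w] := by
  have h1 : Uni.IsON q (![u, v] : Fin 2 → Fin 3 → F) := by
    have hvu : h v u = 0 := (hermForm_eq_zero_comm hF).1 huv
    intro i j
    fin_cases i <;> fin_cases j
    · simpa using hu
    · simpa using huv
    · simpa using hvu
    · simpa using hv
  obtain ⟨b, hb, hb0⟩ := h1.exists_complete hF (n := 3) (by norm_num)
  refine ⟨b 2, ?_⟩
  have h2 : ![u, v, b 2] = b := by
    funext i
    fin_cases i
    · exact (hb0 0).symm
    · exact (hb0 1).symm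
    · rfl
  rw [h2]
  exact hb

theorem tau_ne_one (hF : Fintype.card F = q ^ 2) (hq : Odd q) (u : {u : Fin 3 → F // h u u = 1}) : tau hF u ≠ 1 := by
  intro h1
  obtain ⟨v, w, hb⟩ := exists_basis hF u.1 u.2
  have hvu : h v u.1 = 0 := by simpa using hb 1 0
  have hvv : h v v = 1 := by simpa using hb 1 1
  have h2 := tau_perp hF u hvu
  rw [h1, act_one] at h2
  have h3 : (2 : F) • v = 0 := by
    have : v + v = 0 := by nth_rewrite 1 [h2]; simp
    rw [two_smul]; exact this
  rcases smul_eq_zero.1 h3 with h4 | h4
  · exact two_ne hF hq h4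
  · rw [h4, hermForm_zero_left] at hvv
    exact zero_ne_one hvv

/-- every involution is a `tau` -/
theorem exists_tau (hF : Fintype.card F = q ^ 2) (hq : Odd q) {t : SU 3 F q} (ht : t ≠ 1) (ht2 : t * t = 1) :
    ∃ u : {u : Fin 3 → F // h u u = 1}, tau hF u = t := by
  have h2 := two_ne hF hq
  have hinv : ∀ v, act t (act t v) = v := fun v => by rw [← act_mul, ht2, act_one]
  have horth : ∀ v w, act t v = v → act t w = -w → h v w = 0 := by
    intro v w hv hw
    have h3 := act_form t v w
    rw [hv, hw, hermForm_neg_right hF] at h3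
    have h4 : (2 : F) * h v w = 0 := by linear_combination -h3
    exact (mul_eq_zero.1 h4).resolve_left h2
  have hdec : ∀ v : Fin 3 → F, ∃ a b : Fin 3 → F, act t a = a ∧ act t b = -b ∧ v = a + b := by
    intro v
    refine ⟨(2 : F)⁻¹ • (v + act t v), (2 : F)⁻¹ • (v - act t v), ?_, ?_, ?_⟩
    · rw [act_smul, act_add, hinv, add_comm]
    · rw [act_smul, act_sub, hinv, ← smul_neg, neg_sub]
    · rw [← smul_add]
      have : v + act t v + (v - act t v) = (2 : F) • v := by module
      rw [this, smul_smul, inv_mul_cancel₀ h2, one_smul]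
  -- a unit vector in the fixed space
  have hplus : ∃ u : Fin 3 → F, act t u = u ∧ h u u = 1 := by
    by_contra hcon
    push Not at hcon
    let W : Submodule F (Fin 3 → F) :=
      { carrier := {v | act t v = v}
        add_mem' := fun {a b} ha hb => by
          change act t (a + b) = a + b
          rw [act_add, ha, hb]
        zero_mem' := by simp [act]
        smul_mem' := fun c a ha => by
          change act t (c • a) = c • a
          rw [act_smul, ha] }
    have hW : ∀ u ∈ W, h u u = 0 := by
      intro u hu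
      by_contra hne
      obtain ⟨c, hc, hcu, hc1⟩ := exists_unit_of_ne_zero hF W hu hne
      exact hcon _ hcu hc1
    have hneg : ∀ v, act t v = -v := by
      intro v
      obtain ⟨a, b, ha, hb, rfl⟩ := hdec v
      have ha0 : a = 0 := by
        apply hermForm_nondeg' hF
        intro w
        obtain ⟨c, d, hc, hd, rfl⟩ := hdec w
        rw [hermForm_add_left, hermForm_eq_zero_of_self hF W hW hc ha,
          (hermForm_eq_zero_comm hF).1 (horth a d ha hd), add_zero]
      rw [ha0, zero_add, hb]
    have hM : ((t : SpecialLinearGroup (Fin 3) F) : Matrix (Fin 3) (Fin 3) F) = -1 := by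
      apply Matrix.toLin'.injective
      apply LinearMap.ext
      intro v
      have := hneg v
      simpa [act] using this
    have hdet := (t : SpecialLinearGroup (Fin 3) F).2
    have h5 : ((t : SpecialLinearGroup (Fin 3) F) : Matrix (Fin 3) (Fin 3) F).det = -1 := by
      rw [hM, Matrix.det_neg]
      simp
      norm_num
    rw [hdet] at h5
    apply h2
    linear_combination h5
  have hminus : ∃ u : Fin 3 → F, act t u = -u ∧ h u u = 1 := by
    by_contra hcon
    push Not at hcon
    let W : Submodule F (Fin 3 → F) :=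
      { carrier := {v | act t v = -v}
        add_mem' := fun {a b} ha hb => by
          change act t (a + b) = -(a + b)
          change act t a = -a at ha
          change act t b = -b at hb
          rw [act_add, ha, hb, neg_add]
        zero_mem' := by simp [act]
        smul_mem' := fun c a ha => by
          change act t (c • a) = -(c • a)
          change act t a = -a at ha
          rw [act_smul, ha, smul_neg] }
    have hW : ∀ u ∈ W, h u u = 0 := by
      intro u hu
      by_contra hne
      obtain ⟨c, hc, hcu, hc1⟩ := exists_unit_of_ne_zero hF W hu hne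
      exact hcon _ hcu hc1
    apply ht
    apply act_ext
    intro v
    rw [act_one]
    obtain ⟨a, b, ha, hb, rfl⟩ := hdec v
    have hb0 : b = 0 := by
      apply hermForm_nondeg' hF
      intro w
      obtain ⟨c, d, hc, hd, rfl⟩ := hdec w
      rw [hermForm_add_left, horth c b hc hb, zero_add]
      exact hermForm_eq_zero_of_self hF W hW hd hb
    rw [hb0, add_zero, ha]
  obtain ⟨u, hu, huu⟩ := hplus
  obtain ⟨w, hw, hww⟩ := hminus
  have huw := horth u w hu hw
  obtain ⟨z, hb⟩ := exists_basis2 hF u w huu hww huw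
  have hzz : h z z = 1 := by simpa using hb 2 2
  have hzu : h z u = 0 := by simpa using hb 2 0
  have hzw : h z w = 0 := by simpa using hb 2 1
  have hzu' : h (act t z) u = 0 := by
    have := act_form t z u
    rw [hu, hzu] at this
    exact this
  have hzw' : h (act t z) w = 0 := by
    have := act_form t z w
    rw [hw, hermForm_neg_right hF, hzw, neg_eq_zero] at this
    exact this
  obtain ⟨c, hc⟩ : ∃ c : F, act t z = c • z := by
    refine ⟨h (act t z) z, ?_⟩
    have := hb.sum_eq hF (act t z)
    rw [Fin.sum_univ_three] at this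
    simp only [Matrix.cons_val_zero, Matrix.cons_val_one, Matrix.cons_val, hzu', hzw', zero_smul, zero_add] at this
    exact this.symm
  have hc2 : c * c = 1 := by
    have h5 := hinv z
    rw [hc, act_smul, hc, smul_smul] at h5
    have h6 : h ((c * c) • z) z = h z z := by rw [h5]
    rw [hermForm_smul_left, hzz, mul_one] at h6
    exact h6
  have hcc : c = 1 ∨ c = -1 := by
    have : (c - 1) * (c + 1) = 0 := by linear_combination hc2
    rcases mul_eq_zero.1 this with h5 | h5
    · exact Or.inl (by linear_combination h5)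
    · exact Or.inr (by linear_combination h5)
  refine ⟨⟨u, huu⟩, ?_⟩
  rcases hcc with rfl | rfl
  · exfalso
    -- `t = - tau w`
    have h5 : ∀ v, act t v = - act (tau hF ⟨w, hww⟩) v := by
      intro v
      rw [← hb.sum_eq hF v]
      simp only [Fin.sum_univ_three, act_add, act_smul, Matrix.cons_val_zero, Matrix.cons_val_one, Matrix.cons_val]
      rw [hu, hw, hc, tau_perp hF ⟨w, hww⟩ (v := u) huw, tau_perp hF ⟨w, hww⟩ (v := z) hzw,
        tau_self hF ⟨w, hww⟩]
      module
    have hM : ((t : SpecialLinearGroup (Fin 3) F) : Matrix (Fin 3) (Fin 3) F) = - tauM q w := by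
      apply Matrix.toLin'.injective
      apply LinearMap.ext
      intro v
      have := h5 v
      rw [Matrix.toLin'_apply, Matrix.toLin'_apply, Matrix.neg_mulVec]
      exact this
    have hdet := (t : SpecialLinearGroup (Fin 3) F).2
    have h6 : ((t : SpecialLinearGroup (Fin 3) F) : Matrix (Fin 3) (Fin 3) F).det = -1 := by
      rw [hM, Matrix.det_neg, tauM_det hww]
      simp
      norm_num
    rw [hdet] at h6
    apply h2
    linear_combination h6
  · apply act_ext_on hF hb
    intro i
    fin_cases i
    · change act (tau hF ⟨u, huu⟩) u = act t u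
      rw [hu, tau_self hF ⟨u, huu⟩]
    · change act (tau hF ⟨u, huu⟩) w = act t w
      rw [hw, tau_perp hF ⟨u, huu⟩]
      exact (hermForm_eq_zero_comm hF).1 huw
    · change act (tau hF ⟨u, huu⟩) z = act t z
      rw [hc, tau_perp hF ⟨u, huu⟩ (v := z) hzu]
      simp

theorem tau_eq_iff (hF : Fintype.card F = q ^ 2) (hq : Odd q) (u w : {u : Fin 3 → F // h u u = 1}) :
    tau hF u = tau hF w ↔ w.1 = h w.1 u.1 • u.1 := by
  have h2 := two_ne hF hq
  constructor
  · intro h1
    have h3 := tau_self hF w
    rw [← h1, act_tau] at h3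
    have h4 : (2 : F) • w.1 = (2 : F) • (h w.1 u.1 • u.1) := by
      have : (2 * h w.1 u.1) • u.1 = w.1 + w.1 := by rw [← sub_eq_iff_eq_add]; exact h3
      rw [two_smul, ← this, smul_smul]
    exact smul_right_injective _ h2 h4
  · intro h1
    have hN : h w.1 u.1 * (h w.1 u.1) ^ q = 1 := by
      have h3 : h (h w.1 u.1 • u.1) (h w.1 u.1 • u.1) = 1 := by rw [← h1]; exact w.2
      rw [hermForm_smul_left, hermForm_smul_right, u.2, mul_one] at h3
      exact h3
    apply act_ext
    intro v
    rw [act_tau, act_tau]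
    have h4 : h v w.1 = h v (h w.1 u.1 • u.1) := by rw [← h1]
    have h5 : (2 * h v w.1) • w.1 = (2 * h v w.1) • (h w.1 u.1 • u.1) := by rw [← h1]
    rw [h5, h4, hermForm_smul_right, smul_smul]
    congr 2
    linear_combination (-2 * h v u.1) * hN

theorem commute_tau_iff (hF : Fintype.card F = q ^ 2) (hq : Odd q) (u w : {u : Fin 3 → F // h u u = 1}) :
    Commute (tau hF u) (tau hF w) ↔ h u.1 w.1 = 0 ∨ tau hF u = tau hF w := by
  have h2 := two_ne hF hq
  constructor
  · intro hc
    by_cases h0 : h u.1 w.1 = 0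
    · exact Or.inl h0
    · right
      rw [tau_eq_iff hF hq]
      have h1 : act (tau hF u * tau hF w) w.1 = act (tau hF w * tau hF u) w.1 := by rw [hc.eq]
      rw [act_mul, act_mul, tau_self, act_tau, act_tau, hermForm_sub_left, hermForm_smul_left, w.2] at h1
      -- 2 h(w,u) u - w = (2 (2 h(w,u) h(u,w) - 1)) w - (2 h(w,u) u - w)
      have h3 : (4 * h w.1 u.1) • u.1 = (4 * h w.1 u.1 * h u.1 w.1) • w.1 := by
        have h4 : (2 * h w.1 u.1) • u.1 - w.1 + ((2 * h w.1 u.1) • u.1 - w.1)
            = (2 * (2 * h w.1 u.1 * h u.1 w.1 - 1)) • w.1 := by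
          nth_rewrite 1 [h1]
          module
        have h5 : (4 * h w.1 u.1) • u.1 = ((2 * h w.1 u.1) • u.1 - w.1 + ((2 * h w.1 u.1) • u.1 - w.1)) + (2 : F) • w.1 := by
          module
        rw [h5, h4]
        module
      have h0' : h w.1 u.1 ≠ 0 := fun h6 => h0 ((hermForm_eq_zero_comm hF).1 h6)
      have h4ne : (4 * h w.1 u.1 : F) ≠ 0 := by
        apply mul_ne_zero _ h0'
        have : (4 : F) = 2 * 2 := by norm_num
        rw [this]; exact mul_ne_zero h2 h2
      have h7 : u.1 = h u.1 w.1 • w.1 := by
        apply smul_right_injective _ h4ne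
        change (4 * h w.1 u.1) • u.1 = (4 * h w.1 u.1) • (h u.1 w.1 • w.1)
        rw [h3, smul_smul]
      have h8 : h u.1 w.1 * h w.1 u.1 = 1 := by
        have h9 := u.2
        nth_rewrite 1 [h7] at h9
        rw [hermForm_smul_left] at h9
        exact h9
      nth_rewrite 2 [h7]
      rw [smul_smul, mul_comm, h8, one_smul]
  · rintro (h0 | h0)
    · have h0' : h w.1 u.1 = 0 := (hermForm_eq_zero_comm hF).1 h0
      apply act_ext
      intro v
      rw [act_mul, act_mul, act_tau, act_tau, act_tau, act_tau, hermForm_sub_left, hermForm_sub_left,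
        hermForm_smul_left, hermForm_smul_left, h0, h0']
      module
    · rw [h0]

end Cfsg.Agent.H39.SU3
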