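import Cfsg.Agent.H39.SUThree

set_option autoImplicit false

/-!
# Counting involutions of `SU(3, q)`, `q` odd (helper39)
-/

namespace Cfsg.Agent.H39.SU3

open Cfsg Matrix Cfsg.Agent.Uni

variable {F : Type*} [Field F] [Fintype F] {q : ℕ}

local notation "h" => hermForm 3 F q

theorem norm_one (hF : Fintype.card F = q ^ 2) (hq : Odd q) {u w : {u : Fin 3 → F // h u u = 1}}
    (ht : tau hF u = tau hF w) : (h w.1 u.1) ^ (q + 1) = 1 := by
  rw [tau_eq_iff hF hq] at ht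
  have h3 : h (h w.1 u.1 • u.1) (h w.1 u.1 • u.1) = 1 := by rw [← ht]; exact w.2
  rw [hermForm_smul_left, hermForm_smul_right, u.2, mul_one] at h3
  rw [pow_succ']
  exact h3

theorem tau_smul (hF : Fintype.card F = q ^ 2) (hq : Odd q) {u w : {u : Fin 3 → F // h u u = 1}} {c : F}
    (hc : w.1 = c • u.1) : tau hF u = tau hF w := by
  rw [tau_eq_iff hF hq, hc, hermForm_smul_left, u.2, mul_one]

open Classical in
/-- fibres of `tau` have `q + 1` elements -/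
theorem card_fibre (hF : Fintype.card F = q ^ 2) (hq : Odd q) (R : SU 3 F q → Prop) :
    Nat.card {u : {u : Fin 3 → F // h u u = 1} // R (tau hF u)} =
      (q + 1) * Nat.card {x : SU 3 F q // (x ≠ 1 ∧ x * x = 1) ∧ R x} := by
  have hex : ∀ x : {x : SU 3 F q // (x ≠ 1 ∧ x * x = 1) ∧ R x},
      ∃ u : {u : Fin 3 → F // h u u = 1}, tau hF u = x.1 := fun x => exists_tau hF hq x.2.1.1 x.2.1.2
  choose U hU using hex
  have hN : Nat.card {c : F // c ^ (q + 1) = 1} = q + 1 := card_norm_eq hF (one_pow q) one_ne_zero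
  rw [← hN, mul_comm, ← Nat.card_prod]
  have hx : ∀ u : {u : {u : Fin 3 → F // h u u = 1} // R (tau hF u)},
      (tau hF u.1 ≠ 1 ∧ tau hF u.1 * tau hF u.1 = 1) ∧ R (tau hF u.1) := fun u =>
    ⟨⟨tau_ne_one hF hq u.1, tau_sq hF u.1⟩, u.2⟩
  have hc1 : ∀ (x : {x : SU 3 F q // (x ≠ 1 ∧ x * x = 1) ∧ R x}) (c : {c : F // c ^ (q + 1) = 1}),
      h (c.1 • (U x).1) (c.1 • (U x).1) = 1 := by
    intro x c
    rw [hermForm_smul_left, hermForm_smul_right, (U x).2, mul_one, ← pow_succ']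
    exact c.2
  refine Nat.card_congr ⟨fun u => (⟨tau hF u.1, hx u⟩, ⟨h u.1.1 (U ⟨tau hF u.1, hx u⟩).1, ?_⟩),
    fun p => ⟨⟨p.2.1 • (U p.1).1, hc1 p.1 p.2⟩, ?_⟩, ?_, ?_⟩
  · exact norm_one hF hq (hU ⟨tau hF u.1, hx u⟩)
  · have h1 : tau hF ⟨p.2.1 • (U p.1).1, hc1 p.1 p.2⟩ = p.1.1 := by
      rw [← hU p.1]
      exact (tau_smul hF hq (u := U p.1) (w := ⟨p.2.1 • (U p.1).1, hc1 p.1 p.2⟩) rfl).symm
    rw [h1]
    exact p.1.2.2
  · intro u
    apply Subtype.ext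
    apply Subtype.ext
    exact ((tau_eq_iff hF hq _ _).1 (hU ⟨tau hF u.1, hx u⟩)).symm
  · rintro ⟨x, c⟩
    have h1 : tau hF ⟨c.1 • (U x).1, hc1 x c⟩ = x.1 := by
      rw [← hU x]
      exact (tau_smul hF hq (u := U x) (w := ⟨c.1 • (U x).1, hc1 x c⟩) rfl).symm
    have h2 : ∀ hh, (⟨tau hF ⟨c.1 • (U x).1, hc1 x c⟩, hh⟩ : {x : SU 3 F q // (x ≠ 1 ∧ x * x = 1) ∧ R x}) = x :=
      fun hh => Subtype.ext h1
    refine Prod.ext (h2 _) ?_
    apply Subtype.ext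
    change h (c.1 • (U x).1) (U ⟨tau hF ⟨c.1 • (U x).1, _⟩, _⟩).1 = c.1
    rw [h2, hermForm_smul_left, (U x).2, mul_one]

/-! ### Counting unit vectors -/

theorem cnt_two_one (hF : Fintype.card F = q ^ 2) : cnt 2 F q (1 : F) = (q + 1) * (q * (q - 1)) := by
  have hq := two_le_q hF
  have h1 := (cnt_closed hF 2).2
  have h2 : ((q : ℤ)) ≠ 0 := by positivity
  have h3 : ((cnt 2 F q (1 : F) : ℕ) : ℤ) = ((q + 1) * (q * (q - 1)) : ℤ) := by
    apply mul_left_cancel₀ h2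
    rw [h1]; ring
  zify [show 1 ≤ q by omega]
  exact h3

theorem cnt_two_zero (hF : Fintype.card F = q ^ 2) : cnt 2 F q (0 : F) = 1 + (q + 1) * (q ^ 2 - 1) := by
  have hq := two_le_q hF
  have h1 := (cnt_closed hF 2).1
  have h2 : ((q : ℤ)) ≠ 0 := by positivity
  have h3 : ((cnt 2 F q (0 : F) : ℕ) : ℤ) - 1 = (((q : ℤ) + 1) * ((q : ℤ) ^ 2 - 1)) := by
    apply mul_left_cancel₀ h2
    rw [h1]; ring
  have h4 : 1 ≤ q ^ 2 := Nat.one_le_pow _ _ (by omega)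
  zify [h4]
  linear_combination h3

theorem cnt_three_one (hF : Fintype.card F = q ^ 2) : cnt 3 F q (1 : F) = (q + 1) * (q ^ 2 * (q ^ 2 - q + 1)) := by
  have hq := two_le_q hF
  have h1 := (cnt_closed hF 3).2
  have h2 : ((q : ℤ)) ≠ 0 := by positivity
  have h3 : ((cnt 3 F q (1 : F) : ℕ) : ℤ) = (((q : ℤ) + 1) * ((q : ℤ) ^ 2 * ((q : ℤ) ^ 2 - q + 1)) : ℤ) := by
    apply mul_left_cancel₀ h2
    rw [h1]; ring
  have h4 : q ≤ q ^ 2 := Nat.le_self_pow (by norm_num) q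
  zify [h4]
  exact h3

/-- moving the unit vector `u` to `e₀` -/
theorem exists_move (hF : Fintype.card F = q ^ 2) {u : Fin 3 → F} (hu : h u u = 1) :
    ∃ e : (Fin 3 → F) ≃ (Fin 3 → F), (∀ x, h (e x) (e x) = h x x) ∧ ∀ x, e x 0 = h x u := by
  have h1 : LinearIndependent F (fun _ : Fin 1 => u) := by
    apply IsON.linearIndependent hF
    intro i j
    rw [if_pos (Subsingleton.elim _ _)]
    exact hu
  have h00 : h (Pi.single 0 1) (Pi.single 0 1) = 1 := by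
    rw [hermForm_single_right' hF]; simp
  have h2 : LinearIndependent F (fun _ : Fin 1 => (Pi.single 0 1 : Fin 3 → F)) := by
    apply IsON.linearIndependent hF
    intro i j
    rw [if_pos (Subsingleton.elim _ _)]
    exact h00
  obtain ⟨g, hg⟩ := exists_GU_of_family hF h1 h2 (fun i j => by rw [hu, h00])
  have hg0 := hg 0
  refine ⟨⟨fun x => ((g : GL (Fin 3) F) : Matrix (Fin 3) (Fin 3) F) *ᵥ x,
    fun x => (((g : GL (Fin 3) F)⁻¹ : GL (Fin 3) F) : Matrix (Fin 3) (Fin 3) F) *ᵥ x,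
    fun x => gl_inv_mulVec _ x, fun x => gl_mulVec_inv _ x⟩, fun x => g.2 x x, fun x => ?_⟩
  change (((g : GL (Fin 3) F) : Matrix (Fin 3) (Fin 3) F) *ᵥ x) 0 = _
  rw [← hermForm_single_right' hF (((g : GL (Fin 3) F) : Matrix (Fin 3) (Fin 3) F) *ᵥ x) 0, ← hg0]
  exact g.2 x u

/-- the number of unit vectors with a prescribed norm of the product with `u` -/
theorem card_unit_norm (hF : Fintype.card F = q ^ 2) {u : Fin 3 → F} (hu : h u u = 1) (n : F) :
    Nat.card {w : {w : Fin 3 → F // h w w = 1} // (h w.1 u) ^ (q + 1) = n} =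
      Nat.card {c : F // c ^ (q + 1) = n} * cnt 2 F q (1 - n) := by
  obtain ⟨e, he, he0⟩ := exists_move hF hu
  unfold cnt
  rw [← Nat.card_prod]
  have hdecomp : ∀ w : Fin 3 → F, h w w = w 0 ^ (q + 1) + hermForm 2 F q (Fin.tail w) (Fin.tail w) := by
    intro w
    rw [← hermForm_self_cons, Fin.cons_self_tail]
  have e1 : {w : {w : Fin 3 → F // h w w = 1} // (h w.1 u) ^ (q + 1) = n} ≃
      {w : Fin 3 → F // h w w = 1 ∧ (w 0) ^ (q + 1) = n} :=
    (Equiv.subtypeSubtypeEquivSubtypeInter (fun w : Fin 3 → F => h w w = 1) (fun w => (h w u) ^ (q + 1) = n)).trans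
      (e.subtypeEquiv fun w => by rw [he, he0])
  rw [Nat.card_congr e1]
  refine Nat.card_congr ⟨fun w => (⟨w.1 0, w.2.2⟩, ⟨Fin.tail w.1, ?_⟩),
    fun p => ⟨Fin.cons p.1.1 p.2.1, ?_, ?_⟩, ?_, ?_⟩
  · have h1 := w.2.1
    rw [hdecomp, w.2.2] at h1
    linear_combination h1
  · rw [hermForm_self_cons, p.1.2, p.2.2]
    ring
  · rw [Fin.cons_zero]; exact p.1.2
  · intro w
    apply Subtype.ext
    simp [Fin.cons_self_tail]
  · rintro ⟨c, v⟩
    simp [Fin.tail_cons]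

end Cfsg.Agent.H39.SU3
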