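import Cfsg.Agent.H39.SUThree2

set_option autoImplicit false

/-!
# Conjugacy and centralizers of involutions of `SU(3, q)`, the commuting involution graph (helper39)
-/

namespace Cfsg.Agent.H39.SU3

open Cfsg Matrix Cfsg.Agent.Uni

variable {F : Type*} [Field F] [Fintype F] {q : ℕ}

local notation "h" => hermForm 3 F q

theorem act_inv_act (g : SU 3 F q) (v : Fin 3 → F) : act g (act g⁻¹ v) = v := by
  rw [← act_mul, mul_inv_cancel, act_one]

theorem conj_tau (hF : Fintype.card F = q ^ 2) (g : SU 3 F q) (u : {u : Fin 3 → F // h u u = 1}) :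
    g * tau hF u * g⁻¹ = tau hF ⟨act g u.1, by rw [act_form]; exact u.2⟩ := by
  apply act_ext
  intro v
  rw [act_mul, act_mul, act_tau, act_tau, act_sub, act_smul, act_inv_act]
  have h1 : h (act g⁻¹ v) u.1 = h v (act g u.1) := by
    rw [← act_form g (act g⁻¹ v) u.1, act_inv_act]
  rw [h1]

/-- quasi-reflection -/
def qrM (q : ℕ) (u : Fin 3 → F) (c : F) : Matrix (Fin 3) (Fin 3) F :=
  fun i j => (c - 1) * (u i * u j ^ q) + if i = j then 1 else 0

theorem qrM_mulVec (u v : Fin 3 → F) (c : F) : qrM q u c *ᵥ v = ((c - 1) * h v u) • u + v := by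
  funext i
  rw [QDW.herm3]
  fin_cases i <;> simp [qrM, Matrix.mulVec, dotProduct, Fin.sum_univ_three] <;> ring

theorem qrM_det {u : Fin 3 → F} (hu : h u u = 1) (c : F) : (qrM q u c).det = c := by
  rw [QDW.herm3] at hu
  rw [Matrix.det_fin_three]
  simp [qrM]
  linear_combination (c - 1) * hu

theorem qrM_pres (hF : Fintype.card F = q ^ 2) {u : Fin 3 → F} (hu : h u u = 1) {c : F} (hc : c ^ (q + 1) = 1) :
    Pres q (qrM q u c) := by
  intro v w
  rw [qrM_mulVec, qrM_mulVec]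
  rw [hermForm_add_left, hermForm_add_right hF, hermForm_add_right hF, hermForm_smul_left,
    hermForm_smul_left, hermForm_smul_right, hermForm_smul_right, hu, mul_pow, hermForm_symm hF,
    sub_pow_q hF, one_pow]
  have hc' : c * c ^ q = 1 := by rw [← pow_succ']; exact hc
  linear_combination (h v u * h u w) * hc'

theorem exists_conj (hF : Fintype.card F = q ^ 2) (hq : Odd q) (u w : {u : Fin 3 → F // h u u = 1}) :
    ∃ g : SU 3 F q, g * tau hF u * g⁻¹ = tau hF w := by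
  have h1 : ∀ u : {u : Fin 3 → F // h u u = 1}, LinearIndependent F (fun _ : Fin 1 => u.1) := by
    intro u
    apply IsON.linearIndependent hF
    intro i j
    rw [if_pos (Subsingleton.elim _ _)]
    exact u.2
  obtain ⟨g, hg⟩ := exists_GU_of_family hF (h1 u) (h1 w) (fun i j => by rw [u.2, w.2])
  have hg0 := hg 0
  set M : Matrix (Fin 3) (Fin 3) F := ((g : GL (Fin 3) F) : Matrix (Fin 3) (Fin 3) F) with hM
  have hMp : Pres q M := g.2
  have hdet := hMp.det_norm hF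
  have hd0 : M.det ≠ 0 := by
    intro h0
    rw [h0, zero_pow (by omega)] at hdet
    exact zero_ne_one hdet
  have hc : (M.det⁻¹) ^ (q + 1) = 1 := by rw [inv_pow, hdet, inv_one]
  have hP : Pres q (M * qrM q u.1 M.det⁻¹) := by
    intro v w
    rw [← Matrix.mulVec_mulVec, ← Matrix.mulVec_mulVec, hMp, qrM_pres hF u.2 hc]
  have hD : (M * qrM q u.1 M.det⁻¹).det = 1 := by
    rw [Matrix.det_mul, qrM_det u.2, mul_inv_cancel₀ hd0]
  refine ⟨⟨⟨M * qrM q u.1 M.det⁻¹, hD⟩, hP⟩, ?_⟩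
  rw [conj_tau hF]
  symm
  apply tau_smul hF hq (c := M.det⁻¹)
  change (M * qrM q u.1 M.det⁻¹) *ᵥ u.1 = M.det⁻¹ • w.1
  rw [← Matrix.mulVec_mulVec, qrM_mulVec, u.2, mul_one, ← hg0]
  have : (M.det⁻¹ - 1) • u.1 + u.1 = M.det⁻¹ • u.1 := by module
  rw [this, Matrix.mulVec_smul]

theorem card_invol (hF : Fintype.card F = q ^ 2) (hq : Odd q) :
    Nat.card {x : SU 3 F q // x ≠ 1 ∧ x * x = 1} = q ^ 2 * (q ^ 2 - q + 1) := by
  have h1 := card_fibre hF hq (fun _ => True)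
  have h2 : Nat.card {u : {u : Fin 3 → F // h u u = 1} // True} = cnt 3 F q (1 : F) :=
    Nat.card_congr (Equiv.subtypeUnivEquiv (fun _ => trivial))
  have h3 : Nat.card {x : SU 3 F q // (x ≠ 1 ∧ x * x = 1) ∧ True} = Nat.card {x : SU 3 F q // x ≠ 1 ∧ x * x = 1} :=
    Nat.card_congr (Equiv.subtypeEquivRight (fun x => by simp))
  rw [h2, h3, cnt_three_one hF] at h1
  exact (Nat.eq_of_mul_eq_mul_left (by omega) h1).symm

theorem card_centralizer {G : Type*} [Group G] [Finite G] (t : G) :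
    Nat.card {x : G // ∃ g : G, g * t * g⁻¹ = x} * Nat.card (Subgroup.centralizer ({t} : Set G)) = Nat.card G := by
  have h1 := Subgroup.nat_card_centralizer_nat_card_stabilizer t
  have h2 := Subgroup.card_mul_index (MulAction.stabilizer (ConjAct G) t)
  rw [MulAction.index_stabilizer] at h2
  rw [h1]
  have h3 : Nat.card {x : G // ∃ g : G, g * t * g⁻¹ = x} = (MulAction.orbit (ConjAct G) t).ncard := by
    rw [← Nat.card_coe_set_eq]
    apply Nat.card_congr
    apply Equiv.subtypeEquivRight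
    intro x
    constructor
    · rintro ⟨g, hg⟩
      exact ⟨ConjAct.toConjAct g, by rw [← hg]; rfl⟩
    · rintro ⟨g, hg⟩
      exact ⟨ConjAct.ofConjAct g, by rw [← hg]; rfl⟩
  rw [h3, mul_comm, h2]
  rfl

/-- common neighbours -/
theorem exists_common (hF : Fintype.card F = q ^ 2) (hq : Odd q) {u w : {u : Fin 3 → F // h u u = 1}}
    (hN : (h w.1 u.1) ^ (q + 1) ≠ 1) :
    ∃ z : {u : Fin 3 → F // h u u = 1}, h u.1 z.1 = 0 ∧ h z.1 w.1 = 0 := by
  -- `w' = w - h(w,u) u`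
  have h1 : h (w.1 - h w.1 u.1 • u.1) (w.1 - h w.1 u.1 • u.1) = 1 - (h w.1 u.1) ^ (q + 1) := by
    rw [hermForm_sub_left, hermForm_sub_right hF, hermForm_sub_right hF, hermForm_smul_left, hermForm_smul_left,
      hermForm_smul_right, hermForm_smul_right, w.2, u.2, hermForm_symm hF, pow_succ', hermForm_symm hF]
    ring
  obtain ⟨c, hc0, -, hc⟩ := exists_unit_of_ne_zero hF (⊤ : Submodule F (Fin 3 → F))
    (u := w.1 - h w.1 u.1 • u.1) trivial (by rw [h1]; intro h2; exact hN (sub_eq_zero.1 h2).symm)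
  have h3 : h u.1 (c • (w.1 - h w.1 u.1 • u.1)) = 0 := by
    rw [hermForm_smul_right, hermForm_sub_right hF, hermForm_smul_right, u.2, hermForm_symm hF]
    ring
  obtain ⟨z, hb⟩ := exists_basis2 hF u.1 (c • (w.1 - h w.1 u.1 • u.1)) u.2 hc h3
  have hzz : h z z = 1 := by simpa using hb 2 2
  have hzu : h z u.1 = 0 := by simpa using hb 2 0
  have hzw : h z (c • (w.1 - h w.1 u.1 • u.1)) = 0 := by simpa using hb 2 1
  refine ⟨⟨z, hzz⟩, (hermForm_eq_zero_comm hF).1 hzu, ?_⟩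
  rw [hermForm_smul_right, hermForm_sub_right hF, hermForm_smul_right, hzu, mul_zero, sub_zero] at hzw
  exact (mul_eq_zero.1 hzw).resolve_left (pow_ne_zero _ hc0)

theorem norm_ne_one (hF : Fintype.card F = q ^ 2) (hq : Odd q) {u w z : {u : Fin 3 → F // h u u = 1}}
    (huz : h u.1 z.1 = 0) (hzw : h z.1 w.1 = 0) (hne : tau hF u ≠ tau hF w) :
    (h w.1 u.1) ^ (q + 1) ≠ 1 := by
  intro hN
  obtain ⟨y, hb⟩ := exists_basis2 hF u.1 z.1 u.2 z.2 huz
  have hyy : h y y = 1 := by simpa using hb 2 2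
  have hyu : h y u.1 = 0 := by simpa using hb 2 0
  have hsum := hb.sum_eq hF w.1
  have hwz : h w.1 z.1 = 0 := (hermForm_eq_zero_comm hF).1 hzw
  rw [Fin.sum_univ_three] at hsum
  simp only [Matrix.cons_val_zero, Matrix.cons_val_one, Matrix.cons_val, hwz, zero_smul, add_zero] at hsum
  have h1 : h (h w.1 u.1 • u.1 + h w.1 y • y) (h w.1 u.1 • u.1 + h w.1 y • y) = 1 := by rw [hsum]; exact w.2
  have huy : h u.1 y = 0 := (hermForm_eq_zero_comm hF).1 hyu
  rw [hermForm_add_left, hermForm_add_right hF, hermForm_add_right hF, hermForm_smul_left, hermForm_smul_left,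
    hermForm_smul_left, hermForm_smul_left, hermForm_smul_right, hermForm_smul_right, hermForm_smul_right,
    hermForm_smul_right, u.2, hyy, hyu, huy] at h1
  have h2 : (h w.1 y) ^ (q + 1) = 0 := by
    rw [pow_succ'] at hN ⊢
    linear_combination h1 - hN
  have h3 : h w.1 y = 0 := pow_eq_zero_iff (by omega) |>.1 h2
  rw [h3, zero_smul, add_zero] at hsum
  exact hne ((tau_eq_iff hF hq u w).2 hsum.symm)

theorem not_commute_norm (hF : Fintype.card F = q ^ 2) (hq : Odd q) {u w : {u : Fin 3 → F // h u u = 1}}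
    (hc : ¬ Commute (tau hF u) (tau hF w)) :
    (∃ y : SU 3 F q, y ≠ 1 ∧ y * y = 1 ∧ Commute (tau hF u) y ∧ Commute y (tau hF w)) ↔
      (h w.1 u.1) ^ (q + 1) ≠ 1 := by
  constructor
  · rintro ⟨y, hy1, hy2, hyu, hyw⟩
    obtain ⟨z, rfl⟩ := exists_tau hF hq hy1 hy2
    have hne : tau hF u ≠ tau hF w := by
      intro h1
      exact hc (by rw [h1])
    rcases (commute_tau_iff hF hq _ _).1 hyu with h1 | h1
    · rcases (commute_tau_iff hF hq _ _).1 hyw with h2 | h2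
      · exact norm_ne_one hF hq h1 h2 hne
      · rw [h2] at hyu
        exact absurd hyu hc
    · rw [← h1] at hyw
      exact absurd hyw hc
  · intro hN
    obtain ⟨z, hz1, hz2⟩ := exists_common hF hq hN
    exact ⟨tau hF z, tau_ne_one hF hq z, tau_sq hF z, (commute_tau_iff hF hq _ _).2 (Or.inl hz1),
      (commute_tau_iff hF hq _ _).2 (Or.inl hz2)⟩

theorem three_le (hF : Fintype.card F = q ^ 2) (hq : Odd q) : 3 ≤ q := by
  have := two_le_q hF
  rcases hq with ⟨k, rfl⟩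
  omega

theorem card_commuting (hF : Fintype.card F = q ^ 2) (hq : Odd q) (u : {u : Fin 3 → F // h u u = 1}) :
    Nat.card {x : SU 3 F q // x ≠ 1 ∧ x * x = 1 ∧ x ≠ tau hF u ∧ Commute (tau hF u) x} = q * (q - 1) := by
  have h1 := card_fibre hF hq (fun x => x ≠ tau hF u ∧ Commute (tau hF u) x)
  have h2 : Nat.card {w : {u : Fin 3 → F // h u u = 1} // tau hF w ≠ tau hF u ∧ Commute (tau hF u) (tau hF w)} =
      Nat.card {w : {w : Fin 3 → F // h w w = 1} // (h w.1 u.1) ^ (q + 1) = 0} := by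
    apply Nat.card_congr
    apply Equiv.subtypeEquivRight
    intro w
    rw [pow_eq_zero_iff (by omega), commute_tau_iff hF hq]
    constructor
    · rintro ⟨h3, h4 | h4⟩
      · exact (hermForm_eq_zero_comm hF).1 h4
      · exact absurd h4.symm h3
    · intro h3
      refine ⟨?_, Or.inl ((hermForm_eq_zero_comm hF).1 h3)⟩
      intro h4
      have := norm_one hF hq h4.symm
      rw [h3, zero_pow (by omega)] at this
      exact zero_ne_one this
  have h3 : Nat.card {x : SU 3 F q // (x ≠ 1 ∧ x * x = 1) ∧ (x ≠ tau hF u ∧ Commute (tau hF u) x)} =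
      Nat.card {x : SU 3 F q // x ≠ 1 ∧ x * x = 1 ∧ x ≠ tau hF u ∧ Commute (tau hF u) x} :=
    Nat.card_congr (Equiv.subtypeEquivRight (fun x => by rw [and_assoc]))
  have h4 : Nat.card {c : F // c ^ (q + 1) = 0} = 1 := by
    rw [Nat.card_eq_one_iff_exists]
    refine ⟨⟨0, zero_pow (by omega)⟩, fun c => ?_⟩
    apply Subtype.ext
    exact (pow_eq_zero_iff (by omega)).1 c.2
  rw [h2, h3, card_unit_norm hF u.2, h4, one_mul, sub_zero, cnt_two_one hF] at h1
  exact (Nat.eq_of_mul_eq_mul_left (by omega) h1).symm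

theorem card_far (hF : Fintype.card F = q ^ 2) (hq : Odd q) (u : {u : Fin 3 → F // h u u = 1}) :
    Nat.card {x : SU 3 F q // x ≠ 1 ∧ x * x = 1 ∧ ¬ Commute (tau hF u) x ∧
        ∀ y : ↥(Cfsg.SU 3 F q), y ≠ 1 → y * y = 1 → ¬ (Commute (tau hF u) y ∧ Commute y x)} =
      (q + 1) * (q ^ 2 - 1) := by
  have h1 := card_fibre hF hq (fun x => x = tau hF u ∨ (¬ Commute (tau hF u) x ∧
        ∀ y : ↥(Cfsg.SU 3 F q), y ≠ 1 → y * y = 1 → ¬ (Commute (tau hF u) y ∧ Commute y x)))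
  have h2 : Nat.card {w : {u : Fin 3 → F // h u u = 1} // tau hF w = tau hF u ∨ (¬ Commute (tau hF u) (tau hF w) ∧
        ∀ y : ↥(Cfsg.SU 3 F q), y ≠ 1 → y * y = 1 → ¬ (Commute (tau hF u) y ∧ Commute y (tau hF w)))} =
      Nat.card {w : {w : Fin 3 → F // h w w = 1} // (h w.1 u.1) ^ (q + 1) = 1} := by
    apply Nat.card_congr
    apply Equiv.subtypeEquivRight
    intro w
    constructor
    · rintro (h3 | ⟨h3, h4⟩)
      · exact norm_one hF hq h3.symm
      · by_contra h5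
        obtain ⟨y, hy1, hy2, hy3, hy4⟩ := (not_commute_norm hF hq h3).2 h5
        exact h4 y hy1 hy2 ⟨hy3, hy4⟩
    · intro h3
      by_cases h4 : Commute (tau hF u) (tau hF w)
      · rcases (commute_tau_iff hF hq _ _).1 h4 with h5 | h5
        · rw [(hermForm_eq_zero_comm hF).1 h5, zero_pow (by omega)] at h3
          exact absurd h3 zero_ne_one
        · exact Or.inl h5.symm
      · right
        refine ⟨h4, fun y hy1 hy2 hy3 => ?_⟩
        exact (not_commute_norm hF hq h4).1 ⟨y, hy1, hy2, hy3.1, hy3.2⟩ h3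
  have h3 : Nat.card {x : SU 3 F q // (x ≠ 1 ∧ x * x = 1) ∧ (x = tau hF u ∨ (¬ Commute (tau hF u) x ∧
        ∀ y : ↥(Cfsg.SU 3 F q), y ≠ 1 → y * y = 1 → ¬ (Commute (tau hF u) y ∧ Commute y x)))} =
      1 + Nat.card {x : SU 3 F q // x ≠ 1 ∧ x * x = 1 ∧ ¬ Commute (tau hF u) x ∧
        ∀ y : ↥(Cfsg.SU 3 F q), y ≠ 1 → y * y = 1 → ¬ (Commute (tau hF u) y ∧ Commute y x)} := by
    rw [← Set.ncard_singleton (tau hF u)]
    change Set.ncard {x : SU 3 F q | (x ≠ 1 ∧ x * x = 1) ∧ (x = tau hF u ∨ (¬ Commute (tau hF u) x ∧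
        ∀ y : ↥(Cfsg.SU 3 F q), y ≠ 1 → y * y = 1 → ¬ (Commute (tau hF u) y ∧ Commute y x)))} = _ +
        Set.ncard {x : SU 3 F q | x ≠ 1 ∧ x * x = 1 ∧ ¬ Commute (tau hF u) x ∧
        ∀ y : ↥(Cfsg.SU 3 F q), y ≠ 1 → y * y = 1 → ¬ (Commute (tau hF u) y ∧ Commute y x)}
    rw [← Set.ncard_union_eq ?_ (Set.toFinite _) (Set.toFinite _)]
    · congr 1
      ext x
      simp only [Set.mem_setOf_eq, Set.mem_union, Set.mem_singleton_iff]
      constructor
      · rintro ⟨⟨h4, h5⟩, h6 | h6⟩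
        · exact Or.inl h6
        · exact Or.inr ⟨h4, h5, h6⟩
      · rintro (h4 | ⟨h4, h5, h6⟩)
        · rw [h4]
          exact ⟨⟨tau_ne_one hF hq u, tau_sq hF u⟩, Or.inl rfl⟩
        · exact ⟨⟨h4, h5⟩, Or.inr h6⟩
    · rw [Set.disjoint_singleton_left]
      intro h4
      exact h4.2.2.1 (Commute.refl _)
  have h4 : Nat.card {c : F // c ^ (q + 1) = 1} = q + 1 := card_norm_eq hF (one_pow q) one_ne_zero
  rw [h2, h3, card_unit_norm hF u.2, h4, sub_self, cnt_two_zero hF] at h1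
  have := Nat.eq_of_mul_eq_mul_left (by omega) h1
  omega

theorem card_two_steps (hF : Fintype.card F = q ^ 2) (hq : Odd q) (u : {u : Fin 3 → F // h u u = 1}) :
    Nat.card {x : SU 3 F q // x ≠ 1 ∧ x * x = 1 ∧ ¬ Commute (tau hF u) x ∧
        ∃ y : ↥(Cfsg.SU 3 F q), y ≠ 1 ∧ y * y = 1 ∧ Commute (tau hF u) y ∧ Commute y x} =
      q * (q - 2) * (q ^ 2 - 1) := by
  have hA := card_commuting hF hq u
  have hC := card_far hF hq u
  have hT := card_invol hF hq (F := F)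
  have hq3 := three_le hF hq
  set A : Set (SU 3 F q) := {x : SU 3 F q | x ≠ 1 ∧ x * x = 1 ∧ x ≠ tau hF u ∧ Commute (tau hF u) x} with hAd
  set C : Set (SU 3 F q) := {x : SU 3 F q | x ≠ 1 ∧ x * x = 1 ∧ ¬ Commute (tau hF u) x ∧
        ∀ y : ↥(Cfsg.SU 3 F q), y ≠ 1 → y * y = 1 → ¬ (Commute (tau hF u) y ∧ Commute y x)} with hCd
  set B : Set (SU 3 F q) := {x : SU 3 F q | x ≠ 1 ∧ x * x = 1 ∧ ¬ Commute (tau hF u) x ∧
        ∃ y : ↥(Cfsg.SU 3 F q), y ≠ 1 ∧ y * y = 1 ∧ Commute (tau hF u) y ∧ Commute y x} with hBd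
  set T : Set (SU 3 F q) := {x : SU 3 F q | x ≠ 1 ∧ x * x = 1} with hTd
  change A.ncard = _ at hA
  change C.ncard = _ at hC
  change T.ncard = _ at hT
  change B.ncard = _
  have hU : T = {tau hF u} ∪ (A ∪ (B ∪ C)) := by
    ext x
    simp only [hAd, hBd, hCd, hTd, Set.mem_setOf_eq, Set.mem_union, Set.mem_singleton_iff]
    constructor
    · rintro ⟨h1, h2⟩
      by_cases h3 : x = tau hF u
      · exact Or.inl h3
      · right
        by_cases h4 : Commute (tau hF u) x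
        · exact Or.inl ⟨h1, h2, h3, h4⟩
        · right
          by_cases h5 : ∃ y : ↥(Cfsg.SU 3 F q), y ≠ 1 ∧ y * y = 1 ∧ Commute (tau hF u) y ∧ Commute y x
          · exact Or.inl ⟨h1, h2, h4, h5⟩
          · right
            refine ⟨h1, h2, h4, fun y hy1 hy2 hy3 => h5 ⟨y, hy1, hy2, hy3.1, hy3.2⟩⟩
    · rintro (h1 | ⟨h1, h2, -⟩ | ⟨h1, h2, -⟩ | ⟨h1, h2, -⟩)
      · rw [h1]; exact ⟨tau_ne_one hF hq u, tau_sq hF u⟩
      · exact ⟨h1, h2⟩
      · exact ⟨h1, h2⟩
      · exact ⟨h1, h2⟩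
  have hd1 : Disjoint B C := by
    rw [Set.disjoint_left]
    rintro x ⟨-, -, -, y, hy1, hy2, hy3, hy4⟩ ⟨-, -, -, h5⟩
    exact h5 y hy1 hy2 ⟨hy3, hy4⟩
  have hd2 : Disjoint A (B ∪ C) := by
    rw [Set.disjoint_left]
    rintro x ⟨-, -, -, h1⟩ (⟨-, -, h2, -⟩ | ⟨-, -, h2, -⟩)
    · exact h2 h1
    · exact h2 h1
  have hd3 : Disjoint {tau hF u} (A ∪ (B ∪ C)) := by
    rw [Set.disjoint_singleton_left]
    rintro (⟨-, -, h1, -⟩ | ⟨-, -, h2, -⟩ | ⟨-, -, h2, -⟩)
    · exact h1 rfl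
    · exact h2 (Commute.refl _)
    · exact h2 (Commute.refl _)
  have h1 := congrArg Set.ncard hU
  rw [Set.ncard_union_eq hd3 (Set.toFinite _) (Set.toFinite _), Set.ncard_union_eq hd2 (Set.toFinite _) (Set.toFinite _),
    Set.ncard_union_eq hd1 (Set.toFinite _) (Set.toFinite _), Set.ncard_singleton, hA, hC, hT] at h1
  have e1 : q ≤ q ^ 2 := Nat.le_self_pow (by norm_num) q
  have e2 : 1 ≤ q ^ 2 := by omega
  zify [e1, e2, show 1 ≤ q by omega, show 2 ≤ q by omega] at h1 ⊢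
  linear_combination -h1

theorem dist_le_three (hF : Fintype.card F = q ^ 2) (hq : Odd q) (u w : {u : Fin 3 → F // h u u = 1}) :
    ∃ y z : SU 3 F q, y ≠ 1 ∧ y * y = 1 ∧ z ≠ 1 ∧ z * z = 1 ∧
        Commute (tau hF u) y ∧ Commute y z ∧ Commute z (tau hF w) := by
  have key : ∀ v w : {u : Fin 3 → F // h u u = 1}, (h w.1 v.1) ^ (q + 1) ≠ 1 →
      ∃ z : SU 3 F q, z ≠ 1 ∧ z * z = 1 ∧ Commute (tau hF v) z ∧ Commute z (tau hF w) := by
    intro v w hN
    obtain ⟨z, hz1, hz2⟩ := exists_common hF hq hN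
    exact ⟨tau hF z, tau_ne_one hF hq z, tau_sq hF z, (commute_tau_iff hF hq _ _).2 (Or.inl hz1),
      (commute_tau_iff hF hq _ _).2 (Or.inl hz2)⟩
  by_cases hN : (h w.1 u.1) ^ (q + 1) = 1
  · obtain ⟨v1, v2, hb⟩ := exists_basis hF u.1 u.2
    have h11 : h v1 v1 = 1 := by simpa using hb 1 1
    have h22 : h v2 v2 = 1 := by simpa using hb 2 2
    have h1u : h u.1 v1 = 0 := by simpa using hb 0 1
    have h2u : h u.1 v2 = 0 := by simpa using hb 0 2
    have h1u' : h v1 u.1 = 0 := by simpa using hb 1 0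
    have h2u' : h v2 u.1 = 0 := by simpa using hb 2 0
    have h12 : h v1 v2 = 0 := by simpa using hb 1 2
    have h21 : h v2 v1 = 0 := by simpa using hb 2 1
    have hsum := hb.sum_eq hF w.1
    rw [Fin.sum_univ_three] at hsum
    simp only [Matrix.cons_val_zero, Matrix.cons_val_one, Matrix.cons_val] at hsum
    have h3 : (h w.1 u.1) ^ (q + 1) + (h w.1 v1) ^ (q + 1) + (h w.1 v2) ^ (q + 1) = 1 := by
      have h4 : h (h w.1 u.1 • u.1 + h w.1 v1 • v1 + h w.1 v2 • v2)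
        (h w.1 u.1 • u.1 + h w.1 v1 • v1 + h w.1 v2 • v2) = 1 := by rw [hsum]; exact w.2
      simp only [hermForm_add_left, hermForm_add_right hF, hermForm_smul_left, hermForm_smul_right,
        u.2, h11, h22, h1u, h2u, h1u', h2u', h12, h21] at h4
      rw [pow_succ', pow_succ', pow_succ']
      linear_combination h4
    by_cases h5 : (h w.1 v1) ^ (q + 1) = 1
    · have h6 : (h w.1 v2) ^ (q + 1) ≠ 1 := by
        intro h7
        apply two_ne hF hq
        linear_combination h3 - hN - h5 - h7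
      obtain ⟨z, hz1, hz2, hz3, hz4⟩ := key ⟨v2, h22⟩ w h6
      exact ⟨tau hF ⟨v2, h22⟩, z, tau_ne_one hF hq _, tau_sq hF _, hz1, hz2,
        (commute_tau_iff hF hq _ _).2 (Or.inl h2u), hz3, hz4⟩
    · obtain ⟨z, hz1, hz2, hz3, hz4⟩ := key ⟨v1, h11⟩ w h5
      exact ⟨tau hF ⟨v1, h11⟩, z, tau_ne_one hF hq _, tau_sq hF _, hz1, hz2,
        (commute_tau_iff hF hq _ _).2 (Or.inl h1u), hz3, hz4⟩
  · obtain ⟨z, hz1, hz2, hz3, hz4⟩ := key u w hN
    exact ⟨z, z, hz1, hz2, hz1, hz2, hz3, Commute.refl _, hz4⟩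

theorem card_third (hF : Fintype.card F = q ^ 2) (hq : Odd q) {u w : {u : Fin 3 → F // h u u = 1}}
    (hne : tau hF w ≠ tau hF u) (hc : Commute (tau hF u) (tau hF w)) :
    Nat.card {y : SU 3 F q // y ≠ 1 ∧ y * y = 1 ∧ y ≠ tau hF u ∧ y ≠ tau hF w ∧ Commute (tau hF u) y ∧
      Commute (tau hF w) y} = 1 := by
  have h0 : h u.1 w.1 = 0 := by
    rcases (commute_tau_iff hF hq _ _).1 hc with h1 | h1
    · exact h1
    · exact absurd h1.symm hne
  obtain ⟨z, hb⟩ := exists_basis2 hF u.1 w.1 u.2 w.2 h0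
  have hzz : h z z = 1 := by simpa using hb 2 2
  have hzu : h z u.1 = 0 := by simpa using hb 2 0
  have hzw : h z w.1 = 0 := by simpa using hb 2 1
  have huz : h u.1 z = 0 := (hermForm_eq_zero_comm hF).1 hzu
  have hwz : h w.1 z = 0 := (hermForm_eq_zero_comm hF).1 hzw
  have hneq : ∀ v : {u : Fin 3 → F // h u u = 1}, h v.1 z = 0 → tau hF ⟨z, hzz⟩ ≠ tau hF v := by
    intro v hv h1
    have := norm_one hF hq h1
    change (h v.1 z) ^ (q + 1) = 1 at this
    rw [hv, zero_pow (by omega)] at this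
    exact zero_ne_one this
  rw [Nat.card_eq_one_iff_exists]
  refine ⟨⟨tau hF ⟨z, hzz⟩, tau_ne_one hF hq _, tau_sq hF _, hneq u huz, hneq w hwz,
    (commute_tau_iff hF hq _ _).2 (Or.inl huz), (commute_tau_iff hF hq _ _).2 (Or.inl hwz)⟩, ?_⟩
  rintro ⟨y, hy1, hy2, hy3, hy4, hy5, hy6⟩
  apply Subtype.ext
  change y = tau hF ⟨z, hzz⟩
  obtain ⟨v, rfl⟩ := exists_tau hF hq hy1 hy2
  have huv : h v.1 u.1 = 0 := by
    rcases (commute_tau_iff hF hq _ _).1 hy5 with h1 | h1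
    · exact (hermForm_eq_zero_comm hF).1 h1
    · exact absurd h1.symm hy3
  have hwv : h v.1 w.1 = 0 := by
    rcases (commute_tau_iff hF hq _ _).1 hy6 with h1 | h1
    · exact (hermForm_eq_zero_comm hF).1 h1
    · exact absurd h1.symm hy4
  have hsum := hb.sum_eq hF v.1
  rw [Fin.sum_univ_three] at hsum
  simp only [Matrix.cons_val_zero, Matrix.cons_val_one, Matrix.cons_val, huv, hwv, zero_smul, zero_add] at hsum
  exact (tau_smul hF hq (u := ⟨z, hzz⟩) (w := v) (c := h v.1 z) hsum.symm).symm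

end Cfsg.Agent.H39.SU3
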